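import Mathlib

/-!
# Explicit facts on the alternating group of degree 5 and 6
-/

set_option autoImplicit false

namespace Cfsg.Agent.Lib.Spec5

/-- Short name. -/
abbrev A5 := alternatingGroup (Fin 5)

/-- Short name. -/
abbrev A6 := alternatingGroup (Fin 6)

def v1 : A5 := ⟨Equiv.swap 0 1 * Equiv.swap 2 3, by rw [Equiv.Perm.mem_alternatingGroup]; decide +kernel⟩
def v2 : A5 := ⟨Equiv.swap 0 2 * Equiv.swap 1 3, by rw [Equiv.Perm.mem_alternatingGroup]; decide +kernel⟩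
def v3 : A5 := ⟨Equiv.swap 0 3 * Equiv.swap 1 2, by rw [Equiv.Perm.mem_alternatingGroup]; decide +kernel⟩
/-- The cycle (0 2 1). -/
def xb : A5 := ⟨Equiv.swap 0 2 * Equiv.swap 2 1, by rw [Equiv.Perm.mem_alternatingGroup]; decide +kernel⟩
/-- An element of order 3 inverted by `v1`. -/
def rb : A5 := ⟨Equiv.swap 0 1 * Equiv.swap 1 4, by rw [Equiv.Perm.mem_alternatingGroup]; decide +kernel⟩
/-- An element of order 5 inverted by `v1`. -/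
def yb : A5 := ⟨Equiv.swap 4 0 * Equiv.swap 0 2 * Equiv.swap 2 3 * Equiv.swap 3 1, by rw [Equiv.Perm.mem_alternatingGroup]; decide +kernel⟩

theorem a5_basic : v1 * v1 = 1 ∧ v2 * v2 = 1 ∧ v3 * v3 = 1 ∧ v1 ≠ 1 ∧ v2 ≠ 1 ∧ v3 ≠ 1 ∧ v1 ≠ v2 ∧ v1 * v2 = v3 ∧ v2 * v1 = v3 ∧
    xb ^ 3 = 1 ∧ xb ≠ 1 ∧ xb * v1 * xb⁻¹ = v2 ∧ xb * v2 * xb⁻¹ = v3 ∧ xb * v3 * xb⁻¹ = v1 := by
  decide +kernel

theorem a5_real : rb ^ 3 = 1 ∧ rb ≠ 1 ∧ v1 * rb * v1⁻¹ = rb⁻¹ ∧ yb ^ 5 = 1 ∧ yb ≠ 1 ∧ v1 * yb * v1⁻¹ = yb⁻¹ := by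
  decide +kernel

theorem a5_invol : ∀ σ : A5, σ * σ = 1 → σ ≠ 1 → ∃ r : A5, r ≠ 1 ∧ r ^ 3 = 1 ∧ σ * r * σ⁻¹ = r⁻¹ := by
  decide +kernel

theorem a5_count : (Finset.univ.filter (fun σ : A5 => σ * σ = 1 ∧ σ ≠ 1)).card = 15 := by
  decide +kernel

/-- Membership in the four-group. -/
def inVb (σ : A5) : Prop := σ = 1 ∨ σ = v1 ∨ σ = v2 ∨ σ = v3

instance : DecidablePred inVb := fun _ => by unfold inVb; infer_instance

theorem a5_norm : ∀ σ : A5, inVb (σ * v1 * σ⁻¹) → inVb (σ * v2 * σ⁻¹) → inVb (σ * σ) → inVb σ := by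
  decide +kernel

end Cfsg.Agent.Lib.Spec5
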