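import Mathlib
import Cfsg.Agent.Lib.Spec5.A5Facts

/-!
# Explicit facts on the alternating group of degree 6
-/

set_option autoImplicit false

namespace Cfsg.Agent.Lib.Spec5

def a6 : A6 := ⟨Equiv.swap 0 1 * Equiv.swap 2 3, by rw [Equiv.Perm.mem_alternatingGroup]; decide +kernel⟩
def b6 : A6 := ⟨Equiv.swap 0 2 * Equiv.swap 1 3, by rw [Equiv.Perm.mem_alternatingGroup]; decide +kernel⟩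
def e6 : A6 := ⟨Equiv.swap 0 1 * Equiv.swap 4 5, by rw [Equiv.Perm.mem_alternatingGroup]; decide +kernel⟩
/-- The cycle (0 2 1). -/
def x6 : A6 := ⟨Equiv.swap 0 2 * Equiv.swap 2 1, by rw [Equiv.Perm.mem_alternatingGroup]; decide +kernel⟩

def L1 : Finset A6 := {1, a6, b6, a6 * b6}
def L2 : Finset A6 := {1, a6, e6, a6 * e6}
def LD : Finset A6 := L1.biUnion (fun u => L2.image (fun w => u * w))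

set_option synthInstance.maxHeartbeats 0 in
set_option synthInstance.maxSize 4000 in
theorem a6_closure : (1 : A6) ∈ L1 ∧ (1 : A6) ∈ L2 ∧ (1 : A6) ∈ LD ∧
    (∀ u ∈ L1, ∀ w ∈ L1, u * w ∈ L1) ∧ (∀ u ∈ L2, ∀ w ∈ L2, u * w ∈ L2) ∧ (∀ u ∈ LD, ∀ w ∈ LD, u * w ∈ LD) ∧
    (∀ u ∈ L1, u⁻¹ ∈ L1) ∧ (∀ u ∈ L2, u⁻¹ ∈ L2) ∧ (∀ u ∈ LD, u⁻¹ ∈ LD) := by
  decide +kernel

set_option synthInstance.maxHeartbeats 0 in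
set_option synthInstance.maxSize 4000 in
theorem a6_ea : (∀ u ∈ L1, ∀ w ∈ L1, u * w = w * u) ∧ (∀ u ∈ L2, ∀ w ∈ L2, u * w = w * u) ∧
    (∀ u ∈ L1, u * u = 1) ∧ (∀ u ∈ L2, u * u = 1) := by
  decide +kernel

set_option synthInstance.maxHeartbeats 0 in
set_option synthInstance.maxSize 4000 in
theorem a6_pair : (∀ u ∈ L1, u ∈ LD) ∧ (∀ u ∈ L2, u ∈ LD) ∧ (∀ s ∈ LD, ∃ u ∈ L1, ∃ w ∈ L2, s = u * w) ∧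
    (∀ u ∈ L1, ∀ w ∈ L2, u * w = w * u → u ∈ L2 ∨ w ∈ L1) ∧
    (∀ u ∈ L1, ∀ w ∈ L2, u * w * u⁻¹ * w⁻¹ ∈ L1 ∧ u * w * u⁻¹ * w⁻¹ ∈ L2) := by
  decide +kernel

theorem a6_cards : L1.card = 4 ∧ L2.card = 4 ∧ LD.card = 8 := by
  decide +kernel

set_option synthInstance.maxHeartbeats 0 in
set_option synthInstance.maxSize 4000 in
theorem a6_elts : a6 ∈ L1 ∧ a6 ∈ L2 ∧ b6 ∈ L1 ∧ b6 ∉ L2 ∧ e6 ∈ L2 ∧ e6 ∉ L1 ∧ a6 ≠ 1 ∧ b6 ≠ 1 ∧ a6 ≠ b6 ∧ e6 ≠ 1 ∧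
    e6 * e6 = 1 ∧ x6 * x6 * x6 = 1 ∧ x6 ≠ 1 ∧ e6 * x6 * e6⁻¹ = x6⁻¹ ∧ (∀ u ∈ L1, x6 * u * x6⁻¹ ∈ L1) ∧
    (∀ u ∈ L1, x6⁻¹ * u * x6 ∈ L1) ∧ (∀ u ∈ L1, e6 * u * e6⁻¹ ∈ L1) ∧ e6 * a6 * e6⁻¹ = a6 ∧
    e6 * b6 * e6⁻¹ = a6 * b6 := by
  decide +kernel

theorem a6_cen : ∀ σ : A6, σ * a6 = a6 * σ → σ * b6 = b6 * σ → σ ∈ L1 := by
  decide +kernel

end Cfsg.Agent.Lib.Spec5
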