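import Mathlib

/-!
# Finite groups with all element orders at most five: basic facts
-/

set_option autoImplicit false

namespace Cfsg.Agent.Lib.Spec5

open Subgroup

universe u

/-- All element orders are at most five. -/
def Sig (G : Type*) [Group G] : Prop := ∀ g : G, orderOf g ≤ 5

/-- Involutions. -/
structure Inv2 {G : Type*} [Group G] (t : G) : Prop where
  sq : t * t = 1
  ne : t ≠ 1

variable {G : Type u} [Group G]

theorem Inv2.inv {t : G} (h : Inv2 t) : t⁻¹ = t := inv_eq_of_mul_eq_one_left h.sq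

theorem Inv2.orderOf {t : G} (h : Inv2 t) : orderOf t = 2 := by
  haveI : Fact (Nat.Prime 2) := ⟨Nat.prime_two⟩
  exact orderOf_eq_prime (by rw [pow_two]; exact h.sq) h.ne

theorem inv2_of_orderOf {t : G} (h : orderOf t = 2) : Inv2 t := by
  refine ⟨?_, ?_⟩
  · rw [← pow_two, ← h, pow_orderOf_eq_one]
  · rintro rfl
    simp at h

theorem Inv2.conj {t : G} (h : Inv2 t) (g : G) : Inv2 (g * t * g⁻¹) := by
  refine ⟨?_, ?_⟩
  · calc g * t * g⁻¹ * (g * t * g⁻¹) = g * (t * t) * g⁻¹ := by group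
      _ = 1 := by rw [h.sq]; group
  · intro h1
    apply h.ne
    have : t = g⁻¹ * (g * t * g⁻¹) * g := by group
    rw [this, h1]; group

theorem Sig.subgroup (h : Sig G) (H : Subgroup G) : Sig H := by
  intro g
  have := h (g : G)
  rwa [Subgroup.orderOf_coe] at this

theorem Sig.of_surj [Finite G] {H : Type*} [Group H] (h : Sig G) (f : G →* H)
    (hf : Function.Surjective f) : Sig H := by
  intro y
  obtain ⟨g, rfl⟩ := hf y
  have h1 := orderOf_map_dvd f g
  exact (Nat.le_of_dvd (orderOf_pos g) h1).trans (h g)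

theorem Sig.of_inj {H : Type*} [Group H] (h : Sig G) (f : H →* G)
    (hf : Function.Injective f) : Sig H := by
  intro y
  have := h (f y)
  rwa [orderOf_injective f hf] at this

theorem Sig.quot [Finite G] (h : Sig G) (N : Subgroup G) [N.Normal] : Sig (G ⧸ N) :=
  h.of_surj (QuotientGroup.mk' N) (QuotientGroup.mk'_surjective N)

theorem Sig.cases [Finite G] (h : Sig G) (g : G) :
    orderOf g = 1 ∨ orderOf g = 2 ∨ orderOf g = 3 ∨ orderOf g = 4 ∨ orderOf g = 5 := by
  have h1 := h g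
  have h2 := orderOf_pos g
  omega

/-- Commuting nonidentity elements cannot have coprime orders. -/
theorem Sig.no_comm [Finite G] (h : Sig G) {a b : G} (hab : a * b = b * a)
    (hc : Nat.Coprime (orderOf a) (orderOf b)) (ha : a ≠ 1) (hb : b ≠ 1) : False := by
  have h1 : orderOf (a * b) = orderOf a * orderOf b :=
    Commute.orderOf_mul_eq_mul_orderOf_of_coprime hab hc
  have h2 := h (a * b)
  rw [h1] at h2
  have ha1 : orderOf a ≠ 1 := by simpa using ha
  have hb1 : orderOf b ≠ 1 := by simpa using hb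
  rcases h.cases a with h3 | h3 | h3 | h3 | h3 <;> rcases h.cases b with h4 | h4 | h4 | h4 | h4 <;>
    simp_all (config := { decide := true }) <;> omega

/-- Commuting elements of coprime prime orders do not exist. -/
theorem Sig.no_comm_prime [Finite G] (h : Sig G) {a b : G} {p q : ℕ} (hp : p.Prime) (hq : q.Prime)
    (hne : p ≠ q) (ha : orderOf a = p) (hb : orderOf b = q) (hab : a * b = b * a) : False := by
  refine h.no_comm hab ?_ ?_ ?_
  · rw [ha, hb]; exact (Nat.coprime_primes hp hq).2 hne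
  · rintro rfl; simp at ha; exact hp.one_lt.ne ha
  · rintro rfl; simp at hb; exact hq.one_lt.ne hb

theorem Sig.pgroup_centralizer [Finite G] (h : Sig G) {p : ℕ} [hp : Fact p.Prime] {x : G}
    (hx : orderOf x = p) : IsPGroup p (centralizer ({x} : Set G)) := by
  intro g
  have hgc : (g : G) * x = x * g := by
    have := g.2
    rw [Subgroup.mem_centralizer_singleton_iff] at this
    exact this
  have hn : orderOf (g : G) ≠ 0 := (orderOf_pos _).ne'
  have key : ∀ {d : ℕ}, d.Prime → d ∣ orderOf (g : G) → d = p := by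
    intro d hd hdn
    by_contra hne
    have hy : orderOf ((g : G) ^ (orderOf (g : G) / d)) = d := orderOf_pow_orderOf_div hn hdn
    have hc : ((g : G) ^ (orderOf (g : G) / d)) * x = x * ((g : G) ^ (orderOf (g : G) / d)) :=
      ((show Commute (g : G) x from hgc).pow_left _)
    exact h.no_comm_prime hd hp.out hne hy hx hc
  have h2 := Nat.eq_prime_pow_of_unique_prime_dvd hn key
  refine ⟨(orderOf (g : G)).primeFactorsList.length, ?_⟩
  ext
  simp only [Subgroup.coe_pow, OneMemClass.coe_one]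
  rw [← h2]
  exact pow_orderOf_eq_one _

/-- A 2-power order element has fourth power one. -/
theorem Sig.pow_four [Finite G] (h : Sig G) {f : G} {k : ℕ} (hf : f ^ 2 ^ k = 1) : f ^ 4 = 1 := by
  have h1 : orderOf f ∣ 2 ^ k := orderOf_dvd_of_pow_eq_one hf
  obtain ⟨j, _, hj⟩ := (Nat.dvd_prime_pow Nat.prime_two).1 h1
  have h2 := h f
  rw [hj] at h2
  have h3 : j ≤ 2 := by
    by_contra hc
    have : 2 ^ 3 ≤ 2 ^ j := Nat.pow_le_pow_right (by norm_num) (by omega)
    omega
  have h4 : orderOf f ∣ 4 := by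
    rw [hj]
    exact (Nat.pow_dvd_pow 2 h3)
  exact orderOf_dvd_iff_pow_eq_one.1 h4

theorem Sig.pow_four_of_pgroup [Finite G] (h : Sig G) {D : Subgroup G} (hD : IsPGroup 2 D) {f : G}
    (hf : f ∈ D) : f ^ 4 = 1 := by
  obtain ⟨k, hk⟩ := hD ⟨f, hf⟩
  have := congrArg Subtype.val hk
  simp only [Subgroup.coe_pow, Subgroup.coe_one, OneMemClass.coe_one] at this
  exact h.pow_four this

/-- If the square of `f` lies in a 2-group then `f ^ 4 = 1`. -/
theorem Sig.pow_four_of_sq_mem [Finite G] (h : Sig G) {D : Subgroup G} (hD : IsPGroup 2 D) {f : G}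
    (hf : f * f ∈ D) : f ^ 4 = 1 := by
  obtain ⟨k, hk⟩ := hD ⟨_, hf⟩
  have := congrArg Subtype.val hk
  simp only [Subgroup.coe_pow, Subgroup.coe_one, OneMemClass.coe_one] at this
  apply h.pow_four (k := k + 1)
  rw [pow_succ', pow_mul, pow_two]
  exact this

/-- Orders of `p`-elements for `p` three or five. -/
theorem Sig.order_of_ppow [Finite G] (h : Sig G) {p : ℕ} (hp : p = 3 ∨ p = 5) {y : G} {k : ℕ}
    (hy : y ^ p ^ k = 1) : y = 1 ∨ orderOf y = p := by
  have hpp : p.Prime := by rcases hp with rfl | rfl <;> norm_num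
  have h1 : orderOf y ∣ p ^ k := orderOf_dvd_of_pow_eq_one hy
  obtain ⟨j, _, hj⟩ := (Nat.dvd_prime_pow hpp).1 h1
  have h2 := h y
  rw [hj] at h2
  rcases j with _ | _ | j
  · left; simpa using hj
  · right; simpa using hj
  · exfalso
    have h3 : p ^ 2 ≤ p ^ (j + 1 + 1) := Nat.pow_le_pow_right hpp.pos (by omega)
    rcases hp with rfl | rfl <;> omega

theorem Sig.prime_dvd_card [Finite G] (h : Sig G) {q : ℕ} (hq : q.Prime) (hd : q ∣ Nat.card G) :
    q = 2 ∨ q = 3 ∨ q = 5 := by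
  haveI : Fact q.Prime := ⟨hq⟩
  obtain ⟨g, hg⟩ := exists_prime_orderOf_dvd_card' q hd
  have h1 := h g
  rw [hg] at h1
  interval_cases q <;> first | omega | (exfalso; revert hq; norm_num)

/-- A fixed point free involutory conjugation inverts a finite subgroup. -/
theorem fpf_inverts' {A : Subgroup G} [Finite A] {a : G} (ha : a * a = 1)
    (hn : ∀ x ∈ A, a * x * a⁻¹ ∈ A) (hf : ∀ x ∈ A, a * x * a⁻¹ = x → x = 1) :
    ∀ x ∈ A, a * x * a⁻¹ = x⁻¹ := by
  have hainv : a⁻¹ = a := inv_eq_of_mul_eq_one_left ha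
  let φ : A → A := fun x => ⟨(x : G)⁻¹ * (a * x * a⁻¹), A.mul_mem (A.inv_mem x.2) (hn _ x.2)⟩
  have hinj : Function.Injective φ := by
    intro x y hxy
    have h1 : (x : G)⁻¹ * (a * x * a⁻¹) = (y : G)⁻¹ * (a * y * a⁻¹) := congrArg Subtype.val hxy
    have h2 : a * ((y : G) * (x : G)⁻¹) * a⁻¹ = (y : G) * (x : G)⁻¹ := by
      have h3 : a * (x : G) * a⁻¹ = (x : G) * ((y : G)⁻¹ * (a * y * a⁻¹)) := by
        rw [← h1]; group
      calc a * ((y : G) * (x : G)⁻¹) * a⁻¹ = (a * y * a⁻¹) * (a * (x : G) * a⁻¹)⁻¹ := by group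
        _ = (y : G) * (x : G)⁻¹ := by rw [h3]; group
    have h4 := hf _ (A.mul_mem y.2 (A.inv_mem x.2)) h2
    have h5 : (y : G) = x := by
      have := mul_inv_eq_one.1 h4
      exact this
    exact Subtype.ext h5.symm
  have hsurj : Function.Surjective φ := Finite.injective_iff_surjective.1 hinj
  intro x hx
  obtain ⟨y, hy⟩ := hsurj ⟨x, hx⟩
  have h1 : (y : G)⁻¹ * (a * y * a⁻¹) = x := congrArg Subtype.val hy
  rw [← h1]
  calc a * ((y : G)⁻¹ * (a * y * a⁻¹)) * a⁻¹ = (a * (y : G)⁻¹ * a⁻¹) * ((a * a) * (y : G) * (a⁻¹ * a⁻¹)) := by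
        group
    _ = ((y : G)⁻¹ * (a * y * a⁻¹))⁻¹ := by
        have : a⁻¹ * a⁻¹ = 1 := by rw [hainv]; exact ha
        rw [ha, this]
        group

/-- **Coset conjugacy**: if `C_E(w) = 1` and `w` normalizes `E` every element `d * w`
of the coset is `E`-conjugate to `w`. -/
theorem coset_conj {E : Subgroup G} [Finite E] {w : G} (hn : ∀ a ∈ E, w * a * w⁻¹ ∈ E)
    (hf : ∀ a ∈ E, w * a * w⁻¹ = a → a = 1) {d : G} (hd : d ∈ E) :
    ∃ a ∈ E, a * w * a⁻¹ = d * w := by
  let φ : E → E := fun a => ⟨(a : G) * (w * (a : G)⁻¹ * w⁻¹), E.mul_mem a.2 (hn _ (E.inv_mem a.2))⟩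
  have hinj : Function.Injective φ := by
    intro x y hxy
    have h1 : (x : G) * (w * (x : G)⁻¹ * w⁻¹) = (y : G) * (w * (y : G)⁻¹ * w⁻¹) :=
      congrArg Subtype.val hxy
    have h2 : w * ((y : G)⁻¹ * x) * w⁻¹ = (y : G)⁻¹ * x := by
      have h3 : (x : G) * w * (x : G)⁻¹ = (y : G) * w * (y : G)⁻¹ := by
        have := congrArg (· * w) h1
        calc (x : G) * w * (x : G)⁻¹ = (x : G) * (w * (x : G)⁻¹ * w⁻¹) * w := by group
          _ = (y : G) * (w * (y : G)⁻¹ * w⁻¹) * w := this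
          _ = _ := by group
      calc w * ((y : G)⁻¹ * x) * w⁻¹ = (y : G)⁻¹ * ((y : G) * w * (y : G)⁻¹) * (x : G) * w⁻¹ := by group
        _ = (y : G)⁻¹ * ((x : G) * w * (x : G)⁻¹) * (x : G) * w⁻¹ := by rw [h3]
        _ = _ := by group
    have h4 := hf _ (E.mul_mem (E.inv_mem y.2) x.2) h2
    have h5 : (y : G)⁻¹ * x = 1 := h4
    apply Subtype.ext
    have h6 := inv_mul_eq_one.1 h5
    exact h6.symm
  have hsurj : Function.Surjective φ := Finite.injective_iff_surjective.1 hinj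
  obtain ⟨a, ha⟩ := hsurj ⟨d, hd⟩
  refine ⟨a, a.2, ?_⟩
  have h1 : (a : G) * (w * (a : G)⁻¹ * w⁻¹) = d := congrArg Subtype.val ha
  rw [← h1]
  group

/-- An element of prime order acting on a finite set of size prime to the order fixes a point. -/
theorem exists_fixed_of_prime {Ω : Type*} [Finite Ω] {q : ℕ} (hq : q.Prime) (σ : Equiv.Perm Ω)
    (hσ : σ ^ q = 1) (hc : ¬ q ∣ Nat.card Ω) : ∃ ω, σ ω = ω := by
  classical
  haveI : Fact q.Prime := ⟨hq⟩
  have hP : IsPGroup q (zpowers σ) := by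
    rintro ⟨g, hg⟩
    obtain ⟨k, rfl⟩ := Subgroup.mem_zpowers_iff.1 hg
    refine ⟨1, ?_⟩
    ext x
    have : (σ ^ k) ^ q ^ 1 = 1 := by
      rw [pow_one, ← zpow_natCast, ← zpow_mul, mul_comm, zpow_mul, zpow_natCast, hσ, one_zpow]
    simp only [Subgroup.coe_pow, Subgroup.coe_one, OneMemClass.coe_one]
    rw [this]
  have h1 := hP.card_modEq_card_fixedPoints Ω
  by_contra hcon
  push Not at hcon
  have h2 : Nat.card (MulAction.fixedPoints (zpowers σ) Ω) = 0 := by
    have : IsEmpty (MulAction.fixedPoints (zpowers σ) Ω) := by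
      refine ⟨fun x => hcon x.1 ?_⟩
      have := x.2 ⟨σ, Subgroup.mem_zpowers σ⟩
      exact this
    exact Nat.card_of_isEmpty
  rw [h2, Nat.ModEq, Nat.zero_mod] at h1
  exact hc (Nat.dvd_of_mod_eq_zero h1)

/-- Normalizers grow in `2`-groups of a `Sig` group: with square in the subgroup. -/
theorem Sig.norm_grow [Finite G] (h : Sig G) {P D : Subgroup G} (hP : IsPGroup 2 P) (hDP : D ≤ P)
    (hne : D ≠ P) : ∃ g ∈ P, g ∉ D ∧ g ∈ normalizer (D : Set G) ∧ g * g ∈ D := by
  haveI : Fact (Nat.Prime 2) := ⟨Nat.prime_two⟩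
  haveI : Group.IsNilpotent P := hP.isNilpotent
  have hlt : D.subgroupOf P < ⊤ := by
    refine lt_top_iff_ne_top.2 ?_
    intro htop
    apply hne
    apply le_antisymm hDP
    intro x hx
    have : (⟨x, hx⟩ : P) ∈ D.subgroupOf P := by rw [htop]; trivial
    exact this
  have h2 := Group.normalizerCondition_of_isNilpotent (G := P) _ hlt
  obtain ⟨x, hx1, hx2⟩ := SetLike.exists_of_lt h2
  have hxD : (x : G) ∉ D := fun hc => hx2 hc
  have hxN : (x : G) ∈ normalizer (D : Set G) := by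
    rw [Subgroup.mem_normalizer_iff]
    intro y
    rw [Subgroup.mem_normalizer_iff] at hx1
    constructor
    · intro hy
      have := (hx1 ⟨y, hDP hy⟩).1 hy
      exact this
    · intro hy
      have hyP : y ∈ P := by
        have h3 := P.mul_mem (P.mul_mem (P.inv_mem x.2) (hDP hy)) x.2
        have h4 : (x : G)⁻¹ * ((x : G) * y * (x : G)⁻¹) * x = y := by group
        rwa [h4] at h3
      exact (hx1 ⟨y, hyP⟩).2 hy
  by_cases hsq : (x : G) * x ∈ D
  · exact ⟨x, x.2, hxD, hxN, hsq⟩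
  · refine ⟨(x : G) * x, P.mul_mem x.2 x.2, hsq, (normalizer (D : Set G)).mul_mem hxN hxN, ?_⟩
    have h4 := h.pow_four_of_pgroup hP x.2
    have : (x : G) * x * ((x : G) * x) = 1 := by
      rw [← h4]; simp only [pow_succ, pow_zero, one_mul, mul_assoc]
    rw [this]
    exact D.one_mem

end Cfsg.Agent.Lib.Spec5
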