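import Mathlib
import Cfsg.Agent.Lib.Spec5.Basic

/-!
# Real elements of order three or five
-/

set_option autoImplicit false

namespace Cfsg.Agent.Lib.Spec5

open Subgroup

universe u

variable {G : Type u} [Group G]

/-- Centralizer of an element. -/
abbrev cen (x : G) : Subgroup G := centralizer ({x} : Set G)

theorem mem_cen {x y : G} : y ∈ cen x ↔ y * x = x * y := by
  rw [Subgroup.mem_centralizer_singleton_iff]

theorem self_mem_cen (x : G) : x ∈ cen x := mem_cen.2 rfl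

theorem mem_smul_iff' {r : ℕ} {g x : G} {P : Sylow r G} :
    x ∈ ((g • P : Sylow r G) : Subgroup G) ↔ g⁻¹ * x * g ∈ (P : Subgroup G) := by
  rw [Sylow.coe_subgroup_smul, Subgroup.mem_pointwise_smul_iff_inv_smul_mem]
  simp [MulAut.smul_def, MulAut.conj_apply]

theorem sylow_conj [Finite G] {r : ℕ} [Fact r.Prime] (S S' : Sylow r G) :
    ∃ g : G, ∀ y, y ∈ (S : Subgroup G) ↔ g * y * g⁻¹ ∈ (S' : Subgroup G) := by
  obtain ⟨g, hg⟩ := MulAction.exists_smul_eq G S' S
  refine ⟨g⁻¹, fun y => ?_⟩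
  rw [← hg, mem_smul_iff']
  simp

theorem orderOf_conj' (g x : G) : orderOf (g * x * g⁻¹) = orderOf x := by
  have := orderOf_injective (MulAut.conj g).toMonoidHom (MulAut.conj g).injective x
  simpa [MulAut.conj_apply] using this

/-- `x` has order `p ∈ {3,5}` and is inverted by the involution `t`. -/
structure RealE (p : ℕ) (x t : G) : Prop where
  hp : p = 3 ∨ p = 5
  ox : orderOf x = p
  it : Inv2 t
  inv : t * x * t⁻¹ = x⁻¹

theorem RealE.prime {p : ℕ} {x t : G} (h : RealE p x t) : p.Prime := by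
  rcases h.hp with rfl | rfl <;> norm_num

theorem RealE.ne_two {p : ℕ} {x t : G} (h : RealE p x t) : p ≠ 2 := by
  rcases h.hp with rfl | rfl <;> norm_num

theorem RealE.conj {p : ℕ} {x t : G} (h : RealE p x t) (g : G) :
    RealE p (g * x * g⁻¹) (g * t * g⁻¹) := by
  refine ⟨h.hp, ?_, h.it.conj g, ?_⟩
  · rw [← h.ox]; exact orderOf_conj' g x
  · calc g * t * g⁻¹ * (g * x * g⁻¹) * (g * t * g⁻¹)⁻¹ = g * (t * x * t⁻¹) * g⁻¹ := by group
      _ = (g * x * g⁻¹)⁻¹ := by rw [h.inv]; group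

variable [Finite G]

theorem RealE.pgrp {p : ℕ} {x t : G} (h : RealE p x t) (hG : Sig G) : IsPGroup p (cen x) := by
  haveI : Fact p.Prime := ⟨h.prime⟩
  exact hG.pgroup_centralizer h.ox

theorem RealE.order_mem {p : ℕ} {x t : G} (h : RealE p x t) (hG : Sig G) {y : G} (hy : y ∈ cen x)
    (hy1 : y ≠ 1) : orderOf y = p := by
  obtain ⟨k, hk⟩ := h.pgrp hG ⟨y, hy⟩
  have h1 := congrArg Subtype.val hk
  simp only [Subgroup.coe_pow, OneMemClass.coe_one] at h1
  rcases hG.order_of_ppow h.hp h1 with h2 | h2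
  · exact absurd h2 hy1
  · exact h2

theorem RealE.pow_mem {p : ℕ} {x t : G} (h : RealE p x t) (hG : Sig G) {y : G} (hy : y ∈ cen x) :
    y ^ p = 1 := by
  by_cases hy1 : y = 1
  · rw [hy1, one_pow]
  · rw [← h.order_mem hG hy hy1]; exact pow_orderOf_eq_one y

theorem RealE.inv_all {p : ℕ} {x t : G} (h : RealE p x t) (hG : Sig G) {y : G} (hy : y ∈ cen x) :
    t * y * t⁻¹ = y⁻¹ := by
  refine fpf_inverts' (A := cen x) h.it.sq ?_ ?_ y hy
  · intro a ha
    rw [mem_cen] at ha ⊢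
    have h1 : (t * a * t⁻¹) * x⁻¹ = x⁻¹ * (t * a * t⁻¹) := by
      rw [← h.inv]
      calc t * a * t⁻¹ * (t * x * t⁻¹) = t * (a * x) * t⁻¹ := by group
        _ = t * (x * a) * t⁻¹ := by rw [ha]
        _ = _ := by group
    calc t * a * t⁻¹ * x = x * (x⁻¹ * (t * a * t⁻¹)) * x := by group
      _ = x * ((t * a * t⁻¹) * x⁻¹) * x := by rw [h1]
      _ = _ := by group
  · intro a ha hfix
    by_contra ha1
    have h1 : a * t = t * a := by
      calc a * t = (t * a * t⁻¹) * t := by rw [hfix]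
        _ = t * a := by group
    exact hG.no_comm_prime h.prime Nat.prime_two h.ne_two (h.order_mem hG ha ha1) h.it.orderOf h1

theorem RealE.comm {p : ℕ} {x t : G} (h : RealE p x t) (hG : Sig G) {a b : G} (ha : a ∈ cen x)
    (hb : b ∈ cen x) : a * b = b * a := by
  have h1 := h.inv_all hG ((cen x).mul_mem ha hb)
  have h2 : t * (a * b) * t⁻¹ = a⁻¹ * b⁻¹ := by
    rw [← h.inv_all hG ha, ← h.inv_all hG hb]; group
  rw [h2] at h1
  have h3 : a⁻¹ * b⁻¹ = (b * a)⁻¹ := by group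
  rw [h3] at h1
  exact (inv_injective h1).symm

theorem RealE.of_mem {p : ℕ} {x t : G} (h : RealE p x t) (hG : Sig G) {y : G} (hy : y ∈ cen x)
    (hy1 : y ≠ 1) : RealE p y t :=
  ⟨h.hp, h.order_mem hG hy hy1, h.it, h.inv_all hG hy⟩

theorem RealE.cen_eq {p : ℕ} {x t : G} (h : RealE p x t) (hG : Sig G) {y : G} (hy : y ∈ cen x)
    (hy1 : y ≠ 1) : cen y = cen x := by
  apply le_antisymm
  · intro a ha
    have hxy : x ∈ cen y := mem_cen.2 (h.comm hG (self_mem_cen x) hy)
    exact mem_cen.2 ((h.of_mem hG hy hy1).comm hG ha hxy)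
  · intro a ha
    exact mem_cen.2 (h.comm hG ha hy)

/-- A `p`-subgroup containing `x` lies in the centralizer. -/
theorem RealE.le_of_pgroup {p : ℕ} {x t : G} (h : RealE p x t) (hG : Sig G) {Q : Subgroup G}
    (hQ : IsPGroup p Q) (hx : x ∈ Q) : Q ≤ cen x := by
  haveI : Fact p.Prime := ⟨h.prime⟩
  haveI : Nontrivial Q := by
    refine ⟨⟨⟨x, hx⟩, 1, ?_⟩⟩
    intro hc
    have := congrArg Subtype.val hc
    simp only [OneMemClass.coe_one] at this
    have h2 := h.ox
    rw [this, orderOf_one] at h2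
    have := h.prime.one_lt
    omega
  haveI := hQ.center_nontrivial
  obtain ⟨z, hz⟩ := exists_ne (1 : center Q)
  have hz1 : ((z : Q) : G) ≠ 1 := by
    intro hc
    apply hz
    ext
    simpa using hc
  have hzx : ((z : Q) : G) ∈ cen x := by
    rw [mem_cen]
    have := (Subgroup.mem_center_iff.1 z.2) ⟨x, hx⟩
    exact (congrArg Subtype.val this).symm
  have hc := h.cen_eq hG hzx hz1
  rw [← hc]
  intro a ha
  rw [mem_cen]
  have := (Subgroup.mem_center_iff.1 z.2) ⟨a, ha⟩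
  exact congrArg Subtype.val this

theorem RealE.exists_sylow {p : ℕ} {x t : G} (h : RealE p x t) (hG : Sig G) :
    ∃ S : Sylow p G, (S : Subgroup G) = cen x := by
  haveI : Fact p.Prime := ⟨h.prime⟩
  obtain ⟨S, hS⟩ := (h.pgrp hG).exists_le_sylow
  refine ⟨S, le_antisymm ?_ hS⟩
  exact h.le_of_pgroup hG S.isPGroup' (hS (self_mem_cen x))

theorem RealE.card_pow {p : ℕ} {x t : G} (h : RealE p x t) (hG : Sig G) :
    ∃ a, Nat.card (cen x) = p ^ a ∧ 1 ≤ a ∧ ¬ p ∣ (cen x).index := by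
  haveI : Fact p.Prime := ⟨h.prime⟩
  obtain ⟨S, hS⟩ := h.exists_sylow hG
  obtain ⟨a, ha⟩ := IsPGroup.iff_card.1 (h.pgrp hG)
  refine ⟨a, ha, ?_, ?_⟩
  · by_contra h0
    have : a = 0 := by omega
    rw [this, pow_zero] at ha
    have hx : (⟨x, self_mem_cen x⟩ : cen x) = 1 :=
      (Nat.card_eq_one_iff_unique.1 ha).1.elim _ _
    have h1 := congrArg Subtype.val hx
    simp only [OneMemClass.coe_one] at h1
    have h2 := h.ox
    rw [h1, orderOf_one] at h2
    have := h.prime.one_lt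
    omega
  · rw [← hS]
    exact S.not_dvd_index

theorem RealE.mul_invol {p : ℕ} {x t : G} (h : RealE p x t) (hG : Sig G) {r : G} (hr : r ∈ cen x) :
    Inv2 (t * r) ∧ (t * r) * x * (t * r)⁻¹ = x⁻¹ := by
  constructor
  · refine ⟨?_, ?_⟩
    · calc t * r * (t * r) = (t * r * t⁻¹) * (t * t) * r := by group
        _ = 1 := by rw [h.inv_all hG hr, h.it.sq]; group
    · intro hc
      have h1 : r = t⁻¹ := by
        have : t * r * r⁻¹ = r⁻¹ := by rw [hc]; group
        have h3 : t = r⁻¹ := by simpa using this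
        rw [h3]; group
      rw [h.it.inv] at h1
      rw [h1] at hr
      by_cases ht : t = 1
      · exact h.it.ne ht
      · have := h.order_mem hG hr ht
        rw [h.it.orderOf] at this
        exact h.ne_two this.symm
  · have h1 : r * x = x * r := mem_cen.1 hr
    calc (t * r) * x * (t * r)⁻¹ = t * (r * x) * r⁻¹ * t⁻¹ := by group
      _ = t * (x * r) * r⁻¹ * t⁻¹ := by rw [h1]
      _ = t * x * t⁻¹ := by group
      _ = x⁻¹ := h.inv

theorem RealE.form {p : ℕ} {x t u : G} (h : RealE p x t) (hu : u * x * u⁻¹ = x⁻¹) :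
    t * u ∈ cen x := by
  rw [mem_cen]
  have h1 : t * (u * x * u⁻¹) * t⁻¹ = x := by
    rw [hu]
    have := h.inv
    calc t * x⁻¹ * t⁻¹ = (t * x * t⁻¹)⁻¹ := by group
      _ = x := by rw [this]; group
  calc t * u * x = t * (u * x * u⁻¹) * t⁻¹ * (t * u) := by group
    _ = x * (t * u) := by rw [h1]

theorem RealE.conj_mul {p : ℕ} {x t : G} (h : RealE p x t) (hG : Sig G) {r : G} (hr : r ∈ cen x) :
    ∃ s ∈ cen x, s * t * s⁻¹ = t * r := by
  have hrp := h.pow_mem hG hr
  have h3 : t * r = r⁻¹ * t := by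
    calc t * r = (t * r * t⁻¹) * t := by group
      _ = r⁻¹ * t := by rw [h.inv_all hG hr]
  rcases h.hp with rfl | rfl
  · refine ⟨r, hr, ?_⟩
    have h4 : t * r⁻¹ * t⁻¹ = r := by
      calc t * r⁻¹ * t⁻¹ = (t * r * t⁻¹)⁻¹ := by group
        _ = r := by rw [h.inv_all hG hr]; group
    have h5 : r * r = r⁻¹ := by
      rw [eq_inv_iff_mul_eq_one]
      rw [← hrp]; simp only [pow_succ, pow_zero, one_mul]
    calc r * t * r⁻¹ = r * (t * r⁻¹ * t⁻¹) * t := by group
      _ = r * r * t := by rw [h4]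
      _ = r⁻¹ * t := by rw [h5]
      _ = t * r := h3.symm
  · refine ⟨r * r, (cen x).mul_mem hr hr, ?_⟩
    have h4 : t * r⁻¹ * t⁻¹ = r := by
      calc t * r⁻¹ * t⁻¹ = (t * r * t⁻¹)⁻¹ := by group
        _ = r := by rw [h.inv_all hG hr]; group
    have h5 : r * r * (r * r) = r⁻¹ := by
      rw [eq_inv_iff_mul_eq_one]
      rw [← hrp]; simp only [pow_succ, pow_zero, one_mul, mul_assoc]
    calc r * r * t * (r * r)⁻¹ = r * r * (t * r⁻¹ * t⁻¹) * (t * r⁻¹ * t⁻¹) * t := by group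
      _ = r * r * (r * r) * t := by rw [h4]; group
      _ = r⁻¹ * t := by rw [h5]
      _ = t * r := h3.symm

theorem RealE.isConj_of_inv {p : ℕ} {x t u : G} (h : RealE p x t) (hG : Sig G)
    (hu : u * x * u⁻¹ = x⁻¹) : ∃ g, g * t * g⁻¹ = u := by
  have h1 := h.form hu
  obtain ⟨s, _, hs⟩ := h.conj_mul hG h1
  refine ⟨s, ?_⟩
  rw [hs, ← mul_assoc, h.it.sq, one_mul]

/-- Two involutions inverting elements of the same order are conjugate. -/
theorem RealE.isConj_same {p : ℕ} {x y t u : G} (h : RealE p x t) (h' : RealE p y u) (hG : Sig G) :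
    ∃ g, g * t * g⁻¹ = u := by
  haveI : Fact p.Prime := ⟨h.prime⟩
  obtain ⟨S, hS⟩ := h.exists_sylow hG
  obtain ⟨S', hS'⟩ := h'.exists_sylow hG
  obtain ⟨g, hg⟩ := sylow_conj S S'
  have hg1 : g * x * g⁻¹ ∈ cen y := by
    rw [← hS', ← hg, hS]; exact self_mem_cen x
  have hg2 : g * x * g⁻¹ ≠ 1 := by
    intro hc
    have h1 : x = 1 := by
      have : x = g⁻¹ * (g * x * g⁻¹) * g := by group
      rw [this, hc]; group
    have h2 := h.ox
    rw [h1, orderOf_one] at h2
    have := h.prime.one_lt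
    omega
  have h2 := h'.of_mem hG hg1 hg2
  have h3 := h.conj g
  -- `g * t * g⁻¹` inverts every element of `cen y`, which contains `y`
  have h4 : y ∈ cen (g * x * g⁻¹) := by
    have hc := h'.cen_eq hG hg1 hg2
    rw [hc]; exact self_mem_cen y
  have h5 := h3.inv_all hG h4
  have hy1 : y ≠ 1 := by
    intro hc
    have h2 := h'.ox
    rw [hc, orderOf_one] at h2
    have := h.prime.one_lt
    omega
  obtain ⟨g', hg'⟩ := (h3.of_mem hG h4 hy1).isConj_of_inv hG h'.inv
  refine ⟨g' * g, ?_⟩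
  rw [← hg']; group

end Cfsg.Agent.Lib.Spec5
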