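import Mathlib
import Cfsg.Agent.Lib.Spec5.RealE

/-!
# A 2-group normalized by a dihedral group with fixed point free rotation is elementary abelian,
when all elements of the extension have order at most five.
-/

set_option autoImplicit false

namespace Cfsg.Agent.Lib.Spec5

open Subgroup

universe u

variable {G : Type u} [Group G]

theorem nm_conj {D : Subgroup G} {g d : G} (hg : g ∈ normalizer (D : Set G)) (hd : d ∈ D) :
    g * d * g⁻¹ ∈ D := (mem_normalizer_iff.1 hg d).1 hd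

theorem nm_conj_inv {D : Subgroup G} {g d : G} (hg : g ∈ normalizer (D : Set G)) (hd : d ∈ D) :
    g⁻¹ * d * g ∈ D := by
  refine (mem_normalizer_iff.1 hg _).2 ?_
  have : g * (g⁻¹ * d * g) * g⁻¹ = d := by group
  rwa [this]

/-- The center of `D` as a subgroup of `G`. -/
def zD (D : Subgroup G) : Subgroup G := D ⊓ centralizer (D : Set G)

theorem mem_zD {D : Subgroup G} {z : G} : z ∈ zD D ↔ z ∈ D ∧ ∀ d ∈ D, d * z = z * d := by
  rw [zD, Subgroup.mem_inf, Subgroup.mem_centralizer_iff]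
  rfl

theorem zD_conj {D : Subgroup G} {g z : G} (hg : g ∈ normalizer (D : Set G)) (hz : z ∈ zD D) :
    g * z * g⁻¹ ∈ zD D := by
  rw [mem_zD] at hz ⊢
  refine ⟨nm_conj hg hz.1, fun d hd => ?_⟩
  have h1 := hz.2 _ (nm_conj_inv hg hd)
  calc d * (g * z * g⁻¹) = g * ((g⁻¹ * d * g) * z) * g⁻¹ := by group
    _ = g * (z * (g⁻¹ * d * g)) * g⁻¹ := by rw [h1]
    _ = _ := by group

theorem zD_comm {D : Subgroup G} {a b : G} (ha : a ∈ zD D) (hb : b ∈ zD D) : a * b = b * a :=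
  ((mem_zD.1 hb).2 a (mem_zD.1 ha).1)

/-- Commutator. -/
def cm (n d : G) : G := n * d * n⁻¹ * d⁻¹

theorem cm_conj (g n d : G) : cm (g * n * g⁻¹) d = g * cm n (g⁻¹ * d * g) * g⁻¹ := by
  unfold cm; group

/-- Second center of `D`. -/
structure IsM (D : Subgroup G) (m : G) : Prop where
  mem : m ∈ D
  cm_mem : ∀ d ∈ D, cm m d ∈ zD D

theorem IsM.conj {D : Subgroup G} {g m : G} (hg : g ∈ normalizer (D : Set G)) (hm : IsM D m) :
    IsM D (g * m * g⁻¹) := by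
  refine ⟨nm_conj hg hm.mem, fun d hd => ?_⟩
  have h1 : cm (g * m * g⁻¹) d = g * cm m (g⁻¹ * d * g) * g⁻¹ := by
    unfold cm; group
  rw [h1]
  exact zD_conj hg (hm.cm_mem _ (nm_conj_inv hg hd))

theorem cm_mul_left {D : Subgroup G} {a b d : G} (ha : a ∈ D) (hb : IsM D b) (hd : d ∈ D) :
    cm (a * b) d = cm b d * cm a d := by
  have h1 : cm (a * b) d = a * cm b d * a⁻¹ * cm a d := by
    unfold cm; group
  have h2 := (mem_zD.1 (hb.cm_mem d hd)).2 a ha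
  rw [h1, h2]
  simp

theorem IsM.mul {D : Subgroup G} {a b : G} (ha : IsM D a) (hb : IsM D b) : IsM D (a * b) := by
  refine ⟨D.mul_mem ha.mem hb.mem, fun d hd => ?_⟩
  rw [cm_mul_left ha.mem hb hd]
  exact (zD D).mul_mem (hb.cm_mem d hd) (ha.cm_mem d hd)

theorem cm_of_z {D : Subgroup G} {z d : G} (hz : z ∈ zD D) (hd : d ∈ D) : cm z d = 1 := by
  have h2 := (mem_zD.1 hz).2 d hd
  unfold cm
  rw [← h2]; group

theorem IsM.of_z {D : Subgroup G} {z : G} (hz : z ∈ zD D) : IsM D z :=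
  ⟨(mem_zD.1 hz).1, fun d hd => by rw [cm_of_z hz hd]; exact (zD D).one_mem⟩

theorem cm_mul_right {D : Subgroup G} {n d₁ d₂ : G} (hn : IsM D n) (h₁ : d₁ ∈ D) (h₂ : d₂ ∈ D) :
    cm n (d₁ * d₂) = cm n d₁ * cm n d₂ := by
  have h1 : cm n (d₁ * d₂) = cm n d₁ * (d₁ * cm n d₂ * d₁⁻¹) := by
    unfold cm; group
  have h2 := (mem_zD.1 (hn.cm_mem d₂ h₂)).2 d₁ h₁
  rw [h1, h2]
  simp

theorem cm_z_mul {D : Subgroup G} {z n d : G} (hz : z ∈ zD D) (hn : n ∈ D) (hd : d ∈ D) :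
    cm (z * n) d = cm n d := by
  have h1 : cm (z * n) d = z * (n * d * n⁻¹) * z⁻¹ * d⁻¹ := by
    unfold cm; group
  have h2 := (mem_zD.1 hz).2 _ (D.mul_mem (D.mul_mem hn hd) (D.inv_mem hn))
  rw [h1, ← h2]
  unfold cm; group

variable [Finite G]

theorem fix_trivial (hG : Sig G) {D : Subgroup G} (hD : IsPGroup 2 D) {τ : G} {p : ℕ}
    (hp : p.Prime) (hp2 : p ≠ 2) (hτ : orderOf τ = p) {a : G} (ha : a ∈ D) (h : τ * a * τ⁻¹ = a) :
    a = 1 := by
  by_contra hne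
  obtain ⟨k, hk⟩ := hD ⟨a, ha⟩
  have h1 := congrArg Subtype.val hk
  simp only [Subgroup.coe_pow, OneMemClass.coe_one] at h1
  have h2 : orderOf a ∣ 2 ^ k := orderOf_dvd_of_pow_eq_one h1
  have h3 : Nat.Coprime (2 ^ k) p :=
    Nat.Coprime.pow_left k ((Nat.coprime_primes Nat.prime_two hp).2 (Ne.symm hp2))
  have h4 : Nat.Coprime (orderOf a) (orderOf τ) := by
    rw [hτ]; exact Nat.Coprime.coprime_dvd_left h2 h3
  have h5 : a * τ = τ * a := by
    calc a * τ = (τ * a * τ⁻¹) * τ := by rw [h]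
      _ = τ * a := by group
  have hτ1 : τ ≠ 1 := by
    rintro rfl
    simp at hτ
    exact hp.one_lt.ne hτ
  exact hG.no_comm h5 h4 hne hτ1

theorem order_inv_sq {w : G} {p : ℕ} (hp : p.Prime) (hp2 : p ≠ 2) (hw : orderOf w = p) :
    orderOf (w⁻¹ * w⁻¹) = p := by
  have h1 : w⁻¹ * w⁻¹ = w⁻¹ ^ 2 := by rw [pow_two]
  rw [h1, Nat.Coprime.orderOf_pow, orderOf_inv, hw]
  rw [orderOf_inv, hw]
  exact (Nat.coprime_primes hp Nat.prime_two).2 hp2

theorem order_sq {w : G} {p : ℕ} (hp : p.Prime) (hp2 : p ≠ 2) (hw : orderOf w = p) :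
    orderOf (w * w) = p := by
  have h1 : w * w = w ^ 2 := by rw [pow_two]
  rw [h1, Nat.Coprime.orderOf_pow, hw]
  rw [hw]
  exact (Nat.coprime_primes hp Nat.prime_two).2 hp2

theorem RealE.tau_eq {p : ℕ} {w e : G} (H : RealE p w e) : e * (w * e * w⁻¹) = w⁻¹ * w⁻¹ := by
  have h1 := H.inv
  rw [H.it.inv] at h1
  calc e * (w * e * w⁻¹) = (e * w * e) * w⁻¹ := by group
    _ = w⁻¹ * w⁻¹ := by rw [h1]

theorem RealE.conj_self {p : ℕ} {w e : G} (H : RealE p w e) : RealE p w (w * e * w⁻¹) := by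
  have := H.conj w
  simpa using this

section

variable {D : Subgroup G} {p : ℕ} {w e : G}

/-- `f` acts trivially on squares of central elements. -/
theorem sq_fixed (hG : Sig G) (hD : IsPGroup 2 D) {f a : G} (hf : Inv2 f)
    (hfN : f ∈ normalizer (D : Set G)) (ha : a ∈ zD D) : f * (a * a) * f⁻¹ = a * a := by
  have haD := (mem_zD.1 ha).1
  have hb := zD_conj hfN ha
  have hinv := hf.inv
  have hsq : (f * a) * (f * a) = (f * a * f⁻¹) * a := by rw [hinv]; group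
  have hsqD : (f * a) * (f * a) ∈ D := by
    rw [hsq]; exact D.mul_mem (mem_zD.1 hb).1 haD
  have h4 := hG.pow_four_of_sq_mem hD hsqD
  have h5 : ((f * a * f⁻¹) * a) * ((f * a * f⁻¹) * a) = 1 := by
    rw [← hsq, ← h4]; simp only [pow_succ, pow_zero, one_mul, mul_assoc]
  have hc : (f * a * f⁻¹) * a = a * (f * a * f⁻¹) := zD_comm hb ha
  have h6 : (f * a * f⁻¹) * (f * a * f⁻¹) * (a * a) = 1 := by
    calc (f * a * f⁻¹) * (f * a * f⁻¹) * (a * a)
        = (f * a * f⁻¹) * ((f * a * f⁻¹) * a) * a := by simp only [mul_assoc]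
      _ = (f * a * f⁻¹) * (a * (f * a * f⁻¹)) * a := by rw [hc]
      _ = ((f * a * f⁻¹) * a) * ((f * a * f⁻¹) * a) := by simp only [mul_assoc]
      _ = 1 := h5
  have h7 := hG.pow_four_of_pgroup hD haD
  have h8 : (a * a) * (a * a) = 1 := by
    rw [← h7]; simp only [pow_succ, pow_zero, one_mul, mul_assoc]
  have h9 : (f * a * f⁻¹) * (f * a * f⁻¹) = a * a := by
    have h10 := eq_inv_of_mul_eq_one_left h6
    rw [h10]
    exact (eq_inv_of_mul_eq_one_left h8).symm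
  calc f * (a * a) * f⁻¹ = (f * a * f⁻¹) * (f * a * f⁻¹) := by group
    _ = a * a := h9

/-- The center of `D` is elementary abelian. -/
theorem zD_elem (hG : Sig G) (hD : IsPGroup 2 D) (H : RealE p w e)
    (hwN : w ∈ normalizer (D : Set G)) (heN : e ∈ normalizer (D : Set G)) {a : G}
    (ha : a ∈ zD D) : a * a = 1 := by
  have h1 := sq_fixed hG hD H.it heN ha
  have he1N : w * e * w⁻¹ ∈ normalizer (D : Set G) :=
    (normalizer (D : Set G)).mul_mem ((normalizer (D : Set G)).mul_mem hwN heN)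
      ((normalizer (D : Set G)).inv_mem hwN)
  have h2 := sq_fixed hG hD H.conj_self.it he1N ha
  have h3 : (w⁻¹ * w⁻¹) * (a * a) * (w⁻¹ * w⁻¹)⁻¹ = a * a := by
    rw [← H.tau_eq]
    calc e * (w * e * w⁻¹) * (a * a) * (e * (w * e * w⁻¹))⁻¹
        = e * ((w * e * w⁻¹) * (a * a) * (w * e * w⁻¹)⁻¹) * e⁻¹ := by group
      _ = a * a := by rw [h2, h1]
  exact fix_trivial hG hD H.prime H.ne_two (order_inv_sq H.prime H.ne_two H.ox)
    (D.mul_mem (mem_zD.1 ha).1 (mem_zD.1 ha).1) h3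

/-- The key commutator identity. -/
theorem star (hG : Sig G) (hD : IsPGroup 2 D) (hZ : ∀ a ∈ zD D, a * a = 1) {f m d : G} (hf : Inv2 f)
    (hfN : f ∈ normalizer (D : Set G)) (hm : IsM D m) (hd : d ∈ D) :
    f * cm (f * m * f⁻¹ * m) d * f⁻¹ = cm (f * m * f⁻¹ * m) d := by
  have hinv := hf.inv
  have hm2 : IsM D (f * m * f⁻¹) := hm.conj hfN
  set m2 := f * m * f⁻¹ with hm2def
  set n := m2 * m with hndef
  have hnM : IsM D n := hm2.mul hm
  have hnD : n ∈ D := hnM.mem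
  have hs : ∀ b ∈ D, ((f * b * f⁻¹) * b) * ((f * b * f⁻¹) * b) = 1 := by
    intro b hb
    have hsq : (f * b) * (f * b) = (f * b * f⁻¹) * b := by rw [hinv]; group
    have hsqD : (f * b) * (f * b) ∈ D := by
      rw [hsq]; exact D.mul_mem (nm_conj hfN hb) hb
    have h4 := hG.pow_four_of_sq_mem hD hsqD
    rw [← hsq, ← h4]; simp only [pow_succ, pow_zero, one_mul, mul_assoc]
  have hn2 : n * n = 1 := hs m hm.mem
  set d2 := f * d * f⁻¹ with hd2def
  have hd2 : d2 ∈ D := nm_conj hfN hd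
  have hsd := hs d hd
  -- expression for `s (d * m)`
  set ζ := (m2⁻¹ * d⁻¹ * m2 * d) with hζdef
  have hζ : ζ ∈ zD D := by
    have h1 := hm2.cm_mem d⁻¹ (D.inv_mem hd)
    have h2 : cm m2 d⁻¹ = m2 * d⁻¹ * m2⁻¹ * d := by unfold cm; group
    have h3 := zD_conj (g := m2⁻¹) ((normalizer (D : Set G)).inv_mem
      (le_normalizer hm2.mem)) ((zD D).inv_mem h1)
    have h4 : m2⁻¹ * (cm m2 d⁻¹)⁻¹ * m2⁻¹⁻¹ = ζ := by
      rw [h2, hζdef]; group
    rwa [h4] at h3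
  have hζc := (mem_zD.1 hζ).2
  have hsdm := hs (d * m) (D.mul_mem hd hm.mem)
  have hexp : (f * (d * m) * f⁻¹) * (d * m) = ((d2 * d) * n) * ζ := by
    have h1 : (d2 * d) * n * ζ = d2 * d * (m2 * (m * ζ)) := by rw [hndef]; group
    have h2 : m * ζ = ζ * m := (hζc m hm.mem)
    rw [h1, h2, hζdef, hd2def, hm2def]
    group
  rw [hexp] at hsdm
  have hdd : d2 * d ∈ D := D.mul_mem hd2 hd
  have hζ2 := hZ ζ hζ
  -- `d2 * d` commutes with `n`
  have h1 : ((d2 * d) * n) * ((d2 * d) * n) = 1 := by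
    have hc : ((d2 * d) * n) * ζ = ζ * ((d2 * d) * n) := (hζc _ (D.mul_mem hdd hnD))
    calc ((d2 * d) * n) * ((d2 * d) * n)
        = ((d2 * d) * n) * ((d2 * d) * n) * (ζ * ζ) := by rw [hζ2, mul_one]
      _ = ((d2 * d) * n) * (((d2 * d) * n) * ζ) * ζ := by simp only [mul_assoc]
      _ = ((d2 * d) * n) * (ζ * ((d2 * d) * n)) * ζ := by rw [hc]
      _ = (((d2 * d) * n) * ζ) * (((d2 * d) * n) * ζ) := by simp only [mul_assoc]
      _ = 1 := hsdm
  have h2 : (d2 * d) * n = n * (d2 * d) := by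
    have hx1 : (d2 * d)⁻¹ = d2 * d := inv_eq_of_mul_eq_one_left hsd
    have hx2 : n⁻¹ = n := inv_eq_of_mul_eq_one_left hn2
    have h3 := inv_eq_of_mul_eq_one_left h1
    rw [mul_inv_rev, hx1, hx2] at h3
    exact h3.symm
  have h3 : cm n (d2 * d) = 1 := by
    unfold cm
    rw [← h2]; group
  rw [cm_mul_right hnM hd2 hd] at h3
  have h4 : cm n d2 = cm n d := by
    have h5 := hZ _ (hnM.cm_mem d hd)
    calc cm n d2 = cm n d2 * (cm n d * cm n d) := by rw [h5, mul_one]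
      _ = (cm n d2 * cm n d) * cm n d := by simp only [mul_assoc]
      _ = cm n d := by rw [h3, one_mul]
  -- conjugation by `f`
  have h5 : f * n * f⁻¹ = (m * m2 * m⁻¹ * m2⁻¹) * n := by
    have h6 : f * m2 * f⁻¹ = m := by
      rw [hm2def, hinv]
      calc f * (f * m * f) * f = (f * f) * m * (f * f) := by group
        _ = m := by rw [hf.sq]; group
    calc f * n * f⁻¹ = (f * m2 * f⁻¹) * (f * m * f⁻¹) := by rw [hndef]; group
      _ = m * m2 := by rw [h6]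
      _ = _ := by rw [hndef]; group
  have h6 : m * m2 * m⁻¹ * m2⁻¹ ∈ zD D := hm.cm_mem m2 hm2.mem
  have h7 : f * cm n d * f⁻¹ = cm (f * n * f⁻¹) d2 := by
    rw [hd2def]; unfold cm; group
  rw [h7, h5, cm_z_mul h6 hnD hd2, h4]

/-- The main consequence for the second center. -/
theorem fold_mem (hG : Sig G) (hD : IsPGroup 2 D) (H : RealE p w e)
    (hwN : w ∈ normalizer (D : Set G)) (heN : e ∈ normalizer (D : Set G)) {m : G}
    (hm : IsM D m) : e * m * e⁻¹ * m ∈ zD D := by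
  haveI : Finite D := inferInstance
  have hZ : ∀ a ∈ zD D, a * a = 1 := fun a ha => zD_elem hG hD H hwN heN ha
  have hinv := H.it.inv
  have hwe : e * w * e = w⁻¹ := by have := H.inv; rwa [hinv] at this
  have hwe' : e * w⁻¹ * e = w := by
    calc e * w⁻¹ * e = (e * w * e)⁻¹ := by rw [mul_inv_rev, mul_inv_rev, hinv]; group
      _ = w := by rw [hwe]; group
  have k1 : e * w = w⁻¹ * e := by
    rw [← H.inv]; group
  have k2 : w⁻¹ * e⁻¹ = e⁻¹ * w := by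
    rw [hinv]; exact k1.symm
  have k3 : e * w⁻¹ = w * e := by
    calc e * w⁻¹ = (e * w⁻¹ * e) * e := by
          rw [mul_assoc _ e e, H.it.sq, mul_one]
      _ = w * e := by rw [hwe']
  have k4 : w * e⁻¹ = e⁻¹ * w⁻¹ := by
    rw [hinv]; exact k3.symm
  set n := e * m * e⁻¹ * m with hndef
  have hm2 : IsM D (e * m * e⁻¹) := hm.conj heN
  have hnM : IsM D n := hm2.mul hm
  have hNN := normalizer (D : Set G)
  have hw2N : w * w ∈ normalizer (D : Set G) := mul_mem hwN hwN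
  have he1N : w * e * w⁻¹ ∈ normalizer (D : Set G) := mul_mem (mul_mem hwN heN) (inv_mem hwN)
  -- invariance under `w⁻² `
  have hinvar : ∀ d ∈ D, cm n ((w * w)⁻¹ * d * (w * w)) = cm n d := by
    intro d hd
    have hd' : (w * w)⁻¹ * d * (w * w) ∈ D := nm_conj_inv hw2N hd
    set n2 := (w * w) * n * (w * w)⁻¹ with hn2def
    have hn2M : IsM D n2 := hnM.conj hw2N
    have hstar := star hG hD hZ H.conj_self.it he1N hn2M hd
    have hconj : (w * e * w⁻¹) * n2 * (w * e * w⁻¹)⁻¹ = e * n * e⁻¹ := by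
      rw [hn2def]
      calc (w * e * w⁻¹) * ((w * w) * n * (w * w)⁻¹) * (w * e * w⁻¹)⁻¹
          = w * (e * w) * n * (w⁻¹ * e⁻¹) * w⁻¹ := by group
        _ = w * (w⁻¹ * e) * n * (e⁻¹ * w) * w⁻¹ := by rw [k1, k2]
        _ = e * n * e⁻¹ := by group
    have h5 : e * n * e⁻¹ = (m * (e * m * e⁻¹) * m⁻¹ * (e * m * e⁻¹)⁻¹) * n := by
      have h6 : e * (e * m * e⁻¹) * e⁻¹ = m := by
        rw [hinv]
        calc e * (e * m * e) * e = (e * e) * m * (e * e) := by group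
          _ = m := by rw [H.it.sq]; group
      calc e * n * e⁻¹ = (e * (e * m * e⁻¹) * e⁻¹) * (e * m * e⁻¹) := by rw [hndef]; group
        _ = m * (e * m * e⁻¹) := by rw [h6]
        _ = _ := by rw [hndef]; group
    have h6 : (m * (e * m * e⁻¹) * m⁻¹ * (e * m * e⁻¹)⁻¹) ∈ zD D := hm.cm_mem _ hm2.mem
    set ζ := (m * (e * m * e⁻¹) * m⁻¹ * (e * m * e⁻¹)⁻¹) with hζ
    have hform : (w * e * w⁻¹) * n2 * (w * e * w⁻¹)⁻¹ * n2 = ζ * (n * n2) := by
      rw [hconj, h5]; group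
    have hnn2 : cm (ζ * (n * n2)) d = cm n d * cm n2 d := by
      rw [cm_z_mul h6 (D.mul_mem hnM.mem hn2M.mem) hd, cm_mul_left hnM.mem hn2M hd]
      exact zD_comm (hn2M.cm_mem d hd) (hnM.cm_mem d hd)
    rw [hform, hnn2] at hstar
    set u₀ := cm n d with hu0
    set u₂ := cm n ((w * w)⁻¹ * d * (w * w)) with hu2
    have hu0Z : u₀ ∈ zD D := hnM.cm_mem d hd
    have hu2Z : u₂ ∈ zD D := hnM.cm_mem _ hd'
    have hcn2 : cm n2 d = (w * w) * u₂ * (w * w)⁻¹ := by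
      rw [hn2def, hu2]; exact cm_conj _ _ _
    rw [hcn2] at hstar
    have hfix0 : e * u₀ * e⁻¹ = u₀ := star hG hD hZ H.it heN hm hd
    have hfix2 : e * u₂ * e⁻¹ = u₂ := star hG hD hZ H.it heN hm hd'
    -- conjugate by `w⁻¹`
    have hW : e * ((w⁻¹ * u₀ * w) * (w * u₂ * w⁻¹)) * e⁻¹ = (w⁻¹ * u₀ * w) * (w * u₂ * w⁻¹) := by
      have h1 : w⁻¹ * (w * e * w⁻¹ * (u₀ * (w * w * u₂ * (w * w)⁻¹)) * (w * e * w⁻¹)⁻¹) * w
          = w⁻¹ * (u₀ * (w * w * u₂ * (w * w)⁻¹)) * w := by rw [hstar]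
      have h2 : w⁻¹ * (w * e * w⁻¹ * (u₀ * (w * w * u₂ * (w * w)⁻¹)) * (w * e * w⁻¹)⁻¹) * w
          = e * ((w⁻¹ * u₀ * w) * (w * u₂ * w⁻¹)) * e⁻¹ := by group
      have h3 : w⁻¹ * (u₀ * (w * w * u₂ * (w * w)⁻¹)) * w = (w⁻¹ * u₀ * w) * (w * u₂ * w⁻¹) := by
        group
      rw [h2, h3] at h1
      exact h1
    have hX1 : e * (w⁻¹ * u₀ * w) * e⁻¹ = w * u₀ * w⁻¹ := by
      calc e * (w⁻¹ * u₀ * w) * e⁻¹ = (e * w⁻¹) * u₀ * (w * e⁻¹) := by group
        _ = (w * e) * u₀ * (e⁻¹ * w⁻¹) := by rw [k3, k4]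
        _ = w * (e * u₀ * e⁻¹) * w⁻¹ := by group
        _ = w * u₀ * w⁻¹ := by rw [hfix0]
    have hX2 : e * (w * u₂ * w⁻¹) * e⁻¹ = w⁻¹ * u₂ * w := by
      calc e * (w * u₂ * w⁻¹) * e⁻¹ = (e * w) * u₂ * (w⁻¹ * e⁻¹) := by group
        _ = (w⁻¹ * e) * u₂ * (e⁻¹ * w) := by rw [k1, k2]
        _ = w⁻¹ * (e * u₂ * e⁻¹) * w := by group
        _ = w⁻¹ * u₂ * w := by rw [hfix2]
    have hY : (w⁻¹ * u₀ * w) * (w * u₂ * w⁻¹) = (w * u₀ * w⁻¹) * (w⁻¹ * u₂ * w) := by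
      rw [← hW]
      calc e * ((w⁻¹ * u₀ * w) * (w * u₂ * w⁻¹)) * e⁻¹
          = (e * (w⁻¹ * u₀ * w) * e⁻¹) * (e * (w * u₂ * w⁻¹) * e⁻¹) := by group
        _ = _ := by rw [hX1, hX2]
    -- all four elements lie in the elementary abelian `zD`
    have hw' : w⁻¹ ∈ normalizer (D : Set G) := inv_mem hwN
    have hA1 : w⁻¹ * u₀ * w ∈ zD D := by
      have := zD_conj hw' hu0Z; rwa [inv_inv] at this
    have hB1 : w * u₂ * w⁻¹ ∈ zD D := zD_conj hwN hu2Z
    have hA2 : w * u₀ * w⁻¹ ∈ zD D := zD_conj hwN hu0Z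
    have hB2 : w⁻¹ * u₂ * w ∈ zD D := by
      have := zD_conj hw' hu2Z; rwa [inv_inv] at this
    set A1 := w⁻¹ * u₀ * w
    set B1 := w * u₂ * w⁻¹
    set A2 := w * u₀ * w⁻¹
    set B2 := w⁻¹ * u₂ * w
    have hZ1 := hZ _ hB1
    have hZ2 := hZ _ hB2
    have hkey : A1 * B2 = A2 * B1 := by
      calc A1 * B2 = (A1 * B1) * (B1 * B2) := by
            simp only [mul_assoc]; rw [← mul_assoc B1 B1, hZ1, one_mul]
        _ = (A2 * B2) * (B1 * B2) := by rw [hY]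
        _ = A2 * (B2 * B1) * B2 := by simp only [mul_assoc]
        _ = A2 * (B1 * B2) * B2 := by rw [zD_comm hB2 hB1]
        _ = A2 * B1 * (B2 * B2) := by simp only [mul_assoc]
        _ = A2 * B1 := by rw [hZ2, mul_one]
    have hv : w⁻¹ * (u₀ * u₂) * w = w * (u₀ * u₂) * w⁻¹ := by
      calc w⁻¹ * (u₀ * u₂) * w = A1 * B2 := by simp only [A1, B2]; group
        _ = A2 * B1 := hkey
        _ = w * (u₀ * u₂) * w⁻¹ := by simp only [A2, B1]; group
    have hvZ : u₀ * u₂ ∈ zD D := (zD D).mul_mem hu0Z hu2Z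
    have hv1 : (w * w) * (u₀ * u₂) * (w * w)⁻¹ = u₀ * u₂ := by
      calc (w * w) * (u₀ * u₂) * (w * w)⁻¹ = w * (w * (u₀ * u₂) * w⁻¹) * w⁻¹ := by group
        _ = w * (w⁻¹ * (u₀ * u₂) * w) * w⁻¹ := by rw [hv]
        _ = _ := by group
    have hv2 := fix_trivial hG hD H.prime H.ne_two (order_sq H.prime H.ne_two H.ox)
      (mem_zD.1 hvZ).1 hv1
    have h20 := hZ _ hu2Z
    have h21 : u₀ = u₂⁻¹ := eq_inv_of_mul_eq_one_left hv2
    have h22 : u₂⁻¹ = u₂ := inv_eq_of_mul_eq_one_left h20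
    rw [h21, h22]
  -- triviality of the commutator map
  have hall : ∀ b ∈ D, cm n b = 1 := by
    intro b hb
    have hτ : ∀ a ∈ D, (w * w)⁻¹ * a * ((w * w)⁻¹)⁻¹ = a → a = 1 := by
      intro a ha hh
      refine fix_trivial hG hD H.prime H.ne_two (τ := (w * w)⁻¹) ?_ ha hh
      rw [orderOf_inv]; exact order_sq H.prime H.ne_two H.ox
    have hτN : (w * w)⁻¹ ∈ normalizer (D : Set G) := inv_mem hw2N
    obtain ⟨a, ha, hab⟩ := coset_conj (E := D) (w := (w * w)⁻¹) (fun x hx => nm_conj hτN hx) hτ hb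
    have hb2 : b = a * ((w * w)⁻¹ * a⁻¹ * (w * w)) := by
      have : b * (w * w)⁻¹ * (w * w) = a * (w * w)⁻¹ * a⁻¹ * (w * w) := by rw [← hab]
      calc b = b * (w * w)⁻¹ * (w * w) := by group
        _ = a * (w * w)⁻¹ * a⁻¹ * (w * w) := this
        _ = _ := by group
    have haInv : a⁻¹ ∈ D := D.inv_mem ha
    rw [hb2, cm_mul_right hnM ha (nm_conj_inv hw2N haInv), hinvar _ haInv,
      ← cm_mul_right hnM ha haInv]
    unfold cm; group
  rw [mem_zD]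
  refine ⟨hnM.mem, fun b hb => ?_⟩
  have h1 := hall b hb
  unfold cm at h1
  have h2 : n * b * n⁻¹ = b := by
    have := congrArg (· * b) h1
    simpa using this
  calc b * n = (n * b * n⁻¹) * n := by rw [h2]
    _ = n * b := by group

/-- Second center equals center. -/
theorem IsM_mem_zD (hG : Sig G) (hD : IsPGroup 2 D) (H : RealE p w e)
    (hwN : w ∈ normalizer (D : Set G)) (heN : e ∈ normalizer (D : Set G)) {m : G}
    (hm : IsM D m) : m ∈ zD D := by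
  have hinv := H.it.inv
  have he1N : w * e * w⁻¹ ∈ normalizer (D : Set G) := mul_mem (mul_mem hwN heN) (inv_mem hwN)
  have h0 := fold_mem hG hD H hwN heN hm
  have h1 := fold_mem hG hD H.conj_self hwN he1N hm
  set e1 := w * e * w⁻¹ with he1
  set τ := w⁻¹ * w⁻¹ with hτ
  have hτe : τ = e * e1 := H.tau_eq.symm
  have hτN : τ ∈ normalizer (D : Set G) := mul_mem (inv_mem hwN) (inv_mem hwN)
  have hτo : orderOf τ = p := order_inv_sq H.prime H.ne_two H.ox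
  set ζ₀ := e * m * e⁻¹ * m with hζ0
  set ζ₁ := e1 * m * e1⁻¹ * m with hζ1
  have hmD := hm.mem
  -- `τ` acts trivially on `m` modulo the center
  have h2 : τ * m * τ⁻¹ = m * ((e * ζ₁ * e⁻¹) * ζ₀⁻¹) := by
    have h3 : e1 * m * e1⁻¹ = ζ₁ * m⁻¹ := by rw [hζ1]; group
    have h4 : e * m * e⁻¹ = ζ₀ * m⁻¹ := by rw [hζ0]; group
    have h5 : e * m⁻¹ * e⁻¹ = m * ζ₀⁻¹ := by
      calc e * m⁻¹ * e⁻¹ = (e * m * e⁻¹)⁻¹ := by group
        _ = m * ζ₀⁻¹ := by rw [h4]; group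
    have hc : (e * ζ₁ * e⁻¹) * m = m * (e * ζ₁ * e⁻¹) :=
      ((mem_zD.1 (zD_conj heN h1)).2 m hmD).symm
    calc τ * m * τ⁻¹ = e * (e1 * m * e1⁻¹) * e⁻¹ := by rw [hτe]; group
      _ = e * (ζ₁ * m⁻¹) * e⁻¹ := by rw [h3]
      _ = (e * ζ₁ * e⁻¹) * (e * m⁻¹ * e⁻¹) := by group
      _ = (e * ζ₁ * e⁻¹) * (m * ζ₀⁻¹) := by rw [h5]
      _ = ((e * ζ₁ * e⁻¹) * m) * ζ₀⁻¹ := by group
      _ = (m * (e * ζ₁ * e⁻¹)) * ζ₀⁻¹ := by rw [hc]
      _ = _ := by group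
  set ζ := (e * ζ₁ * e⁻¹) * ζ₀⁻¹ with hζ
  have hζZ : ζ ∈ zD D := (zD D).mul_mem (zD_conj heN h1) ((zD D).inv_mem h0)
  haveI : Finite (zD D) := inferInstance
  obtain ⟨a, ha, hab⟩ := coset_conj (E := zD D) (w := τ) (fun x hx => zD_conj hτN hx)
    (fun x hx hh => fix_trivial hG hD H.prime H.ne_two hτo (mem_zD.1 hx).1 hh) hζZ
  -- `m * a` is fixed by `τ`
  have h3 : τ * (m * a) * τ⁻¹ = m * a := by
    have h4 : τ * a * τ⁻¹ = ζ⁻¹ * a := by
      have h5 : a * τ * a⁻¹ = ζ * τ := hab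
      have h6 : τ = a⁻¹ * ζ * τ * a := by
        rw [mul_assoc a⁻¹, ← h5]; group
      have hτa : τ * a * τ⁻¹ ∈ zD D := zD_conj hτN ha
      have h7 : ζ = a * τ * a⁻¹ * τ⁻¹ := by rw [h5]; group
      have h8 : a * (τ * a⁻¹ * τ⁻¹) = ζ := by rw [h7]; group
      have h9 : τ * a⁻¹ * τ⁻¹ = a⁻¹ * ζ := by rw [← h8]; group
      calc τ * a * τ⁻¹ = (τ * a⁻¹ * τ⁻¹)⁻¹ := by group
        _ = (a⁻¹ * ζ)⁻¹ := by rw [h9]
        _ = ζ⁻¹ * a := by group
    calc τ * (m * a) * τ⁻¹ = (τ * m * τ⁻¹) * (τ * a * τ⁻¹) := by group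
      _ = m * ζ * (ζ⁻¹ * a) := by rw [h2, h4]
      _ = m * a := by group
  have h4 := fix_trivial hG hD H.prime H.ne_two hτo (D.mul_mem hmD (mem_zD.1 ha).1) h3
  have h5 : m = a⁻¹ := eq_inv_of_mul_eq_one_left h4
  rw [h5]
  exact (zD D).inv_mem ha

/-- **Lemma B**. -/
theorem lemmaB (hG : Sig G) (hD : IsPGroup 2 D) (H : RealE p w e)
    (hwN : w ∈ normalizer (D : Set G)) (heN : e ∈ normalizer (D : Set G)) :
    (∀ a ∈ D, ∀ b ∈ D, a * b = b * a) ∧ ∀ a ∈ D, a * a = 1 := by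
  haveI : Fact (Nat.Prime 2) := ⟨Nat.prime_two⟩
  have hall : ∀ a ∈ D, a ∈ zD D := by
    by_contra hcon
    push Not at hcon
    obtain ⟨a, haD, haZ⟩ := hcon
    -- the quotient of `D` by its center is a nontrivial 2-group
    let Q := (↥D) ⧸ center (↥D)
    have hQ : IsPGroup 2 Q := hD.to_quotient _
    haveI : Nontrivial Q := by
      refine ⟨⟨((⟨a, haD⟩ : D) : Q), 1, ?_⟩⟩
      intro hc
      apply haZ
      have h1 := (QuotientGroup.eq_one_iff _).1 hc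
      rw [mem_zD]
      refine ⟨haD, fun d hd => ?_⟩
      have h2 := (Subgroup.mem_center_iff.1 h1) ⟨d, hd⟩
      exact congrArg Subtype.val h2
    haveI := hQ.center_nontrivial
    obtain ⟨q, hq⟩ := exists_ne (1 : center Q)
    obtain ⟨m, hm⟩ := QuotientGroup.mk_surjective (q : Q)
    have hmM : IsM D (m : G) := by
      refine ⟨m.2, fun d hd => ?_⟩
      have h1 : ((m : Q) * ((⟨d, hd⟩ : D) : Q)) = ((⟨d, hd⟩ : D) : Q) * (m : Q) := by
        rw [hm]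
        exact ((Subgroup.mem_center_iff.1 q.2) _).symm
      have h2 : m * (⟨d, hd⟩ : D) * m⁻¹ * (⟨d, hd⟩ : D)⁻¹ ∈ center (↥D) := by
        rw [← QuotientGroup.eq_one_iff]
        simp only [QuotientGroup.mk_mul, QuotientGroup.mk_inv]
        rw [h1]; group
      rw [mem_zD]
      refine ⟨?_, fun b hb => ?_⟩
      · exact D.mul_mem (D.mul_mem (D.mul_mem m.2 hd) (D.inv_mem m.2)) (D.inv_mem hd)
      · have h3 := (Subgroup.mem_center_iff.1 h2) ⟨b, hb⟩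
        exact congrArg Subtype.val h3
    have hmZ := IsM_mem_zD hG hD H hwN heN hmM
    apply hq
    ext
    rw [← hm]
    refine (QuotientGroup.eq_one_iff _).2 ?_
    rw [Subgroup.mem_center_iff]
    intro b
    apply Subtype.ext
    exact (mem_zD.1 hmZ).2 _ b.2
  refine ⟨fun a ha b hb => zD_comm (hall a ha) (hall b hb), fun a ha => ?_⟩
  exact zD_elem hG hD H hwN heN (hall a ha)

end

end Cfsg.Agent.Lib.Spec5
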