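import Mathlib
import Cfsg.Agent.Lib.Spec5.LemmaB

/-!
# Actions on elementary abelian 2-groups
-/

set_option autoImplicit false

namespace Cfsg.Agent.Lib.Spec5

open Subgroup

universe u

section nid

variable {V : Type*} [CommGroup V] {r : ℕ} [hr : Fact r.Prime]

theorem pow_mod_of {M : Type*} [Monoid M] {φ : M} (h : φ ^ r = 1) (n : ℕ) : φ ^ (n % r) = φ ^ n := by
  conv_rhs => rw [← Nat.mod_add_div n r, pow_add, pow_mul, h, one_pow, mul_one]

/-- The norm of `φ`. -/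
noncomputable def nrm (r : ℕ) [Fact r.Prime] (φ : Monoid.End V) (v : V) : V :=
  ∏ i : ZMod r, (φ ^ i.val) v

theorem nrm_fixed {φ : Monoid.End V} (hφ : φ ^ r = 1) (v : V) : φ (nrm r φ v) = nrm r φ v := by
  unfold nrm
  rw [map_prod]
  have h1 : ∀ i : ZMod r, φ ((φ ^ i.val) v) = (φ ^ (i + 1).val) v := by
    intro i
    rw [ZMod.val_add, pow_mod_of hφ, ZMod.val_one, pow_succ']
    rfl
  simp_rw [h1]
  exact Fintype.prod_equiv (Equiv.addRight (1 : ZMod r)) _ _ (fun _ => rfl)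

theorem nrm_eq_one {φ : Monoid.End V} (hφ : φ ^ r = 1) (hf : ∀ v, φ v = v → v = 1) (v : V) :
    nrm r φ v = 1 := hf _ (nrm_fixed hφ v)

/-- **The N-identity.** -/
theorem nid (A B : Monoid.End V) (hAB : A * B = B * A) (hA : A ^ r = 1) (hB : B ^ r = 1)
    (fA : ∀ v, A v = v → v = 1) (fB : ∀ k : ℕ, ∀ v, (B * A ^ k) v = v → v = 1) (v : V) :
    v ^ r = 1 := by
  have hk : ∀ k : ZMod r, ∏ j : ZMod r, (B ^ j.val) ((A ^ (k * j).val) v) = 1 := by
    intro k
    have hc : Commute B (A ^ k.val) := (show Commute A B from hAB).pow_left _ |>.symm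
    have hpow : (B * A ^ k.val) ^ r = 1 := by
      rw [hc.mul_pow, hB, one_mul, ← pow_mul, mul_comm, pow_mul, hA, one_pow]
    have h1 := nrm_eq_one hpow (fB k.val) v
    unfold nrm at h1
    rw [← h1]
    refine Finset.prod_congr rfl (fun j _ => ?_)
    rw [hc.mul_pow, ZMod.val_mul, pow_mod_of hA, pow_mul]
    rfl
  have h2 : ∏ k : ZMod r, ∏ j : ZMod r, (B ^ j.val) ((A ^ (k * j).val) v) = 1 :=
    Finset.prod_eq_one (fun k _ => hk k)
  rw [Finset.prod_comm] at h2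
  rw [Finset.prod_eq_single (0 : ZMod r)] at h2
  · simp only [mul_zero, ZMod.val_zero, pow_zero] at h2
    rw [← h2]
    simp [Finset.card_univ, ZMod.card]
  · intro j _ hj
    rw [← map_prod]
    have h3 : ∏ k : ZMod r, (A ^ (k * j).val) v = nrm r A v := by
      unfold nrm
      haveI : Fact r.Prime := hr
      exact Fintype.prod_equiv (Equiv.mulRight₀ j hj) _ _ (fun _ => rfl)
    rw [h3, nrm_eq_one hA fA, map_one]
  · intro h0
    exact absurd (Finset.mem_univ _) h0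

end nid

variable {G : Type u} [Group G]

/-- Conjugation as an endomorphism of a subgroup. -/
def cjE (E : Subgroup G) (g : G) (hg : g ∈ normalizer (E : Set G)) : Monoid.End E where
  toFun a := ⟨g * a * g⁻¹, nm_conj hg a.2⟩
  map_one' := by
    ext
    show g * 1 * g⁻¹ = 1
    group
  map_mul' a b := by
    ext
    show g * ((a : G) * b) * g⁻¹ = (g * a * g⁻¹) * (g * b * g⁻¹)
    group

@[simp] theorem cjE_coe (E : Subgroup G) (g : G) (hg : g ∈ normalizer (E : Set G)) (a : E) :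
    ((cjE E g hg a : E) : G) = g * a * g⁻¹ := rfl

theorem cjE_mul (E : Subgroup G) {g h : G} (hg : g ∈ normalizer (E : Set G))
    (hh : h ∈ normalizer (E : Set G)) :
    cjE E (g * h) (mul_mem hg hh) = cjE E g hg * cjE E h hh := by
  ext a
  show (g * h) * (a : G) * (g * h)⁻¹ = g * (h * a * h⁻¹) * g⁻¹
  group

theorem cjE_pow (E : Subgroup G) {g : G} (hg : g ∈ normalizer (E : Set G)) (n : ℕ) :
    cjE E (g ^ n) (pow_mem hg n) = cjE E g hg ^ n := by
  induction n with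
  | zero =>
    ext a
    show (g ^ 0) * (a : G) * (g ^ 0)⁻¹ = a
    simp
  | succ n ih =>
    have : cjE E (g ^ (n + 1)) (pow_mem hg (n + 1)) = cjE E (g ^ n) (pow_mem hg n) * cjE E g hg := by
      ext a
      show (g ^ (n + 1)) * (a : G) * (g ^ (n + 1))⁻¹ = g ^ n * (g * a * g⁻¹) * (g ^ n)⁻¹
      rw [pow_succ]
      group
    rw [this, ih, pow_succ]

/-- Elementary abelian subgroup. -/
structure EA (E : Subgroup G) : Prop where
  comm : ∀ a ∈ E, ∀ b ∈ E, a * b = b * a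
  sq : ∀ a ∈ E, a * a = 1

theorem EA.conj {E : Subgroup G} (h : EA E) {g : G} (hg : g ∈ normalizer (E : Set G)) {a : G}
    (ha : a ∈ E) : g * a * g⁻¹ ∈ E := nm_conj hg ha

variable [Finite G]

/-- No noncyclic elementary abelian odd section acts fixed point freely: the group version.
`a,b` act on the abelian 2-group `E`. -/
theorem no_pp {E : Subgroup G} (hG : Sig G) (hE : IsPGroup 2 E) (hc : ∀ x ∈ E, ∀ y ∈ E, x * y = y * x)
    {r : ℕ} (hr : r.Prime) (hr2 : r ≠ 2) {a b : G} (haN : a ∈ normalizer (E : Set G))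
    (hbN : b ∈ normalizer (E : Set G))
    (hab : ∀ x ∈ E, (a * b) * x * (a * b)⁻¹ = (b * a) * x * (b * a)⁻¹)
    (ha : orderOf a = r) (hb : orderOf b = r)
    (hk : ∀ k : ℕ, orderOf (b * a ^ k) = r) : E = ⊥ := by
  classical
  haveI : Fact r.Prime := ⟨hr⟩
  letI : CommGroup E := { (inferInstance : Group E) with
    mul_comm := fun x y => Subtype.ext (hc x x.2 y y.2) }
  have h1 : ∀ v : E, v ^ r = 1 := by
    refine nid (cjE E a haN) (cjE E b hbN) ?_ ?_ ?_ ?_ ?_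
    · ext x
      show a * (b * (x : G) * b⁻¹) * a⁻¹ = b * (a * (x : G) * a⁻¹) * b⁻¹
      have := hab x x.2
      calc a * (b * (x : G) * b⁻¹) * a⁻¹ = a * b * (x : G) * (a * b)⁻¹ := by group
        _ = b * a * (x : G) * (b * a)⁻¹ := this
        _ = _ := by group
    · rw [← cjE_pow]
      ext x
      show a ^ r * (x : G) * (a ^ r)⁻¹ = x
      rw [← ha, pow_orderOf_eq_one]; simp
    · rw [← cjE_pow]
      ext x
      show b ^ r * (x : G) * (b ^ r)⁻¹ = x
      rw [← hb, pow_orderOf_eq_one]; simp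
    · intro v hv
      have := congrArg Subtype.val hv
      exact Subtype.ext (fix_trivial hG hE hr hr2 ha v.2 this)
    · intro k v hv
      rw [← cjE_pow, ← cjE_mul] at hv
      have := congrArg Subtype.val hv
      exact Subtype.ext (fix_trivial hG hE hr hr2 (hk k) v.2 this)
  rw [eq_bot_iff]
  intro x hx
  obtain ⟨k, hk'⟩ := hE ⟨x, hx⟩
  have h2 := h1 ⟨x, hx⟩
  have h3 : (⟨x, hx⟩ : E) = 1 := by
    have hcop : Nat.Coprime (2 ^ k) r :=
      Nat.Coprime.pow_left k ((Nat.coprime_primes Nat.prime_two hr).2 (Ne.symm hr2))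
    have d1 := orderOf_dvd_of_pow_eq_one hk'
    have d2 := orderOf_dvd_of_pow_eq_one h2
    have d3 : orderOf (⟨x, hx⟩ : E) ∣ 1 := by
      rw [← Nat.Coprime.gcd_eq_one hcop]
      exact Nat.dvd_gcd d1 d2
    exact orderOf_eq_one_iff.1 (Nat.dvd_one.1 d3)
  have := congrArg Subtype.val h3
  simpa using this

section norm

variable {E : Subgroup G} {w : G}

theorem norm3 (hG : Sig G) (hE : IsPGroup 2 E) (hc : ∀ x ∈ E, ∀ y ∈ E, x * y = y * x)
    (hwN : w ∈ normalizer (E : Set G)) (hw : orderOf w = 3) {v : G} (hv : v ∈ E) :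
    v * (w * v * w⁻¹) * (w⁻¹ * v * w) = 1 := by
  have hw3 : w ^ 3 = 1 := by rw [← hw]; exact pow_orderOf_eq_one w
  have h3 : w * w * w = 1 := by rw [← hw3]; simp only [pow_succ, pow_zero, one_mul]
  have h4 : w⁻¹ * w⁻¹ = w := by
    calc w⁻¹ * w⁻¹ = w⁻¹ * w⁻¹ * (w * w * w) := by rw [h3, mul_one]
      _ = w := by group
  have h5 : w * w = w⁻¹ := by
    rw [eq_inv_iff_mul_eq_one]; exact h3
  have hwv : w * v * w⁻¹ ∈ E := nm_conj hwN hv
  have hwv' : w⁻¹ * v * w ∈ E := nm_conj_inv hwN hv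
  refine fix_trivial hG hE (by norm_num) (by norm_num) hw
    (E.mul_mem (E.mul_mem hv hwv) hwv') ?_
  have h1 : w * (w * v * w⁻¹) * w⁻¹ = w⁻¹ * v * w := by
    calc w * (w * v * w⁻¹) * w⁻¹ = (w * w) * v * (w⁻¹ * w⁻¹) := by group
      _ = w⁻¹ * v * w := by rw [h5, h4]
  calc w * (v * (w * v * w⁻¹) * (w⁻¹ * v * w)) * w⁻¹
      = (w * v * w⁻¹) * (w * (w * v * w⁻¹) * w⁻¹) * v := by group
    _ = (w * v * w⁻¹) * (w⁻¹ * v * w) * v := by rw [h1]
    _ = v * ((w * v * w⁻¹) * (w⁻¹ * v * w)) := hc _ (E.mul_mem hwv hwv') _ hv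
    _ = _ := by group

theorem norm5 (hG : Sig G) (hE : IsPGroup 2 E) (hc : ∀ x ∈ E, ∀ y ∈ E, x * y = y * x)
    (hwN : w ∈ normalizer (E : Set G)) (hw : orderOf w = 5) {v : G} (hv : v ∈ E) :
    v * (w * v * w⁻¹) * (w * w * v * (w * w)⁻¹) * ((w * w)⁻¹ * v * (w * w)) * (w⁻¹ * v * w) = 1 := by
  have hw5 : w ^ 5 = 1 := by rw [← hw]; exact pow_orderOf_eq_one w
  have h5 : w * w * w * w * w = 1 := by rw [← hw5]; simp only [pow_succ, pow_zero, one_mul]
  have hw2N : w * w ∈ normalizer (E : Set G) := mul_mem hwN hwN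
  have e1 : w * v * w⁻¹ ∈ E := nm_conj hwN hv
  have e2 : w * w * v * (w * w)⁻¹ ∈ E := nm_conj hw2N hv
  have e3 : (w * w)⁻¹ * v * (w * w) ∈ E := nm_conj_inv hw2N hv
  have e4 : w⁻¹ * v * w ∈ E := nm_conj_inv hwN hv
  refine fix_trivial hG hE (by norm_num) (by norm_num) hw
    (E.mul_mem (E.mul_mem (E.mul_mem (E.mul_mem hv e1) e2) e3) e4) ?_
  have inv2 : (w * w)⁻¹ = w * w * w := by
    rw [inv_eq_iff_mul_eq_one]; rw [← h5]; simp only [mul_assoc]
  have c1 : w * (w * v * w⁻¹) * w⁻¹ = w * w * v * (w * w)⁻¹ := by group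
  have c2 : w * (w * w * v * (w * w)⁻¹) * w⁻¹ = (w * w)⁻¹ * v * (w * w) := by
    calc w * (w * w * v * (w * w)⁻¹) * w⁻¹ = (w * w * w) * v * (w * w * w)⁻¹ := by group
      _ = (w * w)⁻¹ * v * (w * w) := by rw [← inv2, inv_inv]
  have c3 : w * ((w * w)⁻¹ * v * (w * w)) * w⁻¹ = w⁻¹ * v * w := by group
  have c4 : w * (w⁻¹ * v * w) * w⁻¹ = v := by group
  set a1 := w * v * w⁻¹
  set a2 := w * w * v * (w * w)⁻¹
  set a3 := (w * w)⁻¹ * v * (w * w)
  set a4 := w⁻¹ * v * w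
  calc w * (v * a1 * a2 * a3 * a4) * w⁻¹
      = (w * v * w⁻¹) * (w * a1 * w⁻¹) * (w * a2 * w⁻¹) * (w * a3 * w⁻¹) * (w * a4 * w⁻¹) := by group
    _ = a1 * a2 * a3 * a4 * v := by rw [c1, c2, c3, c4]
    _ = v * (a1 * a2 * a3 * a4) := hc _ (E.mul_mem (E.mul_mem (E.mul_mem e1 e2) e3) e4) _ hv
    _ = _ := by simp only [mul_assoc]

end norm

section fold

variable {E : Subgroup G} {p : ℕ} {w e : G}

theorem fold_surj (hG : Sig G) (hE : IsPGroup 2 E) (hEA : EA E) (H : RealE p w e)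
    (hwN : w ∈ normalizer (E : Set G)) (heN : e ∈ normalizer (E : Set G)) {v : G} (hv : v ∈ E)
    (hfix : e * v * e⁻¹ = v) : ∃ b ∈ E, b * (e * b * e⁻¹) = v := by
  have hinv := H.it.inv
  have k1 : e * w = w⁻¹ * e := by rw [← H.inv]; group
  have hvinv : v⁻¹ = v := inv_eq_of_mul_eq_one_left (hEA.sq v hv)
  rcases H.hp with rfl | rfl
  · have hn := norm3 hG hE hEA.comm hwN H.ox hv
    refine ⟨w * v * w⁻¹, nm_conj hwN hv, ?_⟩
    have h1 : e * (w * v * w⁻¹) * e⁻¹ = w⁻¹ * v * w := by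
      have h2 : e * (w * v * w⁻¹) * e⁻¹ = (e * w * e⁻¹) * (e * v * e⁻¹) * (e * w * e⁻¹)⁻¹ := by group
      rw [h2, H.inv, hfix]; group
    rw [h1]
    have h3 : v * ((w * v * w⁻¹) * (w⁻¹ * v * w)) = 1 := by rw [← hn]; group
    have h4 := eq_inv_of_mul_eq_one_right h3
    rw [h4, hvinv]
  · have hn := norm5 hG hE hEA.comm hwN H.ox hv
    have hw2N : w * w ∈ normalizer (E : Set G) := mul_mem hwN hwN
    have e1 : w * v * w⁻¹ ∈ E := nm_conj hwN hv
    have e2 : w * w * v * (w * w)⁻¹ ∈ E := nm_conj hw2N hv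
    have e3 : (w * w)⁻¹ * v * (w * w) ∈ E := nm_conj_inv hw2N hv
    have e4 : w⁻¹ * v * w ∈ E := nm_conj_inv hwN hv
    refine ⟨(w * v * w⁻¹) * (w * w * v * (w * w)⁻¹), E.mul_mem e1 e2, ?_⟩
    have h1 : e * (w * v * w⁻¹) * e⁻¹ = w⁻¹ * v * w := by
      have h2 : e * (w * v * w⁻¹) * e⁻¹ = (e * w * e⁻¹) * (e * v * e⁻¹) * (e * w * e⁻¹)⁻¹ := by group
      rw [h2, H.inv, hfix]; group
    have h1' : e * (w * w * v * (w * w)⁻¹) * e⁻¹ = (w * w)⁻¹ * v * (w * w) := by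
      have h2 : e * (w * w * v * (w * w)⁻¹) * e⁻¹
          = ((e * w * e⁻¹) * (e * w * e⁻¹)) * (e * v * e⁻¹) * ((e * w * e⁻¹) * (e * w * e⁻¹))⁻¹ := by
        group
      rw [h2, H.inv, hfix]
      simp only [mul_inv_rev, inv_inv]
    have h2 : e * ((w * v * w⁻¹) * (w * w * v * (w * w)⁻¹)) * e⁻¹
        = (w⁻¹ * v * w) * ((w * w)⁻¹ * v * (w * w)) := by
      rw [← h1, ← h1']; group
    rw [h2]
    set a1 := w * v * w⁻¹
    set a2 := w * w * v * (w * w)⁻¹
    set a3 := (w * w)⁻¹ * v * (w * w)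
    set a4 := w⁻¹ * v * w
    have h3 : v * (a1 * a2 * (a4 * a3)) = 1 := by
      rw [← hn, hEA.comm a4 e4 a3 e3]; simp only [mul_assoc]
    have h4 := eq_inv_of_mul_eq_one_right h3
    rw [hvinv] at h4
    exact h4

/-- The fixed points of `e` on `E`. -/
def fixE (E : Subgroup G) (e : G) : Subgroup G := E ⊓ cen e

theorem mem_fixE {a : G} : a ∈ fixE E e ↔ a ∈ E ∧ a * e = e * a := by
  rw [fixE, Subgroup.mem_inf, mem_cen]

theorem mem_fixE' {a : G} : a ∈ fixE E e ↔ a ∈ E ∧ e * a * e⁻¹ = a := by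
  rw [mem_fixE]
  constructor
  · rintro ⟨h1, h2⟩
    exact ⟨h1, by rw [← h2]; group⟩
  · rintro ⟨h1, h2⟩
    refine ⟨h1, ?_⟩
    calc a * e = (e * a * e⁻¹) * e := by rw [h2]
      _ = e * a := by group

/-- `|C_E(e)|² = |E|`. -/
theorem card_fix_sq (hG : Sig G) (hE : IsPGroup 2 E) (hEA : EA E) (H : RealE p w e)
    (hwN : w ∈ normalizer (E : Set G)) (heN : e ∈ normalizer (E : Set G)) :
    Nat.card (fixE E e) * Nat.card (fixE E e) = Nat.card E := by
  classical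
  let δ : E →* E := MonoidHom.mk' (fun a : E => ⟨(a : G) * (e * a * e⁻¹), E.mul_mem a.2 (nm_conj heN a.2)⟩)
    (by
      intro a b
      apply Subtype.ext
      show (a * b : G) * (e * (a * b) * e⁻¹) = ((a : G) * (e * a * e⁻¹)) * ((b : G) * (e * b * e⁻¹))
      have h1 := hEA.comm _ (nm_conj heN a.2) _ b.2
      calc (a * b : G) * (e * (a * b) * e⁻¹) = (a : G) * ((b : G) * (e * a * e⁻¹)) * (e * b * e⁻¹) := by
            group
        _ = (a : G) * ((e * a * e⁻¹) * (b : G)) * (e * b * e⁻¹) := by rw [h1]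
        _ = _ := by group)
  have hker : ∀ a : E, a ∈ δ.ker ↔ (a : G) ∈ fixE E e := by
    intro a
    rw [MonoidHom.mem_ker, mem_fixE']
    constructor
    · intro h
      have h1 : (a : G) * (e * a * e⁻¹) = 1 := congrArg Subtype.val h
      refine ⟨a.2, ?_⟩
      have h2 := eq_inv_of_mul_eq_one_right h1
      rw [h2]
      exact inv_eq_of_mul_eq_one_left (hEA.sq _ a.2)
    · rintro ⟨_, h2⟩
      apply Subtype.ext
      show (a : G) * (e * a * e⁻¹) = 1
      rw [h2]; exact hEA.sq _ a.2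
  have hrange : ∀ a : E, a ∈ δ.range ↔ (a : G) ∈ fixE E e := by
    intro a
    rw [MonoidHom.mem_range, mem_fixE']
    constructor
    · rintro ⟨b, hb⟩
      refine ⟨a.2, ?_⟩
      have h1 : (b : G) * (e * b * e⁻¹) = a := congrArg Subtype.val hb
      rw [← h1]
      have h2 : e * (e * (b : G) * e⁻¹) * e⁻¹ = b := by
        have h3 := H.it.inv
        rw [h3]
        calc e * (e * (b : G) * e) * e = (e * e) * b * (e * e) := by group
          _ = b := by rw [H.it.sq]; group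
      calc e * ((b : G) * (e * b * e⁻¹)) * e⁻¹ = (e * b * e⁻¹) * (e * (e * b * e⁻¹) * e⁻¹) := by group
        _ = (e * b * e⁻¹) * b := by rw [h2]
        _ = (b : G) * (e * b * e⁻¹) := hEA.comm _ (nm_conj heN b.2) _ b.2
    · rintro ⟨_, h2⟩
      obtain ⟨b, hb, hbv⟩ := fold_surj hG hE hEA H hwN heN a.2 h2
      exact ⟨⟨b, hb⟩, Subtype.ext hbv⟩
  have e1 : Nat.card δ.ker = Nat.card (fixE E e) := by
    refine Nat.card_congr ⟨fun a => ⟨a.1, (hker a.1).1 a.2⟩,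
      fun a => ⟨⟨a.1, (mem_fixE'.1 a.2).1⟩, (hker _).2 a.2⟩, fun _ => rfl, fun _ => rfl⟩
  have e2 : Nat.card δ.range = Nat.card (fixE E e) := by
    refine Nat.card_congr ⟨fun a => ⟨a.1.1, (hrange a.1).1 a.2⟩,
      fun a => ⟨⟨a.1, (mem_fixE'.1 a.2).1⟩, (hrange _).2 a.2⟩, fun _ => rfl, fun _ => rfl⟩
  have h3 := Subgroup.card_mul_index δ.ker
  rw [Subgroup.index_ker, e1, e2] at h3
  exact h3

end fold

end Cfsg.Agent.Lib.Spec5
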