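import Mathlib
import Cfsg.Agent.Lib.Spec5.ModuleE

/-!
# Counting involutions in `Sig` groups
-/

set_option autoImplicit false

namespace Cfsg.Agent.Lib.Spec5

open Subgroup Finset

universe u

open Classical

section gen

/-- Orbit counting with a subgroup as point stabilizer. -/
theorem image_card_mul {A β : Type*} [Group A] [Fintype A] (S : Subgroup A) (f : A → β)
    (hf : ∀ a b, f a = f b ↔ a⁻¹ * b ∈ S) :
    (univ.image f).card * Nat.card S = Fintype.card A := by
  have h1 := Finset.card_eq_sum_card_image f (univ : Finset A)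
  rw [Finset.card_univ] at h1
  have hfib : ∀ b ∈ univ.image f, (univ.filter (fun a => f a = b)).card = Nat.card S := by
    intro b hb
    obtain ⟨a₀, _, rfl⟩ := Finset.mem_image.1 hb
    rw [Nat.card_eq_fintype_card, Fintype.card_subtype]
    symm
    refine Finset.card_bij (fun x _ => a₀ * x) ?_ ?_ ?_
    · intro x hx
      simp only [Finset.mem_filter, Finset.mem_univ, true_and] at hx ⊢
      apply ((hf _ _).2 _).symm
      simpa using hx
    · intro x _ y _ hxy
      exact mul_left_cancel hxy
    · intro y hy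
      simp only [Finset.mem_filter, Finset.mem_univ, true_and] at hy
      refine ⟨a₀⁻¹ * y, ?_, by group⟩
      simp only [Finset.mem_filter, Finset.mem_univ, true_and]
      exact (hf _ _).1 hy.symm
  rw [h1, Finset.sum_congr rfl hfib, Finset.sum_const, smul_eq_mul]

end gen

variable {G : Type u} [Group G] [Fintype G]

/-- The involutions. -/
noncomputable def Iset (G : Type u) [Group G] [Fintype G] : Finset G := univ.filter (fun t => Inv2 t)

/-- Elements of order `p` inverted by `t`. -/
noncomputable def Delta (p : ℕ) (t : G) : Finset G :=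
  univ.filter (fun x => orderOf x = p ∧ t * x * t⁻¹ = x⁻¹)

/-- Involutions with `2`-power product with `t`. -/
noncomputable def I0 (t : G) : Finset G := univ.filter (fun u => Inv2 u ∧ (t * u) ^ 4 = 1)

/-- Elements of order `p`. -/
noncomputable def Oset (G : Type u) [Group G] [Fintype G] (p : ℕ) : Finset G :=
  univ.filter (fun x => orderOf x = p)

theorem mem_Iset {t : G} : t ∈ Iset G ↔ Inv2 t := by simp [Iset]

theorem mem_Delta {p : ℕ} {t x : G} : x ∈ Delta p t ↔ orderOf x = p ∧ t * x * t⁻¹ = x⁻¹ := by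
  simp [Delta]

theorem mem_I0 {t u : G} : u ∈ I0 t ↔ Inv2 u ∧ (t * u) ^ 4 = 1 := by simp [I0]

theorem mem_Oset {p : ℕ} {x : G} : x ∈ Oset G p ↔ orderOf x = p := by simp [Oset]

theorem card_bij_odd {p : ℕ} (hp4 : ¬ p ∣ 4) (hp2 : p ≠ 2) {t : G} (ht : Inv2 t) :
    ((Iset G).filter (fun u => orderOf (t * u) = p)).card = (Delta p t).card := by
  refine Finset.card_bij (fun u _ => t * u) ?_ ?_ ?_
  · intro u hu
    simp only [Finset.mem_filter] at hu
    rw [mem_Delta]
    refine ⟨hu.2, ?_⟩
    have hu' := mem_Iset.1 hu.1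
    have h1 := ht.inv
    have h2 := hu'.inv
    rw [h1, mul_inv_rev, h1, h2]
    calc t * (t * u) * t = (t * t) * u * t := by group
      _ = u * t := by rw [ht.sq]; group
  · intro a _ b _ h
    exact mul_left_cancel h
  · intro x hx
    rw [mem_Delta] at hx
    have h1 := ht.inv
    refine ⟨t * x, ?_, ?_⟩
    · simp only [Finset.mem_filter]
      have h3 : t * (t * x) = x := by rw [← mul_assoc, ht.sq, one_mul]
      rw [mem_Iset, h3]
      refine ⟨⟨?_, ?_⟩, hx.1⟩
      · calc t * x * (t * x) = (t * x * t⁻¹) * (t * t) * x := by group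
          _ = 1 := by rw [hx.2, ht.sq]; group
      · intro hc
        have h4 : x = t := by
          have : t * (t * x) = t * 1 := by rw [hc]
          rw [h3, mul_one] at this
          exact this
        have h5 := hx.1
        rw [h4, ht.orderOf] at h5
        exact hp2 h5.symm
    · rw [← mul_assoc, ht.sq, one_mul]

/-- The partition of the involutions according to the order of the product with `t`. -/
theorem partition (hG : Sig G) {t : G} (ht : Inv2 t) :
    (Iset G).card = (I0 t).card + (Delta 3 t).card + (Delta 5 t).card := by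
  rw [← card_bij_odd (p := 3) (by norm_num) (by norm_num) ht,
    ← card_bij_odd (p := 5) (by norm_num) (by norm_num) ht]
  have h1 := Finset.card_filter_add_card_filter_not (s := Iset G) (fun u => (t * u) ^ 4 = 1)
  have h2 : (Iset G).filter (fun u => (t * u) ^ 4 = 1) = I0 t := by
    ext u; simp [mem_I0, mem_Iset]
  rw [h2] at h1
  have h3 := Finset.card_filter_add_card_filter_not
    (s := (Iset G).filter (fun u => ¬ (t * u) ^ 4 = 1)) (fun u => orderOf (t * u) = 3)
  have h4 : ((Iset G).filter (fun u => ¬ (t * u) ^ 4 = 1)).filter (fun u => orderOf (t * u) = 3)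
      = (Iset G).filter (fun u => orderOf (t * u) = 3) := by
    ext u
    simp only [Finset.mem_filter]
    constructor
    · rintro ⟨⟨h5, _⟩, h7⟩; exact ⟨h5, h7⟩
    · rintro ⟨h5, h7⟩
      refine ⟨⟨h5, fun h8 => ?_⟩, h7⟩
      have := orderOf_dvd_of_pow_eq_one h8
      rw [h7] at this
      omega
  have h5 : ((Iset G).filter (fun u => ¬ (t * u) ^ 4 = 1)).filter (fun u => ¬ orderOf (t * u) = 3)
      = (Iset G).filter (fun u => orderOf (t * u) = 5) := by
    ext u
    simp only [Finset.mem_filter]
    constructor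
    · rintro ⟨⟨h5, h6⟩, h7⟩
      refine ⟨h5, ?_⟩
      rcases hG.cases (t * u) with h8 | h8 | h8 | h8 | h8
      · exfalso; apply h6; rw [orderOf_dvd_iff_pow_eq_one.symm, h8]; norm_num
      · exfalso; apply h6; rw [orderOf_dvd_iff_pow_eq_one.symm, h8]; norm_num
      · exact absurd h8 h7
      · exfalso; apply h6; rw [orderOf_dvd_iff_pow_eq_one.symm, h8]
      · exact h8
    · rintro ⟨h5, h7⟩
      refine ⟨⟨h5, fun h8 => ?_⟩, by omega⟩
      have := orderOf_dvd_of_pow_eq_one h8
      rw [h7] at this
      omega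
  rw [h4, h5] at h3
  omega

theorem Delta_conj (p : ℕ) (g t : G) : (Delta p (g * t * g⁻¹)).card = (Delta p t).card := by
  symm
  refine Finset.card_bij (fun x _ => g * x * g⁻¹) ?_ ?_ ?_
  · intro x hx
    rw [mem_Delta] at hx ⊢
    refine ⟨by rw [orderOf_conj']; exact hx.1, ?_⟩
    calc g * t * g⁻¹ * (g * x * g⁻¹) * (g * t * g⁻¹)⁻¹ = g * (t * x * t⁻¹) * g⁻¹ := by group
      _ = (g * x * g⁻¹)⁻¹ := by rw [hx.2]; group
  · intro a _ b _ h
    have : a = g⁻¹ * (g * a * g⁻¹) * g := by group
    rw [this]
    have h' : g * a * g⁻¹ = g * b * g⁻¹ := h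
    rw [h']; group
  · intro y hy
    rw [mem_Delta] at hy
    refine ⟨g⁻¹ * y * g, ?_, by group⟩
    rw [mem_Delta]
    refine ⟨?_, ?_⟩
    · have := orderOf_conj' g⁻¹ y
      rw [inv_inv] at this
      rw [this]; exact hy.1
    · have h1 : t * (g⁻¹ * y * g) * t⁻¹ = g⁻¹ * ((g * t * g⁻¹) * y * (g * t * g⁻¹)⁻¹) * g := by group
      rw [h1, hy.2]; group

omit [Fintype G] in
theorem cen_conj_mem {x y n : G} : y ∈ cen x ↔ n * y * n⁻¹ ∈ cen (n * x * n⁻¹) := by
  rw [mem_cen, mem_cen]
  constructor
  · intro h
    calc n * y * n⁻¹ * (n * x * n⁻¹) = n * (y * x) * n⁻¹ := by group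
      _ = n * (x * y) * n⁻¹ := by rw [h]
      _ = _ := by group
  · intro h
    have h1 : n * (y * x) * n⁻¹ = n * (x * y) * n⁻¹ := by
      calc n * (y * x) * n⁻¹ = n * y * n⁻¹ * (n * x * n⁻¹) := by group
        _ = (n * x * n⁻¹) * (n * y * n⁻¹) := h
        _ = _ := by group
    have h2 := mul_right_cancel h1
    exact mul_left_cancel h2

omit [Fintype G] in
theorem card_cen_conj (g x : G) : Nat.card (cen (g * x * g⁻¹)) = Nat.card (cen x) := by
  symm
  refine Nat.card_congr ⟨fun a => ⟨g * a * g⁻¹, cen_conj_mem.1 a.2⟩,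
    fun a => ⟨g⁻¹ * a * g, ?_⟩, ?_, ?_⟩
  · have h := (cen_conj_mem (x := x) (y := g⁻¹ * a * g) (n := g)).2
    apply h
    have : g * (g⁻¹ * (a : G) * g) * g⁻¹ = a := by group
    rw [this]; exact a.2
  · intro a; ext; simp only; group
  · intro a; ext; simp only; group

section real

variable {p : ℕ} {x t : G}

/-- Number of involutions inverting a given real element. -/
theorem inv_count (hG : Sig G) (H : RealE p x t) :
    ((Iset G).filter (fun u => u * x * u⁻¹ = x⁻¹)).card = Nat.card (cen x) := by
  symm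
  rw [Nat.card_eq_fintype_card, Fintype.card_subtype]
  refine Finset.card_bij (fun r _ => t * r) ?_ ?_ ?_
  · intro r hr
    simp only [Finset.mem_filter, Finset.mem_univ, true_and] at hr
    obtain ⟨h1, h2⟩ := H.mul_invol hG hr
    simp only [Finset.mem_filter]
    exact ⟨mem_Iset.2 h1, h2⟩
  · intro a _ b _ h
    exact mul_left_cancel h
  · intro u hu
    simp only [Finset.mem_filter] at hu
    refine ⟨t * u, ?_, ?_⟩
    · simp only [Finset.mem_filter, Finset.mem_univ, true_and]
      exact H.form hu.2
    · rw [← mul_assoc, H.it.sq, one_mul]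

/-- All elements of order `p` are conjugate into the centralizer. -/
theorem exists_conj_into (hG : Sig G) (H : RealE p x t) {y : G} (hy : orderOf y = p) :
    ∃ g r, r ∈ cen x ∧ r ≠ 1 ∧ y = g * r * g⁻¹ := by
  haveI : Fact p.Prime := ⟨H.prime⟩
  obtain ⟨S, hS⟩ := H.exists_sylow hG
  have hz : IsPGroup p (zpowers y) := by
    apply IsPGroup.of_card (n := 1)
    rw [Nat.card_zpowers, hy, pow_one]
  obtain ⟨Q, hQ⟩ := hz.exists_le_sylow
  obtain ⟨g, hg⟩ := sylow_conj S Q
  have hyQ : y ∈ (Q : Subgroup G) := hQ (mem_zpowers y)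
  have h1 : g⁻¹ * y * g ∈ (S : Subgroup G) := by
    rw [hg]
    have : g * (g⁻¹ * y * g) * g⁻¹ = y := by group
    rwa [this]
  rw [hS] at h1
  refine ⟨g, g⁻¹ * y * g, h1, ?_, by group⟩
  intro hc
  have h2 : y = 1 := by
    have : y = g * (g⁻¹ * y * g) * g⁻¹ := by group
    rw [this, hc]; group
  rw [h2, orderOf_one] at hy
  have := H.prime.one_lt
  omega

/-- Every element of order `p` is real. -/
theorem real_of_order (hG : Sig G) (H : RealE p x t) {y : G} (hy : orderOf y = p) :
    ∃ u, RealE p y u ∧ Nat.card (cen y) = Nat.card (cen x) := by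
  obtain ⟨g, r, hr, hr1, rfl⟩ := exists_conj_into hG H hy
  refine ⟨g * t * g⁻¹, (H.of_mem hG hr hr1).conj g, ?_⟩
  rw [card_cen_conj, H.cen_eq hG hr hr1]

/-- Double count. -/
theorem sum_Delta (hG : Sig G) (H : RealE p x t) :
    ∑ u ∈ Iset G, (Delta p u).card = (Oset G p).card * Nat.card (cen x) := by
  have h1 := Finset.sum_card_bipartiteAbove_eq_sum_card_bipartiteBelow
    (s := Iset G) (t := Oset G p) (fun (u y : G) => u * y * u⁻¹ = y⁻¹)
  have h2 : ∀ u ∈ Iset G, (Finset.bipartiteAbove (fun (u y : G) => u * y * u⁻¹ = y⁻¹) (Oset G p) u).card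
      = (Delta p u).card := by
    intro u _
    congr 1
    ext y
    simp [Finset.bipartiteAbove, mem_Oset, mem_Delta]
  have h3 : ∀ y ∈ Oset G p, (Finset.bipartiteBelow (fun (u y : G) => u * y * u⁻¹ = y⁻¹) (Iset G) y).card
      = Nat.card (cen x) := by
    intro y hy
    rw [mem_Oset] at hy
    obtain ⟨u, hu, hc⟩ := real_of_order hG H hy
    rw [← hc, ← inv_count hG hu]
    rfl
  rw [Finset.sum_congr rfl h2] at h1
  rw [h1, Finset.sum_congr rfl h3, Finset.sum_const, smul_eq_mul]

/-- Number of elements of order `p`. -/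
theorem Oset_count (hG : Sig G) (H : RealE p x t) :
    (Oset G p).card * Nat.card (normalizer (cen x : Set G))
      = Fintype.card G * (Nat.card (cen x) - 1) := by
  haveI : Fact p.Prime := ⟨H.prime⟩
  have hx1 : x ≠ 1 := by
    rintro rfl
    have h2 := H.ox
    rw [orderOf_one] at h2
    have := H.prime.one_lt
    omega
  have hconj1 : ∀ g : G, g * x * g⁻¹ ≠ 1 := by
    intro g hc
    apply hx1
    have : x = g⁻¹ * (g * x * g⁻¹) * g := by group
    rw [this, hc]; group
  -- first: number of conjugates of the Sylow subgroup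
  have h1 := image_card_mul (normalizer (cen x : Set G)) (fun g : G => cen (g * x * g⁻¹)) (by
    intro a b
    constructor
    · intro hab
      rw [mem_normalizer_iff]
      intro y
      -- `n = a⁻¹ * b`
      have hAB : ∀ z, z ∈ cen (a * x * a⁻¹) ↔ z ∈ cen (b * x * b⁻¹) := by
        intro z; rw [hab]
      have hb : (a⁻¹ * b) * x * (a⁻¹ * b)⁻¹ ∈ cen x := by
        have h2 : b * x * b⁻¹ ∈ cen (a * x * a⁻¹) := by
          rw [hab]; exact self_mem_cen _
        have h3 := (cen_conj_mem (x := x) (y := (a⁻¹ * b) * x * (a⁻¹ * b)⁻¹) (n := a)).2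
        apply h3
        have : a * ((a⁻¹ * b) * x * (a⁻¹ * b)⁻¹) * a⁻¹ = b * x * b⁻¹ := by group
        rwa [this]
      have hb1 : (a⁻¹ * b) * x * (a⁻¹ * b)⁻¹ ≠ 1 := hconj1 _
      have hcc := H.cen_eq hG hb hb1
      constructor
      · intro hy
        rw [← hcc]
        exact cen_conj_mem.1 hy
      · intro hy
        rw [← hcc] at hy
        exact cen_conj_mem.2 hy
    · intro hn
      set n := a⁻¹ * b with hndef
      have hb : b = a * n := by rw [hndef]; group
      have h2 : n * x * n⁻¹ ∈ cen x := nm_conj hn (self_mem_cen x)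
      have hcc := H.cen_eq hG h2 (hconj1 n)
      ext z
      rw [hb]
      constructor
      · intro hz
        have h3 := (cen_conj_mem (x := x) (y := a⁻¹ * z * a) (n := a)).2 (by
          have : a * (a⁻¹ * z * a) * a⁻¹ = z := by group
          rwa [this])
        rw [← hcc] at h3
        have h4 := (cen_conj_mem (n := a)).1 h3
        have e1 : a * (a⁻¹ * z * a) * a⁻¹ = z := by group
        have e2 : a * (n * x * n⁻¹) * a⁻¹ = a * n * x * (a * n)⁻¹ := by group
        rwa [e1, e2] at h4
      · intro hz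
        have e2 : a * n * x * (a * n)⁻¹ = a * (n * x * n⁻¹) * a⁻¹ := by group
        rw [e2] at hz
        have h3 := (cen_conj_mem (x := n * x * n⁻¹) (y := a⁻¹ * z * a) (n := a)).2 (by
          have : a * (a⁻¹ * z * a) * a⁻¹ = z := by group
          rwa [this])
        rw [hcc] at h3
        have h4 := (cen_conj_mem (n := a)).1 h3
        have e1 : a * (a⁻¹ * z * a) * a⁻¹ = z := by group
        rwa [e1] at h4)
  -- second: fibres of `y ↦ cen y`
  have h2 := Finset.card_eq_sum_card_image (fun y : G => cen y) (Oset G p)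
  have himg : (Oset G p).image (fun y : G => cen y) = univ.image (fun g : G => cen (g * x * g⁻¹)) := by
    ext Q
    simp only [Finset.mem_image, Finset.mem_univ, true_and, mem_Oset]
    constructor
    · rintro ⟨y, hy, rfl⟩
      obtain ⟨g, r, hr, hr1, rfl⟩ := exists_conj_into hG H hy
      refine ⟨g, ?_⟩
      ext z
      have hcc := H.cen_eq hG hr hr1
      constructor
      · intro hz
        have h3 := (cen_conj_mem (x := x) (y := g⁻¹ * z * g) (n := g)).2 (by
          have : g * (g⁻¹ * z * g) * g⁻¹ = z := by group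
          rwa [this])
        rw [← hcc] at h3
        have h4 := (cen_conj_mem (n := g)).1 h3
        have e1 : g * (g⁻¹ * z * g) * g⁻¹ = z := by group
        rwa [e1] at h4
      · intro hz
        have h3 := (cen_conj_mem (x := r) (y := g⁻¹ * z * g) (n := g)).2 (by
          have : g * (g⁻¹ * z * g) * g⁻¹ = z := by group
          rwa [this])
        rw [hcc] at h3
        have h4 := (cen_conj_mem (n := g)).1 h3
        have e1 : g * (g⁻¹ * z * g) * g⁻¹ = z := by group
        rwa [e1] at h4
    · rintro ⟨g, rfl⟩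
      exact ⟨g * x * g⁻¹, by rw [orderOf_conj']; exact H.ox, rfl⟩
  have hfib : ∀ Q ∈ (Oset G p).image (fun y : G => cen y),
      ((Oset G p).filter (fun y => cen y = Q)).card = Nat.card (cen x) - 1 := by
    intro Q hQ
    rw [himg] at hQ
    obtain ⟨g, _, rfl⟩ := Finset.mem_image.1 hQ
    have hR := H.conj g
    have h3 : (Oset G p).filter (fun y => cen y = cen (g * x * g⁻¹))
        = (univ.filter (fun y => y ∈ cen (g * x * g⁻¹))).erase 1 := by
      ext y
      simp only [Finset.mem_filter, Finset.mem_univ, true_and, Finset.mem_erase, mem_Oset]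
      constructor
      · rintro ⟨h4, h5⟩
        refine ⟨?_, ?_⟩
        · rintro rfl
          rw [orderOf_one] at h4
          have := H.prime.one_lt
          omega
        · rw [← h5]; exact self_mem_cen y
      · rintro ⟨h4, h5⟩
        exact ⟨hR.order_mem hG h5 h4, hR.cen_eq hG h5 h4⟩
    rw [h3, Finset.card_erase_of_mem (by simp [one_mem]), ← card_cen_conj g x,
      Nat.card_eq_fintype_card, Fintype.card_subtype]
  rw [Finset.sum_congr rfl hfib, himg, Finset.sum_const, smul_eq_mul] at h2
  rw [h2]
  calc (univ.image (fun g : G => cen (g * x * g⁻¹))).card * (Nat.card (cen x) - 1)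
        * Nat.card (normalizer (cen x : Set G))
      = ((univ.image (fun g : G => cen (g * x * g⁻¹))).card * Nat.card (normalizer (cen x : Set G)))
        * (Nat.card (cen x) - 1) := by ring
    _ = _ := by rw [h1]

/-- The formula for `κ_p`. -/
theorem kappa_eq (hG : Sig G) (hSC : ∀ u v : G, Inv2 u → Inv2 v → ∃ g, g * u * g⁻¹ = v)
    (H : RealE p x t) {z : G} (hz : Inv2 z) {w : ℕ}
    (hw : Nat.card (normalizer (cen x : Set G)) = w * Nat.card (cen x)) :
    (Delta p z).card * w = Nat.card (cen z) * (Nat.card (cen x) - 1) := by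
  have h1 := sum_Delta hG H
  have h2 : ∀ u ∈ Iset G, (Delta p u).card = (Delta p z).card := by
    intro u hu
    obtain ⟨g, hg⟩ := hSC z u hz (mem_Iset.1 hu)
    rw [← hg, Delta_conj]
  rw [Finset.sum_congr rfl h2, Finset.sum_const, smul_eq_mul] at h1
  have h3 := Oset_count hG H
  have h4 : (Iset G).card * Nat.card (cen z) = Fintype.card G := by
    have h5 := image_card_mul (cen z) (fun g : G => g * z * g⁻¹) (by
      intro a b
      rw [mem_cen]
      constructor
      · intro h
        have h6 : (a⁻¹ * b) * z * (a⁻¹ * b)⁻¹ = z := by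
          calc (a⁻¹ * b) * z * (a⁻¹ * b)⁻¹ = a⁻¹ * (b * z * b⁻¹) * a := by group
            _ = a⁻¹ * (a * z * a⁻¹) * a := by rw [h]
            _ = z := by group
        calc a⁻¹ * b * z = ((a⁻¹ * b) * z * (a⁻¹ * b)⁻¹) * (a⁻¹ * b) := by group
          _ = _ := by rw [h6]
      · intro h
        have h6 : a⁻¹ * b * z * (a⁻¹ * b)⁻¹ = z := by
          rw [h]; group
        calc a * z * a⁻¹ = a * (a⁻¹ * b * z * (a⁻¹ * b)⁻¹) * a⁻¹ := by rw [h6]
          _ = _ := by group)
    have h6 : univ.image (fun g : G => g * z * g⁻¹) = Iset G := by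
      ext u
      simp only [Finset.mem_image, Finset.mem_univ, true_and, mem_Iset]
      constructor
      · rintro ⟨g, rfl⟩
        exact hz.conj g
      · intro hu
        exact hSC z u hz hu
    rw [h6] at h5
    exact h5
  have hI : 0 < (Iset G).card := Finset.card_pos.2 ⟨z, mem_Iset.2 hz⟩
  apply Nat.eq_of_mul_eq_mul_left hI
  calc (Iset G).card * ((Delta p z).card * w) = ((Iset G).card * (Delta p z).card) * w := by ring
    _ = (Oset G p).card * Nat.card (cen x) * w := by rw [h1]
    _ = (Oset G p).card * (w * Nat.card (cen x)) := by ring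
    _ = Fintype.card G * (Nat.card (cen x) - 1) := by rw [← hw, h3]
    _ = (Iset G).card * (Nat.card (cen z) * (Nat.card (cen x) - 1)) := by rw [← h4]; ring

/-- Cardinality of the class of involutions. -/
theorem Iset_card (hSC : ∀ u v : G, Inv2 u → Inv2 v → ∃ g, g * u * g⁻¹ = v) {z : G} (hz : Inv2 z) :
    (Iset G).card * Nat.card (cen z) = Fintype.card G := by
  have h5 := image_card_mul (cen z) (fun g : G => g * z * g⁻¹) (by
    intro a b
    rw [mem_cen]
    constructor
    · intro h
      have h6 : (a⁻¹ * b) * z * (a⁻¹ * b)⁻¹ = z := by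
        calc (a⁻¹ * b) * z * (a⁻¹ * b)⁻¹ = a⁻¹ * (b * z * b⁻¹) * a := by group
          _ = a⁻¹ * (a * z * a⁻¹) * a := by rw [h]
          _ = z := by group
      calc a⁻¹ * b * z = ((a⁻¹ * b) * z * (a⁻¹ * b)⁻¹) * (a⁻¹ * b) := by group
        _ = _ := by rw [h6]
    · intro h
      have h6 : a⁻¹ * b * z * (a⁻¹ * b)⁻¹ = z := by
        rw [h]; group
      calc a * z * a⁻¹ = a * (a⁻¹ * b * z * (a⁻¹ * b)⁻¹) * a⁻¹ := by rw [h6]
        _ = _ := by group)
  have h6 : univ.image (fun g : G => g * z * g⁻¹) = Iset G := by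
    ext u
    simp only [Finset.mem_image, Finset.mem_univ, true_and, mem_Iset]
    constructor
    · rintro ⟨g, rfl⟩
      exact hz.conj g
    · intro hu
      exact hSC z u hz hu
  rw [h6] at h5
  exact h5

/-- Properties of the index of `P = cen x` in its normalizer. -/
theorem w_props (hG : Sig G) (H : RealE p x t) :
    ∃ w c : ℕ, Nat.card (normalizer (cen x : Set G)) = w * Nat.card (cen x) ∧ w = 2 ^ c ∧ 1 ≤ c ∧
      w + 1 ≤ Nat.card (cen x) := by
  haveI : Fact p.Prime := ⟨H.prime⟩
  set P := cen x with hP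
  set N := normalizer (P : Set G) with hN
  have hPN : P ≤ N := le_normalizer
  obtain ⟨w, hw⟩ := Subgroup.card_dvd_of_le hPN
  have hPpos : 0 < Nat.card P := Nat.card_pos
  have hw' : Nat.card N = w * Nat.card P := by rw [hw]; ring
  have htN : t ∈ N := by
    rw [hN, mem_normalizer_iff]
    intro y
    constructor
    · intro hy
      rw [H.inv_all hG hy]
      exact P.inv_mem hy
    · intro hy
      have h1 := H.inv_all hG hy
      have h2 := P.inv_mem hy
      rw [← h1] at h2
      have hinv := H.it.inv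
      have h3 : t * (t * y * t⁻¹) * t⁻¹ = y := by
        rw [hinv]
        calc t * (t * y * t) * t = (t * t) * y * (t * t) := by group
          _ = y := by rw [H.it.sq]; group
      rwa [h3] at h2
  have htP : t ∉ P := by
    intro hc
    have := H.order_mem hG hc H.it.ne
    rw [H.it.orderOf] at this
    exact H.ne_two this.symm
  have hw2 : 2 ≤ w := by
    have hNpos : 0 < Nat.card N := Nat.card_pos
    have hw0 : w ≠ 0 := by
      rintro rfl
      simp at hw'
    by_contra hlt
    have hw1 : w = 1 := by omega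
    rw [hw1, one_mul] at hw'
    have : P = N := Subgroup.eq_of_le_of_card_ge hPN (by omega)
    exact htP (this ▸ htN)
  obtain ⟨a, ha, _, hnd⟩ := H.card_pow hG
  rw [← hP] at ha hnd
  -- primes dividing `w`
  have hprimes : ∀ {q : ℕ}, q.Prime → q ∣ w → q = 2 := by
    intro q hq hqw
    have hwN : w ∣ Nat.card N := ⟨Nat.card P, hw'⟩
    have hNG : Nat.card N ∣ Nat.card G := Subgroup.card_subgroup_dvd_card N
    by_cases hqp : q = p
    · exfalso
      apply hnd
      rw [← hqp]
      refine hqw.trans ?_
      have h1 : Nat.card P * P.index = Nat.card G := Subgroup.card_mul_index P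
      have h2 : w * Nat.card P ∣ Nat.card P * P.index := by
        rw [h1, ← hw']; exact hNG
      rw [mul_comm] at h2
      exact Nat.dvd_of_mul_dvd_mul_left hPpos h2
    · by_contra hq2
      haveI : Fact q.Prime := ⟨hq⟩
      obtain ⟨g, hg⟩ := exists_prime_orderOf_dvd_card' (G := N) q (hqw.trans hwN)
      have hgo : orderOf (g : G) = q := by rw [Subgroup.orderOf_coe]; exact hg
      have hgN : (g : G) ∈ N := g.2
      -- the set of inverting involutions
      let A : Finset G := (Iset G).filter (fun u => u * x * u⁻¹ = x⁻¹)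
      have hAcard : A.card = Nat.card P := inv_count hG H
      have hAall : ∀ u ∈ A, ∀ r ∈ P, u * r * u⁻¹ = r⁻¹ := by
        intro u hu r hr
        simp only [A, Finset.mem_filter, mem_Iset] at hu
        exact (RealE.mk H.hp H.ox hu.1 hu.2).inv_all hG hr
      have hAmem : ∀ n ∈ N, ∀ u ∈ A, n * u * n⁻¹ ∈ A := by
        intro n hn u hu
        have hall := hAall u hu
        simp only [A, Finset.mem_filter, mem_Iset] at hu ⊢
        refine ⟨hu.1.conj n, ?_⟩
        have h1 : n⁻¹ * x * n ∈ P := nm_conj_inv hn (self_mem_cen x)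
        have h2 := hall _ h1
        calc n * u * n⁻¹ * x * (n * u * n⁻¹)⁻¹ = n * (u * (n⁻¹ * x * n) * u⁻¹) * n⁻¹ := by group
          _ = n * (n⁻¹ * x * n)⁻¹ * n⁻¹ := by rw [h2]
          _ = x⁻¹ := by group
      let σ : Equiv.Perm A := {
        toFun := fun u => ⟨(g : G) * u * (g : G)⁻¹, hAmem _ hgN _ u.2⟩
        invFun := fun u => ⟨(g : G)⁻¹ * u * (g : G)⁻¹⁻¹, hAmem _ (N.inv_mem hgN) _ u.2⟩
        left_inv := fun u => by ext; simp only; group
        right_inv := fun u => by ext; simp only; group }
      have hσk : ∀ (k : ℕ) (u : A), (((σ ^ k) u : A) : G) = (g : G) ^ k * u * ((g : G) ^ k)⁻¹ := by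
        intro k
        induction k with
        | zero => intro u; simp
        | succ k ih =>
          intro u
          rw [pow_succ, Equiv.Perm.mul_apply, ih]
          show (g : G) ^ k * ((g : G) * u * (g : G)⁻¹) * ((g : G) ^ k)⁻¹ = _
          rw [pow_succ]; group
      have hσq : σ ^ q = 1 := by
        ext u
        rw [hσk, ← hgo, pow_orderOf_eq_one]
        simp
      have hnq : ¬ q ∣ Nat.card A := by
        rw [Nat.card_eq_fintype_card, Fintype.card_coe, hAcard, ha]
        intro hd
        have := (Nat.prime_dvd_prime_iff_eq hq H.prime).1 (hq.dvd_of_dvd_pow hd)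
        exact hqp this
      obtain ⟨u, hu⟩ := exists_fixed_of_prime hq σ hσq hnq
      have hu1 : (g : G) * u * (g : G)⁻¹ = u := congrArg Subtype.val hu
      have huI : Inv2 (u : G) := by
        have := u.2
        simp only [A, Finset.mem_filter, mem_Iset] at this
        exact this.1
      have hcomm : (g : G) * u = u * g := by
        calc (g : G) * u = ((g : G) * u * (g : G)⁻¹) * g := by group
          _ = u * g := by rw [hu1]
      exact hG.no_comm_prime hq Nat.prime_two hq2 hgo huI.orderOf hcomm
  have hw2pow := Nat.eq_prime_pow_of_unique_prime_dvd (by omega : w ≠ 0) hprimes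
  refine ⟨w, w.primeFactorsList.length, hw', hw2pow, ?_, ?_⟩
  · by_contra hc
    have : w.primeFactorsList.length = 0 := by omega
    rw [this, pow_zero] at hw2pow
    omega
  · -- the orbit of `x` under `N`
    haveI : Fintype N := Fintype.ofFinite N
    have h1 := image_card_mul (P.subgroupOf N) (fun n : N => (n : G) * x * (n : G)⁻¹) (by
      intro a b
      rw [Subgroup.mem_subgroupOf]
      show _ ↔ (a : G)⁻¹ * (b : G) ∈ cen x
      rw [mem_cen]
      constructor
      · intro h
        have h' : (a : G) * x * (a : G)⁻¹ = (b : G) * x * (b : G)⁻¹ := h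
        have h6 : ((a : G)⁻¹ * b) * x * ((a : G)⁻¹ * b)⁻¹ = x := by
          calc ((a : G)⁻¹ * b) * x * ((a : G)⁻¹ * b)⁻¹ = (a : G)⁻¹ * ((b : G) * x * (b : G)⁻¹) * a := by group
            _ = (a : G)⁻¹ * ((a : G) * x * (a : G)⁻¹) * a := by rw [h']
            _ = x := by group
        calc (a : G)⁻¹ * b * x = (((a : G)⁻¹ * b) * x * ((a : G)⁻¹ * b)⁻¹) * ((a : G)⁻¹ * b) := by group
          _ = _ := by rw [h6]
      · intro h
        have h6 : (a : G)⁻¹ * b * x * ((a : G)⁻¹ * b)⁻¹ = x := by
          rw [h]; group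
        show (a : G) * x * (a : G)⁻¹ = (b : G) * x * (b : G)⁻¹
        calc (a : G) * x * (a : G)⁻¹ = (a : G) * ((a : G)⁻¹ * b * x * ((a : G)⁻¹ * b)⁻¹) * (a : G)⁻¹ := by rw [h6]
          _ = _ := by group)
    have hS : Nat.card (P.subgroupOf N) = Nat.card P :=
      Nat.card_congr (Subgroup.subgroupOfEquivOfLe hPN).toEquiv
    rw [hS, ← Nat.card_eq_fintype_card, hw'] at h1
    have h2 := Nat.eq_of_mul_eq_mul_right hPpos h1
    rw [← h2]
    have hsub : univ.image (fun n : N => (n : G) * x * (n : G)⁻¹)
        ⊆ (univ.filter (fun y => y ∈ P)).erase 1 := by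
      intro y hy
      obtain ⟨n, _, rfl⟩ := Finset.mem_image.1 hy
      simp only [Finset.mem_erase, Finset.mem_filter, Finset.mem_univ, true_and]
      refine ⟨?_, nm_conj n.2 (self_mem_cen x)⟩
      intro hc
      have hx1 : x = 1 := by
        have : x = (n : G)⁻¹ * ((n : G) * x * (n : G)⁻¹) * n := by group
        rw [this, hc]; group
      have h3 := H.ox
      rw [hx1, orderOf_one] at h3
      have := H.prime.one_lt
      omega
    have h3 := Finset.card_le_card hsub
    rw [Finset.card_erase_of_mem (by simp [one_mem])] at h3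
    have h4 : (univ.filter (fun y => y ∈ P)).card = Nat.card P := by
      rw [Nat.card_eq_fintype_card, Fintype.card_subtype]
    have h5 : 1 ≤ Nat.card P := hPpos
    omega

end real

end Cfsg.Agent.Lib.Spec5
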