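import Mathlib
import Cfsg.Agent.Lib.Spec5.Count

/-!
# Elementary facts on involutions in `Sig` groups; the case of one class of involutions
-/

set_option autoImplicit false

namespace Cfsg.Agent.Lib.Spec5

open Subgroup Finset

universe u

theorem pow_part_unique {p : ℕ} (hp : p.Prime) {a b x y : ℕ} (h : p ^ a * x = p ^ b * y)
    (hx : ¬ p ∣ x) (hy : ¬ p ∣ y) : a = b := by
  rcases lt_trichotomy a b with hlt | heq | hgt
  · exfalso
    obtain ⟨d, rfl⟩ := Nat.exists_eq_add_of_lt hlt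
    have h1 : x = p ^ (d + 1) * y := by
      apply Nat.eq_of_mul_eq_mul_left (pow_pos hp.pos a)
      rw [h]; ring
    apply hx
    rw [h1, pow_succ]
    exact Dvd.dvd.mul_right (Dvd.intro_left _ rfl) _
  · exact heq
  · exfalso
    obtain ⟨d, rfl⟩ := Nat.exists_eq_add_of_lt hgt
    have h1 : y = p ^ (d + 1) * x := by
      apply Nat.eq_of_mul_eq_mul_left (pow_pos hp.pos b)
      rw [← h]; ring
    apply hy
    rw [h1, pow_succ]
    exact Dvd.dvd.mul_right (Dvd.intro_left _ rfl) _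

variable {T : Type u} [Group T]

theorem invol_conj_or (hG : Sig T) [Finite T] {u v : T} (hu : Inv2 u) (hv : Inv2 v) :
    (u * v) ^ 4 = 1 ∨ ∃ g, g * u * g⁻¹ = v := by
  by_cases h4 : (u * v) ^ 4 = 1
  · exact Or.inl h4
  right
  have hi := hu.inv
  have hj := hv.inv
  have hor : orderOf (u * v) = 3 ∨ orderOf (u * v) = 5 := by
    rcases hG.cases (u * v) with h8 | h8 | h8 | h8 | h8
    · exfalso; apply h4; rw [orderOf_dvd_iff_pow_eq_one.symm, h8]; norm_num
    · exfalso; apply h4; rw [orderOf_dvd_iff_pow_eq_one.symm, h8]; norm_num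
    · exact Or.inl h8
    · exfalso; apply h4; rw [orderOf_dvd_iff_pow_eq_one.symm, h8]
    · exact Or.inr h8
  have hinv : u * (u * v) * u⁻¹ = (u * v)⁻¹ := by
    rw [hi, mul_inv_rev, hi, hj, ← mul_assoc, hu.sq, one_mul]
  have H : RealE (orderOf (u * v)) (u * v) u :=
    ⟨by rcases hor with h | h <;> simp [h], rfl, hu, hinv⟩
  obtain ⟨s, _, hs⟩ := H.conj_mul hG (self_mem_cen (u * v))
  refine ⟨s, ?_⟩
  rw [hs, ← mul_assoc, hu.sq, one_mul]

theorem common_central {u v : T} (hu : Inv2 u) (hv : Inv2 v) (h : (u * v) ^ 4 = 1) :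
    ∃ w, Inv2 w ∧ w * u = u * w ∧ w * v = v * w := by
  have hi := hu.inv
  have hj := hv.inv
  by_cases hc : (u * v) * (u * v) = 1
  · refine ⟨u, hu, rfl, ?_⟩
    have h1 : v * u = (u * v)⁻¹ := by rw [mul_inv_rev, hi, hj]
    have h2 : (u * v)⁻¹ = u * v := inv_eq_of_mul_eq_one_left hc
    rw [← h2, ← h1]
  · have hcc : ((u * v) * (u * v)) * ((u * v) * (u * v)) = 1 := by
      rw [← h]; simp only [pow_succ, pow_zero, one_mul, mul_assoc]
    have hI : (((u * v) * (u * v)))⁻¹ = (u * v) * (u * v) := inv_eq_of_mul_eq_one_left hcc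
    have hE : (u * v) * (u * v) = (v * u) * (v * u) := by
      rw [mul_inv_rev, mul_inv_rev, hi, hj] at hI
      rw [← hI]
    refine ⟨(u * v) * (u * v), ⟨hcc, hc⟩, ?_, ?_⟩
    · calc (u * v) * (u * v) * u = (v * u) * (v * u) * u := by rw [hE]
        _ = v * u * v * (u * u) := by simp only [mul_assoc]
        _ = v * u * v := by rw [hu.sq, mul_one]
        _ = (u * u) * v * u * v := by rw [hu.sq, one_mul]
        _ = _ := by simp only [mul_assoc]
    · calc (u * v) * (u * v) * v = u * v * u * (v * v) := by simp only [mul_assoc]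
        _ = u * v * u := by rw [hv.sq, mul_one]
        _ = (v * v) * u * v * u := by rw [hv.sq, one_mul]
        _ = v * ((v * u) * (v * u)) := by simp only [mul_assoc]
        _ = _ := by rw [← hE]

variable [Finite T]

theorem exists_central_invol (hG : Sig T) (S : Sylow 2 T) (hne : (S : Subgroup T) ≠ ⊥) :
    ∃ z, Inv2 z ∧ z ∈ (S : Subgroup T) ∧ ∀ s ∈ (S : Subgroup T), s * z = z * s := by
  haveI : Fact (Nat.Prime 2) := ⟨Nat.prime_two⟩
  haveI : Nontrivial (S : Subgroup T) := (Subgroup.nontrivial_iff_ne_bot _).2 hne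
  haveI := S.isPGroup'.center_nontrivial
  obtain ⟨c, hc⟩ := exists_ne (1 : center (S : Subgroup T))
  have hc1 : ((c : (S : Subgroup T)) : T) ≠ 1 := by
    intro h
    apply hc
    ext
    simpa using h
  have hcS : ((c : (S : Subgroup T)) : T) ∈ (S : Subgroup T) := (c : (S : Subgroup T)).2
  have hcc : ∀ s ∈ (S : Subgroup T), s * ((c : (S : Subgroup T)) : T) = ((c : (S : Subgroup T)) : T) * s := by
    intro s hs
    have := (Subgroup.mem_center_iff.1 c.2) ⟨s, hs⟩
    exact congrArg Subtype.val this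
  set x : T := ((c : (S : Subgroup T)) : T)
  have h4 := hG.pow_four_of_pgroup S.isPGroup' hcS
  by_cases h2 : x * x = 1
  · exact ⟨x, ⟨h2, hc1⟩, hcS, hcc⟩
  · refine ⟨x * x, ⟨?_, h2⟩, S.1.mul_mem hcS hcS, ?_⟩
    · rw [← h4]; simp only [pow_succ, pow_zero, one_mul, mul_assoc]
    · intro s hs
      calc s * (x * x) = (s * x) * x := by simp only [mul_assoc]
        _ = (x * s) * x := by rw [hcc s hs]
        _ = x * (s * x) := by simp only [mul_assoc]
        _ = x * (x * s) := by rw [hcc s hs]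
        _ = _ := by simp only [mul_assoc]

theorem cen_of_central (hG : Sig T) (S : Sylow 2 T) {z : T} (hz : Inv2 z)
    (hc : ∀ s ∈ (S : Subgroup T), s * z = z * s) : cen z = (S : Subgroup T) := by
  haveI : Fact (Nat.Prime 2) := ⟨Nat.prime_two⟩
  have h1 : IsPGroup 2 (cen z) := hG.pgroup_centralizer hz.orderOf
  have h2 : (S : Subgroup T) ≤ cen z := fun s hs => mem_cen.2 (hc s hs)
  exact S.is_maximal' h1 h2

/-- Under a single class of involutions the centralizer of any involution is a Sylow subgroup. -/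
theorem cen_sylow (hG : Sig T) (hSC : ∀ u v : T, Inv2 u → Inv2 v → ∃ g, g * u * g⁻¹ = v)
    {t : T} (ht : Inv2 t) : ∃ Q : Sylow 2 T, (Q : Subgroup T) = cen t := by
  haveI : Fact (Nat.Prime 2) := ⟨Nat.prime_two⟩
  obtain ⟨S⟩ : Nonempty (Sylow 2 T) := inferInstance
  have hne : (S : Subgroup T) ≠ ⊥ := by
    apply Sylow.ne_bot_of_dvd_card
    rw [← ht.orderOf]
    exact orderOf_dvd_natCard t
  obtain ⟨z, hz, _, hc⟩ := exists_central_invol hG S hne
  obtain ⟨g, hg⟩ := hSC z t hz ht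
  refine ⟨g • S, ?_⟩
  ext y
  rw [mem_smul_iff', ← cen_of_central hG S hz hc, ← hg]
  have e : g * (g⁻¹ * y * g) * g⁻¹ = y := by group
  constructor
  · intro h
    have := (cen_conj_mem (n := g)).1 h
    rwa [e] at this
  · intro h
    apply (cen_conj_mem (n := g)).2
    rwa [e]

theorem mem_of_norm_two (α : Sylow 2 T) {g : T} (hg : g ∈ normalizer ((α : Subgroup T) : Set T))
    (h4 : g ^ 4 = 1) : g ∈ (α : Subgroup T) := by
  haveI : Fact (Nat.Prime 2) := ⟨Nat.prime_two⟩
  have hz : IsPGroup 2 (zpowers g) := by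
    rintro ⟨y, hy⟩
    obtain ⟨k, rfl⟩ := Subgroup.mem_zpowers_iff.1 hy
    refine ⟨2, ?_⟩
    ext
    simp only [Subgroup.coe_pow, OneMemClass.coe_one]
    have : (g ^ k) ^ 2 ^ 2 = (g ^ 4) ^ k := by
      rw [← zpow_natCast, ← zpow_mul, ← zpow_natCast, ← zpow_mul, mul_comm]
      norm_num
    rw [this, h4, one_zpow]
  have h1 := hz.inf_normalizer_sylow α
  have h2 : g ∈ zpowers g ⊓ normalizer (α : Set T) := ⟨mem_zpowers g, hg⟩
  rw [h1] at h2
  exact h2.2

theorem card_form {n : ℕ} (hn : n ≠ 0) (h : ∀ q : ℕ, q.Prime → q ∣ n → q = 2 ∨ q = 3 ∨ q = 5) :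
    ∃ i j k, n = 2 ^ i * 3 ^ j * 5 ^ k := by
  induction n using Nat.strong_induction_on with
  | _ n ih =>
    by_cases h1 : n = 1
    · exact ⟨0, 0, 0, by simp [h1]⟩
    obtain ⟨q, hq, hqn⟩ := Nat.exists_prime_and_dvd h1
    obtain ⟨m, rfl⟩ := hqn
    have hm0 : m ≠ 0 := by
      rintro rfl
      simp at hn
    obtain ⟨i, j, k, hijk⟩ := ih m (by
      have := hq.one_lt
      have : 0 < m := Nat.pos_of_ne_zero hm0
      nlinarith) hm0 (fun r hr hd => h r hr (Dvd.dvd.mul_left hd q))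
    rcases h q hq (Dvd.intro _ rfl) with rfl | rfl | rfl
    · exact ⟨i + 1, j, k, by rw [hijk]; ring⟩
    · exact ⟨i, j + 1, k, by rw [hijk]; ring⟩
    · exact ⟨i, j, k + 1, by rw [hijk]; ring⟩

end Cfsg.Agent.Lib.Spec5
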