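import Mathlib
import Cfsg.Agent.Lib.Spec5.Single

/-!
# A Sylow 2-subgroup which is a product of two elementary abelian subgroups: counting
-/

set_option autoImplicit false

namespace Cfsg.Agent.Lib.Spec5

open Subgroup Finset

universe u

open Classical

theorem fiber_card {A B : Type*} [Group A] [Group B] [Finite A] [Finite B] (f : A →* B)
    (hk : Nat.card f.ker = Nat.card B) (hA : Nat.card A = Nat.card B * Nat.card B) (b : B) :
    Nat.card {a // f a = b} = Nat.card B := by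
  have h1 := Subgroup.card_mul_index f.ker
  rw [Subgroup.index_ker, hk, hA] at h1
  have hB : 0 < Nat.card B := Nat.card_pos
  have h2 : Nat.card f.range = Nat.card B := Nat.eq_of_mul_eq_mul_left hB h1
  have h3 : f.range = ⊤ := by
    apply Subgroup.eq_top_of_card_eq
    exact h2
  obtain ⟨a₀, ha₀⟩ := (MonoidHom.range_eq_top.1 h3) b
  rw [← hk]
  refine Nat.card_congr ⟨fun a => ⟨a₀⁻¹ * a.1, ?_⟩, fun a => ⟨a₀ * a.1, ?_⟩, ?_, ?_⟩
  · rw [MonoidHom.mem_ker, map_mul, map_inv, ha₀, a.2]; simp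
  · have := a.2
    rw [MonoidHom.mem_ker] at this
    rw [map_mul, this, ha₀, mul_one]
  · intro a; ext; simp
  · intro a; ext; simp

variable {T : Type u} [Group T]

/-- Product structure on a 2-group. -/
structure PairS (S E E' : Subgroup T) : Prop where
  hE : EA E
  hE' : EA E'
  leE : E ≤ S
  leE' : E' ≤ S
  decomp : ∀ s ∈ S, ∃ a ∈ E, ∃ b ∈ E', s = a * b
  nondeg : ∀ a ∈ E, ∀ b ∈ E', a * b = b * a → a ∈ E' ∨ b ∈ E
  comm_mem : ∀ a ∈ E, ∀ b ∈ E', a * b * a⁻¹ * b⁻¹ ∈ E ⊓ E'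

namespace PairS

variable {S E E' : Subgroup T}

theorem symm (P : PairS S E E') : PairS S E' E := by
  refine ⟨P.hE', P.hE, P.leE', P.leE, ?_, ?_, ?_⟩
  · intro s hs
    obtain ⟨a, ha, b, hb, rfl⟩ := P.decomp s hs
    have h1 := P.comm_mem a⁻¹ (E.inv_mem ha) b⁻¹ (E'.inv_mem hb)
    refine ⟨b, hb, b⁻¹ * a * b, ?_, by group⟩
    have h2 : b⁻¹ * a * b = a * (a⁻¹ * b⁻¹ * a⁻¹⁻¹ * b⁻¹⁻¹) := by group
    rw [h2]
    exact E.mul_mem ha h1.1
  · intro b hb a ha hc
    exact (P.nondeg a ha b hb hc.symm).symm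
  · intro b hb a ha
    have h1 := P.comm_mem a ha b hb
    have h2 : b * a * b⁻¹ * a⁻¹ = (a * b * a⁻¹ * b⁻¹)⁻¹ := by group
    rw [h2, inf_comm]
    exact inv_mem h1

theorem mem_or (P : PairS S E E') {s : T} (hs : s ∈ S) (h : s * s = 1) : s ∈ E ∨ s ∈ E' := by
  obtain ⟨a, ha, b, hb, rfl⟩ := P.decomp s hs
  have hainv : a⁻¹ = a := inv_eq_of_mul_eq_one_left (P.hE.sq a ha)
  have hbinv : b⁻¹ = b := inv_eq_of_mul_eq_one_left (P.hE'.sq b hb)
  have h1 : a * b = b * a := by
    have h2 := inv_eq_of_mul_eq_one_left h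
    rw [mul_inv_rev, hainv, hbinv] at h2
    exact h2.symm
  rcases P.nondeg a ha b hb h1 with h2 | h2
  · exact Or.inr (E'.mul_mem h2 hb)
  · exact Or.inl (E.mul_mem ha h2)

theorem central_E0 (P : PairS S E E') {z s : T} (hz : z ∈ E ⊓ E') (hs : s ∈ S) : s * z = z * s := by
  obtain ⟨a, ha, b, hb, rfl⟩ := P.decomp s hs
  have h1 := P.hE.comm a ha z hz.1
  have h2 := P.hE'.comm b hb z hz.2
  calc a * b * z = a * (b * z) := by group
    _ = a * (z * b) := by rw [h2]
    _ = (a * z) * b := by group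
    _ = (z * a) * b := by rw [h1]
    _ = _ := by group

theorem center_le (P : PairS S E E') {a₁ b₁ : T} (ha₁ : a₁ ∈ E) (ha₁' : a₁ ∉ E') (hb₁ : b₁ ∈ E')
    (hb₁' : b₁ ∉ E) {s : T} (hs : s ∈ S) (hc : ∀ x ∈ S, x * s = s * x) : s ∈ E ⊓ E' := by
  obtain ⟨a, ha, b, hb, rfl⟩ := P.decomp s hs
  have h1 := hc a₁ (P.leE ha₁)
  have h2 := hc b₁ (P.leE' hb₁)
  have h3 : a₁ * b = b * a₁ := by
    have h4 := P.hE.comm a₁ ha₁ a ha
    have h5 : a * (a₁ * b) = a * (b * a₁) := by
      calc a * (a₁ * b) = (a * a₁) * b := by group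
        _ = (a₁ * a) * b := by rw [h4]
        _ = a₁ * (a * b) := by group
        _ = a * b * a₁ := h1
        _ = _ := by group
    exact mul_left_cancel h5
  have hbE : b ∈ E := by
    rcases P.nondeg a₁ ha₁ b hb h3 with h | h
    · exact absurd h ha₁'
    · exact h
  have h6 : a * b₁ = b₁ * a := by
    have h4 := P.hE'.comm b₁ hb₁ b hb
    have h5 : (a * b₁) * b = (b₁ * a) * b := by
      calc (a * b₁) * b = a * (b₁ * b) := by group
        _ = a * (b * b₁) := by rw [h4]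
        _ = a * b * b₁ := by group
        _ = b₁ * (a * b) := h2.symm
        _ = _ := by group
    exact mul_right_cancel h5
  have haE' : a ∈ E' := by
    rcases P.nondeg a ha b₁ hb₁ h6 with h | h
    · exact h
    · exact absurd h hb₁'
  exact ⟨E.mul_mem ha hbE, E'.mul_mem haE' hb⟩

end PairS

theorem sq_comm {u v : T} (hu : Inv2 u) (hv : Inv2 v) (hcc : ((u * v) * (u * v)) * ((u * v) * (u * v)) = 1) :
    (u * v) * (u * v) * u = u * ((u * v) * (u * v)) ∧ (u * v) * (u * v) * v = v * ((u * v) * (u * v)) := by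
  have hi := hu.inv
  have hj := hv.inv
  have hI : (((u * v) * (u * v)))⁻¹ = (u * v) * (u * v) := inv_eq_of_mul_eq_one_left hcc
  have hE : (u * v) * (u * v) = (v * u) * (v * u) := by
    rw [mul_inv_rev, mul_inv_rev, hi, hj] at hI
    rw [← hI]
  constructor
  · calc (u * v) * (u * v) * u = (v * u) * (v * u) * u := by rw [hE]
      _ = v * u * v * (u * u) := by simp only [mul_assoc]
      _ = v * u * v := by rw [hu.sq, mul_one]
      _ = (u * u) * v * u * v := by rw [hu.sq, one_mul]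
      _ = _ := by simp only [mul_assoc]
  · calc (u * v) * (u * v) * v = u * v * u * (v * v) := by simp only [mul_assoc]
      _ = u * v * u := by rw [hv.sq, mul_one]
      _ = (v * v) * u * v * u := by rw [hv.sq, one_mul]
      _ = v * ((v * u) * (v * u)) := by simp only [mul_assoc]
      _ = _ := by rw [← hE]

section count

variable [Fintype T] {S E E' : Subgroup T} {m : ℕ}

theorem card_filter_sub (H : Subgroup T) : (univ.filter (fun u => u ∈ H)).card = Nat.card H := by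
  rw [Nat.card_eq_fintype_card, Fintype.card_subtype]

theorem A0_card (P : PairS S E E') (hm : Nat.card (E ⊓ E' : Subgroup T) = m) (hmE : Nat.card E = m * m)
    (hmE' : Nat.card E' = m * m) : ((Iset T).filter (fun u => u ∈ S)).card + m + 1 = 2 * (m * m) := by
  have h1 : (Iset T).filter (fun u => u ∈ S)
      = ((univ.filter (fun u => u ∈ E)) ∪ (univ.filter (fun u => u ∈ E'))).erase 1 := by
    ext u
    simp only [Finset.mem_filter, mem_Iset, Finset.mem_erase, Finset.mem_union, Finset.mem_univ, true_and]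
    constructor
    · rintro ⟨h2, h3⟩
      exact ⟨h2.ne, P.mem_or h3 h2.sq⟩
    · rintro ⟨h2, h3 | h3⟩
      · exact ⟨⟨P.hE.sq u h3, h2⟩, P.leE h3⟩
      · exact ⟨⟨P.hE'.sq u h3, h2⟩, P.leE' h3⟩
  have h2 := Finset.card_union_add_card_inter (univ.filter (fun u => u ∈ E)) (univ.filter (fun u => u ∈ E'))
  have h3 : (univ.filter (fun u => u ∈ E)) ∩ (univ.filter (fun u => u ∈ E'))
      = univ.filter (fun u => u ∈ (E ⊓ E' : Subgroup T)) := by
    ext u
    simp [Subgroup.mem_inf]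
  rw [h3, card_filter_sub, card_filter_sub, card_filter_sub, hm, hmE, hmE'] at h2
  rw [h1, Finset.card_erase_of_mem (by simp [one_mem])]
  have h5 : 0 < ((univ.filter (fun u => u ∈ E)) ∪ (univ.filter (fun u => u ∈ E'))).card :=
    Finset.card_pos.2 ⟨1, by simp [one_mem]⟩
  rw [two_mul]
  omega

theorem rho (P : PairS S E E') (hm : Nat.card (E ⊓ E' : Subgroup T) = m)
    (hmE' : Nat.card E' = m * m) {t' z₁ : T} (ht : t' ∈ E) (ht' : t' ∉ E') (hz : z₁ ∈ E ⊓ E')
    (hz1 : z₁ ≠ 1) :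
    ((Iset T).filter (fun u => u ∈ S ∧ (t' * u) * (t' * u) = z₁)).card = m := by
  have htinv : t'⁻¹ = t' := inv_eq_of_mul_eq_one_left (P.hE.sq t' ht)
  let ψ : E' →* (E ⊓ E' : Subgroup T) := MonoidHom.mk'
    (fun u : E' => ⟨t' * u * t'⁻¹ * (u : T)⁻¹, P.comm_mem t' ht u u.2⟩)
    (by
      intro a b
      apply Subtype.ext
      show t' * ((a : T) * b) * t'⁻¹ * ((a : T) * b)⁻¹
        = (t' * a * t'⁻¹ * (a : T)⁻¹) * (t' * b * t'⁻¹ * (b : T)⁻¹)
      have h1 := P.comm_mem t' ht b b.2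
      have h2 := P.hE'.comm a a.2 _ h1.2
      calc t' * ((a : T) * b) * t'⁻¹ * ((a : T) * b)⁻¹
          = (t' * a * t'⁻¹ * (a : T)⁻¹) * ((a : T) * (t' * b * t'⁻¹ * (b : T)⁻¹)) * (a : T)⁻¹ := by group
        _ = (t' * a * t'⁻¹ * (a : T)⁻¹) * ((t' * b * t'⁻¹ * (b : T)⁻¹) * (a : T)) * (a : T)⁻¹ := by rw [h2]
        _ = _ := by group)
  have hψ : ∀ u : E', ((ψ u : (E ⊓ E' : Subgroup T)) : T) = t' * u * t'⁻¹ * (u : T)⁻¹ := fun _ => rfl
  have hψsq : ∀ u : E', ((ψ u : (E ⊓ E' : Subgroup T)) : T) = (t' * u) * (t' * u) := by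
    intro u
    rw [hψ, htinv, inv_eq_of_mul_eq_one_left (P.hE'.sq u u.2)]
    group
  have hk : Nat.card ψ.ker = Nat.card (E ⊓ E' : Subgroup T) := by
    refine Nat.card_congr ⟨fun u => ⟨u.1.1, ?_⟩, fun x => ⟨⟨x.1, x.2.2⟩, ?_⟩, ?_, ?_⟩
    · have h1 : t' * (u.1 : T) * t'⁻¹ * (u.1 : T)⁻¹ = 1 := by
        have := congrArg Subtype.val (MonoidHom.mem_ker.1 u.2)
        rwa [hψ] at this
      have h2 : t' * (u.1 : T) = (u.1 : T) * t' := by
        calc t' * (u.1 : T) = (t' * (u.1 : T) * t'⁻¹ * (u.1 : T)⁻¹) * ((u.1 : T) * t') := by group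
          _ = _ := by rw [h1, one_mul]
      rcases P.nondeg t' ht u.1 u.1.2 h2 with h3 | h3
      · exact absurd h3 ht'
      · exact ⟨h3, u.1.2⟩
    · rw [MonoidHom.mem_ker]
      apply Subtype.ext
      rw [hψ]
      have h2 := P.hE.comm t' ht x.1 x.2.1
      show t' * (x : T) * t'⁻¹ * (x : T)⁻¹ = 1
      rw [h2]; group
    · intro u; rfl
    · intro x; rfl
  have hfib := fiber_card ψ hk (by rw [hmE', hm]) ⟨z₁, hz⟩
  rw [hm] at hfib
  rw [← hfib, Nat.card_eq_fintype_card, ← Finset.card_univ]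
  symm
  refine Finset.card_bij (fun a _ => (a.1 : T)) ?_ ?_ ?_
  · intro a _
    have h1 : (t' * (a.1 : T)) * (t' * (a.1 : T)) = z₁ := by
      rw [← hψsq]
      exact congrArg Subtype.val a.2
    simp only [Finset.mem_filter, mem_Iset]
    refine ⟨⟨P.hE'.sq _ a.1.2, ?_⟩, P.leE' a.1.2, h1⟩
    intro hc
    rw [hc, mul_one, P.hE.sq t' ht] at h1
    exact hz1 h1.symm
  · intro a _ b _ h
    exact Subtype.ext (Subtype.ext h)
  · intro u hu
    simp only [Finset.mem_filter, mem_Iset] at hu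
    obtain ⟨hu1, hu2, hu3⟩ := hu
    have huE' : u ∈ E' := by
      rcases P.mem_or hu2 hu1.sq with h | h
      · exfalso
        have h1 := P.hE.comm t' ht u h
        apply hz1
        rw [← hu3]
        calc (t' * u) * (t' * u) = t' * (u * t') * u := by simp only [mul_assoc]
          _ = t' * (t' * u) * u := by rw [h1]
          _ = (t' * t') * (u * u) := by simp only [mul_assoc]
          _ = 1 := by rw [P.hE.sq t' ht, hu1.sq, one_mul]
      · exact h
    refine ⟨⟨⟨u, huE'⟩, ?_⟩, Finset.mem_univ _, rfl⟩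
    apply Subtype.ext
    rw [hψsq]
    exact hu3

/-- **The count of `I₀`.** -/
theorem I0_count [Finite T] (hG : Sig T) (hSC : ∀ u v : T, Inv2 u → Inv2 v → ∃ g, g * u * g⁻¹ = v)
    (α : Sylow 2 T) (P : PairS (α : Subgroup T) E E')
    (hm : Nat.card (E ⊓ E' : Subgroup T) = m) (hmE : Nat.card E = m * m) (hmE' : Nat.card E' = m * m)
    {a₁ b₁ : T} (ha₁ : a₁ ∈ E) (ha₁' : a₁ ∉ E') (hb₁ : b₁ ∈ E') (hb₁' : b₁ ∉ E)
    {z : T} (hz : z ∈ E ⊓ E') (hz1 : z ≠ 1) : (I0 z).card + m + 1 = 2 * m ^ 3 := by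
  set Sα : Subgroup T := (α : Subgroup T) with hSα
  have hzI : Inv2 z := ⟨P.hE.sq z hz.1, hz1⟩
  have hcen : cen z = Sα := cen_of_central hG α hzI (fun s hs => P.central_E0 hz hs)
  have hm1 : 1 ≤ m := by
    rw [← hm]; exact Nat.card_pos
  set A₀ := (Iset T).filter (fun u => u ∈ Sα) with hA₀
  have hA₀c := A0_card P hm hmE hmE'
  set B := (I0 z).filter (fun u => ¬ u ∈ Sα) with hB
  have h1 := Finset.card_filter_add_card_filter_not (s := I0 z) (fun u => u ∈ Sα)
  have h2 : (I0 z).filter (fun u => u ∈ Sα) = A₀ := by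
    ext u
    simp only [hA₀, Finset.mem_filter, mem_I0, mem_Iset]
    constructor
    · rintro ⟨⟨h3, _⟩, h5⟩; exact ⟨h3, h5⟩
    · rintro ⟨h3, h5⟩
      refine ⟨⟨h3, ?_⟩, h5⟩
      have h6 : u * z = z * u := mem_cen.1 (by rw [hcen]; exact h5 : u ∈ cen z)
      have h7 : (z * u) * (z * u) = 1 := by
        calc (z * u) * (z * u) = z * (u * z) * u := by simp only [mul_assoc]
          _ = z * (z * u) * u := by rw [h6]
          _ = (z * z) * (u * u) := by simp only [mul_assoc]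
          _ = 1 := by rw [hzI.sq, h3.sq, one_mul]
      calc (z * u) ^ 4 = ((z * u) * (z * u)) * ((z * u) * (z * u)) := by
            simp only [pow_succ, pow_zero, one_mul, mul_assoc]
        _ = 1 := by rw [h7, one_mul]
  rw [h2] at h1
  set E₀ : Subgroup T := E ⊓ E' with hE₀
  set Wset := A₀.filter (fun u => ¬ u ∈ E₀) with hW
  have h3 := Finset.card_filter_add_card_filter_not (s := A₀) (fun u => u ∈ E₀)
  have h4 : A₀.filter (fun u => u ∈ E₀) = (univ.filter (fun u => u ∈ E₀)).erase 1 := by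
    ext u
    simp only [hA₀, Finset.mem_filter, mem_Iset, Finset.mem_erase, Finset.mem_univ, true_and]
    constructor
    · rintro ⟨⟨h5, _⟩, h7⟩; exact ⟨h5.ne, h7⟩
    · rintro ⟨h5, h7⟩
      exact ⟨⟨⟨P.hE.sq u h7.1, h5⟩, P.leE h7.1⟩, h7⟩
  rw [h4, Finset.card_erase_of_mem (by simp [one_mem]), card_filter_sub, hm] at h3
  -- the map `u ↦ (z * u)²`
  let f : T → T := fun u => (z * u) * (z * u)
  have hmaps : ∀ u ∈ B, f u ∈ Wset := by
    intro u hu
    simp only [hB, Finset.mem_filter, mem_I0] at hu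
    obtain ⟨⟨hu1, hu4⟩, hu2⟩ := hu
    have hcc : f u * f u = 1 := by
      show ((z * u) * (z * u)) * ((z * u) * (z * u)) = 1
      rw [← hu4]; simp only [pow_succ, pow_zero, one_mul, mul_assoc]
    obtain ⟨hc1, hc2⟩ := sq_comm hzI hu1 hcc
    have hfne : f u ≠ 1 := by
      intro h0
      apply hu2
      rw [← hcen, mem_cen]
      have h5 := inv_eq_of_mul_eq_one_left (h0 : (z * u) * (z * u) = 1)
      rw [mul_inv_rev, hzI.inv, hu1.inv] at h5
      exact h5
    have hfS : f u ∈ Sα := by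
      rw [← hcen, mem_cen]
      exact hc1
    simp only [hW, hA₀, Finset.mem_filter, mem_Iset]
    refine ⟨⟨⟨hcc, hfne⟩, hfS⟩, ?_⟩
    intro hc
    apply hu2
    have hcw : cen (f u) = Sα := cen_of_central hG α ⟨hcc, hfne⟩ (fun s hs => P.central_E0 hc hs)
    rw [← hcw, mem_cen]
    exact hc2.symm
  have hfib : ∀ w ∈ Wset, (B.filter (fun u => f u = w)).card = m := by
    intro w hw
    simp only [hW, hA₀, Finset.mem_filter, mem_Iset] at hw
    obtain ⟨⟨hwI, hwS⟩, hwE⟩ := hw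
    obtain ⟨g, hg⟩ := hSC w z hwI hzI
    have hwz : w * z = z * w := mem_cen.1 (by rw [hcen]; exact hwS : w ∈ cen z)
    set t' := g * z * g⁻¹ with ht'
    have ht'I : Inv2 t' := hzI.conj g
    have ht'S : t' ∈ Sα := by
      rw [← hcen, mem_cen]
      have h5 : t' * (g * w * g⁻¹) = (g * w * g⁻¹) * t' := by
        rw [ht']
        calc g * z * g⁻¹ * (g * w * g⁻¹) = g * (z * w) * g⁻¹ := by group
          _ = g * (w * z) * g⁻¹ := by rw [hwz]
          _ = _ := by group
      rwa [hg] at h5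
    have ht'E : t' ∉ E₀ := by
      intro hc
      apply hwE
      have hct : cen t' = Sα := cen_of_central hG α ht'I (fun s hs => P.central_E0 hc hs)
      refine P.center_le ha₁ ha₁' hb₁ hb₁' hwS ?_
      intro s hs
      have h5 : g * s * g⁻¹ ∈ Sα := by
        rw [← hct, ht']
        apply cen_conj_mem.1
        rw [hcen]; exact hs
      have h6 := P.central_E0 hz h5
      have hw' : w = g⁻¹ * z * g := by rw [← hg]; group
      rw [hw']
      calc s * (g⁻¹ * z * g) = g⁻¹ * ((g * s * g⁻¹) * z) * g := by group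
        _ = g⁻¹ * (z * (g * s * g⁻¹)) * g := by rw [h6]
        _ = _ := by group
    have hcard : ((Iset T).filter (fun u => u ∈ Sα ∧ (t' * u) * (t' * u) = z)).card = m := by
      rcases P.mem_or ht'S ht'I.sq with h5 | h5
      · exact rho P hm hmE' h5 (fun h6 => ht'E ⟨h5, h6⟩) hz hz1
      · have hm' : Nat.card (E' ⊓ E : Subgroup T) = m := by rw [inf_comm]; exact hm
        exact rho P.symm hm' hmE h5 (fun h6 => ht'E ⟨h6, h5⟩) ⟨hz.2, hz.1⟩ hz1
    rw [← hcard]
    refine Finset.card_bij (fun u _ => g * u * g⁻¹) ?_ ?_ ?_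
    · intro u hu
      simp only [hB, Finset.mem_filter, mem_I0, mem_Iset] at hu ⊢
      obtain ⟨⟨⟨hu1, hu4⟩, hu2⟩, hu3⟩ := hu
      have h5 : (t' * (g * u * g⁻¹)) * (t' * (g * u * g⁻¹)) = z := by
        rw [← hg, ← hu3]
        show _ = g * ((z * u) * (z * u)) * g⁻¹
        rw [ht']; group
      refine ⟨hu1.conj g, ?_, h5⟩
      rw [← hcen, mem_cen]
      have hcc : ((t' * (g * u * g⁻¹)) * (t' * (g * u * g⁻¹))) * ((t' * (g * u * g⁻¹)) * (t' * (g * u * g⁻¹))) = 1 := by
        rw [h5]; exact hzI.sq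
      have := (sq_comm ht'I (hu1.conj g) hcc).2
      rw [h5] at this
      exact this.symm
    · intro a _ b _ h
      have h' : g * a * g⁻¹ = g * b * g⁻¹ := h
      have e : a = g⁻¹ * (g * a * g⁻¹) * g := by group
      rw [e, h']; group
    · intro y hy
      simp only [Finset.mem_filter, mem_Iset] at hy
      obtain ⟨hy1, hy2, hy3⟩ := hy
      have hyI : Inv2 (g⁻¹ * y * g) := by
        have := hy1.conj g⁻¹
        rwa [inv_inv] at this
      have hfw : f (g⁻¹ * y * g) = w := by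
        show (z * (g⁻¹ * y * g)) * (z * (g⁻¹ * y * g)) = w
        have hw' : w = g⁻¹ * z * g := by rw [← hg]; group
        rw [hw']
        nth_rewrite 3 [← hy3]
        rw [ht']; group
      refine ⟨g⁻¹ * y * g, ?_, by group⟩
      simp only [hB, Finset.mem_filter, mem_I0]
      refine ⟨⟨⟨hyI, ?_⟩, ?_⟩, hfw⟩
      · have h7 : (z * (g⁻¹ * y * g)) ^ 4 = f (g⁻¹ * y * g) * f (g⁻¹ * y * g) := by
          show _ = ((z * (g⁻¹ * y * g)) * (z * (g⁻¹ * y * g))) * ((z * (g⁻¹ * y * g)) * (z * (g⁻¹ * y * g)))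
          simp only [pow_succ, pow_zero, one_mul, mul_assoc]
        rw [h7, hfw]; exact hwI.sq
      · intro hc
        have h6 : (g⁻¹ * y * g) * z = z * (g⁻¹ * y * g) := mem_cen.1 (by rw [hcen]; exact hc)
        apply hwI.ne
        rw [← hfw]
        show (z * (g⁻¹ * y * g)) * (z * (g⁻¹ * y * g)) = 1
        calc (z * (g⁻¹ * y * g)) * (z * (g⁻¹ * y * g)) = z * ((g⁻¹ * y * g) * z) * (g⁻¹ * y * g) := by
              simp only [mul_assoc]
          _ = z * (z * (g⁻¹ * y * g)) * (g⁻¹ * y * g) := by rw [h6]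
          _ = (z * z) * ((g⁻¹ * y * g) * (g⁻¹ * y * g)) := by simp only [mul_assoc]
          _ = 1 := by rw [hzI.sq, hyI.sq, one_mul]
  have hBc := Finset.card_eq_sum_card_fiberwise (f := f) (s := B) (t := Wset) hmaps
  rw [Finset.sum_congr rfl hfib, Finset.sum_const, smul_eq_mul] at hBc
  have h1' : A₀.card + B.card = (I0 z).card := h1
  have h3' : m - 1 + Wset.card = A₀.card := h3
  have hA' : A₀.card + m + 1 = 2 * (m * m) := hA₀c
  have hfinal : Wset.card + 2 * m = 2 * (m * m) := by omega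
  have h10 : Wset.card * m + 2 * (m * m) = 2 * m ^ 3 := by
    have h11 : (Wset.card + 2 * m) * m = Wset.card * m + 2 * (m * m) := by ring
    rw [← h11, hfinal]; ring
  rw [← h1', hBc]
  omega

end count

end Cfsg.Agent.Lib.Spec5
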