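import Mathlib
import Cfsg.Agent.Lib.Spec5.Pair
import Cfsg.Agent.S0200

/-!
# Local analysis: the quotient `A / E`
-/

set_option autoImplicit false

namespace Cfsg.Agent.Lib.Spec5

open Subgroup

universe u

variable {A : Type u} [Group A] [Finite A]

theorem card_A5 : Nat.card (alternatingGroup (Fin 5)) = 60 := by
  have h := two_mul_card_alternatingGroup (α := Fin 5)
  rw [Fintype.card_perm, Fintype.card_fin] at h
  rw [Nat.card_eq_fintype_card]
  have h2 : Nat.factorial 5 = 120 := by decide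
  omega

theorem card_A6 : Nat.card (alternatingGroup (Fin 6)) = 360 := by
  have h := two_mul_card_alternatingGroup (α := Fin 6)
  rw [Fintype.card_perm, Fintype.card_fin] at h
  rw [Nat.card_eq_fintype_card]
  have h2 : Nat.factorial 6 = 720 := by decide
  omega

theorem image_card_mul_nat {B β : Type*} [Group B] [Finite B] (S : Subgroup B) (f : B → β)
    (hf : ∀ a b, f a = f b ↔ a⁻¹ * b ∈ S) :
    ∃ s : Finset β, (∀ y, y ∈ s ↔ ∃ g, f g = y) ∧ s.card * Nat.card S = Nat.card B := by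
  classical
  haveI := Fintype.ofFinite B
  refine ⟨Finset.univ.image f, fun y => by simp, ?_⟩
  rw [image_card_mul S f hf, Nat.card_eq_fintype_card]

section quot

variable {E : Subgroup A} [hEn : E.Normal]

theorem nm_of_normal (a : A) : a ∈ normalizer (E : Set A) := by
  rw [mem_normalizer_iff]
  intro h
  constructor
  · intro hh
    exact hEn.conj_mem h hh a
  · intro hh
    have := hEn.conj_mem _ hh a⁻¹
    have e : a⁻¹ * (a * h * a⁻¹) * a⁻¹⁻¹ = h := by group
    rwa [e] at this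

theorem lift_order (hG : Sig A) {p : ℕ} (hp : p = 3 ∨ p = 5) {x : A}
    (h : orderOf ((x : A) : A ⧸ E) = p) : orderOf x = p := by
  have h1 : orderOf ((x : A) : A ⧸ E) ∣ orderOf x := orderOf_map_dvd (QuotientGroup.mk' E) x
  rw [h] at h1
  rcases hp with rfl | rfl <;> rcases hG.cases x with h2 | h2 | h2 | h2 | h2 <;> rw [h2] at h1 <;>
    first | exact h2 | omega

theorem conj_of_mod (hG : Sig A) (hE2 : IsPGroup 2 E) {p : ℕ} (hp : p.Prime) (hp2 : p ≠ 2) {w y : A}
    (hw : orderOf w = p) (hmod : ((w : A) : A ⧸ E) = ((y : A) : A ⧸ E)) : ∃ a ∈ E, a * w * a⁻¹ = y := by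
  have hd : y * w⁻¹ ∈ E := by
    have h1 : w⁻¹ * y ∈ E := QuotientGroup.eq.1 hmod
    have h2 := hEn.conj_mem _ h1 w
    have h3 : w * (w⁻¹ * y) * w⁻¹ = y * w⁻¹ := by group
    rwa [h3] at h2
  obtain ⟨a, ha, hab⟩ := coset_conj (E := E) (w := w) (fun x hx => hEn.conj_mem x hx w)
    (fun x hx hh => fix_trivial hG hE2 hp hp2 hw hx hh) hd
  refine ⟨a, ha, ?_⟩
  rw [hab]; group

/-- Lifting real elements through a normal `2`-subgroup. -/
theorem real_lift_of (hG : Sig A) (hE2 : IsPGroup 2 E) {g w : A} {p : ℕ} (hp : p = 3 ∨ p = 5)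
    (hw : orderOf w = p) (hg : g ∉ E) (hg2 : g * g ∈ E)
    (hinv : (((g * w * g⁻¹ : A)) : A ⧸ E) = ((w⁻¹ : A) : A ⧸ E)) :
    ∃ a ∈ E, RealE p w (a * g) := by
  have hpp : p.Prime := by rcases hp with rfl | rfl <;> norm_num
  have hp2 : p ≠ 2 := by rcases hp with rfl | rfl <;> norm_num
  have ho : orderOf (g * w * g⁻¹) = p := by rw [orderOf_conj']; exact hw
  obtain ⟨a, ha, hab⟩ := conj_of_mod hG hE2 hpp hp2 ho hinv
  have he : (a * g) * w * (a * g)⁻¹ = w⁻¹ := by
    rw [← hab]; group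
  have hsq : (a * g) * (a * g) ∈ E := by
    have h1 : (a * g) * (a * g) = a * (g * a * g⁻¹) * (g * g) := by group
    rw [h1]
    exact E.mul_mem (E.mul_mem ha (hEn.conj_mem a ha g)) hg2
  have hfix : w * ((a * g) * (a * g)) * w⁻¹ = (a * g) * (a * g) := by
    have h2 : ((a * g) * (a * g)) * w * ((a * g) * (a * g))⁻¹ = w := by
      calc ((a * g) * (a * g)) * w * ((a * g) * (a * g))⁻¹
          = (a * g) * ((a * g) * w * (a * g)⁻¹) * (a * g)⁻¹ := by group
        _ = (a * g) * w⁻¹ * (a * g)⁻¹ := by rw [he]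
        _ = ((a * g) * w * (a * g)⁻¹)⁻¹ := by group
        _ = w := by rw [he]; group
    have h3 : ((a * g) * (a * g)) * w = w * ((a * g) * (a * g)) := by
      calc ((a * g) * (a * g)) * w = (((a * g) * (a * g)) * w * ((a * g) * (a * g))⁻¹) * ((a * g) * (a * g)) := by
            group
        _ = _ := by rw [h2]
    rw [← h3]; group
  have h1 := fix_trivial hG hE2 hpp hp2 hw hsq hfix
  refine ⟨a, ha, hp, hw, ⟨h1, ?_⟩, he⟩
  intro hc
  apply hg
  have : g = a⁻¹ * (a * g) := by group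
  rw [this, hc, mul_one]
  exact E.inv_mem ha

/-- Normal 2-subgroups of the quotient are trivial. -/
theorem quot_O2 (hE2 : IsPGroup 2 E) (hO : ∀ Q : Subgroup A, Q.Normal → IsPGroup 2 Q → Q ≤ E)
    (N : Subgroup (A ⧸ E)) (hN : N.Normal) (hN2 : IsPGroup 2 N) : N = ⊥ := by
  have hQ : IsPGroup 2 (N.comap (QuotientGroup.mk' E)) := by
    rintro ⟨x, hx⟩
    obtain ⟨k, hk⟩ := hN2 ⟨(x : A ⧸ E), hx⟩
    have h1 : ((x ^ 2 ^ k : A) : A ⧸ E) = 1 := by
      have := congrArg Subtype.val hk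
      simpa using this
    have h2 : x ^ 2 ^ k ∈ E := (QuotientGroup.eq_one_iff _).1 h1
    obtain ⟨l, hl⟩ := hE2 ⟨_, h2⟩
    refine ⟨k + l, ?_⟩
    apply Subtype.ext
    have h3 := congrArg Subtype.val hl
    simp only [Subgroup.coe_pow, OneMemClass.coe_one] at h3 ⊢
    rw [pow_add, pow_mul]
    exact h3
  have hnorm : (N.comap (QuotientGroup.mk' E)).Normal := hN.comap _
  have h1 := hO _ hnorm hQ
  rw [eq_bot_iff]
  intro y hy
  obtain ⟨x, rfl⟩ := QuotientGroup.mk_surjective y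
  have h2 : x ∈ N.comap (QuotientGroup.mk' E) := hy
  exact (QuotientGroup.eq_one_iff _).2 (h1 h2)

/-- Existence of a real element in `A` from an involution of the quotient. -/
theorem real_lift (hG : Sig A) (hE2 : IsPGroup 2 E)
    (hO : ∀ Q : Subgroup A, Q.Normal → IsPGroup 2 Q → Q ≤ E) {g : A} (hg : g ∉ E) (hg2 : g * g ∈ E) :
    ∃ p w a, a ∈ E ∧ RealE p w (a * g) := by
  have hSX : Sig (A ⧸ E) := hG.quot E
  have hgb : Inv2 ((g : A) : A ⧸ E) := by
    refine ⟨?_, ?_⟩
    · rw [← QuotientGroup.mk_mul]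
      exact (QuotientGroup.eq_one_iff _).2 hg2
    · intro hc
      exact hg ((QuotientGroup.eq_one_iff _).1 hc)
  obtain ⟨h, hh1, hh2, hh3⟩ := Cfsg.Agent.S0200.result ((g : A) : A ⧸ E) hgb.orderOf (by
    intro N hN hN2 hm
    rw [quot_O2 hE2 hO N hN hN2, Subgroup.mem_bot] at hm
    exact hgb.ne hm)
  obtain ⟨w, rfl⟩ := QuotientGroup.mk_surjective h
  have hor : orderOf ((w : A) : A ⧸ E) = 3 ∨ orderOf ((w : A) : A ⧸ E) = 5 := by
    rcases hSX.cases ((w : A) : A ⧸ E) with h8 | h8 | h8 | h8 | h8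
    · exact absurd (orderOf_eq_one_iff.1 h8) hh1
    · rw [h8] at hh2; exact absurd hh2 (by decide)
    · exact Or.inl h8
    · rw [h8] at hh2; exact absurd hh2 (by decide)
    · exact Or.inr h8
  have hp : orderOf ((w : A) : A ⧸ E) = 3 ∨ orderOf ((w : A) : A ⧸ E) = 5 := hor
  have hw : orderOf w = orderOf ((w : A) : A ⧸ E) := lift_order hG hp rfl
  obtain ⟨a, ha, hR⟩ := real_lift_of hG hE2 (p := orderOf ((w : A) : A ⧸ E)) (w := w) (g := g)
    (by rcases hor with h | h <;> simp [h]) hw hg hg2 (by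
      simp only [QuotientGroup.mk_mul, QuotientGroup.mk_inv]
      exact hh3)
  exact ⟨_, w, a, ha, hR⟩

/-- No section `C_r × C_r`, `r` odd. -/
theorem no_sq (hG : Sig A) (hEA : EA E) (hE2 : IsPGroup 2 E) (hE1 : E ≠ ⊥) {r : ℕ} (hr : r = 3 ∨ r = 5) :
    ¬ r ^ 2 ∣ Nat.card (A ⧸ E) := by
  intro hd
  have hrp : r.Prime := by rcases hr with rfl | rfl <;> norm_num
  have hr2 : r ≠ 2 := by rcases hr with rfl | rfl <;> norm_num
  have hr5 : 5 < r ^ 2 := by rcases hr with rfl | rfl <;> norm_num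
  haveI : Fact r.Prime := ⟨hrp⟩
  have hSX : Sig (A ⧸ E) := hG.quot E
  obtain ⟨H, hH⟩ := Sylow.exists_subgroup_card_pow_prime r hd
  have hHP : IsPGroup r H := IsPGroup.of_card hH
  haveI hcm := IsPGroup.isMulCommutative_of_card_eq_prime_sq hH
  have hHc : ∀ a b : H, a * b = b * a := fun a b => mul_comm' a b
  -- orders of elements of `H`
  have hord : ∀ y ∈ H, y ≠ 1 → orderOf y = r := by
    intro y hy hy1
    obtain ⟨k, hk⟩ := hHP ⟨y, hy⟩
    have h1 := congrArg Subtype.val hk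
    simp only [Subgroup.coe_pow, OneMemClass.coe_one] at h1
    rcases hSX.order_of_ppow hr h1 with h2 | h2
    · exact absurd h2 hy1
    · exact h2
  haveI : Nontrivial H := by
    apply Finite.one_lt_card_iff_nontrivial.1
    rw [hH]
    have := hrp.one_lt
    nlinarith
  obtain ⟨a₀, ha₀⟩ := exists_ne (1 : H)
  have ha₁ : (a₀ : A ⧸ E) ≠ 1 := fun h => ha₀ (Subtype.ext h)
  have hao := hord _ a₀.2 ha₁
  obtain ⟨b₀, hb₀⟩ : ∃ b : H, (b : A ⧸ E) ∉ zpowers (a₀ : A ⧸ E) := by
    by_contra hcon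
    push Not at hcon
    have hle : H ≤ zpowers (a₀ : A ⧸ E) := fun y hy => hcon ⟨y, hy⟩
    have h2 := Nat.le_of_dvd Nat.card_pos (Subgroup.card_dvd_of_le hle)
    rw [hH, Nat.card_zpowers, hao] at h2
    have := hrp.one_lt
    nlinarith
  obtain ⟨a, haa⟩ := QuotientGroup.mk_surjective (a₀ : A ⧸ E)
  obtain ⟨b, hbb⟩ := QuotientGroup.mk_surjective (b₀ : A ⧸ E)
  have hb1 : (b₀ : A ⧸ E) ≠ 1 := by
    intro hc
    apply hb₀
    rw [hc]; exact one_mem _
  have hbo := hord _ b₀.2 hb1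
  have ha : orderOf a = r := lift_order hG hr (by rw [haa]; exact hao)
  have hb : orderOf b = r := lift_order hG hr (by rw [hbb]; exact hbo)
  apply hE1
  refine no_pp hG hE2 hEA.comm hrp hr2 (a := a) (b := b) ?_ ?_ ?_ ha hb ?_
  · exact nm_of_normal a
  · exact nm_of_normal b
  · intro x hx
    have hc : (((a * b) * (b * a)⁻¹ : A) : A ⧸ E) = 1 := by
      simp only [QuotientGroup.mk_mul, QuotientGroup.mk_inv]
      rw [haa, hbb]
      have := congrArg Subtype.val (hHc a₀ b₀)
      simp only [Subgroup.coe_mul] at this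
      rw [this]; group
    have hcE : (a * b) * (b * a)⁻¹ ∈ E := (QuotientGroup.eq_one_iff _).1 hc
    set c := (a * b) * (b * a)⁻¹ with hcdef
    have h1 : a * b = c * (b * a) := by rw [hcdef]; group
    have h2 : (b * a) * x * (b * a)⁻¹ ∈ E := hEn.conj_mem x hx _
    have h3 := hEA.comm c hcE _ h2
    rw [h1]
    calc c * (b * a) * x * (c * (b * a))⁻¹ = c * ((b * a) * x * (b * a)⁻¹) * c⁻¹ := by group
      _ = ((b * a) * x * (b * a)⁻¹) * c * c⁻¹ := by rw [h3]
      _ = _ := by group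
  · intro k
    refine lift_order (E := E) hG hr ?_
    have hmem : (((b * a ^ k : A)) : A ⧸ E) = ((b₀ * a₀ ^ k : H) : A ⧸ E) := by
      simp only [QuotientGroup.mk_mul, QuotientGroup.mk_pow, Subgroup.coe_mul, Subgroup.coe_pow]
      rw [haa, hbb]
    rw [hmem]
    refine hord _ (b₀ * a₀ ^ k).2 ?_
    intro hc
    apply hb₀
    have h1 : (b₀ : A ⧸ E) * (a₀ : A ⧸ E) ^ k = 1 := by simpa using hc
    have h2 : (b₀ : A ⧸ E) = ((a₀ : A ⧸ E) ^ k)⁻¹ := eq_inv_of_mul_eq_one_left h1
    rw [h2]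
    exact inv_mem (pow_mem (mem_zpowers _) k)

/-- The Frobenius group of order twenty does not occur. -/
theorem no_F20 (hG : Sig A) (hEA : EA E) (hE2 : IsPGroup 2 E) (hE1 : E ≠ ⊥) {f₀ y : A} (hy : orderOf y = 5)
    (hf : (((f₀ * y * f₀⁻¹ : A)) : A ⧸ E) = ((y * y : A) : A ⧸ E)) : False := by
  have hSX : Sig (A ⧸ E) := hG.quot E
  have hoo : orderOf (f₀ * y * f₀⁻¹) = 5 := by rw [orderOf_conj']; exact hy
  obtain ⟨a, ha, hab⟩ := conj_of_mod hG hE2 (p := 5) (by norm_num) (by norm_num) hoo hf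
  set f := a * f₀ with hfdef
  have hfy : f * y * f⁻¹ = y * y := by rw [← hab, hfdef]; group
  have hy5 : y ^ 5 = 1 := by rw [← hy]; exact pow_orderOf_eq_one y
  have hybar : orderOf ((y : A) : A ⧸ E) = 5 := by
    have h1 : orderOf ((y : A) : A ⧸ E) ∣ 5 := by
      rw [← hy]; exact orderOf_map_dvd (QuotientGroup.mk' E) y
    rcases (Nat.dvd_prime (by norm_num : Nat.Prime 5)).1 h1 with h2 | h2
    · exfalso
      have h3 : y ∈ E := (QuotientGroup.eq_one_iff _).1 (orderOf_eq_one_iff.1 h2)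
      have h4 := hG.pow_four_of_pgroup hE2 h3
      have h5 := orderOf_dvd_of_pow_eq_one h4
      rw [hy] at h5
      omega
    · exact h2
  -- every element of the coset has fourth power one
  have h4all : ∀ c ∈ E, (f * c) ^ 4 = 1 := by
    intro c hc
    set gb : A ⧸ E := ((f * c : A) : A ⧸ E) with hgb
    have hrel : gb * ((y : A) : A ⧸ E) * gb⁻¹ = ((y : A) : A ⧸ E) ^ 2 := by
      have h1 : gb = ((f : A) : A ⧸ E) := by
        rw [hgb, QuotientGroup.mk_mul, (QuotientGroup.eq_one_iff c).2 hc, mul_one]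
      rw [h1, pow_two, ← QuotientGroup.mk_mul, ← QuotientGroup.mk_inv, ← QuotientGroup.mk_mul,
        ← QuotientGroup.mk_mul, hfy]
    have hk : ∀ k : ℕ, gb ^ k * ((y : A) : A ⧸ E) * (gb ^ k)⁻¹ = ((y : A) : A ⧸ E) ^ 2 ^ k := by
      intro k
      induction k with
      | zero => simp
      | succ k ih =>
        have h3 : gb ^ (k + 1) * ((y : A) : A ⧸ E) * (gb ^ (k + 1))⁻¹
            = gb ^ k * (gb * ((y : A) : A ⧸ E) * gb⁻¹) * (gb ^ k)⁻¹ := by
          rw [pow_succ]; group
        rw [h3, hrel]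
        have h4 : gb ^ k * ((y : A) : A ⧸ E) ^ 2 * (gb ^ k)⁻¹
            = (gb ^ k * ((y : A) : A ⧸ E) * (gb ^ k)⁻¹) ^ 2 := by
          rw [pow_two, pow_two]; group
        rw [h4, ih, ← pow_mul, pow_succ]
    have hn : orderOf (f * c) ∣ 4 := by
      have hgo : orderOf gb ∣ orderOf (f * c) := orderOf_map_dvd (QuotientGroup.mk' E) (f * c)
      have hgp : gb ^ orderOf (f * c) = 1 := orderOf_dvd_iff_pow_eq_one.1 hgo
      have h5 := hk (orderOf (f * c))
      rw [hgp] at h5
      simp only [one_mul, inv_one, mul_one] at h5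
      have h6 : ((y : A) : A ⧸ E) ^ (2 ^ orderOf (f * c)) = ((y : A) : A ⧸ E) ^ 1 := by
        rw [pow_one]; exact h5.symm
      have h8 := (pow_eq_pow_iff_modEq.1 h6)
      rw [hybar] at h8
      rcases hG.cases (f * c) with h9 | h9 | h9 | h9 | h9 <;> rw [h9] at h8 ⊢ <;>
        first
          | decide
          | (exfalso; revert h8; decide)
    exact orderOf_dvd_iff_pow_eq_one.1 hn
  have hf4 : f ^ 4 = 1 := by
    have := h4all 1 E.one_mem
    rwa [mul_one] at this
  have hf4' : f * f * f * f = 1 := by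
    rw [← hf4]; simp only [pow_succ, pow_zero, one_mul]
  have hy4 : y * y * y * y = y⁻¹ := by
    rw [eq_inv_iff_mul_eq_one, ← hy5]; simp only [pow_succ, pow_zero, one_mul]
  have hff : (f * f) * y * (f * f)⁻¹ = y⁻¹ := by
    calc (f * f) * y * (f * f)⁻¹ = f * (f * y * f⁻¹) * f⁻¹ := by group
      _ = f * (y * y) * f⁻¹ := by rw [hfy]
      _ = (f * y * f⁻¹) * (f * y * f⁻¹) := by group
      _ = y * y * (y * y) := by rw [hfy]
      _ = y * y * y * y := by group
      _ = y⁻¹ := hy4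
  have hff1 : f * f ≠ 1 := by
    intro hc
    rw [hc] at hff
    simp only [one_mul, inv_one, mul_one] at hff
    have h1 : y * y = 1 := by
      have := mul_eq_one_iff_eq_inv.2 hff
      exact this
    have h2 := orderOf_dvd_of_pow_eq_one (by rw [pow_two]; exact h1 : y ^ 2 = 1)
    rw [hy] at h2
    omega
  have HR : RealE 5 y (f * f) := ⟨Or.inr rfl, hy, ⟨by rw [← hf4'.symm.symm]; simp only [mul_assoc], hff1⟩, hff⟩
  have hcard := card_fix_sq hG hE2 hEA HR (nm_of_normal y) (nm_of_normal (f * f))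
  -- fixed points of `f²` are fixed by `f`
  have hfixed : ∀ v ∈ fixE E (f * f), f * v * f⁻¹ = v := by
    intro v hv
    obtain ⟨hvE, hv2⟩ := mem_fixE'.1 hv
    obtain ⟨b, hb, hbv⟩ := fold_surj hG hE2 hEA HR (nm_of_normal y) (nm_of_normal (f * f)) hvE hv2
    have h1 := h4all b hb
    have h2 : (f * b) ^ 4 = (f * b * f⁻¹) * ((f * f) * b * (f * f)⁻¹) * ((f * f * f) * b * (f * f * f)⁻¹)
        * ((f * f * f * f) * b * (f * f * f * f)⁻¹) * (f * f * f * f) := by
      simp only [pow_succ, pow_zero, one_mul]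
      group
    rw [h2, hf4'] at h1
    simp only [one_mul, inv_one, mul_one] at h1
    set c1 := f * b * f⁻¹ with hc1
    set c2 := (f * f) * b * (f * f)⁻¹ with hc2
    set c3 := (f * f * f) * b * (f * f * f)⁻¹ with hc3
    have e1 : c1 ∈ E := hEn.conj_mem b hb f
    have e2 : c2 ∈ E := hEn.conj_mem b hb _
    have e3 : c3 ∈ E := hEn.conj_mem b hb _
    have hfv : f * v * f⁻¹ = c1 * c3 := by
      rw [← hbv, hc1, hc2, hc3]; group
    have hprod : v * (f * v * f⁻¹) = 1 := by
      rw [hfv, ← hbv, ← h1]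
      change b * c2 * (c1 * c3) = c1 * c2 * c3 * b
      have c12 := hEA.comm c1 e1 c2 e2
      have cb3 := hEA.comm (c1 * c2 * c3) (E.mul_mem (E.mul_mem e1 e2) e3) b hb
      rw [cb3]
      calc b * c2 * (c1 * c3) = b * (c2 * c1) * c3 := by simp only [mul_assoc]
        _ = b * (c1 * c2) * c3 := by rw [c12]
        _ = _ := by simp only [mul_assoc]
    have h3 := eq_inv_of_mul_eq_one_right hprod
    rw [h3]
    exact inv_eq_of_mul_eq_one_left (hEA.sq v hvE)
  -- a nontrivial fixed point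
  have hne : 1 < Nat.card (fixE E (f * f)) := by
    have hEc : 1 < Nat.card E := by
      haveI : Nontrivial E := (Subgroup.nontrivial_iff_ne_bot E).2 hE1
      exact Finite.one_lt_card
    by_contra hlt
    have h1 : Nat.card (fixE E (f * f)) = 1 := by
      have := Nat.card_pos (α := fixE E (f * f))
      omega
    rw [h1] at hcard
    omega
  haveI : Nontrivial (fixE E (f * f)) := Finite.one_lt_card_iff_nontrivial.1 hne
  obtain ⟨v₀, hv₀⟩ := exists_ne (1 : fixE E (f * f))
  set v : A := (v₀ : A) with hv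
  have hv1 : v ≠ 1 := fun h => hv₀ (Subtype.ext h)
  have hvF : v ∈ fixE E (f * f) := v₀.2
  obtain ⟨hvE, hv2⟩ := mem_fixE'.1 hvF
  have a1 : y * v * y⁻¹ ∈ E := hEn.conj_mem v hvE y
  have a4 : y⁻¹ * v * y ∈ E := by
    have := hEn.conj_mem v hvE y⁻¹
    rwa [inv_inv] at this
  have a2 : y * y * v * (y * y)⁻¹ ∈ E := hEn.conj_mem v hvE _
  have a3 : (y * y)⁻¹ * v * (y * y) ∈ E := by
    have := hEn.conj_mem v hvE (y * y)⁻¹
    rwa [inv_inv] at this
  -- `u` is fixed by `f²`
  have hu : (y * v * y⁻¹) * (y⁻¹ * v * y) ∈ fixE E (f * f) := by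
    rw [mem_fixE']
    refine ⟨E.mul_mem a1 a4, ?_⟩
    have h1 : (f * f) * (y * v * y⁻¹) * (f * f)⁻¹ = y⁻¹ * v * y := by
      calc (f * f) * (y * v * y⁻¹) * (f * f)⁻¹
          = ((f * f) * y * (f * f)⁻¹) * ((f * f) * v * (f * f)⁻¹) * ((f * f) * y * (f * f)⁻¹)⁻¹ := by group
        _ = y⁻¹ * v * y := by rw [hff, hv2, inv_inv]
    have h2 : (f * f) * (y⁻¹ * v * y) * (f * f)⁻¹ = y * v * y⁻¹ := by
      calc (f * f) * (y⁻¹ * v * y) * (f * f)⁻¹
          = ((f * f) * y * (f * f)⁻¹)⁻¹ * ((f * f) * v * (f * f)⁻¹) * ((f * f) * y * (f * f)⁻¹) := by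
            generalize f * f = F; group
        _ = y * v * y⁻¹ := by rw [hff, hv2, inv_inv]
    calc (f * f) * ((y * v * y⁻¹) * (y⁻¹ * v * y)) * (f * f)⁻¹
        = ((f * f) * (y * v * y⁻¹) * (f * f)⁻¹) * ((f * f) * (y⁻¹ * v * y) * (f * f)⁻¹) := by group
      _ = (y⁻¹ * v * y) * (y * v * y⁻¹) := by rw [h1, h2]
      _ = _ := hEA.comm _ a4 _ a1
  have h1 := hfixed _ hu
  have hfv := hfixed v hvF
  have h2 : f * ((y * v * y⁻¹) * (y⁻¹ * v * y)) * f⁻¹
      = (y * y * v * (y * y)⁻¹) * ((y * y)⁻¹ * v * (y * y)) := by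
    calc f * ((y * v * y⁻¹) * (y⁻¹ * v * y)) * f⁻¹
        = ((f * y * f⁻¹) * (f * v * f⁻¹) * (f * y * f⁻¹)⁻¹)
          * ((f * y * f⁻¹)⁻¹ * (f * v * f⁻¹) * (f * y * f⁻¹)) := by group
      _ = _ := by rw [hfy, hfv]
  rw [h2] at h1
  have hn5 := norm5 hG hE2 hEA.comm (nm_of_normal y) hy hvE
  set a₁ := y * v * y⁻¹
  set a₂ := y * y * v * (y * y)⁻¹
  set a₃ := (y * y)⁻¹ * v * (y * y)
  set a₄ := y⁻¹ * v * y
  have h3 : v * (a₁ * a₄) * (a₂ * a₃) = 1 := by
    rw [← hn5]
    have c1 : a₁ * a₄ * (a₂ * a₃) = a₁ * a₂ * a₃ * a₄ := by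
      have c2 := hEA.comm a₄ a4 (a₂ * a₃) (E.mul_mem a2 a3)
      calc a₁ * a₄ * (a₂ * a₃) = a₁ * (a₄ * (a₂ * a₃)) := by simp only [mul_assoc]
        _ = a₁ * ((a₂ * a₃) * a₄) := by rw [c2]
        _ = _ := by simp only [mul_assoc]
    calc v * (a₁ * a₄) * (a₂ * a₃) = v * (a₁ * a₄ * (a₂ * a₃)) := by simp only [mul_assoc]
      _ = v * (a₁ * a₂ * a₃ * a₄) := by rw [c1]
      _ = _ := by simp only [mul_assoc]
  rw [← h1] at h3
  have h5 := hEA.sq _ (E.mul_mem a2 a3)
  apply hv1
  calc v = v * ((a₂ * a₃) * (a₂ * a₃)) := by rw [h5, mul_one]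
    _ = v * (a₂ * a₃) * (a₂ * a₃) := by simp only [mul_assoc]
    _ = 1 := h3

/-- The structure of the quotient. -/
theorem X_struct (hG : Sig A) (hEA : EA E) (hE2 : IsPGroup 2 E) (hE1 : E ≠ ⊥)
    (hO : ∀ Q : Subgroup A, Q.Normal → IsPGroup 2 Q → Q ≤ E) {g : A} (hg : g ∉ E) (hg2 : g * g ∈ E)
    (hM : 3 ∣ Nat.card (A ⧸ E) → 5 ∣ Nat.card (A ⧸ E) →
      Nonempty ((A ⧸ E) ≃* alternatingGroup (Fin 5)) ∨ Nonempty ((A ⧸ E) ≃* alternatingGroup (Fin 6))) :
    Nat.card (A ⧸ E) = 6 ∨ Nat.card (A ⧸ E) = 10 ∨ Nonempty ((A ⧸ E) ≃* alternatingGroup (Fin 5)) := by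
  haveI : Fact (Nat.Prime 2) := ⟨Nat.prime_two⟩
  haveI : Fact (Nat.Prime 3) := ⟨by norm_num⟩
  haveI : Fact (Nat.Prime 5) := ⟨by norm_num⟩
  set X := A ⧸ E with hXdef
  have hSX : Sig X := hG.quot E
  have hOX : ∀ N : Subgroup X, N.Normal → IsPGroup 2 N → N = ⊥ := quot_O2 hE2 hO
  have hgb : Inv2 ((g : A) : X) := by
    refine ⟨?_, ?_⟩
    · rw [← QuotientGroup.mk_mul]
      exact (QuotientGroup.eq_one_iff _).2 hg2
    · intro hc
      exact hg ((QuotientGroup.eq_one_iff _).1 hc)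
  have h2X : 2 ∣ Nat.card X := by
    rw [← hgb.orderOf]; exact orderOf_dvd_natCard _
  have hXne : Nat.card X ≠ 0 := Nat.card_pos.ne'
  obtain ⟨c, a, b, hform⟩ := card_form hXne (fun q hq hd => hSX.prime_dvd_card hq hd)
  have hn9 : ¬ 3 ^ 2 ∣ Nat.card X := no_sq hG hEA hE2 hE1 (Or.inl rfl)
  have hn25 : ¬ 5 ^ 2 ∣ Nat.card X := no_sq hG hEA hE2 hE1 (Or.inr rfl)
  have ha : a ≤ 1 := by
    by_contra hc
    apply hn9
    rw [hform]
    exact Dvd.dvd.mul_right (Dvd.dvd.mul_left (Nat.pow_dvd_pow 3 (by omega)) _) _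
  have hb : b ≤ 1 := by
    by_contra hc
    apply hn25
    rw [hform]
    exact Dvd.dvd.mul_left (Nat.pow_dvd_pow 5 (by omega)) _
  have hc1 : 1 ≤ c := by
    by_contra h0
    have : c = 0 := by omega
    rw [this, pow_zero, one_mul] at hform
    rw [hform] at h2X
    have h3 : ¬ 2 ∣ 3 ^ a * 5 ^ b := by
      intro hd
      rcases (Nat.Prime.dvd_mul (by norm_num)).1 hd with hd | hd
      · have := (Nat.prime_dvd_prime_iff_eq (by norm_num) (by norm_num)).1
          ((by norm_num : Nat.Prime 2).dvd_of_dvd_pow hd)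
        omega
      · have := (Nat.prime_dvd_prime_iff_eq (by norm_num) (by norm_num)).1
          ((by norm_num : Nat.Prime 2).dvd_of_dvd_pow hd)
        omega
    exact h3 h2X
  obtain ⟨Q⟩ : Nonempty (Sylow 2 X) := inferInstance
  have hcore : (Q : Subgroup X).normalCore = ⊥ := by
    apply hOX _ (Subgroup.normalCore_normal _)
    exact Q.isPGroup'.to_le (Subgroup.normalCore_le _)
  have hcarddvd : Nat.card X ∣ (Q : Subgroup X).index.factorial := by
    have h : (Q : Subgroup X).normalCore.index ∣ (Q : Subgroup X).index.factorial := by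
      rw [Subgroup.normalCore_eq_ker, Subgroup.index_ker, Subgroup.index_eq_card, ← Nat.card_perm]
      exact Subgroup.card_subgroup_dvd_card (MulAction.toPermHom X (X ⧸ (Q : Subgroup X))).range
    rwa [hcore, Subgroup.index_bot] at h
  have hidx : (Q : Subgroup X).index = 3 ^ a * 5 ^ b := by
    obtain ⟨k, hk⟩ := IsPGroup.iff_card.1 Q.isPGroup'
    have h1 : Nat.card (Q : Subgroup X) * (Q : Subgroup X).index = Nat.card X :=
      Subgroup.card_mul_index _
    have hnd := Q.not_dvd_index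
    have h3 : ¬ 2 ∣ 3 ^ a * 5 ^ b := by
      intro hd
      rcases (Nat.Prime.dvd_mul (by norm_num)).1 hd with hd | hd
      · have := (Nat.prime_dvd_prime_iff_eq (by norm_num) (by norm_num)).1
          ((by norm_num : Nat.Prime 2).dvd_of_dvd_pow hd)
        omega
      · have := (Nat.prime_dvd_prime_iff_eq (by norm_num) (by norm_num)).1
          ((by norm_num : Nat.Prime 2).dvd_of_dvd_pow hd)
        omega
    have h4 : 2 ^ k * (Q : Subgroup X).index = 2 ^ c * (3 ^ a * 5 ^ b) := by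
      rw [← hk, h1, hform]; ring
    have h5 := pow_part_unique (by norm_num) h4 hnd h3
    rw [h5] at h4
    exact Nat.eq_of_mul_eq_mul_left (by positivity) h4
  have hab : (a = 0 ∧ b = 0) ∨ (a = 1 ∧ b = 0) ∨ (a = 0 ∧ b = 1) ∨ (a = 1 ∧ b = 1) := by omega
  rcases hab with ⟨rfl, rfl⟩ | ⟨rfl, rfl⟩ | ⟨rfl, rfl⟩ | ⟨rfl, rfl⟩
  · -- a 2-group
    exfalso
    have hP : IsPGroup 2 (⊤ : Subgroup X) := by
      apply IsPGroup.of_card (n := c)
      rw [Subgroup.card_top, hform]; simp
    have h1 := hOX ⊤ inferInstance hP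
    have h2 : Nat.card X = 1 := by
      have := congrArg (fun H : Subgroup X => Nat.card H) h1
      simp only [Subgroup.card_top, Subgroup.card_bot] at this
      exact this
    rw [h2] at h2X
    omega
  · -- order `3 * 2 ^ c`
    left
    simp only [pow_one, pow_zero, mul_one] at hform hidx
    rw [hidx] at hcarddvd
    have h1 : Nat.card X ∣ 6 := by simpa [Nat.factorial] using hcarddvd
    have h3 : Nat.card X ≤ 6 := Nat.le_of_dvd (by norm_num) h1
    have h4 : 2 ^ 1 ≤ 2 ^ c := Nat.pow_le_pow_right (by norm_num) hc1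
    change Nat.card X = 6
    omega
  · -- order `5 * 2 ^ c`
    right; left
    simp only [pow_one, pow_zero, one_mul, mul_one] at hform hidx
    rw [hidx] at hcarddvd
    have h1 : Nat.card X ∣ 120 := by simpa [Nat.factorial] using hcarddvd
    have h3 : Nat.card X ≤ 120 := Nat.le_of_dvd (by norm_num) h1
    -- a normal Sylow 5-subgroup
    have h5X : 5 ∣ Nat.card X := by rw [hform]; exact Dvd.intro_left _ rfl
    obtain ⟨ybar, hyb⟩ := exists_prime_orderOf_dvd_card' (G := X) 5 h5X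
    -- the Sylow subgroup containing `ybar` is `zpowers ybar`
    have hP5 : IsPGroup 5 (zpowers ybar) := by
      apply IsPGroup.of_card (n := 1)
      rw [Nat.card_zpowers, hyb, pow_one]
    obtain ⟨R, hR⟩ := hP5.exists_le_sylow
    have hRcard : Nat.card (R : Subgroup X) = 5 := by
      obtain ⟨k, hk⟩ := IsPGroup.iff_card.1 R.isPGroup'
      have h6 : Nat.card (R : Subgroup X) ∣ Nat.card X := Subgroup.card_subgroup_dvd_card _
      rw [hk] at h6 ⊢
      have h7 : k ≤ 1 := by
        by_contra hc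
        apply hn25
        exact (Nat.pow_dvd_pow 5 (by omega)).trans h6
      have h8 : 5 ∣ 5 ^ k := by
        have h9 := Subgroup.card_dvd_of_le hR
        rw [Nat.card_zpowers, hyb, hk] at h9
        exact h9
      interval_cases k <;> simp_all
    have hRz : (R : Subgroup X) = zpowers ybar := by
      symm
      apply Subgroup.eq_of_le_of_card_ge hR
      rw [hRcard, Nat.card_zpowers, hyb]
    have hnR : Nat.card (Sylow 5 X) = 1 := by
      have h6 := Sylow.card_dvd_index R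
      have h7 : (R : Subgroup X).index = 2 ^ c := by
        have h8 : Nat.card (R : Subgroup X) * (R : Subgroup X).index = Nat.card X :=
          Subgroup.card_mul_index _
        rw [hRcard, hform] at h8
        omega
      rw [h7] at h6
      obtain ⟨j, hj, hj2⟩ := (Nat.dvd_prime_pow Nat.prime_two).1 h6
      have hmod := card_sylow_modEq_one 5 X
      have hle : 2 ^ c ≤ 24 := by omega
      have hc4 : c ≤ 3 := by
        by_contra hc
        have h10 : 2 ^ 4 ∣ 2 ^ c := Nat.pow_dvd_pow 2 (by omega)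
        have h11 : 2 ^ 4 * 5 ∣ 2 ^ c * 5 := Nat.mul_dvd_mul_right h10 5
        rw [← hform] at h11
        have h12 := h11.trans h1
        norm_num at h12
      have hj4 : j ≤ 3 := by omega
      rw [hj2] at hmod ⊢
      rw [Nat.ModEq] at hmod
      interval_cases j <;> simp_all
    have hzn : (zpowers ybar).Normal := by
      rw [← hRz]
      haveI : Subsingleton (Sylow 5 X) := (Nat.card_eq_one_iff_unique.1 hnR).1
      exact Sylow.normal_of_subsingleton R
    -- orbit of `ybar`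
    have hcz : ∀ g ∈ cen ybar, g ∈ zpowers ybar := by
      intro g hg
      have hP := hSX.pgroup_centralizer hyb
      obtain ⟨S5, hS5⟩ := hP.exists_le_sylow
      have h6 : S5 = R := by
        haveI : Subsingleton (Sylow 5 X) := (Nat.card_eq_one_iff_unique.1 hnR).1
        exact Subsingleton.elim _ _
      rw [← hRz, ← h6]
      exact hS5 hg
    obtain ⟨sI, hsI, himg⟩ := image_card_mul_nat (cen ybar) (fun g : X => g * ybar * g⁻¹) (by
      intro p q
      rw [mem_cen]
      constructor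
      · intro h
        have h' : p * ybar * p⁻¹ = q * ybar * q⁻¹ := h
        have h6 : (p⁻¹ * q) * ybar * (p⁻¹ * q)⁻¹ = ybar := by
          calc (p⁻¹ * q) * ybar * (p⁻¹ * q)⁻¹ = p⁻¹ * (q * ybar * q⁻¹) * p := by group
            _ = p⁻¹ * (p * ybar * p⁻¹) * p := by rw [h']
            _ = ybar := by group
        calc p⁻¹ * q * ybar = ((p⁻¹ * q) * ybar * (p⁻¹ * q)⁻¹) * (p⁻¹ * q) := by group
          _ = _ := by rw [h6]
      · intro h
        have h6 : p⁻¹ * q * ybar * (p⁻¹ * q)⁻¹ = ybar := by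
          rw [h]; group
        show p * ybar * p⁻¹ = q * ybar * q⁻¹
        calc p * ybar * p⁻¹ = p * (p⁻¹ * q * ybar * (p⁻¹ * q)⁻¹) * p⁻¹ := by rw [h6]
          _ = _ := by group)
    have hczc : Nat.card (cen ybar) = 5 := by
      apply le_antisymm
      · have := Nat.card_le_card_of_injective (fun x : cen ybar => (⟨x.1, hcz x.1 x.2⟩ : zpowers ybar))
          (fun x y h => Subtype.ext (congrArg (fun z : zpowers ybar => z.1) h))
        rwa [Nat.card_zpowers, hyb] at this
      · have h6 : zpowers ybar ≤ cen ybar := by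
          intro y hy
          obtain ⟨k, rfl⟩ := Subgroup.mem_zpowers_iff.1 hy
          exact (cen ybar).zpow_mem (self_mem_cen ybar) k
        have := Nat.le_of_dvd Nat.card_pos (Subgroup.card_dvd_of_le h6)
        rwa [Nat.card_zpowers, hyb] at this
    rw [hczc] at himg
    -- the image lies in the nonidentity elements of `zpowers ybar`
    classical
    haveI := Fintype.ofFinite X
    set TT : Finset X := (Finset.univ.filter (fun y => y ∈ zpowers ybar)).erase 1 with hTT
    have hTc : TT.card = 4 := by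
      rw [hTT, Finset.card_erase_of_mem (by simp [one_mem]), card_filter_sub, Nat.card_zpowers, hyb]
    have hybne : ybar ≠ 1 := by
      rintro rfl
      simp at hyb
    have hsub : sI ⊆ TT := by
      intro y hy
      obtain ⟨p, rfl⟩ := (hsI _).1 hy
      rw [hTT, Finset.mem_erase]
      refine ⟨?_, by simpa using hzn.conj_mem _ (mem_zpowers ybar) p⟩
      intro hc
      apply hybne
      have : ybar = p⁻¹ * (p * ybar * p⁻¹) * p := by group
      rw [this, hc]; group
    have hle4 := Finset.card_le_card hsub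
    rw [hTc] at hle4
    have hsc : sI.card = 2 ^ c := by
      rw [hform] at himg
      omega
    have hc2 : c = 1 ∨ c = 2 := by
      rw [hsc] at hle4
      by_contra hcc
      have : 3 ≤ c := by omega
      have : 2 ^ 3 ≤ 2 ^ c := Nat.pow_le_pow_right (by norm_num) this
      omega
    rcases hc2 with rfl | rfl
    · rw [hform]; norm_num
    · exfalso
      have hEq : sI = TT := Finset.eq_of_subset_of_card_le hsub (by rw [hTc, hsc]; norm_num)
      have hyy : ybar * ybar ∈ TT := by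
        rw [hTT, Finset.mem_erase]
        refine ⟨?_, by simpa using mul_mem (mem_zpowers ybar) (mem_zpowers ybar)⟩
        intro hc
        have h6 := orderOf_dvd_of_pow_eq_one (by rw [pow_two]; exact hc : ybar ^ 2 = 1)
        rw [hyb] at h6
        omega
      rw [← hEq] at hyy
      obtain ⟨fb, hfb⟩ := (hsI _).1 hyy
      obtain ⟨y, rfl⟩ := QuotientGroup.mk_surjective ybar
      obtain ⟨f₀, rfl⟩ := QuotientGroup.mk_surjective fb
      have hyo : orderOf y = 5 := lift_order hG (Or.inr rfl) hyb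
      refine no_F20 hG hEA hE2 hE1 (f₀ := f₀) hyo ?_
      simp only [QuotientGroup.mk_mul, QuotientGroup.mk_inv]
      exact hfb
  · -- order `15 * 2 ^ c`
    right; right
    simp only [pow_one] at hform hidx
    have h3 : 3 ∣ Nat.card X := by
      rw [hform]; exact Dvd.dvd.mul_right (Dvd.intro_left _ rfl) _
    have h5 : 5 ∣ Nat.card X := by
      rw [hform]; exact Dvd.intro_left _ rfl
    rcases hM h3 h5 with h | ⟨⟨φ⟩⟩
    · exact h
    · exfalso
      have h6 : Nat.card X = 360 := by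
        rw [Nat.card_congr φ.toEquiv]
        exact card_A6
      apply hn9
      rw [h6]; norm_num

end quot

end Cfsg.Agent.Lib.Spec5
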