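import Mathlib

/-!
# Arithmetic of the final equations
-/

set_option autoImplicit false

namespace Cfsg.Agent.Lib.Spec5

theorem bound_xy {X Y I A B : ℕ} (hX : 1 ≤ X) (hY : 1 ≤ Y)
    (h : X * Y = I + A * (X - 1) + B * (Y - 1)) (hD : A + B < I + A * B) :
    X ≤ B + (I + A * B) ∧ Y ≤ A + (I + A * B) := by
  obtain ⟨x, rfl⟩ : ∃ x, X = x + 1 := ⟨X - 1, by omega⟩
  obtain ⟨y, rfl⟩ : ∃ y, Y = y + 1 := ⟨Y - 1, by omega⟩
  simp only [Nat.add_sub_cancel] at h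
  have hz : (((x + 1 : ℕ) : ℤ) - B) * (((y + 1 : ℕ) : ℤ) - A) = (I : ℤ) - A - B + A * B := by
    have : ((x + 1 : ℕ) : ℤ) * ((y + 1 : ℕ) : ℤ) = (I : ℤ) + A * x + B * y := by
      exact_mod_cast h
    push_cast at this ⊢
    linarith [this]
  have hDp : (0 : ℤ) < (I : ℤ) - A - B + A * B := by
    have : ((A + B : ℕ) : ℤ) < ((I + A * B : ℕ) : ℤ) := by exact_mod_cast hD
    push_cast at this
    linarith
  have hbound : ∀ u v D : ℤ, u * v = D → 0 < D → u ≤ D := by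
    intro u v D huv hD0
    by_cases hu : 0 < u
    · exact Int.le_of_dvd hD0 ⟨v, huv.symm⟩
    · linarith [not_lt.1 hu]
  have h1 := hbound _ _ _ hz hDp
  have h2 := hbound _ _ _ ((mul_comm _ _).trans hz) hDp
  constructor
  · have : ((x + 1 : ℕ) : ℤ) ≤ ((B + (I + A * B) : ℕ) : ℤ) := by
      push_cast at h1 ⊢
      have hA0 : (0 : ℤ) ≤ A := by positivity
      linarith
    exact_mod_cast this
  · have : ((y + 1 : ℕ) : ℤ) ≤ ((A + (I + A * B) : ℕ) : ℤ) := by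
      push_cast at h2 ⊢
      have hB0 : (0 : ℤ) ≤ B := by positivity
      linarith
    exact_mod_cast this

theorem exp_le_three {a N k : ℕ} (h : 3 ^ a ≤ N) (hN : N < 3 ^ (k + 1)) : a ≤ k := by
  by_contra hc
  have : 3 ^ (k + 1) ≤ 3 ^ a := Nat.pow_le_pow_right (by norm_num) (by omega)
  omega

theorem exp_le_five {a N k : ℕ} (h : 5 ^ a ≤ N) (hN : N < 5 ^ (k + 1)) : a ≤ k := by
  by_contra hc
  have : 5 ^ (k + 1) ≤ 5 ^ a := Nat.pow_le_pow_right (by norm_num) (by omega)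
  omega

set_option synthInstance.maxHeartbeats 0 in
set_option synthInstance.maxSize 2000 in
theorem check8 : ∀ a ∈ Finset.Icc (1 : ℕ) 3, ∀ b ∈ Finset.Icc (1 : ℕ) 2, ∀ A ∈ Finset.range 5, ∀ w ∈ Finset.range 9,
    ∀ B ∈ Finset.range 5, (A * w = 8 → 2 ≤ w → w + 1 ≤ 3 ^ a → B ≠ 3 →
      3 ^ a * 5 ^ b = 13 + A * (3 ^ a - 1) + B * (5 ^ b - 1) → 3 ^ a * 5 ^ b = 45) := by
  decide +kernel

theorem num8 {a b A w B : ℕ} (ha : 1 ≤ a) (hb : 1 ≤ b) (hAw : A * w = 8) (hw : 2 ≤ w)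
    (hwa : w + 1 ≤ 3 ^ a) (hB : B = 0 ∨ B = 1 ∨ B = 2 ∨ B = 4)
    (h : 3 ^ a * 5 ^ b = 13 + A * (3 ^ a - 1) + B * (5 ^ b - 1)) : 3 ^ a * 5 ^ b = 45 := by
  have hA4 : A ≤ 4 := by nlinarith
  have hw8 : w ≤ 8 := by
    have hA0 : 1 ≤ A := by
      rcases Nat.eq_zero_or_pos A with h0 | h0
      · rw [h0] at hAw; omega
      · exact h0
    nlinarith
  have hB4 : B ≤ 4 := by omega
  have hX : 1 ≤ 3 ^ a := Nat.one_le_pow _ _ (by norm_num)
  have hY : 1 ≤ 5 ^ b := Nat.one_le_pow _ _ (by norm_num)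
  have hAB : A * B ≤ 16 := Nat.mul_le_mul hA4 hB4
  obtain ⟨h1, h2⟩ := bound_xy hX hY h (I := 13) (by
    have : A + B ≤ 8 := by omega
    by_cases h8 : A + B < 13
    · omega
    · omega)
  have h1' : 3 ^ a ≤ 33 := by omega
  have h2' : 5 ^ b ≤ 33 := by omega
  have ha3 : a ≤ 3 := exp_le_three h1' (by norm_num)
  have hb2 : b ≤ 2 := exp_le_five h2' (by norm_num)
  refine check8 a (Finset.mem_Icc.2 ⟨ha, ha3⟩) b (Finset.mem_Icc.2 ⟨hb, hb2⟩) A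
    (Finset.mem_range.2 (by omega)) w (Finset.mem_range.2 (by omega)) B (Finset.mem_range.2 (by omega))
    hAw hw hwa (by omega) h

set_option synthInstance.maxHeartbeats 0 in
set_option synthInstance.maxSize 2000 in
theorem check64 : ∀ a ∈ Finset.Icc (1 : ℕ) 6, ∀ b ∈ Finset.Icc (1 : ℕ) 4, ∀ A ∈ ({1, 2, 4, 8, 16, 32} : Finset ℕ),
    ∀ B ∈ ({1, 2, 4, 8, 16, 32} : Finset ℕ), 64 / A + 1 ≤ 3 ^ a → 
      3 ^ a * 5 ^ b ≠ 123 + A * (3 ^ a - 1) + B * (5 ^ b - 1) := by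
  decide +kernel

theorem num64 {a b A w B : ℕ} (ha : 1 ≤ a) (hb : 1 ≤ b) (hAw : A * w = 64) (hw : 2 ≤ w)
    (hwa : w + 1 ≤ 3 ^ a) (hB : B = 1 ∨ B = 2 ∨ B = 4 ∨ B = 8 ∨ B = 16 ∨ B = 32)
    (h : 3 ^ a * 5 ^ b = 123 + A * (3 ^ a - 1) + B * (5 ^ b - 1)) : False := by
  have hA0 : 0 < A := by
    rcases Nat.eq_zero_or_pos A with h0 | h0
    · rw [h0] at hAw; omega
    · exact h0
  have hA : A ∣ 64 := ⟨w, hAw.symm⟩
  have hA2 : A ∈ Nat.divisors 64 := Nat.mem_divisors.2 ⟨hA, by norm_num⟩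
  have hdiv : Nat.divisors 64 = {1, 2, 4, 8, 16, 32, 64} := by decide +kernel
  rw [hdiv] at hA2
  have hA64 : A ≠ 64 := by
    rintro rfl
    omega
  have hA3 : A ∈ ({1, 2, 4, 8, 16, 32} : Finset ℕ) := by
    simp only [Finset.mem_insert, Finset.mem_singleton] at hA2 ⊢
    omega
  have hB3 : B ∈ ({1, 2, 4, 8, 16, 32} : Finset ℕ) := by
    simp only [Finset.mem_insert, Finset.mem_singleton]
    omega
  have hA32 : A ≤ 32 := by
    simp only [Finset.mem_insert, Finset.mem_singleton] at hA3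
    omega
  have hB32 : B ≤ 32 := by omega
  have hX : 1 ≤ 3 ^ a := Nat.one_le_pow _ _ (by norm_num)
  have hY : 1 ≤ 5 ^ b := Nat.one_le_pow _ _ (by norm_num)
  have hAB : A * B ≤ 1024 := Nat.mul_le_mul hA32 hB32
  obtain ⟨h1, h2⟩ := bound_xy hX hY h (I := 123) (by omega)
  have h1' : 3 ^ a ≤ 1179 := by omega
  have h2' : 5 ^ b ≤ 1179 := by omega
  have ha3 : a ≤ 6 := exp_le_three h1' (by norm_num)
  have hb2 : b ≤ 4 := exp_le_five h2' (by norm_num)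
  have hw64 : 64 / A = w := by
    rw [← hAw]; exact Nat.mul_div_cancel_left _ hA0
  exact check64 a (Finset.mem_Icc.2 ⟨ha, ha3⟩) b (Finset.mem_Icc.2 ⟨hb, hb2⟩) A hA3 B hB3
    (by rw [hw64]; exact hwa) h

end Cfsg.Agent.Lib.Spec5
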