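import Mathlib
import Cfsg.Agent.Lib.Spec5.LocalX
import Cfsg.Agent.Lib.Spec5.Num

/-!
# Pieces for the non trivial intersection case
-/

set_option autoImplicit false

namespace Cfsg.Agent.Lib.Spec5

open Subgroup

universe u

variable {T : Type u} [Group T]

theorem swap_false {E E' : Subgroup T} (hE : EA E) (hE' : EA E')
    (nondeg : ∀ a ∈ E, ∀ b ∈ E', a * b = b * a → a ∈ E' ∨ b ∈ E)
    {g α β a : T} (hgE : ∀ x ∈ E, g * x * g⁻¹ ∈ E') (hgE' : ∀ x ∈ E', g * x * g⁻¹ ∈ E)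
    (hα : α ∈ E) (hβ : β ∈ E') (hgg : g * g = α * β) (hg4 : (g * g) * (g * g) = 1)
    (ha : a ∈ E) (ha' : a ∉ E') (hga : ((g * a) * (g * a)) * ((g * a) * (g * a)) = 1) : False := by
  have hαi : α⁻¹ = α := inv_eq_of_mul_eq_one_left (hE.sq α hα)
  have hβi : β⁻¹ = β := inv_eq_of_mul_eq_one_left (hE'.sq β hβ)
  have hab : α * β = β * α := by
    have h1 : (α * β)⁻¹ = α * β := inv_eq_of_mul_eq_one_left (by rw [← hgg]; exact hg4)
    rw [mul_inv_rev, hαi, hβi] at h1
    exact h1.symm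
  have hconj : g * (g * g) * g⁻¹ = g * g := by
    simp only [mul_assoc, mul_inv_cancel, mul_one]
  have hrboth : g * g ∈ E ∧ g * g ∈ E' := by
    rcases nondeg α hα β hβ hab with h | h
    · have h1 : g * g ∈ E' := by rw [hgg]; exact E'.mul_mem h hβ
      have h2 := hgE' _ h1
      rw [hconj] at h2
      exact ⟨h2, h1⟩
    · have h1 : g * g ∈ E := by rw [hgg]; exact E.mul_mem hα h
      have h2 := hgE _ h1
      rw [hconj] at h2
      exact ⟨h1, h2⟩
  have hr1 := hrboth.1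
  have hr2 := hrboth.2
  generalize hrdef : g * g = r at hrboth hr1 hr2 hg4 hconj hgg
  have ha₁E' : g * a * g⁻¹ ∈ E' := hgE a ha
  have ha₁E : g * a * g⁻¹ ∉ E := by
    intro hc
    apply ha'
    have h1 := hgE _ hc
    have h2 : g * (g * a * g⁻¹) * g⁻¹ = r * a * r⁻¹ := by
      rw [← hrdef]; simp only [mul_assoc, mul_inv_rev]
    have h3 : r * a * r⁻¹ = a := by
      rw [hE.comm r hr1 a ha]; simp only [mul_assoc, mul_inv_cancel, mul_one]
    rwa [h2, h3] at h1
  have h1 : (g * a) * (g * a) = (g * a * g⁻¹) * (r * a) := by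
    rw [← hrdef]; simp only [mul_assoc, inv_mul_cancel_left]
  generalize g * a * g⁻¹ = a₁ at ha₁E' ha₁E h1
  have hcr : a₁ * r = r * a₁ := hE'.comm _ ha₁E' _ hr2
  have hca : r * a = a * r := hE.comm _ hr1 _ ha
  rw [h1] at hga
  have e1 : a₁ * (r * a) = r * (a₁ * a) := by rw [← mul_assoc, hcr, mul_assoc]
  have c : (a₁ * a) * r = r * (a₁ * a) := by rw [mul_assoc, ← hca, ← mul_assoc, hcr, mul_assoc]
  have e2 : (r * (a₁ * a)) * (r * (a₁ * a)) = (r * r) * ((a₁ * a) * (a₁ * a)) := by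
    calc (r * (a₁ * a)) * (r * (a₁ * a)) = r * ((a₁ * a) * r) * (a₁ * a) := by simp only [mul_assoc]
      _ = r * (r * (a₁ * a)) * (a₁ * a) := by rw [c]
      _ = _ := by simp only [mul_assoc]
  rw [e1, e2, hg4, one_mul] at hga
  have ha₁i : a₁⁻¹ = a₁ := inv_eq_of_mul_eq_one_left (hE'.sq a₁ ha₁E')
  have hai : a⁻¹ = a := inv_eq_of_mul_eq_one_left (hE.sq a ha)
  have h4 : a * a₁ = a₁ * a := by
    have h5 : (a₁ * a)⁻¹ = a₁ * a := inv_eq_of_mul_eq_one_left hga
    rw [mul_inv_rev, ha₁i, hai] at h5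
    exact h5
  rcases nondeg a ha a₁ ha₁E' h4 with h | h
  · exact ha' h
  · exact ha₁E h

/-- Extension of a subgroup by a commuting involution. -/
def extE (Z : Subgroup T) (c : T) (hc : c * c = 1) (hcZ : ∀ z ∈ Z, c * z = z * c) : Subgroup T where
  carrier := {x | x ∈ Z ∨ c * x ∈ Z}
  one_mem' := Or.inl Z.one_mem
  mul_mem' := by
    intro x y hx hy
    rcases hx with hx | hx <;> rcases hy with hy | hy
    · exact Or.inl (Z.mul_mem hx hy)
    · right
      have : c * (x * y) = x * (c * y) := by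
        rw [← mul_assoc, hcZ x hx, mul_assoc]
      rw [this]; exact Z.mul_mem hx hy
    · right
      rw [← mul_assoc]; exact Z.mul_mem hx hy
    · left
      have h1 : x * y = (c * x) * (c * y) := by
        have h2 : (c * x) * c = c * (c * x) := (hcZ _ hx).symm
        calc x * y = (c * c) * x * y := by rw [hc, one_mul]
          _ = (c * (c * x)) * y := by simp only [mul_assoc]
          _ = ((c * x) * c) * y := by rw [h2]
          _ = _ := by simp only [mul_assoc]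
      rw [h1]; exact Z.mul_mem hx hy
  inv_mem' := by
    intro x hx
    rcases hx with hx | hx
    · exact Or.inl (Z.inv_mem hx)
    · right
      have hi : c⁻¹ = c := inv_eq_of_mul_eq_one_left hc
      have hz := Z.inv_mem hx
      have h2 := hcZ _ hz
      have h3 : (c * x)⁻¹ * c = x⁻¹ := by rw [mul_inv_rev, hi, mul_assoc, hc, mul_one]
      rw [h3] at h2
      rw [← h2, ← mul_assoc, hc, one_mul]
      exact hz

theorem mem_extE {Z : Subgroup T} {c : T} {hc : c * c = 1} {hcZ : ∀ z ∈ Z, c * z = z * c} {x : T} :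
    x ∈ extE Z c hc hcZ ↔ x ∈ Z ∨ c * x ∈ Z := Iff.rfl

theorem left_mem_extE {Z : Subgroup T} {c : T} {hc : c * c = 1} {hcZ : ∀ z ∈ Z, c * z = z * c} :
    c ∈ extE Z c hc hcZ := Or.inr (by rw [hc]; exact Z.one_mem)

theorem le_extE {Z : Subgroup T} {c : T} {hc : c * c = 1} {hcZ : ∀ z ∈ Z, c * z = z * c} :
    Z ≤ extE Z c hc hcZ := fun _ hx => Or.inl hx

theorem extE_form {Z : Subgroup T} {c : T} {hc : c * c = 1} {hcZ : ∀ z ∈ Z, c * z = z * c} {x : T}
    (hx : x ∈ extE Z c hc hcZ) : x ∈ Z ∨ ∃ z ∈ Z, x = c * z := by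
  rcases hx with hx | hx
  · exact Or.inl hx
  · exact Or.inr ⟨_, hx, by rw [← mul_assoc, hc, one_mul]⟩

theorem EA_extE {Z : Subgroup T} {c : T} {hc : c * c = 1} {hcZ : ∀ z ∈ Z, c * z = z * c}
    (hZ : EA Z) : EA (extE Z c hc hcZ) := by
  refine ⟨?_, ?_⟩
  · intro a ha b hb
    rcases extE_form ha with ha₀ | ⟨a', ha₀, rfl⟩ <;> rcases extE_form hb with hb₀ | ⟨b', hb₀, rfl⟩
    · exact hZ.comm _ ha₀ _ hb₀
    · calc a * (c * b') = (a * c) * b' := by rw [mul_assoc]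
        _ = (c * a) * b' := by rw [hcZ a ha₀]
        _ = c * (a * b') := by rw [mul_assoc]
        _ = c * (b' * a) := by rw [hZ.comm _ ha₀ _ hb₀]
        _ = _ := by rw [mul_assoc]
    · calc c * a' * b = c * (a' * b) := by rw [mul_assoc]
        _ = c * (b * a') := by rw [hZ.comm _ ha₀ _ hb₀]
        _ = (c * b) * a' := by rw [mul_assoc]
        _ = (b * c) * a' := by rw [hcZ b hb₀]
        _ = _ := by rw [mul_assoc]
    · calc c * a' * (c * b') = c * (a' * c) * b' := by simp only [mul_assoc]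
        _ = c * (c * a') * b' := by rw [hcZ a' ha₀]
        _ = (c * c) * (a' * b') := by simp only [mul_assoc]
        _ = (c * c) * (b' * a') := by rw [hZ.comm _ ha₀ _ hb₀]
        _ = c * (c * b') * a' := by simp only [mul_assoc]
        _ = c * (b' * c) * a' := by rw [hcZ b' hb₀]
        _ = _ := by simp only [mul_assoc]
  · intro a ha
    rcases extE_form ha with ha₀ | ⟨a', ha₀, rfl⟩
    · exact hZ.sq _ ha₀
    · calc c * a' * (c * a') = c * (a' * c) * a' := by simp only [mul_assoc]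
        _ = c * (c * a') * a' := by rw [hcZ a' ha₀]
        _ = (c * c) * (a' * a') := by simp only [mul_assoc]
        _ = 1 := by rw [hc, hZ.sq _ ha₀, one_mul]

theorem card_extE [Finite T] {Z : Subgroup T} {c : T} {hc : c * c = 1}
    {hcZ : ∀ z ∈ Z, c * z = z * c} (hcn : c ∉ Z) :
    Nat.card (extE Z c hc hcZ) = 2 * Nat.card Z := by
  classical
  let g : Z ⊕ Z → extE Z c hc hcZ := fun x => match x with
    | Sum.inl z => ⟨z, le_extE z.2⟩
    | Sum.inr z => ⟨c * z, Or.inr (by rw [← mul_assoc, hc, one_mul]; exact z.2)⟩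
  have hg : Function.Bijective g := by
    constructor
    · rintro (a | a) (b | b) h
      · have h1 : (a : T) = b := congrArg (fun w : extE Z c hc hcZ => (w : T)) h
        rw [Subtype.ext h1]
      · exfalso
        have h1 : (a : T) = c * b := congrArg (fun w : extE Z c hc hcZ => (w : T)) h
        apply hcn
        have h2 := Z.mul_mem a.2 (Z.inv_mem b.2)
        rw [h1, mul_inv_cancel_right] at h2
        exact h2
      · exfalso
        have h1 : c * (a : T) = b := congrArg (fun w : extE Z c hc hcZ => (w : T)) h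
        apply hcn
        have h2 := Z.mul_mem b.2 (Z.inv_mem a.2)
        rw [← h1, mul_inv_cancel_right] at h2
        exact h2
      · have h1 : c * (a : T) = c * b := congrArg (fun w : extE Z c hc hcZ => (w : T)) h
        rw [Subtype.ext (mul_left_cancel h1)]
    · rintro ⟨x, hx⟩
      rcases hx with hx | hx
      · exact ⟨Sum.inl ⟨x, hx⟩, rfl⟩
      · refine ⟨Sum.inr ⟨c * x, hx⟩, Subtype.ext ?_⟩
        show c * (c * x) = x
        rw [← mul_assoc, hc, one_mul]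
  rw [← Nat.card_eq_of_bijective g hg, Nat.card_sum]
  ring

/-- The product of two subgroups normalizing each other in one direction. -/
def prodS (E E' : Subgroup T) (h : ∀ b ∈ E', ∀ a ∈ E, b * a * b⁻¹ ∈ E) : Subgroup T where
  carrier := {s | ∃ a ∈ E, ∃ b ∈ E', s = a * b}
  one_mem' := ⟨1, E.one_mem, 1, E'.one_mem, by simp⟩
  mul_mem' := by
    rintro _ _ ⟨a, ha, b, hb, rfl⟩ ⟨a', ha', b', hb', rfl⟩
    exact ⟨a * (b * a' * b⁻¹), E.mul_mem ha (h b hb a' ha'), b * b', E'.mul_mem hb hb', by group⟩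
  inv_mem' := by
    rintro _ ⟨a, ha, b, hb, rfl⟩
    refine ⟨b⁻¹ * a⁻¹ * b⁻¹⁻¹, h _ (E'.inv_mem hb) _ (E.inv_mem ha), b⁻¹, E'.inv_mem hb, by group⟩

theorem mem_prodS {E E' : Subgroup T} {h : ∀ b ∈ E', ∀ a ∈ E, b * a * b⁻¹ ∈ E} {s : T} :
    s ∈ prodS E E' h ↔ ∃ a ∈ E, ∃ b ∈ E', s = a * b := Iff.rfl

/-- The order of a product. -/
theorem PairS.card_S [Finite T] {S E E' : Subgroup T} (P : PairS S E E') :
    Nat.card S * Nat.card (E ⊓ E' : Subgroup T) = Nat.card E * Nat.card E' := by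
  classical
  let H : Subgroup (E × E') :=
    { carrier := {x | ((x.1 : E) : T) = ((x.2 : E') : T)}
      one_mem' := rfl
      mul_mem' := by
        intro a b ha hb
        show ((a.1 : T) * (b.1 : T)) = ((a.2 : T) * (b.2 : T))
        rw [show ((a.1 : E) : T) = a.2 from ha, show ((b.1 : E) : T) = b.2 from hb]
      inv_mem' := by
        intro a ha
        show ((a.1 : T))⁻¹ = ((a.2 : T))⁻¹
        rw [show ((a.1 : E) : T) = a.2 from ha] }
  have hH : ∀ x : E × E', x ∈ H ↔ ((x.1 : E) : T) = ((x.2 : E') : T) := fun _ => Iff.rfl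
  have hinv1 : ∀ a ∈ E, a⁻¹ = a := fun a ha => inv_eq_of_mul_eq_one_left (P.hE.sq a ha)
  have hinv2 : ∀ a ∈ E', a⁻¹ = a := fun a ha => inv_eq_of_mul_eq_one_left (P.hE'.sq a ha)
  obtain ⟨s, hs, hcard⟩ := image_card_mul_nat H (fun x : E × E' => ((x.1 : E) : T) * ((x.2 : E') : T)) (by
    rintro ⟨a₁, a₂⟩ ⟨b₁, b₂⟩
    rw [hH]
    show (a₁ : T) * a₂ = b₁ * b₂ ↔ (a₁ : T)⁻¹ * b₁ = (a₂ : T)⁻¹ * b₂
    have key : (a₂ : T)⁻¹ * b₂ = a₂ * (b₂ : T)⁻¹ := by rw [hinv2 _ a₂.2, hinv2 _ b₂.2]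
    rw [key]
    generalize (a₁ : T) = x₁
    generalize (b₁ : T) = y₁
    generalize (a₂ : T) = x₂
    generalize (b₂ : T) = y₂
    constructor
    · intro h
      have h1 : y₁ = x₁ * x₂ * y₂⁻¹ := by rw [h]; group
      rw [h1]; group
    · intro h
      have h1 : y₁ = x₁ * (x₂ * y₂⁻¹) := by rw [← h]; group
      rw [h1]; group)
  have hsS : Nat.card S = s.card := by
    refine Nat.subtype_card s (fun x => ?_)
    rw [hs]
    constructor
    · rintro ⟨⟨a, b⟩, rfl⟩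
      exact S.mul_mem (P.leE a.2) (P.leE' b.2)
    · intro hx
      obtain ⟨a, ha, b, hb, rfl⟩ := P.decomp x hx
      exact ⟨(⟨a, ha⟩, ⟨b, hb⟩), rfl⟩
  have hHc : Nat.card H = Nat.card (E ⊓ E' : Subgroup T) := by
    refine Nat.card_congr ⟨fun x => ⟨((x.1.1 : E) : T), (x.1.1 : E).2, by
        have h1 : ((x.1.1 : E) : T) = ((x.1.2 : E') : T) := x.2
        rw [h1]; exact (x.1.2 : E').2⟩,
      fun c => ⟨(⟨c, c.2.1⟩, ⟨c, c.2.2⟩), rfl⟩, ?_, ?_⟩
    · rintro ⟨⟨a, b⟩, hx⟩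
      have h1 : (a : T) = b := hx
      apply Subtype.ext
      apply Prod.ext
      · rfl
      · exact Subtype.ext h1
    · intro c
      rfl
  rw [hsS, ← hHc, hcard, Nat.card_prod]

/-- Fixed points of an element of prime order on a normalized subgroup. -/
theorem exists_fix_conj [Finite T] (A : Subgroup T) {x : T} {q : ℕ} (hq : q.Prime) (hx : x ^ q = 1)
    (hn : x ∈ normalizer (A : Set T)) (hc : ¬ q ∣ Nat.card A - 1) : ∃ y ∈ A, y ≠ 1 ∧ x * y * x⁻¹ = y := by
  classical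
  haveI : Fintype A := Fintype.ofFinite A
  let Ω := {y : A // y ≠ 1}
  let σ : Equiv.Perm Ω := {
    toFun := fun u => ⟨⟨x * u.1 * x⁻¹, nm_conj hn u.1.2⟩, fun h => u.2 (by
      have h1 : x * (u.1 : T) * x⁻¹ = 1 := congrArg Subtype.val h
      apply Subtype.ext
      show (u.1 : T) = 1
      have h2 : (u.1 : T) = x⁻¹ * (x * (u.1 : T) * x⁻¹) * x := by group
      rw [h2, h1]; group)⟩
    invFun := fun u => ⟨⟨x⁻¹ * u.1 * x, nm_conj_inv hn u.1.2⟩, fun h => u.2 (by
      have h1 : x⁻¹ * (u.1 : T) * x = 1 := congrArg Subtype.val h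
      apply Subtype.ext
      show (u.1 : T) = 1
      have h2 : (u.1 : T) = x * (x⁻¹ * (u.1 : T) * x) * x⁻¹ := by group
      rw [h2, h1]; group)⟩
    left_inv := fun u => by ext; simp only; group
    right_inv := fun u => by ext; simp only; group }
  have hσk : ∀ (k : ℕ) (u : Ω), (((σ ^ k) u).1 : T) = x ^ k * u.1 * (x ^ k)⁻¹ := by
    intro k
    induction k with
    | zero => intro u; simp
    | succ k ih =>
      intro u
      rw [pow_succ, Equiv.Perm.mul_apply, ih]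
      show x ^ k * (x * u.1 * x⁻¹) * (x ^ k)⁻¹ = _
      rw [pow_succ]; group
  have hσq : σ ^ q = 1 := by
    ext u
    rw [hσk, hx]
    simp
  have hΩ : Nat.card Ω = Nat.card A - 1 := by
    rw [Nat.card_eq_fintype_card, Nat.card_eq_fintype_card]
    have h1 := Fintype.card_subtype_compl (α := A) (fun y => y = 1)
    rw [Fintype.card_subtype_eq] at h1
    exact h1
  obtain ⟨u, hu⟩ := exists_fixed_of_prime hq σ hσq (by rw [hΩ]; exact hc)
  refine ⟨u.1, u.1.2, fun h => u.2 (Subtype.ext h), ?_⟩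
  exact congrArg (fun w : Ω => (w.1 : T)) hu

/-- Every involution is real when there is no normal 2-subgroup. -/
theorem real_of_O2 [Finite T] (hG : Sig T) (hO : ∀ N : Subgroup T, N.Normal → IsPGroup 2 N → N = ⊥)
    {t : T} (ht : Inv2 t) : ∃ p x, RealE p x t := by
  obtain ⟨h, hh1, hh2, hh3⟩ := Cfsg.Agent.S0200.result t ht.orderOf (by
    intro N hN hN2 hm
    rw [hO N hN hN2, Subgroup.mem_bot] at hm
    exact ht.ne hm)
  have hor : orderOf h = 3 ∨ orderOf h = 5 := by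
    rcases hG.cases h with h8 | h8 | h8 | h8 | h8
    · exact absurd (orderOf_eq_one_iff.1 h8) hh1
    · rw [h8] at hh2; exact absurd hh2 (by decide)
    · exact Or.inl h8
    · rw [h8] at hh2; exact absurd hh2 (by decide)
    · exact Or.inr h8
  exact ⟨orderOf h, h, hor, rfl, ht, hh3⟩

/-- Two of any three involutions are conjugate. -/
theorem three_conj [Finite T] (hG : Sig T) (hO : ∀ N : Subgroup T, N.Normal → IsPGroup 2 N → N = ⊥)
    {t₁ t₂ t₃ : T} (h₁ : Inv2 t₁) (h₂ : Inv2 t₂) (h₃ : Inv2 t₃) :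
    (∃ g, g * t₁ * g⁻¹ = t₂) ∨ (∃ g, g * t₁ * g⁻¹ = t₃) ∨ (∃ g, g * t₂ * g⁻¹ = t₃) := by
  obtain ⟨p₁, x₁, H₁⟩ := real_of_O2 hG hO h₁
  obtain ⟨p₂, x₂, H₂⟩ := real_of_O2 hG hO h₂
  obtain ⟨p₃, x₃, H₃⟩ := real_of_O2 hG hO h₃
  by_cases h12 : p₁ = p₂
  · subst h12; exact Or.inl (H₁.isConj_same H₂ hG)
  by_cases h13 : p₁ = p₃
  · subst h13; exact Or.inr (Or.inl (H₁.isConj_same H₃ hG))
  have h23 : p₂ = p₃ := by
    rcases H₁.hp with h | h <;> rcases H₂.hp with h' | h' <;> rcases H₃.hp with h'' | h'' <;> omega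
  subst h23
  exact Or.inr (Or.inr (H₂.isConj_same H₃ hG))

/-- The normalizer of a Sylow 2-subgroup of suitable order. -/
theorem norm_le_of_card [Finite T] (hG : Sig T) (α : Sylow 2 T) (h3 : ¬ 3 ∣ Nat.card (α : Subgroup T) - 1)
    (h5 : ¬ 5 ∣ Nat.card (α : Subgroup T) - 1) {g : T} (hg : g ∈ normalizer ((α : Subgroup T) : Set T)) :
    g ∈ (α : Subgroup T) := by
  have key : ∀ {q : ℕ}, q.Prime → q ≠ 2 → orderOf g = q → ¬ q ∣ Nat.card (α : Subgroup T) - 1 → False := by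
    intro q hq hq2 hgo hnd
    have hgq : g ^ q = 1 := by rw [← hgo]; exact pow_orderOf_eq_one g
    obtain ⟨y, hy, hy1, hyf⟩ := exists_fix_conj (α : Subgroup T) hq hgq hg hnd
    exact hy1 (fix_trivial hG α.isPGroup' hq hq2 hgo hy hyf)
  refine mem_of_norm_two α hg ?_
  rcases hG.cases g with h8 | h8 | h8 | h8 | h8
  · rw [orderOf_eq_one_iff.1 h8]; simp
  · rw [← orderOf_dvd_iff_pow_eq_one, h8]; norm_num
  · exact (key (by norm_num) (by norm_num) h8 h3).elim
  · rw [← orderOf_dvd_iff_pow_eq_one, h8]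
  · exact (key (by norm_num) (by norm_num) h8 h5).elim

/-- The arithmetic of `2 m ^ 2 - 1`. -/
theorem two_pow_num {k : ℕ} : ¬ 3 ∣ 2 * (2 ^ k * 2 ^ k) - 1 ∧ ¬ 5 ∣ 2 * (2 ^ k * 2 ^ k) - 1 := by
  have h : ∀ k : ℕ, 2 ^ k * 2 ^ k % 15 = 1 ∨ 2 ^ k * 2 ^ k % 15 = 4 := by
    intro k
    induction k with
    | zero => left; norm_num
    | succ k ih =>
      have : 2 ^ (k + 1) * 2 ^ (k + 1) = 4 * (2 ^ k * 2 ^ k) := by ring
      rw [this]
      omega
  have hpos : 0 < 2 ^ k * 2 ^ k := by positivity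
  have h1 := h k
  generalize 2 ^ k * 2 ^ k = n at *
  constructor <;> omega

/-- Action of elements in a coset. -/
theorem act_eq {E : Subgroup T} (hE : EA E) {c b a : T} (hc : c * c = 1) (hb : c * b ∈ E)
    (ha : a ∈ E) : b * a * b⁻¹ = c * a * c⁻¹ := by
  have hi : c⁻¹ = c := inv_eq_of_mul_eq_one_left hc
  have h1 : (c * b) * a = a * (c * b) := hE.comm _ hb _ ha
  have h2 : b = c * (c * b) := by rw [← mul_assoc, hc, one_mul]
  calc b * a * b⁻¹ = c * (c * b) * a * b⁻¹ := by rw [← h2]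
    _ = c * ((c * b) * a) * b⁻¹ := by simp only [mul_assoc]
    _ = c * (a * (c * b)) * b⁻¹ := by rw [h1]
    _ = c * a * (c * (b * b⁻¹)) := by simp only [mul_assoc]
    _ = _ := by rw [mul_inv_cancel, mul_one, hi]

section Fin

variable [Fintype T] {p : ℕ} {x t : T}

/-- The shape of the Delta count. -/
theorem kappa_form (hG : Sig T) (hSC : ∀ u v : T, Inv2 u → Inv2 v → ∃ g, g * u * g⁻¹ = v)
    (H : RealE p x t) {z : T} (hz : Inv2 z) {m e n : ℕ} (hs : Nat.card (cen z) = 2 ^ m)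
    (hI : (Iset T).card = p ^ e * n) (hn : ¬ p ∣ n) (hn2 : ¬ 2 ∣ n) :
    ∃ A w, A * w = 2 ^ m ∧ 2 ≤ w ∧ w + 1 ≤ p ^ e ∧ (Delta p z).card = A * (p ^ e - 1) := by
  have hp := H.prime
  have hp2 := H.ne_two
  obtain ⟨a', ha', _, hnd⟩ := H.card_pow hG
  obtain ⟨w, c, hw, hwp, hc, hwle⟩ := w_props hG H
  have hT : Nat.card (cen x) * (cen x).index = Nat.card T := Subgroup.card_mul_index _
  have hIc := Iset_card hSC hz
  rw [hs, ← Nat.card_eq_fintype_card, hI] at hIc
  have hp2m : ¬ p ∣ 2 ^ m := by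
    intro hd
    exact hp2 ((Nat.prime_dvd_prime_iff_eq hp Nat.prime_two).1 (hp.dvd_of_dvd_pow hd))
  have hae : a' = e := by
    have h6 : p ^ a' * (cen x).index = p ^ e * (n * 2 ^ m) := by
      rw [← ha', hT, ← hIc]; ring
    refine pow_part_unique hp h6 hnd ?_
    intro hd
    rcases (Nat.Prime.dvd_mul hp).1 hd with hd | hd
    · exact hn hd
    · exact hp2m hd
  have hcx : Nat.card (cen x) = p ^ e := by rw [ha', hae]
  rw [hcx] at hwle
  have hκ := kappa_eq hG hSC H hz hw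
  rw [hcx, hs] at hκ
  have hdvd : w ∣ 2 ^ m := by
    have h1 : w ∣ Nat.card T := by
      refine Dvd.dvd.trans ⟨_, hw⟩ (Subgroup.card_subgroup_dvd_card _)
    rw [← hIc] at h1
    have hcop : Nat.Coprime w (p ^ e * n) := by
      rw [hwp]
      apply Nat.Coprime.pow_left
      apply Nat.Coprime.mul_right
      · apply Nat.Coprime.pow_right
        exact (Nat.coprime_primes Nat.prime_two hp).2 (Ne.symm hp2)
      · exact (Nat.Prime.coprime_iff_not_dvd Nat.prime_two).2 hn2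
    exact hcop.dvd_of_dvd_mul_left h1
  obtain ⟨A, hA⟩ := hdvd
  have hw0 : 0 < w := by rw [hwp]; positivity
  refine ⟨A, w, by rw [hA]; ring, ?_, hwle, ?_⟩
  · rw [hwp]
    calc 2 = 2 ^ 1 := by norm_num
      _ ≤ 2 ^ c := Nat.pow_le_pow_right (by norm_num) hc
  · apply Nat.eq_of_mul_eq_mul_right hw0
    rw [hκ, hA]; ring

/-- The final system of equations. -/
theorem final_eq (hG : Sig T) (hSC : ∀ u v : T, Inv2 u → Inv2 v → ∃ g, g * u * g⁻¹ = v)
    (α : Sylow 2 T) {z : T} (hz : Inv2 z) (hcz : cen z = (α : Subgroup T)) {m : ℕ}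
    (hs : Nat.card (α : Subgroup T) = 2 ^ m) {x₃ t₃ : T} (H3 : RealE 3 x₃ t₃)
    (h5 : 5 ∣ Nat.card T) :
    ∃ a b A w B, 1 ≤ a ∧ 1 ≤ b ∧ Nat.card T = 3 ^ a * 5 ^ b * 2 ^ m ∧ A * w = 2 ^ m ∧ 2 ≤ w ∧
      w + 1 ≤ 3 ^ a ∧ (((∀ y u : T, ¬ RealE 5 y u) ∧ B = 0) ∨ ∃ w₅, B * w₅ = 2 ^ m ∧ 2 ≤ w₅) ∧
      3 ^ a * 5 ^ b = (I0 z).card + A * (3 ^ a - 1) + B * (5 ^ b - 1) := by
  have hIc := Iset_card hSC hz
  rw [hcz, hs, ← Nat.card_eq_fintype_card] at hIc
  have hs' : Nat.card (cen z) = 2 ^ m := by rw [hcz, hs]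
  have hIne : ¬ 2 ∣ (Iset T).card := by
    have h1 := α.not_dvd_index
    have h4 : Nat.card (α : Subgroup T) * (α : Subgroup T).index = Nat.card T :=
      Subgroup.card_mul_index _
    have h6 : (α : Subgroup T).index = (Iset T).card := by
      apply Nat.eq_of_mul_eq_mul_left (by positivity : 0 < 2 ^ m)
      rw [← hs, h4, hs, ← hIc]; ring
    rwa [h6] at h1
  have hI0' : (Iset T).card ≠ 0 := by
    intro h0
    rw [h0, zero_mul] at hIc
    have := Nat.card_pos (α := T)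
    omega
  obtain ⟨i, a, b, hform⟩ := card_form hI0' (fun q hq' hd => hG.prime_dvd_card hq' (by
    rw [← hIc]; exact Dvd.dvd.mul_right hd _))
  have hi : i = 0 := by
    by_contra hi0
    apply hIne
    rw [hform]
    exact Dvd.dvd.mul_right (Dvd.dvd.mul_right (dvd_pow_self 2 hi0) _) _
  rw [hi, pow_zero, one_mul] at hform
  have h35 : ∀ {k : ℕ}, ¬ 3 ∣ 5 ^ k := by
    intro k hd
    have := (Nat.prime_dvd_prime_iff_eq (by norm_num) (by norm_num)).1
      ((by norm_num : Nat.Prime 3).dvd_of_dvd_pow hd)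
    omega
  have h53 : ∀ {k : ℕ}, ¬ 5 ∣ 3 ^ k := by
    intro k hd
    have := (Nat.prime_dvd_prime_iff_eq (by norm_num) (by norm_num)).1
      ((by norm_num : Nat.Prime 5).dvd_of_dvd_pow hd)
    omega
  have h2m3 : ¬ 3 ∣ 2 ^ m := by
    intro hd
    have := (Nat.prime_dvd_prime_iff_eq (by norm_num) (by norm_num)).1
      ((by norm_num : Nat.Prime 3).dvd_of_dvd_pow hd)
    omega
  have h2m5 : ¬ 5 ∣ 2 ^ m := by
    intro hd
    have := (Nat.prime_dvd_prime_iff_eq (by norm_num) (by norm_num)).1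
      ((by norm_num : Nat.Prime 5).dvd_of_dvd_pow hd)
    omega
  have h25 : ¬ 2 ∣ 5 ^ b := by
    intro hd
    have := (Nat.prime_dvd_prime_iff_eq (by norm_num) (by norm_num)).1
      ((by norm_num : Nat.Prime 2).dvd_of_dvd_pow hd)
    omega
  have h23 : ¬ 2 ∣ 3 ^ a := by
    intro hd
    have := (Nat.prime_dvd_prime_iff_eq (by norm_num) (by norm_num)).1
      ((by norm_num : Nat.Prime 2).dvd_of_dvd_pow hd)
    omega
  have hT : Nat.card T = 3 ^ a * 5 ^ b * 2 ^ m := by rw [← hIc, hform]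
  have h3T : 3 ∣ Nat.card T := by
    have h1 : orderOf x₃ ∣ Nat.card T := orderOf_dvd_natCard x₃
    rwa [H3.ox] at h1
  have ha1 : 1 ≤ a := by
    by_contra h0
    have h00 : a = 0 := by omega
    rw [hT, h00, pow_zero, one_mul] at h3T
    rcases (Nat.Prime.dvd_mul (by norm_num)).1 h3T with hd | hd
    · exact h35 hd
    · exact h2m3 hd
  have hb1 : 1 ≤ b := by
    by_contra h0
    have h00 : b = 0 := by omega
    rw [hT, h00, pow_zero, mul_one] at h5
    rcases (Nat.Prime.dvd_mul (by norm_num)).1 h5 with hd | hd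
    · exact h53 hd
    · exact h2m5 hd
  obtain ⟨A, w, hAw, hw2, hwle, hκ₃⟩ :=
    kappa_form hG hSC H3 hz hs' (e := a) (n := 5 ^ b) hform h35 h25
  have hpart := partition hG hz
  rw [hform, hκ₃] at hpart
  by_cases hR : ∃ y u : T, RealE 5 y u
  · obtain ⟨y, u, HY⟩ := hR
    obtain ⟨B, w₅, hBw, hw₅, _, hκ₅⟩ :=
      kappa_form hG hSC HY hz hs' (e := b) (n := 3 ^ a) (by rw [hform]; ring) h53 h23
    refine ⟨a, b, A, w, B, ha1, hb1, hT, hAw, hw2, hwle, Or.inr ⟨w₅, hBw, hw₅⟩, ?_⟩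
    rw [hκ₅] at hpart
    exact hpart
  · push Not at hR
    have h0 : (Delta 5 z).card = 0 := by
      rw [Finset.card_eq_zero, Finset.eq_empty_iff_forall_notMem]
      intro x hx
      rw [mem_Delta] at hx
      exact hR x z ⟨Or.inr rfl, hx.1, hz, hx.2⟩
    refine ⟨a, b, A, w, 0, ha1, hb1, hT, hAw, hw2, hwle, Or.inl ⟨hR, rfl⟩, ?_⟩
    rw [h0] at hpart
    rw [zero_mul]
    exact hpart

end Fin

end Cfsg.Agent.Lib.Spec5
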