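import Mathlib
import Cfsg.Agent.Lib.Spec5.Pieces
import Cfsg.Agent.S0111
import Cfsg.Agent.Lib.Basic.SylowUtil

/-!
# The case of a quotient of order 6 or 10
-/

set_option autoImplicit false

namespace Cfsg.Agent.Lib.Spec5

open Subgroup

universe u

variable {T : Type u} [Group T]

/-- A conjugate subgroup. -/
def cjS (g : T) (E : Subgroup T) : Subgroup T where
  carrier := {y | g⁻¹ * y * g ∈ E}
  one_mem' := by
    show g⁻¹ * 1 * g ∈ E
    simp [E.one_mem]
  mul_mem' := by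
    intro a b ha hb
    have h := E.mul_mem ha hb
    have e : (g⁻¹ * a * g) * (g⁻¹ * b * g) = g⁻¹ * (a * b) * g := by group
    rw [e] at h
    exact h
  inv_mem' := by
    intro a ha
    have h := E.inv_mem ha
    have e : (g⁻¹ * a * g)⁻¹ = g⁻¹ * a⁻¹ * g := by group
    rw [e] at h
    exact h

theorem mem_cjS {g y : T} {E : Subgroup T} : y ∈ cjS g E ↔ g⁻¹ * y * g ∈ E := Iff.rfl

theorem conj_mem_cjS {g a : T} {E : Subgroup T} (ha : a ∈ E) : g * a * g⁻¹ ∈ cjS g E := by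
  rw [mem_cjS]
  have e : g⁻¹ * (g * a * g⁻¹) * g = a := by group
  rwa [e]

theorem card_cjS {g : T} {E : Subgroup T} : Nat.card (cjS g E) = Nat.card E := by
  refine Nat.card_congr ⟨fun y => ⟨g⁻¹ * y * g, y.2⟩, fun a => ⟨g * a * g⁻¹, conj_mem_cjS a.2⟩, ?_, ?_⟩
  · intro y
    apply Subtype.ext
    show g * (g⁻¹ * y * g) * g⁻¹ = y
    group
  · intro a
    apply Subtype.ext
    show g⁻¹ * (g * a * g⁻¹) * g = a
    group

theorem EA_cjS {g : T} {E : Subgroup T} (hE : EA E) : EA (cjS g E) := by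
  refine ⟨?_, ?_⟩
  · intro a ha b hb
    have h1 := hE.comm _ (mem_cjS.1 ha) _ (mem_cjS.1 hb)
    calc a * b = g * ((g⁻¹ * a * g) * (g⁻¹ * b * g)) * g⁻¹ := by group
      _ = g * ((g⁻¹ * b * g) * (g⁻¹ * a * g)) * g⁻¹ := by rw [h1]
      _ = _ := by group
  · intro a ha
    have h1 := hE.sq _ (mem_cjS.1 ha)
    calc a * a = g * ((g⁻¹ * a * g) * (g⁻¹ * a * g)) * g⁻¹ := by group
      _ = 1 := by rw [h1]; group

theorem card_two_cosets [Finite T] {A E : Subgroup T} (hEA : E ≤ A) {c : T} (hc : c ∈ A) (hcE : c ∉ E)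
    (hs : ∀ s ∈ A, s ∈ E ∨ c * s ∈ E) : Nat.card A = 2 * Nat.card E := by
  classical
  let g : E ⊕ E → A := fun x => match x with
    | Sum.inl z => ⟨z, hEA z.2⟩
    | Sum.inr z => ⟨c⁻¹ * z, A.mul_mem (A.inv_mem hc) (hEA z.2)⟩
  have hg : Function.Bijective g := by
    constructor
    · rintro (a | a) (b | b) h
      · have h1 : (a : T) = b := congrArg (fun w : A => (w : T)) h
        rw [Subtype.ext h1]
      · exfalso
        have h1 : (a : T) = c⁻¹ * b := congrArg (fun w : A => (w : T)) h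
        apply hcE
        have h2 := E.mul_mem b.2 (E.inv_mem a.2)
        have h3 : (b : T) * (a : T)⁻¹ = c := by
          rw [h1]; group
        rwa [h3] at h2
      · exfalso
        have h1 : c⁻¹ * (a : T) = b := congrArg (fun w : A => (w : T)) h
        apply hcE
        have h2 := E.mul_mem a.2 (E.inv_mem b.2)
        have h3 : (a : T) * (b : T)⁻¹ = c := by
          rw [← h1]; group
        rwa [h3] at h2
      · have h1 : c⁻¹ * (a : T) = c⁻¹ * b := congrArg (fun w : A => (w : T)) h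
        rw [Subtype.ext (mul_left_cancel h1)]
    · rintro ⟨s, hs'⟩
      rcases hs s hs' with h | h
      · exact ⟨Sum.inl ⟨s, h⟩, rfl⟩
      · refine ⟨Sum.inr ⟨c * s, h⟩, Subtype.ext ?_⟩
        show c⁻¹ * (c * s) = s
        group
  rw [← Nat.card_eq_of_bijective g hg, Nat.card_sum]
  ring

theorem four_cases [Finite T] {E : Subgroup T} (hE : EA E) (h4 : Nat.card E = 4) {v v₂ : T} (hv : v ∈ E)
    (hv₂ : v₂ ∈ E) (hv1 : v ≠ 1) (hv21 : v₂ ≠ 1) (hne : v ≠ v₂) {u : T} (hu : u ∈ E) :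
    u = 1 ∨ u = v ∨ u = v₂ ∨ u = v * v₂ := by
  have hvi : v⁻¹ = v := inv_eq_of_mul_eq_one_left (hE.sq v hv)
  have hv₂i : v₂⁻¹ = v₂ := inv_eq_of_mul_eq_one_left (hE.sq v₂ hv₂)
  have hc₁ : ∀ z ∈ (⊥ : Subgroup T), v * z = z * v := by
    intro z hz
    rw [mem_bot] at hz
    simp [hz]
  have hn₁ : v ∉ (⊥ : Subgroup T) := by
    rw [mem_bot]; exact hv1
  have hZ₁c : Nat.card (extE ⊥ v (hE.sq v hv) hc₁) = 2 := by
    rw [card_extE hn₁]; simp
  have hZ₁E : extE ⊥ v (hE.sq v hv) hc₁ ≤ E := by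
    intro y hy
    rcases hy with hy | hy
    · rw [mem_bot] at hy
      rw [hy]; exact E.one_mem
    · rw [mem_bot] at hy
      have : y = v⁻¹ := eq_inv_of_mul_eq_one_right hy
      rw [this, hvi]; exact hv
  have hc₂ : ∀ z ∈ extE ⊥ v (hE.sq v hv) hc₁, v₂ * z = z * v₂ :=
    fun z hz => hE.comm _ hv₂ _ (hZ₁E hz)
  have hn₂ : v₂ ∉ extE ⊥ v (hE.sq v hv) hc₁ := by
    intro hm
    rcases hm with hm | hm
    · rw [mem_bot] at hm
      exact hv21 hm
    · rw [mem_bot] at hm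
      have : v₂ = v⁻¹ := eq_inv_of_mul_eq_one_right hm
      rw [hvi] at this
      exact hne this.symm
  have hZ₂c : Nat.card (extE (extE ⊥ v (hE.sq v hv) hc₁) v₂ (hE.sq v₂ hv₂) hc₂) = 4 := by
    rw [card_extE hn₂, hZ₁c]
  have hZ₂E : extE (extE ⊥ v (hE.sq v hv) hc₁) v₂ (hE.sq v₂ hv₂) hc₂ ≤ E := by
    intro y hy
    rcases hy with hy | hy
    · exact hZ₁E hy
    · have h1 := E.mul_mem hv₂ (hZ₁E hy)
      rw [← mul_assoc, hE.sq v₂ hv₂, one_mul] at h1
      exact h1
  have hEq := Subgroup.eq_of_le_of_card_ge hZ₂E (by rw [h4, hZ₂c])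
  rw [← hEq] at hu
  rcases hu with hu | hu
  · rcases hu with hu | hu
    · rw [mem_bot] at hu
      exact Or.inl hu
    · rw [mem_bot] at hu
      have : u = v⁻¹ := eq_inv_of_mul_eq_one_right hu
      rw [hvi] at this
      exact Or.inr (Or.inl this)
  · rcases hu with hu | hu
    · rw [mem_bot] at hu
      have : u = v₂⁻¹ := eq_inv_of_mul_eq_one_right hu
      rw [hv₂i] at this
      exact Or.inr (Or.inr (Or.inl this))
    · rw [mem_bot] at hu
      have h1 : v₂ * u = v⁻¹ := eq_inv_of_mul_eq_one_right hu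
      rw [hvi] at h1
      have h2 : u = v₂⁻¹ * v := by rw [← h1]; group
      rw [hv₂i, hE.comm _ hv₂ _ hv] at h2
      exact Or.inr (Or.inr (Or.inr h2))

theorem eq_of_card_le_two {P : Type*} [Group P] [Finite P] (h : Nat.card P ≤ 2) {a b : P} (ha : a ≠ 1)
    (hb : b ≠ 1) : a = b := by
  classical
  by_contra hab
  haveI : Fintype P := Fintype.ofFinite P
  have h2 : 2 < Fintype.card P := Fintype.two_lt_card_iff.2 ⟨a, b, 1, hab, ha, hb⟩
  rw [Nat.card_eq_fintype_card] at h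
  omega

/-- No normal 2-subgroups in a simple group. -/
theorem O2_of_simple [Finite T] (hS : IsSimpleGroup T) (h3 : 3 ∣ Nat.card T) (N : Subgroup T) (hN : N.Normal)
    (hN2 : IsPGroup 2 N) : N = ⊥ := by
  haveI : Fact (Nat.Prime 2) := ⟨Nat.prime_two⟩
  rcases hS.eq_bot_or_eq_top_of_normal N hN with h | h
  · exact h
  · exfalso
    rw [h] at hN2
    obtain ⟨n, hn⟩ := IsPGroup.iff_card.1 hN2
    rw [Subgroup.card_top] at hn
    rw [hn] at h3
    have := (Nat.prime_dvd_prime_iff_eq (by norm_num) (by norm_num)).1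
      ((by norm_num : Nat.Prime 3).dvd_of_dvd_pow h3)
    omega

theorem exists_sylow_conj [Finite T] {u : T} (hu : Inv2 u) (α : Sylow 2 T) :
    ∃ g, g * u * g⁻¹ ∈ (α : Subgroup T) := by
  haveI : Fact (Nat.Prime 2) := ⟨Nat.prime_two⟩
  have hP : IsPGroup 2 (zpowers u) := by
    apply IsPGroup.of_card (n := 1)
    rw [Nat.card_zpowers, hu.orderOf, pow_one]
  obtain ⟨S', hS'⟩ := hP.exists_le_sylow
  obtain ⟨g, hg⟩ := sylow_conj S' α
  exact ⟨g, (hg u).1 (hS' (mem_zpowers u))⟩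

theorem caseA [Fintype T] (hS : IsSimpleGroup T) (h3 : 3 ∣ Nat.card T) (h5 : 5 ∣ Nat.card T) (hG : Sig T)
    {E : Subgroup T} (hE : EA E) (hE1 : E ≠ ⊥) (α : Sylow 2 T) (hEα : E ≤ (α : Subgroup T))
    {e x : T} {p : ℕ} (HR : RealE p x e)
    (hxN : x ∈ normalizer (E : Set T)) (heN : e ∈ normalizer (E : Set T))
    (heα : e ∈ (α : Subgroup T)) (heE : e ∉ E)
    (hH2 : ∀ s ∈ (α : Subgroup T), s ∈ normalizer (E : Set T) → s ∈ E ∨ e * s ∈ E) :
    Nat.card T = 360 := by
  haveI : Fact (Nat.Prime 2) := ⟨Nat.prime_two⟩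
  have hE2 : IsPGroup 2 E := α.isPGroup'.to_le hEα
  have hm := card_fix_sq hG hE2 hE HR hxN heN
  set m := Nat.card (fixE E e) with hmdef
  have hee : e * e = 1 := HR.it.sq
  have hei : e⁻¹ = e := HR.it.inv
  have hEcard1 : 1 < Nat.card E := by
    haveI : Nontrivial E := (Subgroup.nontrivial_iff_ne_bot E).2 hE1
    exact Finite.one_lt_card
  have hm0 : 0 < m := Nat.card_pos
  have hm2 : 2 ≤ m := by
    by_contra hlt
    have h1 : m = 1 := by omega
    rw [h1] at hm
    omega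
  have hcomm_e : ∀ {a b : T}, a * b = b * a → a * (e * b) = (e * b) * a → a * e = e * a := by
    intro a b h1 h2
    calc a * e = a * (e * b) * b⁻¹ := by group
      _ = (e * b) * a * b⁻¹ := by rw [h2]
      _ = e * (b * a) * b⁻¹ := by group
      _ = e * (a * b) * b⁻¹ := by rw [h1]
      _ = e * a := by group
  have hαN : ∀ s ∈ (α : Subgroup T), s ∈ normalizer (E : Set T) := by
    by_contra hcon
    set S₀ : Subgroup T := (α : Subgroup T) ⊓ normalizer (E : Set T) with hS₀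
    have hne : S₀ ≠ (α : Subgroup T) := by
      intro h
      apply hcon
      intro s hs
      rw [← h] at hs
      exact hs.2
    obtain ⟨g, hgα, hgS, hgN, hgg⟩ := hG.norm_grow α.isPGroup' (inf_le_left : S₀ ≤ _) hne
    have hESo : E ≤ S₀ := le_inf hEα le_normalizer
    have hgNE : g ∉ normalizer (E : Set T) := fun h => hgS ⟨hgα, h⟩
    set E₂ := cjS g E with hE₂
    have hE₂EA : EA E₂ := EA_cjS hE
    have hE₂S : E₂ ≤ S₀ := by
      intro y hy
      have h1 := nm_conj hgN (hESo (mem_cjS.1 hy))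
      have h2 : g * (g⁻¹ * y * g) * g⁻¹ = y := by group
      rwa [h2] at h1
    have hE₂c : Nat.card E₂ = Nat.card E := card_cjS
    have hE₂ne : E₂ ≠ E := by
      intro h
      apply hgNE
      rw [mem_normalizer_iff]
      intro y
      constructor
      · intro hy
        rw [← h]
        exact conj_mem_cjS hy
      · intro hy
        rw [← h] at hy
        have h1 := mem_cjS.1 hy
        have e1 : g⁻¹ * (g * y * g⁻¹) * g = y := by group
        rwa [e1] at h1
    obtain ⟨d, hdE₂, hdE⟩ : ∃ d ∈ E₂, d ∉ E := by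
      by_contra h
      push Not at h
      exact hE₂ne (Subgroup.eq_of_le_of_card_ge h (by omega))
    obtain ⟨a₁, ha₁E, ha₁E₂⟩ : ∃ a ∈ E, a ∉ E₂ := by
      by_contra h
      push Not at h
      exact hE₂ne (Subgroup.eq_of_le_of_card_ge h (by omega)).symm
    have hdS := hE₂S hdE₂
    have hed : e * d ∈ E := (hH2 d hdS.1 hdS.2).resolve_left hdE
    have hfixE₂ : ∀ y ∈ E, y ∈ E₂ → y ∈ fixE E e := by
      intro y hy hy₂
      exact mem_fixE.2 ⟨hy, hcomm_e (hE₂EA.comm _ hy₂ _ hdE₂) (hE.comm _ hy _ hed)⟩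
    have hdd : d * d = 1 := hE₂EA.sq d hdE₂
    have hdi : d⁻¹ = d := inv_eq_of_mul_eq_one_left hdd
    have hWfix : E ⊓ E₂ ≤ fixE E e := fun y hy => hfixE₂ y hy.1 hy.2
    have hdW : ∀ z ∈ E ⊓ E₂, d * z = z * d := fun z hz => hE₂EA.comm _ hdE₂ _ hz.2
    have hdnW : d ∉ E ⊓ E₂ := fun h => hdE h.1
    have hE₂Y : E₂ ≤ extE (E ⊓ E₂) d hdd hdW := by
      intro y hy
      by_cases hyE : y ∈ E
      · exact Or.inl ⟨hyE, hy⟩
      · right
        have hey := (hH2 y (hE₂S hy).1 (hE₂S hy).2).resolve_left hyE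
        refine ⟨?_, E₂.mul_mem hdE₂ hy⟩
        have h1 := E.mul_mem (E.inv_mem hed) hey
        have h2 : (e * d)⁻¹ * (e * y) = d * y := by
          rw [mul_inv_rev, hdi]; group
        rwa [h2] at h1
    have hcY : Nat.card (extE (E ⊓ E₂) d hdd hdW) = 2 * Nat.card (E ⊓ E₂ : Subgroup T) := card_extE hdnW
    have hle1 : Nat.card E₂ ≤ Nat.card (extE (E ⊓ E₂) d hdd hdW) := Subgroup.card_le_of_le hE₂Y
    have hle2 : Nat.card (E ⊓ E₂ : Subgroup T) ≤ m := Subgroup.card_le_of_le hWfix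
    have hm2' : m = 2 := by
      have h1 : m * m ≤ 2 * m := by
        calc m * m = Nat.card E := hm
          _ = Nat.card E₂ := hE₂c.symm
          _ ≤ _ := hle1
          _ = 2 * Nat.card (E ⊓ E₂ : Subgroup T) := hcY
          _ ≤ 2 * m := Nat.mul_le_mul_left _ hle2
      have h2 := Nat.le_of_mul_le_mul_right h1 hm0
      omega
    have hWm : Nat.card (E ⊓ E₂ : Subgroup T) = 2 := by
      have h4 : Nat.card E = 4 := by rw [← hm, hm2']
      omega
    have hWeq : E ⊓ E₂ = fixE E e := Subgroup.eq_of_le_of_card_ge hWfix (by rw [hWm]; omega)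
    have hfixin : ∀ a ∈ E, a * e = e * a → a ∈ E₂ := by
      intro a ha hae
      have h1 : a ∈ E ⊓ E₂ := by rw [hWeq]; exact mem_fixE.2 ⟨ha, hae⟩
      exact h1.2
    have hnondeg : ∀ a ∈ E, ∀ b ∈ E₂, a * b = b * a → a ∈ E₂ ∨ b ∈ E := by
      intro a ha b hb hab
      by_cases hbE : b ∈ E
      · exact Or.inr hbE
      · left
        have heb := (hH2 b (hE₂S hb).1 (hE₂S hb).2).resolve_left hbE
        exact hfixin a ha (hcomm_e hab (hE.comm _ ha _ heb))
    have hg4 : g ^ 4 = 1 := hG.pow_four_of_pgroup α.isPGroup' hgα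
    have hgE' : ∀ y ∈ E₂, g * y * g⁻¹ ∈ E := by
      intro y hy
      have h1 := mem_cjS.1 hy
      have h2 := nm_conj hgg.2 h1
      have h3 : (g * g) * (g⁻¹ * y * g) * (g * g)⁻¹ = g * y * g⁻¹ := by
        simp only [mul_inv_rev, mul_assoc, mul_inv_cancel_left]
      rwa [h3] at h2
    obtain ⟨α₁, hα₁, β₁, hβ₁, hdec⟩ : ∃ a ∈ E, ∃ b ∈ E₂, g * g = a * b := by
      by_cases hr : g * g ∈ E
      · exact ⟨g * g, hr, 1, E₂.one_mem, by simp⟩
      · have her := (hH2 _ hgg.1 hgg.2).resolve_left hr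
        refine ⟨g * g * d⁻¹, ?_, d, hdE₂, by simp⟩
        have h1 := E.mul_mem her (E.inv_mem hed)
        have h2 : (e * (g * g)) * (e * d)⁻¹ = e * (g * g * d⁻¹) * e⁻¹ := by
          simp only [mul_inv_rev, mul_assoc]
        rw [h2] at h1
        have h3 := nm_conj_inv heN h1
        have h4 : e⁻¹ * (e * (g * g * d⁻¹) * e⁻¹) * e = g * g * d⁻¹ := by
          simp only [mul_assoc, inv_mul_cancel_left, inv_mul_cancel, mul_one]
        rwa [h4] at h3
    refine swap_false hE hE₂EA hnondeg (g := g) (fun y hy => conj_mem_cjS hy) hgE' hα₁ hβ₁ hdec ?_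
      ha₁E ha₁E₂ ?_
    · rw [← hg4]; simp only [pow_succ, pow_zero, one_mul, mul_assoc]
    · have h1 : (g * a₁) ^ 4 = 1 :=
        hG.pow_four_of_pgroup α.isPGroup' ((α : Subgroup T).mul_mem hgα (hEα ha₁E))
      rw [← h1]; simp only [pow_succ, pow_zero, one_mul, mul_assoc]
  have hH2' : ∀ s ∈ (α : Subgroup T), s ∈ E ∨ e * s ∈ E := fun s hs => hH2 s hs (hαN s hs)
  have hcentral : ∀ z ∈ fixE E e, ∀ s ∈ (α : Subgroup T), s * z = z * s := by
    intro z hz s hs
    obtain ⟨hzE, hze⟩ := mem_fixE.1 hz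
    rcases hH2' s hs with h | h
    · exact hE.comm _ h _ hzE
    · have h1 : (e * s) * z = z * (e * s) := hE.comm _ h _ hzE
      calc s * z = e * ((e * s) * z) := by rw [← mul_assoc, ← mul_assoc, hee, one_mul]
        _ = e * (z * (e * s)) := by rw [h1]
        _ = (e * z) * (e * s) := by rw [mul_assoc]
        _ = (z * e) * (e * s) := by rw [hze]
        _ = z * ((e * e) * s) := by simp only [mul_assoc]
        _ = z * s := by rw [hee, one_mul]
  have hαc : Nat.card (α : Subgroup T) = 2 * Nat.card E := card_two_cosets hEα heα heE hH2'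
  have hfix2 : IsPGroup 2 (fixE E e) := hE2.to_le inf_le_left
  obtain ⟨k, hk⟩ := IsPGroup.iff_card.1 hfix2
  have hαc' : Nat.card (α : Subgroup T) = 2 * (2 ^ k * 2 ^ k) := by
    rw [hαc, ← hm, hmdef, hk]
  have hnorm : ∀ g ∈ normalizer ((α : Subgroup T) : Set T), g ∈ (α : Subgroup T) := fun g hg =>
    norm_le_of_card hG α (by rw [hαc']; exact two_pow_num.1) (by rw [hαc']; exact two_pow_num.2) hg
  have hnc : ∀ z₁ ∈ fixE E e, ∀ z₂ ∈ fixE E e, ∀ g : T, g * z₁ * g⁻¹ = z₂ → z₁ = z₂ := by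
    intro z₁ hz₁ z₂ hz₂ g hg
    obtain ⟨n, hn, hnx⟩ := Cfsg.Agent.Lib.Basic.SylowUtil.burnside_fusion α {z₁} g
      (by
        intro a ha y hy
        rw [Set.mem_singleton_iff] at ha
        rw [ha]
        exact (hcentral z₁ hz₁ y hy).symm)
      (by
        intro a ha y hy
        rw [Set.mem_singleton_iff] at ha
        rw [ha, hg]
        exact (hcentral z₂ hz₂ y hy).symm)
    have h1 := hnx z₁ rfl
    rw [hg] at h1
    have h2 := hcentral z₁ hz₁ n (hnorm n hn)
    rw [h2] at h1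
    rw [← h1]
    group
  have hO := O2_of_simple hS h3
  have hfixI : ∀ z ∈ fixE E e, z ≠ 1 → Inv2 z := fun z hz h1 => ⟨hE.sq z (mem_fixE.1 hz).1, h1⟩
  have hm2' : m = 2 := by
    by_contra hne
    have hm3 : 3 ≤ m := by omega
    classical
    haveI : Fintype (fixE E e) := Fintype.ofFinite _
    have hc : 2 < (Finset.univ.erase (1 : fixE E e)).card := by
      rw [Finset.card_erase_of_mem (Finset.mem_univ _), Finset.card_univ, ← Nat.card_eq_fintype_card]
      have hk2 : 2 ≤ k := by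
        by_contra hlt
        have h7 : 2 ^ k ≤ 2 ^ 1 := Nat.pow_le_pow_right (by norm_num) (by omega)
        rw [← hk, ← hmdef] at h7
        omega
      have h4 : 2 ^ 2 ≤ 2 ^ k := Nat.pow_le_pow_right (by norm_num) hk2
      rw [hk]
      omega
    obtain ⟨a, ha, b, hb, c, hc', hab, hac, hbc⟩ := Finset.two_lt_card.1 hc
    rw [Finset.mem_erase] at ha hb hc'
    have ha1 : (a : T) ≠ 1 := fun h => ha.1 (Subtype.ext h)
    have hb1 : (b : T) ≠ 1 := fun h => hb.1 (Subtype.ext h)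
    have hc1 : (c : T) ≠ 1 := fun h => hc'.1 (Subtype.ext h)
    rcases three_conj hG hO (hfixI a a.2 ha1) (hfixI b b.2 hb1) (hfixI c c.2 hc1) with ⟨g, hg⟩ | ⟨g, hg⟩ | ⟨g, hg⟩
    · exact hab (Subtype.ext (hnc _ a.2 _ b.2 g hg))
    · exact hac (Subtype.ext (hnc _ a.2 _ c.2 g hg))
    · exact hbc (Subtype.ext (hnc _ b.2 _ c.2 g hg))
  have hE4 : Nat.card E = 4 := by rw [← hm, hm2']
  have hα8 : Nat.card (α : Subgroup T) = 2 ^ 3 := by rw [hαc, hE4]; norm_num
  have hp3 : p = 3 := by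
    rcases HR.hp with h | h
    · exact h
    · exfalso
      have hx5 : x ^ 5 = 1 := by rw [← h, ← HR.ox]; exact pow_orderOf_eq_one x
      obtain ⟨y, hy, hy1, hyf⟩ := exists_fix_conj E (by norm_num : Nat.Prime 5) hx5 hxN (by rw [hE4]; norm_num)
      exact hy1 (fix_trivial hG hE2 (p := 5) (by norm_num) (by norm_num) (by rw [HR.ox]; exact h) hy hyf)
  subst hp3
  have hx3 : orderOf x = 3 := HR.ox
  haveI : Nontrivial E := (Subgroup.nontrivial_iff_ne_bot E).2 hE1
  obtain ⟨v₀, hv₀⟩ := exists_ne (1 : E)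
  have hv1 : (v₀ : T) ≠ 1 := fun h => hv₀ (Subtype.ext h)
  have hvE : (v₀ : T) ∈ E := v₀.2
  generalize (v₀ : T) = v at hv1 hvE
  have hvI : Inv2 v := ⟨hE.sq v hvE, hv1⟩
  have hv₂E : x * v * x⁻¹ ∈ E := nm_conj hxN hvE
  have hv₃E : x⁻¹ * v * x ∈ E := nm_conj_inv hxN hvE
  have hv₂1 : x * v * x⁻¹ ≠ 1 := (hvI.conj x).ne
  have hvne : v ≠ x * v * x⁻¹ := by
    intro h
    exact hv1 (fix_trivial hG hE2 (by norm_num) (by norm_num) hx3 hvE h.symm)
  have hn3 := norm3 hG hE2 hE.comm hxN hx3 hvE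
  have hallE : ∀ u ∈ E, u ≠ 1 → ∃ g, g * u * g⁻¹ = v := by
    intro u hu hu1
    rcases four_cases hE hE4 hvE hv₂E hv1 hv₂1 hvne hu with h | h | h | h
    · exact absurd h hu1
    · exact ⟨1, by rw [h]; group⟩
    · exact ⟨x⁻¹, by rw [h]; group⟩
    · refine ⟨x, ?_⟩
      have h1 : v * (x * v * x⁻¹) = (x⁻¹ * v * x)⁻¹ := eq_inv_of_mul_eq_one_left hn3
      rw [inv_eq_of_mul_eq_one_left (hE.sq _ hv₃E)] at h1
      rw [h, h1]
      group
  have hrel : E.relIndex (α : Subgroup T) = 2 := by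
    have h1 := relIndex_mul_index hEα
    have h2 := card_mul_index E
    have h4 := card_mul_index (α : Subgroup T)
    have hαi : 0 < (α : Subgroup T).index := Nat.pos_of_ne_zero (Subgroup.index_ne_zero_of_finite)
    have hE0 : 0 < Nat.card E := Nat.card_pos
    apply Nat.eq_of_mul_eq_mul_right (Nat.mul_pos hE0 hαi)
    calc E.relIndex (α : Subgroup T) * (Nat.card E * (α : Subgroup T).index)
        = Nat.card E * (E.relIndex (α : Subgroup T) * (α : Subgroup T).index) := by ring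
      _ = Nat.card E * E.index := by rw [h1]
      _ = Nat.card (α : Subgroup T) * (α : Subgroup T).index := by rw [h2, h4]
      _ = 2 * (Nat.card E * (α : Subgroup T).index) := by rw [hαc]; ring
  have hThom : ∀ u, Inv2 u → u ∈ (α : Subgroup T) → ∃ g, g * u * g⁻¹ = v := by
    intro u hu huα
    by_cases huE : u ∈ E
    · exact hallE u huE hu.ne
    · rcases Cfsg.Agent.S0111.result α E hEα hrel u hu.orderOf huα huE with ⟨M, hM, hMi, _⟩ | ⟨g, hg⟩
      · exfalso
        rcases hS.eq_bot_or_eq_top_of_normal M hM with h | h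
        · rw [h, Subgroup.index_bot] at hMi
          rw [hMi] at h3
          omega
        · rw [h, Subgroup.index_top] at hMi
          omega
      · obtain ⟨g', hg'⟩ := hallE _ hg (hu.conj g).ne
        exact ⟨g' * g, by rw [← hg']; group⟩
  have hSC : ∀ u w : T, Inv2 u → Inv2 w → ∃ g, g * u * g⁻¹ = w := by
    have hone : ∀ u, Inv2 u → ∃ g, g * u * g⁻¹ = v := by
      intro u hu
      obtain ⟨g, hg⟩ := exists_sylow_conj hu α
      obtain ⟨g', hg'⟩ := hThom _ (hu.conj g) hg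
      exact ⟨g' * g, by rw [← hg']; group⟩
    intro u w hu hw
    obtain ⟨g₁, h₁⟩ := hone u hu
    obtain ⟨g₂, h₂⟩ := hone w hw
    refine ⟨g₂⁻¹ * g₁, ?_⟩
    calc g₂⁻¹ * g₁ * u * (g₂⁻¹ * g₁)⁻¹ = g₂⁻¹ * (g₁ * u * g₁⁻¹) * g₂ := by group
      _ = g₂⁻¹ * (g₂ * w * g₂⁻¹) * g₂ := by rw [h₁, h₂]
      _ = w := by group
  -- the pair
  have hcZ : ∀ z ∈ fixE E e, e * z = z * e := fun z hz => ((mem_fixE.1 hz).2).symm
  have hfixEA : EA (fixE E e) :=
    ⟨fun a ha b hb => hE.comm a (mem_fixE.1 ha).1 b (mem_fixE.1 hb).1, fun a ha => hE.sq a (mem_fixE.1 ha).1⟩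
  have henfix : e ∉ fixE E e := fun h => heE (mem_fixE.1 h).1
  have hE'EA := EA_extE (c := e) (hc := hee) (hcZ := hcZ) hfixEA
  have hE'c : Nat.card (extE (fixE E e) e hee hcZ) = 2 * 2 := by
    rw [card_extE henfix, ← hmdef, hm2']
  have hinfeq : E ⊓ extE (fixE E e) e hee hcZ = fixE E e := by
    apply le_antisymm
    · rintro y ⟨hy, hy' | hy'⟩
      · exact hy'
      · exfalso
        apply heE
        have h1 := E.mul_mem (mem_fixE.1 hy').1 (E.inv_mem hy)
        rwa [mul_inv_cancel_right] at h1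
    · intro y hy
      exact ⟨(mem_fixE.1 hy).1, Or.inl hy⟩
  have hinfc : Nat.card (E ⊓ extE (fixE E e) e hee hcZ : Subgroup T) = 2 := by
    rw [hinfeq, ← hmdef, hm2']
  have hP : PairS (α : Subgroup T) E (extE (fixE E e) e hee hcZ) := by
    refine ⟨hE, hE'EA, hEα, ?_, ?_, ?_, ?_⟩
    · rintro y (hy | hy)
      · exact hEα (mem_fixE.1 hy).1
      · have h1 := (α : Subgroup T).mul_mem heα (hEα (mem_fixE.1 hy).1)
        rwa [← mul_assoc, hee, one_mul] at h1
    · intro s hs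
      rcases hH2' s hs with h | h
      · exact ⟨s, h, 1, one_mem _, by simp⟩
      · refine ⟨e * (e * s) * e⁻¹, nm_conj heN h, e, left_mem_extE, ?_⟩
        simp only [mul_assoc, inv_mul_cancel, mul_one]
        rw [← mul_assoc, hee, one_mul]
    · intro a ha b hb hab
      rcases hb with hb | hb
      · exact Or.inr (mem_fixE.1 hb).1
      · left
        left
        exact mem_fixE.2 ⟨ha, hcomm_e hab (hE.comm _ ha _ (mem_fixE.1 hb).1)⟩
    · intro a ha b hb
      rw [hinfeq]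
      rcases hb with hb | hb
      · have h1 := hE.comm a ha b (mem_fixE.1 hb).1
        rw [h1]
        have : b * a * a⁻¹ * b⁻¹ = 1 := by group
        rw [this]
        exact one_mem _
      · have hbE := (mem_fixE.1 hb).1
        have h1 : b * a⁻¹ * b⁻¹ = e * a⁻¹ * e⁻¹ := act_eq hE hee hbE (E.inv_mem ha)
        have h2 : a * b * a⁻¹ * b⁻¹ = a * (e * a⁻¹ * e⁻¹) := by
          rw [← h1]; group
        rw [h2]
        have hai : a⁻¹ = a := inv_eq_of_mul_eq_one_left (hE.sq a ha)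
        rw [hai, hei]
        have hc1 : e * a * e ∈ E := by
          have := nm_conj heN ha
          rwa [hei] at this
        refine mem_fixE'.2 ⟨E.mul_mem ha hc1, ?_⟩
        rw [hei]
        calc e * (a * (e * a * e)) * e = (e * a * e) * (a * (e * e)) := by
              simp only [mul_assoc]
          _ = (e * a * e) * a := by rw [hee, mul_one]
          _ = _ := hE.comm _ hc1 _ ha
  obtain ⟨a₁, ha₁, ha₁'⟩ : ∃ a ∈ E, a ∉ extE (fixE E e) e hee hcZ := by
    by_contra h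
    push Not at h
    have h1 : E ≤ E ⊓ extE (fixE E e) e hee hcZ := le_inf le_rfl h
    have h2 := Subgroup.card_le_of_le h1
    rw [hinfc, hE4] at h2
    omega
  -- a central involution
  have hfn : Nontrivial (fixE E e) := by
    apply Finite.one_lt_card_iff_nontrivial.1
    rw [← hmdef, hm2']
    norm_num
  obtain ⟨z₀, hz₀⟩ := exists_ne (1 : fixE E e)
  have hz1 : (z₀ : T) ≠ 1 := fun h => hz₀ (Subtype.ext h)
  have hzF : (z₀ : T) ∈ fixE E e := z₀.2
  generalize (z₀ : T) = z at hz1 hzF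
  have hzI : Inv2 z := hfixI z hzF hz1
  have hzinf : z ∈ E ⊓ extE (fixE E e) e hee hcZ := by rw [hinfeq]; exact hzF
  have hI0 := I0_count hG hSC α hP hinfc (by rw [hE4]) (by rw [hE'c]) ha₁ ha₁' (left_mem_extE) heE hzinf hz1
  have hcz : cen z = (α : Subgroup T) := cen_of_central hG α hzI (hcentral z hzF)
  obtain ⟨a, b, A, w, B, ha1, hb1, hT, hAw, hw, hwa, hB, heq⟩ := final_eq hG hSC α hzI hcz hα8 HR h5
  have hI13 : (I0 z).card = 13 := by
    norm_num at hI0
    omega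
  rw [hI13] at heq
  have hAw' : A * w = 8 := by rw [hAw]; norm_num
  have hB' : B = 0 ∨ B = 1 ∨ B = 2 ∨ B = 4 := by
    rcases hB with ⟨_, h⟩ | ⟨w₅, h, hw₅⟩
    · exact Or.inl h
    · have h8 : B * w₅ = 8 := by rw [h]; norm_num
      have hB4 : B ≤ 4 := by nlinarith
      interval_cases B <;> omega
  have h45 := num8 ha1 hb1 hAw' hw hwa hB' heq
  rw [hT, h45]
  norm_num

end Cfsg.Agent.Lib.Spec5
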