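import Mathlib
import Cfsg.Agent.Lib.Spec5.CaseA
import Cfsg.Agent.Lib.Spec5.A5Facts

/-!
# The case of a quotient isomorphic to the alternating group of degree 5
-/

set_option autoImplicit false

namespace Cfsg.Agent.Lib.Spec5

open Subgroup

universe u

variable {T : Type u} [Group T]

/-- A projection of the normalizer of `E` onto the alternating group of degree 5. -/
structure ProjA (E : Subgroup T) (ρ : T → A5) : Prop where
  mul : ∀ s t, s ∈ normalizer (E : Set T) → t ∈ normalizer (E : Set T) → ρ (s * t) = ρ s * ρ t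
  ker : ∀ t, t ∈ normalizer (E : Set T) → (ρ t = 1 ↔ t ∈ E)
  surj : ∀ σ : A5, ∃ t ∈ normalizer (E : Set T), ρ t = σ

theorem RealE.coe {H : Subgroup T} {p : ℕ} {w e : H} (h : RealE p w e) : RealE p (w : T) (e : T) :=
  ⟨h.hp, by rw [Subgroup.orderOf_coe]; exact h.ox,
    ⟨congrArg Subtype.val h.it.sq, fun c => h.it.ne (Subtype.ext c)⟩, congrArg Subtype.val h.inv⟩

namespace ProjA

variable {E : Subgroup T} {ρ : T → A5}

theorem one (P : ProjA E ρ) : ρ 1 = 1 := (P.ker 1 (one_mem _)).2 E.one_mem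

theorem inv (P : ProjA E ρ) {t : T} (ht : t ∈ normalizer (E : Set T)) : ρ t⁻¹ = (ρ t)⁻¹ := by
  have h := P.mul t t⁻¹ ht (inv_mem ht)
  rw [mul_inv_cancel, P.one] at h
  exact eq_inv_of_mul_eq_one_right h.symm

theorem pow (P : ProjA E ρ) {t : T} (ht : t ∈ normalizer (E : Set T)) (n : ℕ) : ρ (t ^ n) = (ρ t) ^ n := by
  induction n with
  | zero => simp [P.one]
  | succ n ih => rw [pow_succ, P.mul _ _ (pow_mem ht n) ht, ih, pow_succ]

theorem conj (P : ProjA E ρ) {g t : T} (hg : g ∈ normalizer (E : Set T)) (ht : t ∈ normalizer (E : Set T)) :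
    ρ (g * t * g⁻¹) = ρ g * ρ t * (ρ g)⁻¹ := by
  rw [P.mul _ _ (mul_mem hg ht) (inv_mem hg), P.mul _ _ hg ht, P.inv hg]

theorem order_lift [Finite T] (hG : Sig T) (P : ProjA E ρ) {t : T} (ht : t ∈ normalizer (E : Set T)) {p : ℕ}
    (hp : p = 3 ∨ p = 5) (h : orderOf (ρ t) = p) : orderOf t = p := by
  have hd : orderOf (ρ t) ∣ orderOf t := by
    apply orderOf_dvd_of_pow_eq_one
    rw [← P.pow ht, pow_orderOf_eq_one, P.one]
  rw [h] at hd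
  rcases hp with rfl | rfl <;> rcases hG.cases t with h8 | h8 | h8 | h8 | h8 <;> rw [h8] at hd ⊢ <;>
    revert hd <;> decide

theorem real_lift (hG : Sig T) [Finite T] (hE2 : IsPGroup 2 E) (P : ProjA E ρ) {g w : T}
    (hg : g ∈ normalizer (E : Set T)) (hw : w ∈ normalizer (E : Set T)) {p : ℕ} (hp : p = 3 ∨ p = 5)
    (hwo : orderOf (ρ w) = p) (hg1 : ρ g ≠ 1) (hgg : ρ g * ρ g = 1)
    (hinv : ρ g * ρ w * (ρ g)⁻¹ = (ρ w)⁻¹) : ∃ a ∈ E, RealE p w (a * g) := by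
  haveI hEn : (E.subgroupOf (normalizer (E : Set T))).Normal := Subgroup.normal_in_normalizer
  have hE₀2 : IsPGroup 2 (E.subgroupOf (normalizer (E : Set T))) := by
    intro y
    obtain ⟨k, hk⟩ := hE2 ⟨((y : normalizer (E : Set T)) : T), y.2⟩
    refine ⟨k, Subtype.ext (Subtype.ext ?_)⟩
    have := congrArg Subtype.val hk
    simpa using this
  have hwA : orderOf (⟨w, hw⟩ : normalizer (E : Set T)) = p := by
    rw [Subgroup.orderOf_mk]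
    exact P.order_lift hG hw hp hwo
  have hgA : (⟨g, hg⟩ : normalizer (E : Set T)) ∉ E.subgroupOf (normalizer (E : Set T)) := by
    rw [Subgroup.mem_subgroupOf]
    intro h
    exact hg1 ((P.ker g hg).2 h)
  have hgA2 : (⟨g, hg⟩ : normalizer (E : Set T)) * ⟨g, hg⟩ ∈ E.subgroupOf (normalizer (E : Set T)) := by
    rw [Subgroup.mem_subgroupOf]
    show g * g ∈ E
    apply (P.ker _ (mul_mem hg hg)).1
    rw [P.mul _ _ hg hg, hgg]
  obtain ⟨a, ha, hR⟩ := real_lift_of (hG.subgroup _) hE₀2 hp hwA hgA hgA2 (by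
    rw [QuotientGroup.eq, Subgroup.mem_subgroupOf]
    show (g * w * g⁻¹)⁻¹ * w⁻¹ ∈ E
    have hc := mul_mem (mul_mem hg hw) (inv_mem hg)
    apply (P.ker _ (mul_mem (inv_mem hc) (inv_mem hw))).1
    rw [P.mul _ _ (inv_mem hc) (inv_mem hw), P.inv hc, P.inv hw, P.conj hg hw, hinv]
    simp)
  exact ⟨a.1, ha, RealE.coe hR⟩

end ProjA

theorem fold_mem2 [Finite T] {E : Subgroup T} (hE : EA E) {c y : T} (hc : c * c = 1) (hcN : c ∈ normalizer (E : Set T))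
    (hy : y ∈ E) : y * (c * y * c⁻¹) ∈ fixE E c := by
  have hi : c⁻¹ = c := inv_eq_of_mul_eq_one_left hc
  have h1 : c * y * c⁻¹ ∈ E := nm_conj hcN hy
  refine mem_fixE'.2 ⟨E.mul_mem hy h1, ?_⟩
  rw [hi] at h1 ⊢
  calc c * (y * (c * y * c)) * c = (c * y * c) * (y * (c * c)) := by simp only [mul_assoc]
    _ = (c * y * c) * y := by rw [hc, mul_one]
    _ = _ := hE.comm _ h1 _ hy

theorem fpf_mod [Finite T] {E Z : Subgroup T} (hG : Sig T) (hE2 : IsPGroup 2 E) (hE : EA E) {x : T}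
    (hxN : x ∈ normalizer (E : Set T)) (hx3 : orderOf x = 3) (hZx : ∀ z ∈ Z, x * z * x⁻¹ ∈ Z) {y : T}
    (hy : y ∈ E) (h : y * (x * y * x⁻¹) ∈ Z) : y ∈ Z := by
  have hn := norm3 hG hE2 hE.comm hxN hx3 hy
  have h1 : x⁻¹ * y * x = (y * (x * y * x⁻¹))⁻¹ := eq_inv_of_mul_eq_one_right hn
  have h2 : x⁻¹ * y * x ∈ Z := by rw [h1]; exact Z.inv_mem h
  have h3 := hZx _ h2
  have h4 : x * (x⁻¹ * y * x) * x⁻¹ = y := by group
  rwa [h4] at h3

/-- The three commuting lifts. -/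
theorem triple [Finite T] {E : Subgroup T} (hG : Sig T) (hE : EA E) (hE2 : IsPGroup 2 E) {c₁ c₂ c₃ x : T}
    (hc₁ : Inv2 c₁) (hc₁N : c₁ ∈ normalizer (E : Set T)) (hxN : x ∈ normalizer (E : Set T))
    (hx3 : orderOf x = 3) (e₂ : c₂ = x * c₁ * x⁻¹) (e₃ : c₃ = x * c₂ * x⁻¹)
    (hF : Nat.card (fixE E c₁) = 4) (hd : (c₁ * c₂) * (c₁ * c₂) ∈ E) (hε : c₁ * c₂ * c₃ ∈ E) :
    fixE E c₂ = fixE E c₁ ∧ fixE E c₃ = fixE E c₁ ∧ c₁ * c₂ = c₂ * c₁ ∧ c₁ * c₂ * c₃ ∈ fixE E c₁ := by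
  have hx3' : x * x * x = 1 := by
    have := pow_orderOf_eq_one x
    rw [hx3] at this
    rw [← this]; simp only [pow_succ, pow_zero, one_mul]
  have e₁ : c₁ = x * c₃ * x⁻¹ := by
    rw [e₃, e₂]
    have h1 : x * (x * (x * c₁ * x⁻¹) * x⁻¹) * x⁻¹ = (x * x * x) * c₁ * (x * x * x)⁻¹ := by group
    rw [h1, hx3']; simp
  have hc₂ : Inv2 c₂ := e₂ ▸ hc₁.conj x
  have hc₃ : Inv2 c₃ := e₃ ▸ hc₂.conj x
  have hc₂N : c₂ ∈ normalizer (E : Set T) := by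
    rw [e₂]; exact mul_mem (mul_mem hxN hc₁N) (inv_mem hxN)
  have hc₃N : c₃ ∈ normalizer (E : Set T) := by
    rw [e₃]; exact mul_mem (mul_mem hxN hc₂N) (inv_mem hxN)
  have hmap : ∀ {a b : T}, b = x * a * x⁻¹ → ∀ z ∈ fixE E a, x * z * x⁻¹ ∈ fixE E b := by
    intro a b hb z hz
    obtain ⟨hzE, hzf⟩ := mem_fixE'.1 hz
    refine mem_fixE'.2 ⟨nm_conj hxN hzE, ?_⟩
    rw [hb]
    calc x * a * x⁻¹ * (x * z * x⁻¹) * (x * a * x⁻¹)⁻¹ = x * (a * z * a⁻¹) * x⁻¹ := by group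
      _ = _ := by rw [hzf]
  have hcardle : ∀ {a b : T}, b = x * a * x⁻¹ → Nat.card (fixE E a) ≤ Nat.card (fixE E b) := by
    intro a b hb
    refine Nat.card_le_card_of_injective (fun z : fixE E a => (⟨x * z * x⁻¹, hmap hb z z.2⟩ : fixE E b)) ?_
    intro p q h
    have h1 : x * (p : T) * x⁻¹ = x * q * x⁻¹ := congrArg Subtype.val h
    exact Subtype.ext (by simpa using h1)
  have h12 := hcardle e₂
  have h23 := hcardle e₃
  have h31 := hcardle e₁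
  have hF₂ : Nat.card (fixE E c₂) = 4 := by omega
  have hF₃ : Nat.card (fixE E c₃) = 4 := by omega
  -- `c₂` acts on the fixed points of `c₁`
  have hi₁ : c₁⁻¹ = c₁ := hc₁.inv
  have hi₂ : c₂⁻¹ = c₂ := hc₂.inv
  have hi₃ : c₃⁻¹ = c₃ := hc₃.inv
  have hc₂Z : ∀ z ∈ fixE E c₁, c₂ * z * c₂⁻¹ ∈ fixE E c₁ := by
    intro z hz
    obtain ⟨hzE, hzf⟩ := mem_fixE'.1 hz
    have hzc₂ : c₂ * z * c₂⁻¹ ∈ E := nm_conj hc₂N hzE
    refine mem_fixE'.2 ⟨hzc₂, ?_⟩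
    set δ := (c₁ * c₂) * (c₁ * c₂) with hδ
    have hdec : c₁ * c₂ = δ * (c₂ * c₁) := by
      rw [hδ]
      calc c₁ * c₂ = (c₁ * c₂) * (c₁ * c₂) * (c₁ * c₂)⁻¹ := by group
        _ = _ := by rw [mul_inv_rev, hi₁, hi₂]
    calc c₁ * (c₂ * z * c₂⁻¹) * c₁⁻¹ = (c₁ * c₂) * z * (c₁ * c₂)⁻¹ := by group
      _ = (δ * (c₂ * c₁)) * z * (δ * (c₂ * c₁))⁻¹ := by rw [hdec]
      _ = δ * (c₂ * (c₁ * z * c₁⁻¹) * c₂⁻¹) * δ⁻¹ := by group
      _ = δ * (c₂ * z * c₂⁻¹) * δ⁻¹ := by rw [hzf]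
      _ = (c₂ * z * c₂⁻¹) * δ * δ⁻¹ := by rw [hE.comm δ hd _ hzc₂]
      _ = _ := by group
  have hc₂NZ : c₂ ∈ normalizer ((fixE E c₁ : Subgroup T) : Set T) := by
    rw [mem_normalizer_iff]
    intro h
    refine ⟨hc₂Z h, fun hh => ?_⟩
    have h1 := hc₂Z _ hh
    have h2 : c₂ * (c₂ * h * c₂⁻¹) * c₂⁻¹ = (c₂ * c₂) * h * (c₂ * c₂)⁻¹ := by group
    rw [h2, hc₂.sq] at h1
    simpa using h1
  obtain ⟨w₀, hw₀, hw₀1, hw₀f⟩ := exists_fix_conj (fixE E c₁) Nat.prime_two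
    (by rw [pow_two]; exact hc₂.sq) hc₂NZ (by rw [hF]; norm_num)
  have hw₀Z₂ : w₀ ∈ fixE E c₂ := mem_fixE'.2 ⟨(mem_fixE'.1 hw₀).1, hw₀f⟩
  -- the intersection
  have hW₃ : fixE E c₁ ⊓ fixE E c₂ ≤ fixE E c₃ := by
    rintro y ⟨hy₁, hy₂⟩
    obtain ⟨hyE, hyf₁⟩ := mem_fixE'.1 hy₁
    obtain ⟨_, hyf₂⟩ := mem_fixE'.1 hy₂
    refine mem_fixE'.2 ⟨hyE, ?_⟩
    have hc₃dec : c₃ = c₂ * c₁ * (c₁ * c₂ * c₃) := by
      calc c₃ = c₂ * (c₁ * c₁) * c₂ * c₃ := by rw [hc₁.sq, mul_one, hc₂.sq, one_mul]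
        _ = _ := by simp only [mul_assoc]
    set ε := c₁ * c₂ * c₃ with hεdef
    have h1 := hE.comm ε hε y hyE
    rw [hc₃dec]
    calc c₂ * c₁ * ε * y * (c₂ * c₁ * ε)⁻¹ = c₂ * c₁ * (ε * y * ε⁻¹) * (c₂ * c₁)⁻¹ := by group
      _ = c₂ * c₁ * (y * ε * ε⁻¹) * (c₂ * c₁)⁻¹ := by rw [h1]
      _ = c₂ * (c₁ * y * c₁⁻¹) * c₂⁻¹ := by group
      _ = c₂ * y * c₂⁻¹ := by rw [hyf₁]
      _ = y := hyf₂
  have hWx : ∀ y ∈ fixE E c₁ ⊓ fixE E c₂, x * y * x⁻¹ ∈ fixE E c₁ ⊓ fixE E c₂ := by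
    intro y hy
    exact ⟨hmap e₁ y (hW₃ hy), hmap e₂ y hy.1⟩
  have hxNW : x ∈ normalizer ((fixE E c₁ ⊓ fixE E c₂ : Subgroup T) : Set T) := by
    rw [mem_normalizer_iff]
    intro h
    refine ⟨hWx h, fun hh => ?_⟩
    have h1 := hWx _ (hWx _ hh)
    have h2 : x * (x * (x * h * x⁻¹) * x⁻¹) * x⁻¹ = (x * x * x) * h * (x * x * x)⁻¹ := by group
    rw [h2, hx3'] at h1
    simpa using h1
  have hx3p : x ^ 3 = 1 := by rw [← hx3]; exact pow_orderOf_eq_one x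
  have h3W : 3 ∣ Nat.card (fixE E c₁ ⊓ fixE E c₂ : Subgroup T) - 1 := by
    by_contra hnd
    obtain ⟨y, hy, hy1, hyf⟩ := exists_fix_conj _ (by norm_num : Nat.Prime 3) hx3p hxNW hnd
    exact hy1 (fix_trivial hG hE2 (p := 3) (by norm_num) (by norm_num) hx3 (mem_fixE'.1 hy.1).1 hyf)
  have hWd : Nat.card (fixE E c₁ ⊓ fixE E c₂ : Subgroup T) ∣ 4 := by
    rw [← hF]; exact Subgroup.card_dvd_of_le inf_le_left
  have hW1 : 1 < Nat.card (fixE E c₁ ⊓ fixE E c₂ : Subgroup T) := by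
    haveI : Nontrivial (fixE E c₁ ⊓ fixE E c₂ : Subgroup T) := by
      refine ⟨⟨⟨w₀, hw₀, hw₀Z₂⟩, 1, ?_⟩⟩
      intro h
      exact hw₀1 (congrArg Subtype.val h)
    exact Finite.one_lt_card
  have hW4 : Nat.card (fixE E c₁ ⊓ fixE E c₂ : Subgroup T) = 4 := by
    have hle := Nat.le_of_dvd (by norm_num) hWd
    generalize Nat.card (fixE E c₁ ⊓ fixE E c₂ : Subgroup T) = n at *
    interval_cases n <;> omega
  have h1eq : fixE E c₁ ⊓ fixE E c₂ = fixE E c₁ :=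
    Subgroup.eq_of_le_of_card_ge inf_le_left (by rw [hW4, hF])
  have h2eq : fixE E c₁ ⊓ fixE E c₂ = fixE E c₂ :=
    Subgroup.eq_of_le_of_card_ge inf_le_right (by rw [hW4, hF₂])
  have h3eq : fixE E c₁ ⊓ fixE E c₂ = fixE E c₃ :=
    Subgroup.eq_of_le_of_card_ge hW₃ (by rw [hW4, hF₃])
  have hZ21 : fixE E c₂ = fixE E c₁ := h2eq.symm.trans h1eq
  have hZ31 : fixE E c₃ = fixE E c₁ := h3eq.symm.trans h1eq
  have hZx : ∀ z ∈ fixE E c₁, x * z * x⁻¹ ∈ fixE E c₁ := by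
    intro z hz
    have := hmap e₂ z hz
    rwa [hZ21] at this
  -- the product lies in the fixed points
  have hεZ : c₁ * c₂ * c₃ ∈ fixE E c₁ := by
    refine fpf_mod hG hE2 hE hxN hx3 hZx hε ?_
    have h1 : x * (c₁ * c₂ * c₃) * x⁻¹ = c₁ * (c₁ * c₂ * c₃) * c₁⁻¹ := by
      calc x * (c₁ * c₂ * c₃) * x⁻¹ = (x * c₁ * x⁻¹) * (x * c₂ * x⁻¹) * (x * c₃ * x⁻¹) := by group
        _ = c₂ * c₃ * c₁ := by rw [← e₂, ← e₃, ← e₁]
        _ = (c₁ * c₁) * c₂ * c₃ * c₁ := by rw [hc₁.sq, one_mul]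
        _ = _ := by rw [hi₁]; simp only [mul_assoc]
    rw [h1]
    exact fold_mem2 hE hc₁.sq hc₁N hε
  -- commuting
  have hcomm : c₁ * c₂ = c₂ * c₁ := by
    obtain ⟨hεE, hεf⟩ := mem_fixE.1 hεZ
    have hc₃dec : c₃ = c₂ * c₁ * (c₁ * c₂ * c₃) := by
      calc c₃ = c₂ * (c₁ * c₁) * c₂ * c₃ := by rw [hc₁.sq, mul_one, hc₂.sq, one_mul]
        _ = _ := by simp only [mul_assoc]
    have hsq23 : (c₂ * c₃) * (c₂ * c₃) = 1 := by
      have h1 : c₂ * c₃ = c₁ * (c₁ * c₂ * c₃) := by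
        calc c₂ * c₃ = c₂ * (c₂ * c₁ * (c₁ * c₂ * c₃)) := by rw [← hc₃dec]
          _ = (c₂ * c₂) * c₁ * (c₁ * c₂ * c₃) := by simp only [mul_assoc]
          _ = _ := by rw [hc₂.sq, one_mul]
      rw [h1]
      set ε := c₁ * c₂ * c₃ with hεdef
      calc c₁ * ε * (c₁ * ε) = c₁ * (ε * c₁) * ε := by simp only [mul_assoc]
        _ = c₁ * (c₁ * ε) * ε := by rw [hεf]
        _ = (c₁ * c₁) * (ε * ε) := by simp only [mul_assoc]
        _ = 1 := by rw [hc₁.sq, hE.sq ε hεE, one_mul]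
    have hsq12 : (c₁ * c₂) * (c₁ * c₂) = 1 := by
      have h1 : (c₂ * c₃) * (c₂ * c₃) = x * ((c₁ * c₂) * (c₁ * c₂)) * x⁻¹ := by
        rw [e₃, e₂]; group
      rw [h1] at hsq23
      have h2 : (c₁ * c₂) * (c₁ * c₂) = x⁻¹ * (x * ((c₁ * c₂) * (c₁ * c₂)) * x⁻¹) * x := by group
      rw [h2, hsq23]; group
    have h3 : (c₁ * c₂)⁻¹ = c₁ * c₂ := inv_eq_of_mul_eq_one_left hsq12
    rw [mul_inv_rev, hi₁, hi₂] at h3
    exact h3.symm
  exact ⟨hZ21, hZ31, hcomm, hεZ⟩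

section Cover

open Classical

theorem card_nontriv [Fintype T] (H : Subgroup T) :
    (Finset.univ.filter (fun z : T => z ∈ H ∧ z ≠ 1)).card + 1 = Nat.card H := by
  rw [← card_filter_sub H]
  have h1 : Finset.univ.filter (fun z : T => z ∈ H ∧ z ≠ 1)
      = (Finset.univ.filter (fun u : T => u ∈ H)).erase 1 := by
    ext z
    simp only [Finset.mem_filter, Finset.mem_univ, true_and, Finset.mem_erase]
    tauto
  rw [h1, Finset.card_erase_of_mem (by simp [H.one_mem])]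
  have h2 : 0 < (Finset.univ.filter (fun u : T => u ∈ H)).card :=
    Finset.card_pos.2 ⟨1, by simp [H.one_mem]⟩
  omega

/-- The covering argument: the order of `E` is 16. -/
theorem cover_card [Fintype T] {E : Subgroup T} {ρ : T → A5} (hG : Sig T) (hE : EA E) (hE2 : IsPGroup 2 E)
    (hE1 : E ≠ ⊥) (P : ProjA E ρ) (hSC : ∀ u v : T, Inv2 u → Inv2 v → ∃ g, g * u * g⁻¹ = v)
    (α₀ : Sylow 2 T) (hEα₀ : E ≤ (α₀ : Subgroup T)) {g₀ : T} (hg₀ : g₀ ∈ (α₀ : Subgroup T)) (hg₀E : g₀ ∉ E) :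
    Nat.card E = 16 ∧ ∀ e w : T, e ∈ normalizer (E : Set T) → w ∈ normalizer (E : Set T) → RealE 3 w e →
      Nat.card (fixE E e) = 4 := by
  haveI : Fact (Nat.Prime 2) := ⟨Nat.prime_two⟩
  haveI : Fact (Nat.Prime 3) := ⟨by norm_num⟩
  haveI : Fact (Nat.Prime 5) := ⟨by norm_num⟩
  have hEK : E ≤ normalizer (E : Set T) := le_normalizer
  have hreal : ∀ σ : A5, ∃ e : T, σ * σ = 1 → σ ≠ 1 →
      e ∈ normalizer (E : Set T) ∧ ρ e = σ ∧ ∃ w, w ∈ normalizer (E : Set T) ∧ RealE 3 w e := by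
    intro σ
    by_cases hσ : σ * σ = 1 ∧ σ ≠ 1
    · obtain ⟨r, hr1, hr3, hri⟩ := a5_invol σ hσ.1 hσ.2
      obtain ⟨g, hg, hgσ⟩ := P.surj σ
      obtain ⟨w, hw, hwr⟩ := P.surj r
      have hro : orderOf r = 3 := orderOf_eq_prime hr3 hr1
      obtain ⟨a, ha, hR⟩ := P.real_lift hG hE2 hg hw (p := 3) (Or.inl rfl) (by rw [hwr]; exact hro)
        (by rw [hgσ]; exact hσ.2) (by rw [hgσ]; exact hσ.1) (by rw [hgσ, hwr]; exact hri)
      refine ⟨a * g, fun _ _ => ⟨mul_mem (hEK ha) hg, ?_, w, hw, hR⟩⟩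
      rw [P.mul _ _ (hEK ha) hg, (P.ker a (hEK ha)).2 ha, one_mul, hgσ]
    · exact ⟨1, fun h1 h2 => absurd ⟨h1, h2⟩ hσ⟩
  choose e he using hreal
  obtain ⟨hv11, _, _, hv1ne, _⟩ := a5_basic
  obtain ⟨he₀N, he₀ρ, w₀, hw₀, hR₀⟩ := he v1 hv11 hv1ne
  set m := Nat.card (fixE E (e v1)) with hmdef
  have hm := card_fix_sq hG hE2 hE hR₀ hw₀ he₀N
  rw [← hmdef] at hm
  have hallm : ∀ f w : T, f ∈ normalizer (E : Set T) → w ∈ normalizer (E : Set T) → RealE 3 w f →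
      Nat.card (fixE E f) = m := by
    intro f w hf hw hR
    have h1 := card_fix_sq hG hE2 hE hR hw hf
    rw [← hm] at h1
    exact Nat.mul_self_inj.1 h1
  have hEcard1 : 1 < Nat.card E := by
    haveI : Nontrivial E := (Subgroup.nontrivial_iff_ne_bot E).2 hE1
    exact Finite.one_lt_card
  have hm2 : 2 ≤ m := by
    by_contra hlt
    have hm0 : 0 < m := Nat.card_pos
    have h1 : m = 1 := by omega
    rw [h1] at hm
    omega
  have hEne : E ≠ (α₀ : Subgroup T) := fun h => hg₀E (h ▸ hg₀)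
  -- covering
  have hcover : ∀ z, z ∈ E → z ≠ 1 → ∃ σ : A5, (σ * σ = 1 ∧ σ ≠ 1) ∧ z ∈ fixE E (e σ) := by
    intro z hz hz1
    have hzI : Inv2 z := ⟨hE.sq z hz, hz1⟩
    obtain ⟨Q, hQ⟩ := cen_sylow hG hSC hzI
    have hEQ : E ≤ (Q : Subgroup T) := by
      rw [hQ]
      intro y hy
      exact mem_cen.2 (hE.comm _ hy _ hz)
    have hne : E ≠ (Q : Subgroup T) := by
      intro h
      have h1 : (α₀ : Subgroup T) = Q := Q.is_maximal' α₀.isPGroup' (by rw [← h]; exact hEα₀)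
      exact hEne (h.trans h1.symm)
    obtain ⟨g, hgQ, hgE, hgN, hgg⟩ := hG.norm_grow Q.isPGroup' hEQ hne
    have hgρ1 : ρ g ≠ 1 := fun h => hgE ((P.ker g hgN).1 h)
    have hgρ2 : ρ g * ρ g = 1 := by
      rw [← P.mul _ _ hgN hgN]
      exact (P.ker _ (mul_mem hgN hgN)).2 hgg
    refine ⟨ρ g, ⟨hgρ2, hgρ1⟩, ?_⟩
    obtain ⟨hfN, hfρ, w, hw, hR⟩ := he (ρ g) hgρ2 hgρ1
    have h1 : e (ρ g) * g ∈ E := by
      apply (P.ker _ (mul_mem hfN hgN)).1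
      rw [P.mul _ _ hfN hgN, hfρ, hgρ2]
    have h2 := act_eq hE hR.it.sq h1 hz
    have h3 : g * z = z * g := by
      rw [hQ] at hgQ
      exact (mem_cen.1 hgQ)
    have h4 : g * z * g⁻¹ = z := by rw [h3]; group
    rw [h4] at h2
    exact mem_fixE'.2 ⟨hz, h2.symm⟩
  have hcount : Nat.card E - 1 ≤ 15 * (m - 1) := by
    have h1 : Finset.univ.filter (fun z : T => z ∈ E ∧ z ≠ 1) ⊆
        (Finset.univ.filter (fun σ : A5 => σ * σ = 1 ∧ σ ≠ 1)).biUnion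
          (fun σ => Finset.univ.filter (fun z : T => z ∈ fixE E (e σ) ∧ z ≠ 1)) := by
      intro z hz
      simp only [Finset.mem_filter, Finset.mem_univ, true_and] at hz
      obtain ⟨σ, hσ, hzσ⟩ := hcover z hz.1 hz.2
      simp only [Finset.mem_biUnion, Finset.mem_filter, Finset.mem_univ, true_and]
      exact ⟨σ, hσ, hzσ, hz.2⟩
    have h2 := (Finset.card_le_card h1).trans Finset.card_biUnion_le
    have h3 : ∀ σ ∈ Finset.univ.filter (fun σ : A5 => σ * σ = 1 ∧ σ ≠ 1),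
        (Finset.univ.filter (fun z : T => z ∈ fixE E (e σ) ∧ z ≠ 1)).card = m - 1 := by
      intro σ hσ
      simp only [Finset.mem_filter, Finset.mem_univ, true_and] at hσ
      obtain ⟨hfN, _, w, hw, hR⟩ := he σ hσ.1 hσ.2
      have h4 := card_nontriv (fixE E (e σ))
      rw [hallm _ w hfN hw hR] at h4
      omega
    rw [Finset.sum_congr rfl h3, Finset.sum_const, smul_eq_mul] at h2
    have h6 := card_nontriv E
    have h7 : (Finset.univ.filter (fun σ : A5 => σ * σ = 1 ∧ σ ≠ 1)).card = 15 := by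
      convert a5_count
    rw [h7] at h2
    omega
  have hm14 : m ≤ 14 := by
    rw [← hm] at hcount
    obtain ⟨t, ht⟩ : ∃ t, m = t + 2 := ⟨m - 2, by omega⟩
    rw [ht] at hcount ⊢
    have h1 : (t + 2) * (t + 2) - 1 = (t + 1) * (t + 3) := by
      have : (t + 2) * (t + 2) = (t + 1) * (t + 3) + 1 := by ring
      omega
    have h2 : t + 2 - 1 = t + 1 := by omega
    rw [h1, h2] at hcount
    have h3 : t + 3 ≤ 15 := by
      have h4 : (t + 1) * (t + 3) ≤ (t + 1) * 15 := by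
        calc (t + 1) * (t + 3) ≤ 15 * (t + 1) := hcount
          _ = _ := by ring
      exact Nat.le_of_mul_le_mul_left h4 (by omega)
    omega
  -- the order of an element of order 5
  obtain ⟨_, _, _, hy5, hy1, _⟩ := a5_real
  obtain ⟨y, hy, hyρ⟩ := P.surj yb
  have hyo : orderOf y = 5 := by
    refine P.order_lift hG hy (Or.inr rfl) ?_
    rw [hyρ]
    exact orderOf_eq_prime hy5 hy1
  have hy5' : y ^ 5 = 1 := by rw [← hyo]; exact pow_orderOf_eq_one y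
  have h5E : 5 ∣ Nat.card E - 1 := by
    by_contra hnd
    obtain ⟨u, hu, hu1, huf⟩ := exists_fix_conj E (by norm_num : Nat.Prime 5) hy5' hy hnd
    exact hu1 (fix_trivial hG hE2 (p := 5) (by norm_num) (by norm_num) hyo hu huf)
  have hfix2 : IsPGroup 2 (fixE E (e v1)) := hE2.to_le inf_le_left
  obtain ⟨k, hk⟩ := IsPGroup.iff_card.1 hfix2
  rw [← hmdef] at hk
  have hk3 : k ≤ 3 := by
    by_contra hlt
    have h7 : 2 ^ 4 ≤ 2 ^ k := Nat.pow_le_pow_right (by norm_num) (by omega)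
    omega
  have hm4 : m = 4 := by
    rw [← hm, hk] at h5E
    rw [hk] at hm2 ⊢
    interval_cases k <;> omega
  refine ⟨by rw [← hm, hm4], fun f w hf hw hR => ?_⟩
  rw [hallm f w hf hw hR, hm4]

end Cover

/-- The case of a quotient isomorphic to the alternating group of degree 5 does not occur. -/
theorem caseB [Fintype T] {E : Subgroup T} {ρ : T → A5} (hS : IsSimpleGroup T) (h3 : 3 ∣ Nat.card T)
    (h5 : 5 ∣ Nat.card T) (hG : Sig T) (hE : EA E) (hE1 : E ≠ ⊥) (P : ProjA E ρ)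
    (α₀ : Sylow 2 T) (hEα₀ : E ≤ (α₀ : Subgroup T)) {g₀ : T} (hg₀ : g₀ ∈ (α₀ : Subgroup T)) (hg₀E : g₀ ∉ E) :
    False := by
  haveI : Fact (Nat.Prime 2) := ⟨Nat.prime_two⟩
  haveI : Fact (Nat.Prime 3) := ⟨by norm_num⟩
  haveI : Fact (Nat.Prime 5) := ⟨by norm_num⟩
  have hE2 : IsPGroup 2 E := α₀.isPGroup'.to_le hEα₀
  have hEK : E ≤ normalizer (E : Set T) := le_normalizer
  have hO := O2_of_simple hS h3
  obtain ⟨hv11, hv22, hv33, hv1ne, hv2ne, hv3ne, hv12ne, hv12, hv21, hxb3, hxb1, hxv1, hxv2, hxv3⟩ := a5_basic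
  obtain ⟨hrb3, hrb1, hrbi, hyb5, hyb1, hybi⟩ := a5_real
  obtain ⟨g₁, hg₁, hg₁ρ⟩ := P.surj v1
  obtain ⟨w₃, hw₃, hw₃ρ⟩ := P.surj rb
  obtain ⟨w₅, hw₅, hw₅ρ⟩ := P.surj yb
  obtain ⟨a₃, ha₃, H3⟩ := P.real_lift hG hE2 hg₁ hw₃ (p := 3) (Or.inl rfl)
    (by rw [hw₃ρ]; exact orderOf_eq_prime hrb3 hrb1)
    (by rw [hg₁ρ]; exact hv1ne) (by rw [hg₁ρ]; exact hv11) (by rw [hg₁ρ, hw₃ρ]; exact hrbi)
  obtain ⟨a₅, ha₅, H5⟩ := P.real_lift hG hE2 hg₁ hw₅ (p := 5) (Or.inr rfl)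
    (by rw [hw₅ρ]; exact orderOf_eq_prime hyb5 hyb1)
    (by rw [hg₁ρ]; exact hv1ne) (by rw [hg₁ρ]; exact hv11) (by rw [hg₁ρ, hw₅ρ]; exact hybi)
  have hc₁N' : a₃ * g₁ ∈ normalizer (E : Set T) := mul_mem (hEK ha₃) hg₁
  have hc₁ρ' : ρ (a₃ * g₁) = v1 := by
    rw [P.mul _ _ (hEK ha₃) hg₁, (P.ker a₃ (hEK ha₃)).2 ha₃, one_mul, hg₁ρ]
  have hbc' : (a₅ * a₃⁻¹) * (a₃ * g₁) = a₅ * g₁ := by group
  generalize a₃ * g₁ = c₁ at H3 hc₁N' hc₁ρ' hbc'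
  have hc₁N := hc₁N'
  have hc₁ρ := hc₁ρ'
  have hc₁I : Inv2 c₁ := H3.it
  have hci : c₁⁻¹ = c₁ := hc₁I.inv
  have he₅conj : ∃ f, f * c₁ * f⁻¹ = a₅ * g₁ := by
    have hbE : a₅ * a₃⁻¹ ∈ E := E.mul_mem ha₅ (E.inv_mem ha₃)
    generalize a₅ * a₃⁻¹ = b at hbE hbc'
    have hsq : (b * c₁) * (b * c₁) = 1 := by rw [hbc']; exact H5.it.sq
    have hbi : b⁻¹ = b := inv_eq_of_mul_eq_one_left (hE.sq b hbE)
    have hfix : c₁ * b * c₁⁻¹ = b := by
      rw [hci]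
      have h1 : b * (c₁ * b * c₁) = 1 := by
        rw [← hsq]; simp only [mul_assoc]
      have h2 := eq_inv_of_mul_eq_one_right h1
      rw [h2, hbi]
    obtain ⟨f, hf, hfb⟩ := fold_surj hG hE2 hE H3 hw₃ hc₁N hbE hfix
    refine ⟨f, ?_⟩
    rw [← hbc', ← hfb]
    have hfi : f⁻¹ = f := inv_eq_of_mul_eq_one_left (hE.sq f hf)
    calc f * c₁ * f⁻¹ = f * c₁ * f := by rw [hfi]
      _ = _ := by group
  have hone : ∀ u, Inv2 u → ∃ g, g * u * g⁻¹ = c₁ := by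
    intro u hu
    obtain ⟨p, x, HR⟩ := real_of_O2 hG hO hu
    rcases HR.hp with rfl | rfl
    · exact HR.isConj_same H3 hG
    · obtain ⟨g, hg⟩ := HR.isConj_same H5 hG
      obtain ⟨f, hf⟩ := he₅conj
      refine ⟨f⁻¹ * g, ?_⟩
      calc f⁻¹ * g * u * (f⁻¹ * g)⁻¹ = f⁻¹ * (g * u * g⁻¹) * f := by group
        _ = f⁻¹ * (f * c₁ * f⁻¹) * f := by rw [hg, hf]
        _ = c₁ := by group
  have hSC : ∀ u w : T, Inv2 u → Inv2 w → ∃ g, g * u * g⁻¹ = w := by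
    intro u w hu hw
    obtain ⟨g₁', h₁⟩ := hone u hu
    obtain ⟨g₂, h₂⟩ := hone w hw
    refine ⟨g₂⁻¹ * g₁', ?_⟩
    calc g₂⁻¹ * g₁' * u * (g₂⁻¹ * g₁')⁻¹ = g₂⁻¹ * (g₁' * u * g₁'⁻¹) * g₂ := by group
      _ = g₂⁻¹ * (g₂ * w * g₂⁻¹) * g₂ := by rw [h₁, h₂]
      _ = w := by group
  obtain ⟨hE16, hfix4⟩ := cover_card hG hE hE2 hE1 P hSC α₀ hEα₀ hg₀ hg₀E
  have hF₁ := hfix4 c₁ w₃ hc₁N hw₃ H3
  obtain ⟨x, hxN, hxρ⟩ := P.surj xb
  have hx3 : orderOf x = 3 :=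
    P.order_lift hG hxN (Or.inl rfl) (by rw [hxρ]; exact orderOf_eq_prime hxb3 hxb1)
  obtain ⟨c₂, e₂⟩ : ∃ c₂, c₂ = x * c₁ * x⁻¹ := ⟨_, rfl⟩
  obtain ⟨c₃, e₃⟩ : ∃ c₃, c₃ = x * c₂ * x⁻¹ := ⟨_, rfl⟩
  have hc₂N : c₂ ∈ normalizer (E : Set T) := by
    rw [e₂]; exact mul_mem (mul_mem hxN hc₁N) (inv_mem hxN)
  have hc₃N : c₃ ∈ normalizer (E : Set T) := by
    rw [e₃]; exact mul_mem (mul_mem hxN hc₂N) (inv_mem hxN)
  have hc₂ρ : ρ c₂ = v2 := by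
    rw [e₂, P.conj hxN hc₁N, hxρ, hc₁ρ]; exact hxv1
  have hc₃ρ : ρ c₃ = v3 := by
    rw [e₃, P.conj hxN hc₂N, hxρ, hc₂ρ]; exact hxv2
  have hc₂I : Inv2 c₂ := e₂ ▸ hc₁I.conj x
  have hc₃I : Inv2 c₃ := e₃ ▸ hc₂I.conj x
  have hd : (c₁ * c₂) * (c₁ * c₂) ∈ E := by
    apply (P.ker _ (mul_mem (mul_mem hc₁N hc₂N) (mul_mem hc₁N hc₂N))).1
    rw [P.mul _ _ (mul_mem hc₁N hc₂N) (mul_mem hc₁N hc₂N), P.mul _ _ hc₁N hc₂N, hc₁ρ, hc₂ρ, hv12, hv33]
  have hε : c₁ * c₂ * c₃ ∈ E := by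
    apply (P.ker _ (mul_mem (mul_mem hc₁N hc₂N) hc₃N)).1
    rw [P.mul _ _ (mul_mem hc₁N hc₂N) hc₃N, P.mul _ _ hc₁N hc₂N, hc₁ρ, hc₂ρ, hc₃ρ, hv12, hv33]
  obtain ⟨hZ21, hZ31, hcomm, hεZ⟩ := triple hG hE hE2 hc₁I hc₁N hxN hx3 e₂ e₃ hF₁ hd hε
  have hc₁Z : ∀ z ∈ fixE E c₁, c₁ * z = z * c₁ := fun z hz => (mem_fixE.1 hz).2.symm
  have hc₂Z : ∀ z ∈ fixE E c₁, c₂ * z = z * c₂ := by
    intro z hz
    rw [← hZ21] at hz
    exact (mem_fixE.1 hz).2.symm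
  have hc₃Z : ∀ z ∈ fixE E c₁, c₃ * z = z * c₃ := by
    intro z hz
    rw [← hZ31] at hz
    exact (mem_fixE.1 hz).2.symm
  have hZE : fixE E c₁ ≤ E := inf_le_left
  have notE : ∀ {c : T} {σ : A5}, c ∈ normalizer (E : Set T) → ρ c = σ → σ ≠ 1 → c ∉ E := by
    intro c σ hc hcρ hσ h
    apply hσ
    rw [← hcρ]
    exact (P.ker c hc).2 h
  have hc₁E : c₁ ∉ E := notE hc₁N hc₁ρ hv1ne
  have hc₂E : c₂ ∉ E := notE hc₂N hc₂ρ hv2ne
  have hc₃E : c₃ ∉ E := notE hc₃N hc₃ρ hv3ne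
  have hc₁₂E : c₁ * c₂ ∉ E :=
    notE (mul_mem hc₁N hc₂N) (by rw [P.mul _ _ hc₁N hc₂N, hc₁ρ, hc₂ρ, hv12]) hv3ne
  have hZEA : EA (fixE E c₁) :=
    ⟨fun a ha b hb => hE.comm a (hZE ha) b (hZE hb), fun a ha => hE.sq a (hZE ha)⟩
  have hc₂E₁ : ∀ z ∈ extE (fixE E c₁) c₁ hc₁I.sq hc₁Z, c₂ * z = z * c₂ := by
    intro z hz
    rcases extE_form hz with h | ⟨z', h, rfl⟩
    · exact hc₂Z z h
    · calc c₂ * (c₁ * z') = (c₂ * c₁) * z' := by rw [mul_assoc]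
        _ = (c₁ * c₂) * z' := by rw [hcomm]
        _ = c₁ * (c₂ * z') := by rw [mul_assoc]
        _ = c₁ * (z' * c₂) := by rw [hc₂Z z' h]
        _ = _ := by rw [mul_assoc]
  obtain ⟨E₁, hE₁⟩ : ∃ E₁, E₁ = extE (fixE E c₁) c₁ hc₁I.sq hc₁Z := ⟨_, rfl⟩
  have hE₁EA : EA E₁ := by rw [hE₁]; exact EA_extE hZEA
  have hE₁c : Nat.card E₁ = 8 := by
    rw [hE₁, card_extE (fun h => hc₁E (hZE h)), hF₁]
  rw [← hE₁] at hc₂E₁
  have hc₂nE₁ : c₂ ∉ E₁ := by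
    rw [hE₁]
    rintro (h | h)
    · exact hc₂E (hZE h)
    · exact hc₁₂E (hZE h)
  have hE'c : Nat.card (extE E₁ c₂ hc₂I.sq hc₂E₁) = 16 := by
    rw [card_extE hc₂nE₁, hE₁c]
  have hE'EA : EA (extE E₁ c₂ hc₂I.sq hc₂E₁) := EA_extE hE₁EA
  have hmemE' : ∀ {b : T}, b ∈ extE E₁ c₂ hc₂I.sq hc₂E₁ → (b ∈ fixE E c₁ ∨ c₁ * b ∈ fixE E c₁) ∨
      (c₂ * b ∈ fixE E c₁ ∨ c₁ * (c₂ * b) ∈ fixE E c₁) := by
    intro b hb
    rw [mem_extE, hE₁, mem_extE, mem_extE] at hb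
    exact hb
  generalize hE'def : extE E₁ c₂ hc₂I.sq hc₂E₁ = E' at hE'c hE'EA hmemE'
  have hc₂E' : c₂ ∈ E' := by rw [← hE'def]; exact left_mem_extE
  have hE₁E' : E₁ ≤ E' := by rw [← hE'def]; exact le_extE
  have hc₁E₁ : c₁ ∈ E₁ := by rw [hE₁]; exact left_mem_extE
  have hZE₁ : fixE E c₁ ≤ E₁ := by rw [hE₁]; exact le_extE
  have hc₁E' : c₁ ∈ E' := hE₁E' hc₁E₁
  have hZE' : fixE E c₁ ≤ E' := hZE₁.trans hE₁E'
  have hc₃E' : c₃ ∈ E' := by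
    rw [← hE'def, mem_extE, hE₁, mem_extE]
    right; right
    rw [← mul_assoc]
    exact hεZ
  have hεc₁ : (c₁ * c₂ * c₃) * c₁ = c₁ * (c₁ * c₂ * c₃) := (mem_fixE.1 hεZ).2
  have hεc₂ : (c₁ * c₂ * c₃) * c₂ = c₂ * (c₁ * c₂ * c₃) := (hc₂Z _ hεZ).symm
  have hc₃dec : c₃ = (c₁ * c₂ * c₃) * (c₁ * c₂) := by
    have h1 : c₃ = c₂ * c₁ * (c₁ * c₂ * c₃) := by
      calc c₃ = c₂ * (c₁ * c₁) * c₂ * c₃ := by rw [hc₁I.sq, mul_one, hc₂I.sq, one_mul]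
        _ = _ := by simp only [mul_assoc]
    generalize c₁ * c₂ * c₃ = ε at h1 hεc₁ hεc₂
    calc c₃ = c₂ * c₁ * ε := h1
      _ = c₁ * c₂ * ε := by rw [hcomm]
      _ = c₁ * (c₂ * ε) := by rw [mul_assoc]
      _ = c₁ * (ε * c₂) := by rw [hεc₂]
      _ = (c₁ * ε) * c₂ := by rw [mul_assoc]
      _ = (ε * c₁) * c₂ := by rw [hεc₁]
      _ = _ := by rw [mul_assoc]
  have hcls : ∀ b ∈ E', b ∈ E ∨ c₁ * b ∈ E ∨ c₂ * b ∈ E ∨ c₃ * b ∈ E := by
    intro b hb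
    rcases hmemE' hb with (h | h) | (h | h)
    · exact Or.inl (hZE h)
    · exact Or.inr (Or.inl (hZE h))
    · exact Or.inr (Or.inr (Or.inl (hZE h)))
    · right; right; right
      have h1 : c₃ * b = (c₁ * c₂ * c₃) * (c₁ * (c₂ * b)) := by
        calc c₃ * b = (c₁ * c₂ * c₃) * (c₁ * c₂) * b := by rw [← hc₃dec]
          _ = _ := by simp only [mul_assoc]
      rw [h1]
      exact E.mul_mem hε (hZE h)
  have hmulK : ∀ {c b : T}, c * c = 1 → c ∈ normalizer (E : Set T) → c * b ∈ E → b ∈ normalizer (E : Set T) := by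
    intro c b hc hcN h
    have h1 := mul_mem hcN (hEK h)
    rwa [← mul_assoc, hc, one_mul] at h1
  have hE'K : E' ≤ normalizer (E : Set T) := by
    intro b hb
    rcases hcls b hb with h | h | h | h
    · exact hEK h
    · exact hmulK hc₁I.sq hc₁N h
    · exact hmulK hc₂I.sq hc₂N h
    · exact hmulK hc₃I.sq hc₃N h
  have hE'N : ∀ b ∈ E', ∀ a ∈ E, b * a * b⁻¹ ∈ E := fun b hb a ha => nm_conj (hE'K hb) ha
  -- fixed points
  have hnd1 : ∀ {c a b : T}, c * c = 1 → fixE E c = fixE E c₁ → a ∈ E → c * b ∈ E → a * b = b * a →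
      a ∈ E' := by
    intro c a b hc hfix ha hb hab
    have h1 := act_eq hE hc hb ha
    have h2 : b * a * b⁻¹ = a := by rw [← hab]; group
    rw [h2] at h1
    apply hZE'
    rw [← hfix]
    exact mem_fixE'.2 ⟨ha, h1.symm⟩
  have hcm1 : ∀ {c a b : T}, c * c = 1 → c ∈ normalizer (E : Set T) → fixE E c = fixE E c₁ → a ∈ E → c * b ∈ E →
      a * b * a⁻¹ * b⁻¹ ∈ fixE E c₁ := by
    intro c a b hc hcN hfix ha hb
    have h1 := act_eq hE hc hb (E.inv_mem ha)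
    have h2 : a * b * a⁻¹ * b⁻¹ = a * (b * a⁻¹ * b⁻¹) := by group
    rw [h2, h1, inv_eq_of_mul_eq_one_left (hE.sq a ha), ← hfix]
    exact fold_mem2 hE hc hcN ha
  have hinf : E ⊓ E' = fixE E c₁ := by
    apply le_antisymm
    · rintro y ⟨hy, hy'⟩
      have hyi := E.inv_mem hy
      rcases hmemE' hy' with (h | h) | (h | h)
      · exact h
      · exfalso
        have h1 := E.mul_mem (hZE h) hyi
        rw [mul_inv_cancel_right] at h1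
        exact hc₁E h1
      · exfalso
        have h1 := E.mul_mem (hZE h) hyi
        rw [mul_inv_cancel_right] at h1
        exact hc₂E h1
      · exfalso
        have h1 := E.mul_mem (hZE h) hyi
        have h2 : c₁ * (c₂ * y) * y⁻¹ = c₁ * c₂ := by group
        rw [h2] at h1
        exact hc₁₂E h1
    · intro z hz
      exact ⟨hZE hz, hZE' hz⟩
  have hinfc : Nat.card (E ⊓ E' : Subgroup T) = 4 := by rw [hinf, hF₁]
  let S₀ : Subgroup T := prodS E E' hE'N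
  have hP₀ : PairS S₀ E E' := by
    refine ⟨hE, hE'EA, ?_, ?_, ?_, ?_, ?_⟩
    · intro a ha
      exact ⟨a, ha, 1, one_mem _, by simp⟩
    · intro b hb
      exact ⟨1, one_mem _, b, hb, by simp⟩
    · intro s hs
      exact hs
    · intro a ha b hb hab
      rcases hcls b hb with h | h | h | h
      · exact Or.inr h
      · exact Or.inl (hnd1 hc₁I.sq rfl ha h hab)
      · exact Or.inl (hnd1 hc₂I.sq hZ21 ha h hab)
      · exact Or.inl (hnd1 hc₃I.sq hZ31 ha h hab)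
    · intro a ha b hb
      rw [hinf]
      rcases hcls b hb with h | h | h | h
      · rw [hE.comm a ha b h]
        have h1 : b * a * a⁻¹ * b⁻¹ = 1 := by group
        rw [h1]
        exact one_mem _
      · exact hcm1 hc₁I.sq hc₁N rfl ha h
      · exact hcm1 hc₂I.sq hc₂N hZ21 ha h
      · exact hcm1 hc₃I.sq hc₃N hZ31 ha h
  have hS₀c : Nat.card S₀ = 2 ^ 6 := by
    have h1 := hP₀.card_S
    rw [hinfc, hE16, hE'c] at h1
    omega
  have hS₀2 : IsPGroup 2 S₀ := IsPGroup.of_card hS₀c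
  obtain ⟨α, hα⟩ := hS₀2.exists_le_sylow
  have hS₀K : S₀ ≤ normalizer (E : Set T) := by
    rintro s ⟨a, ha, b, hb, rfl⟩
    exact mul_mem (hEK ha) (hE'K hb)
  have hinv₁ : v1⁻¹ = v1 := inv_eq_of_mul_eq_one_left hv11
  have hinv₂ : v2⁻¹ = v2 := inv_eq_of_mul_eq_one_left hv22
  have hinv₃ : v3⁻¹ = v3 := inv_eq_of_mul_eq_one_left hv33
  have hρm : ∀ {c b : T} {σ : A5}, c ∈ normalizer (E : Set T) → ρ c = σ → σ⁻¹ = σ → c * b ∈ E →
      b ∈ normalizer (E : Set T) → ρ b = σ := by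
    intro c b σ hcN hcρ hσ hb hbN
    have h1 := (P.ker _ (mul_mem hcN hbN)).2 hb
    rw [P.mul _ _ hcN hbN, hcρ] at h1
    rw [eq_inv_of_mul_eq_one_right h1, hσ]
  have hρS : ∀ s ∈ S₀, inVb (ρ s) := by
    rintro s ⟨a, ha, b, hb, rfl⟩
    rw [P.mul _ _ (hEK ha) (hE'K hb), (P.ker a (hEK ha)).2 ha, one_mul]
    rcases hcls b hb with h | h | h | h
    · exact Or.inl ((P.ker b (hE'K hb)).2 h)
    · exact Or.inr (Or.inl (hρm hc₁N hc₁ρ hinv₁ h (hE'K hb)))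
    · exact Or.inr (Or.inr (Or.inl (hρm hc₂N hc₂ρ hinv₂ h (hE'K hb))))
    · exact Or.inr (Or.inr (Or.inr (hρm hc₃N hc₃ρ hinv₃ h (hE'K hb))))
  have hinS : ∀ {c g : T}, c ∈ E' → c * g ∈ E → g ∈ S₀ := by
    intro c g hc h
    refine ⟨c * (c * g) * c⁻¹, hE'N c hc _ h, c, hc, ?_⟩
    have h1 := hE'EA.sq c hc
    calc g = (c * c) * g := by rw [h1, one_mul]
      _ = _ := by simp only [mul_assoc, inv_mul_cancel, mul_one]
  have hES : E ≤ S₀ := hP₀.leE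
  have hE'S : E' ≤ S₀ := hP₀.leE'
  have hαK : ∀ s ∈ (α : Subgroup T), s ∈ normalizer (E : Set T) → s ∈ S₀ := by
    by_contra hcon
    have hne : S₀ ≠ (α : Subgroup T) ⊓ normalizer (E : Set T) := by
      intro h
      apply hcon
      intro s hs hsK
      rw [h]
      exact ⟨hs, hsK⟩
    obtain ⟨g, hgP, hgS, hgN, hgg⟩ := hG.norm_grow (α.isPGroup'.to_le inf_le_left) (le_inf hα hS₀K) hne
    have hgK := hgP.2
    have h1 : inVb (ρ g * v1 * (ρ g)⁻¹) := by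
      rw [← hc₁ρ, ← P.conj hgK hc₁N]
      exact hρS _ (nm_conj hgN (hE'S hc₁E'))
    have h2 : inVb (ρ g * v2 * (ρ g)⁻¹) := by
      rw [← hc₂ρ, ← P.conj hgK hc₂N]
      exact hρS _ (nm_conj hgN (hE'S hc₂E'))
    have h4 : inVb (ρ g * ρ g) := by
      rw [← P.mul _ _ hgK hgK]
      exact hρS _ hgg
    apply hgS
    rcases a5_norm _ h1 h2 h4 with h | h | h | h
    · exact hES ((P.ker g hgK).1 h)
    · refine hinS hc₁E' ((P.ker _ (mul_mem hc₁N hgK)).1 ?_)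
      rw [P.mul _ _ hc₁N hgK, hc₁ρ, h, hv11]
    · refine hinS hc₂E' ((P.ker _ (mul_mem hc₂N hgK)).1 ?_)
      rw [P.mul _ _ hc₂N hgK, hc₂ρ, h, hv22]
    · refine hinS hc₃E' ((P.ker _ (mul_mem hc₃N hgK)).1 ?_)
      rw [P.mul _ _ hc₃N hgK, hc₃ρ, h, hv33]
  obtain ⟨a₁, ha₁, ha₁'⟩ : ∃ a ∈ E, a ∉ E' := by
    by_contra h
    push Not at h
    have h1 : E ≤ E ⊓ E' := le_inf le_rfl h
    have h2 := Subgroup.card_le_of_le h1
    rw [hinfc, hE16] at h2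
    omega
  have hαS : S₀ = (α : Subgroup T) := by
    by_contra hne
    obtain ⟨g, hgα, hgS, hgN, hgg⟩ := hG.norm_grow α.isPGroup' hα hne
    have hcjS : cjS g E ≤ S₀ := by
      intro y hy
      have h1 := nm_conj hgN (hES (mem_cjS.1 hy))
      have h2 : g * (g⁻¹ * y * g) * g⁻¹ = y := by group
      rwa [h2] at h1
    have hcjEA : EA (cjS g E) := EA_cjS hE
    have hor : ∀ y ∈ cjS g E, y ∈ E ∨ y ∈ E' := fun y hy => hP₀.mem_or (hcjS hy) (hcjEA.sq y hy)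
    by_cases hle : cjS g E ≤ E
    · have hEq : cjS g E = E := Subgroup.eq_of_le_of_card_ge hle (by rw [card_cjS])
      apply hgS
      refine hαK g hgα ?_
      rw [mem_normalizer_iff]
      intro y
      constructor
      · intro hy
        have h1 : g * y * g⁻¹ ∈ cjS g E := conj_mem_cjS hy
        rw [hEq] at h1
        exact h1
      · intro hy
        rw [← hEq] at hy
        have h1 := mem_cjS.1 hy
        have e1 : g⁻¹ * (g * y * g⁻¹) * g = y := by group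
        rwa [e1] at h1
    · obtain ⟨u, huc, huE⟩ := SetLike.not_le_iff_exists.1 hle
      have huE' := (hor u huc).resolve_left huE
      have hleE' : cjS g E ≤ E' := by
        intro y hy
        rcases hor y hy with h | h
        · rcases hor _ ((cjS g E).mul_mem hy huc) with h2 | h2
          · exfalso
            apply huE
            have h3 := E.mul_mem (E.inv_mem h) h2
            rwa [inv_mul_cancel_left] at h3
          · have h3 := E'.mul_mem h2 (E'.inv_mem huE')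
            rwa [mul_inv_cancel_right] at h3
        · exact h
      have hEq' : cjS g E = E' := Subgroup.eq_of_le_of_card_ge hleE' (by rw [card_cjS, hE16, hE'c])
      have hg4 : g ^ 4 = 1 := hG.pow_four_of_pgroup α.isPGroup' hgα
      obtain ⟨α₁, hα₁, β₁, hβ₁, hdec⟩ := hgg
      refine swap_false hE hE'EA hP₀.nondeg (g := g) (fun y hy => hleE' (conj_mem_cjS hy)) ?_ hα₁ hβ₁ hdec ?_
        ha₁ ha₁' ?_
      · intro y hy
        rw [← hEq'] at hy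
        have h1 := mem_cjS.1 hy
        have h2 := nm_conj (hS₀K (show g * g ∈ S₀ from ⟨α₁, hα₁, β₁, hβ₁, hdec⟩)) h1
        have h3 : (g * g) * (g⁻¹ * y * g) * (g * g)⁻¹ = g * y * g⁻¹ := by
          simp only [mul_inv_rev, mul_assoc, mul_inv_cancel_left]
        rwa [h3] at h2
      · rw [← hg4]; simp only [pow_succ, pow_zero, one_mul, mul_assoc]
      · have h1 : (g * a₁) ^ 4 = 1 :=
          hG.pow_four_of_pgroup α.isPGroup' ((α : Subgroup T).mul_mem hgα (hα (hES ha₁)))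
        rw [← h1]; simp only [pow_succ, pow_zero, one_mul, mul_assoc]
  have hP₁ : PairS (α : Subgroup T) E E' := hαS ▸ hP₀
  have hαc : Nat.card (α : Subgroup T) = 2 ^ 6 := by rw [← hαS]; exact hS₀c
  -- a central involution
  have hfn : Nontrivial (fixE E c₁) := by
    apply Finite.one_lt_card_iff_nontrivial.1
    rw [hF₁]
    norm_num
  obtain ⟨z₀, hz₀⟩ := exists_ne (1 : fixE E c₁)
  have hz1 : (z₀ : T) ≠ 1 := fun h => hz₀ (Subtype.ext h)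
  have hzF : (z₀ : T) ∈ fixE E c₁ := z₀.2
  generalize (z₀ : T) = z at hz1 hzF
  have hzinf : z ∈ E ⊓ E' := by rw [hinf]; exact hzF
  have hzI : Inv2 z := ⟨hE.sq z (hZE hzF), hz1⟩
  have hI0 := I0_count hG hSC α hP₁ hinfc (by rw [hE16]) (by rw [hE'c]) ha₁ ha₁' hc₁E' hc₁E hzinf hz1
  have hcz : cen z = (α : Subgroup T) := cen_of_central hG α hzI (fun s hs => hP₁.central_E0 hzinf hs)
  obtain ⟨a, b, A, w, B, ha1, hb1, hT, hAw, hw, hwa, hB, heq⟩ := final_eq hG hSC α hzI hcz hαc H3 h5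
  have hI123 : (I0 z).card = 123 := by
    norm_num at hI0
    omega
  rw [hI123] at heq
  have hAw' : A * w = 64 := by rw [hAw]; norm_num
  have hB' : B = 1 ∨ B = 2 ∨ B = 4 ∨ B = 8 ∨ B = 16 ∨ B = 32 := by
    rcases hB with ⟨h, _⟩ | ⟨w₅, h, hw₅⟩
    · exact absurd H5 (h _ _)
    · have h8 : B * w₅ = 64 := by rw [h]; norm_num
      have hB4 : B ≤ 32 := by nlinarith
      interval_cases B <;> omega
  exact num64 ha1 hb1 hAw' hw hwa hB' heq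

end Cfsg.Agent.Lib.Spec5
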