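import Mathlib
import Cfsg.Agent.Lib.Spec5.CaseA
import Cfsg.Agent.Lib.Spec5.A6Facts

/-!
# Normal subgroups: the index of a normal alternating subgroup
-/

set_option autoImplicit false

namespace Cfsg.Agent.Lib.Spec5

open Subgroup

universe u

variable {G : Type u} [Group G] [Finite G]

theorem no_normal_odd (hG : Sig G) {p q : ℕ} (hp : p = 3 ∨ p = 5) (hq : q = 3 ∨ q = 5) (hpq : p ≠ q)
    (h2 : 2 ∣ Nat.card G) (hqd : q ∣ Nat.card G) (Q : Subgroup G) (hQ : Q.Normal) (hQp : IsPGroup p Q) :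
    Q = ⊥ := by
  by_contra hne
  have hpp : p.Prime := by rcases hp with rfl | rfl <;> norm_num
  have hqq : q.Prime := by rcases hq with rfl | rfl <;> norm_num
  have hp2 : p ≠ 2 := by rcases hp with rfl | rfl <;> norm_num
  have hq2 : q ≠ 2 := by rcases hq with rfl | rfl <;> norm_num
  haveI : Fact p.Prime := ⟨hpp⟩
  haveI : Fact q.Prime := ⟨hqq⟩
  haveI : Fact (Nat.Prime 2) := ⟨Nat.prime_two⟩
  haveI : Nontrivial Q := (nontrivial_iff_ne_bot Q).2 hne
  obtain ⟨v₀, hv₀⟩ := exists_ne (1 : Q)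
  have hord : ∀ x ∈ Q, x ≠ 1 → orderOf x = p := by
    intro x hx hx1
    obtain ⟨k, hk⟩ := hQp ⟨x, hx⟩
    have h1 : x ^ p ^ k = 1 := by simpa using congrArg Subtype.val hk
    rcases hG.order_of_ppow hp h1 with h | h
    · exact absurd h hx1
    · exact h
  have hv₀1 : (v₀ : G) ≠ 1 := fun h => hv₀ (Subtype.ext h)
  have hv₀o := hord _ v₀.2 hv₀1
  obtain ⟨t, ht⟩ := exists_prime_orderOf_dvd_card' (G := G) 2 h2
  have htI := inv2_of_orderOf ht
  obtain ⟨y, hy⟩ := exists_prime_orderOf_dvd_card' (G := G) q hqd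
  have hinv : ∀ s, Inv2 s → ∀ x ∈ Q, s * x * s⁻¹ = x⁻¹ := by
    intro s hs
    refine fpf_inverts' hs.sq (fun x hx => hQ.conj_mem x hx s) ?_
    intro x hx hfx
    by_contra hx1
    have hcomm : x * s = s * x := by
      calc x * s = (s * x * s⁻¹) * s := by rw [hfx]
        _ = s * x := by group
    exact hG.no_comm_prime hpp Nat.prime_two hp2 (hord x hx hx1) hs.orderOf hcomm
  haveI hCn : (centralizer (Q : Set G)).Normal := by
    haveI := hQ
    exact Subgroup.normal_centralizer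
  have hmemC : ∀ g, g ∈ centralizer (Q : Set G) → g * (v₀ : G) = v₀ * g := by
    intro g hg
    exact ((Subgroup.mem_centralizer_iff.1 hg) v₀ v₀.2).symm
  have htC : t ∉ centralizer (Q : Set G) := fun h =>
    hG.no_comm_prime hpp Nat.prime_two hp2 hv₀o ht (hmemC t h).symm
  have hyC : y ∉ centralizer (Q : Set G) := fun h =>
    hG.no_comm_prime hpp hqq hpq hv₀o hy (hmemC y h).symm
  have hprod : ∀ g : G, t * (g * t * g⁻¹) ∈ centralizer (Q : Set G) := by
    intro g
    rw [Subgroup.mem_centralizer_iff]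
    intro x hx
    have h1 := hinv t htI x hx
    have h4 := hinv _ (htI.conj g) x hx
    generalize g * t * g⁻¹ = s at h4 ⊢
    calc x * (t * s) = (t * x⁻¹ * t⁻¹) * (t * s) := by
          have h5 : t * x⁻¹ * t⁻¹ = x := by
            have h6 : t * x⁻¹ * t⁻¹ = (t * x * t⁻¹)⁻¹ := by group
            rw [h6, h1, inv_inv]
          rw [h5]
      _ = t * x⁻¹ * s := by group
      _ = t * (s * x * s⁻¹) * s := by rw [h4]
      _ = t * s * x := by group
  have hSQ : Sig (G ⧸ centralizer (Q : Set G)) := hG.quot _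
  have htb : Inv2 ((t : G) : G ⧸ centralizer (Q : Set G)) := by
    refine ⟨?_, ?_⟩
    · rw [← QuotientGroup.mk_mul, htI.sq]
      rfl
    · intro hc
      exact htC ((QuotientGroup.eq_one_iff _).1 hc)
  have hyb : orderOf ((y : G) : G ⧸ centralizer (Q : Set G)) = q := by
    refine orderOf_eq_prime ?_ ?_
    · rw [← QuotientGroup.mk_pow, ← hy, pow_orderOf_eq_one]
      rfl
    · intro hc
      exact hyC ((QuotientGroup.eq_one_iff _).1 hc)
  have hcomm : ((y : G) : G ⧸ centralizer (Q : Set G)) * (t : G) = (t : G) * ((y : G) : G ⧸ centralizer (Q : Set G)) := by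
    have h1 := hprod y
    have h4 : (((t * (y * t * y⁻¹) : G)) : G ⧸ centralizer (Q : Set G)) = 1 := (QuotientGroup.eq_one_iff _).2 h1
    rw [QuotientGroup.mk_mul, QuotientGroup.mk_mul, QuotientGroup.mk_mul, QuotientGroup.mk_inv] at h4
    have h5 := eq_inv_of_mul_eq_one_right h4
    rw [htb.inv] at h5
    calc ((y : G) : G ⧸ centralizer (Q : Set G)) * (t : G)
        = (((y : G) : G ⧸ centralizer (Q : Set G)) * (t : G) * ((y : G) : G ⧸ centralizer (Q : Set G))⁻¹) * (y : G) := by group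
      _ = _ := by rw [h5]
  exact hSQ.no_comm_prime hqq Nat.prime_two hq2 hyb htb.orderOf hcomm

theorem exists_max_normal_two (G : Type u) [Group G] [Finite G] :
    ∃ N : Subgroup G, N.Normal ∧ IsPGroup 2 N ∧ ∀ Q : Subgroup G, Q.Normal → IsPGroup 2 Q → Q ≤ N := by
  haveI : Fact (Nat.Prime 2) := ⟨Nat.prime_two⟩
  obtain ⟨N, -, hN⟩ := Finite.exists_le_maximal (α := Subgroup G) (p := fun Q => Q.Normal ∧ IsPGroup 2 Q)
    (a := ⊥) ⟨inferInstance, IsPGroup.of_bot⟩
  refine ⟨N, hN.prop.1, hN.prop.2, ?_⟩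
  intro Q hQ hQ2
  haveI := hN.prop.1
  have h1 : (N ⊔ Q).Normal ∧ IsPGroup 2 (N ⊔ Q : Subgroup G) :=
    ⟨Subgroup.sup_normal N Q, hN.prop.2.to_sup_of_normal_right hQ2⟩
  exact le_sup_right.trans (hN.le_of_ge h1 le_sup_left)

theorem O2_of_normal (hO : ∀ N : Subgroup G, N.Normal → IsPGroup 2 N → N = ⊥) (K : Subgroup G) [K.Normal]
    (N : Subgroup K) (hN : N.Normal) (hN2 : IsPGroup 2 N) : N = ⊥ := by
  obtain ⟨M, hM, hM2, hall⟩ := exists_max_normal_two K
  haveI hchar : M.Characteristic := by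
    rw [characteristic_iff_map_le]
    intro φ
    exact hall _ (hM.map _ φ.surjective) (hM2.map _)
  have h1 : (M.map K.subtype).Normal := inferInstance
  have h2 := hO _ h1 (hM2.map _)
  have h3 : M = ⊥ := (Subgroup.map_eq_bot_iff_of_injective _ K.subtype_injective).1 h2
  rw [eq_bot_iff, ← h3]
  exact hall N hN hN2

theorem frattini_rel (K : Subgroup G) [K.Normal] {p : ℕ} [Fact p.Prime] (P : Sylow p K) :
    K.relIndex (normalizer (((P : Subgroup K).map K.subtype : Subgroup G) : Set G)) = K.index := by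
  have h := P.normalizer_sup_eq_top
  have h2 := relIndex_sup_right (normalizer (((P : Subgroup K).map K.subtype : Subgroup G) : Set G)) K
  rw [h, relIndex_top_right] at h2
  exact h2.symm

theorem frattini_prime (hG : Sig G) (K : Subgroup G) [K.Normal] {p r : ℕ} (hp : p = 3 ∨ p = 5)
    (hr : r = 3 ∨ r = 5) (hrp : r ≠ p) [Fact p.Prime] (P : Sylow p K) (hd : r ∣ K.index)
    (hc : ¬ r ∣ Nat.card P - 1) : False := by
  have hrr : r.Prime := by rcases hr with rfl | rfl <;> norm_num
  haveI : Fact r.Prime := ⟨hrr⟩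
  have hpp : p.Prime := Fact.out
  have hYc : Nat.card ((P : Subgroup K).map K.subtype : Subgroup G) = Nat.card (P : Subgroup K) :=
    card_map_of_injective K.subtype_injective
  have h1 : r ∣ Nat.card (normalizer (((P : Subgroup K).map K.subtype : Subgroup G) : Set G)) := by
    refine hd.trans ?_
    rw [← frattini_rel K P]
    exact relIndex_dvd_card _ _
  obtain ⟨x, hx⟩ := exists_prime_orderOf_dvd_card' r h1
  have hxo : orderOf (x : G) = r := by rw [Subgroup.orderOf_coe]; exact hx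
  have hxr : (x : G) ^ r = 1 := by rw [← hxo]; exact pow_orderOf_eq_one _
  obtain ⟨y, hy, hy1, hyf⟩ := exists_fix_conj ((P : Subgroup K).map K.subtype) hrr hxr x.2
    (by rw [hYc]; exact hc)
  have hYp : IsPGroup p ((P : Subgroup K).map K.subtype : Subgroup G) := P.isPGroup'.map _
  have hyo : orderOf y = p := by
    obtain ⟨k, hk⟩ := hYp ⟨y, hy⟩
    have h4 : y ^ p ^ k = 1 := by simpa using congrArg Subtype.val hk
    rcases hG.order_of_ppow hp h4 with h | h
    · exact absurd h hy1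
    · exact h
  have hcomm : (x : G) * y = y * x := by
    calc (x : G) * y = ((x : G) * y * (x : G)⁻¹) * x := by group
      _ = y * x := by rw [hyf]
  exact hG.no_comm_prime hrr hpp hrp hxo hyo hcomm

theorem zpowers_three {r z : G} (hr : orderOf r = 3) (hz : z ∈ zpowers r) : z = 1 ∨ z = r ∨ z = r⁻¹ := by
  obtain ⟨k, rfl⟩ := mem_zpowers_iff.1 hz
  have h1 : r ^ k = r ^ (k % 3) := by
    have h0 := zpow_mod_orderOf r k
    rw [hr, Nat.cast_ofNat] at h0
    exact h0.symm
  have h2 : r ^ 3 = 1 := by rw [← hr]; exact pow_orderOf_eq_one r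
  rw [h1]
  have h3 : k % 3 = 0 ∨ k % 3 = 1 ∨ k % 3 = 2 := by omega
  rcases h3 with h | h | h
  · left; rw [h]; simp
  · right; left; rw [h]; simp
  · right; right
    rw [h]
    have h4 : r * (r ^ (2 : ℤ)) = 1 := by
      rw [← h2]; simp only [zpow_two, pow_succ, pow_zero, one_mul, mul_assoc]
    exact eq_inv_of_mul_eq_one_right h4

/-- No 4 divides the order of the normalizer of a subgroup of order 3. -/
theorem no_four {Y R : Subgroup G} {r₀ : G} (hG : Sig G) (hr₀ : orderOf r₀ = 3)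
    (hY : ∀ z ∈ Y, z = 1 ∨ z = r₀ ∨ z = r₀⁻¹) (hr₀Y : r₀ ∈ Y) (hRN : R ≤ normalizer (Y : Set G))
    (hR2 : IsPGroup 2 R) (hR4 : Nat.card R = 4) : False := by
  classical
  have hr₀1 : r₀ ≠ 1 := by
    intro h
    rw [h, orderOf_one] at hr₀
    omega
  have hinv : ∀ s ∈ R, s ≠ 1 → s * r₀ * s⁻¹ = r₀⁻¹ := by
    intro s hs hs1
    have h1 : s * r₀ * s⁻¹ ∈ Y := nm_conj (hRN hs) hr₀Y
    rcases hY _ h1 with h | h | h
    · exfalso
      apply hr₀1
      have h2 : r₀ = s⁻¹ * (s * r₀ * s⁻¹) * s := by group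
      rw [h2, h]; group
    · exfalso
      apply hs1
      refine fix_trivial hG hR2 (p := 3) (by norm_num) (by norm_num) hr₀ hs ?_
      have h2 : s * r₀ = r₀ * s := by
        calc s * r₀ = (s * r₀ * s⁻¹) * s := by group
          _ = r₀ * s := by rw [h]
      calc r₀ * s * r₀⁻¹ = s * r₀ * r₀⁻¹ := by rw [h2]
        _ = s := by group
    · exact h
  have hprod : ∀ s ∈ R, ∀ s' ∈ R, s ≠ 1 → s' ≠ 1 → s * s' = 1 := by
    intro s hs s' hs' h1 h1'
    refine fix_trivial hG hR2 (p := 3) (by norm_num) (by norm_num) hr₀ (R.mul_mem hs hs') ?_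
    have h4 := hinv s hs h1
    have h5 := hinv s' hs' h1'
    have h6 : (s * s') * r₀ * (s * s')⁻¹ = r₀ := by
      calc (s * s') * r₀ * (s * s')⁻¹ = s * (s' * r₀ * s'⁻¹) * s⁻¹ := by group
        _ = s * r₀⁻¹ * s⁻¹ := by rw [h5]
        _ = (s * r₀ * s⁻¹)⁻¹ := by group
        _ = r₀ := by rw [h4, inv_inv]
    have h7 : (s * s') * r₀ = r₀ * (s * s') := by
      calc (s * s') * r₀ = ((s * s') * r₀ * (s * s')⁻¹) * (s * s') := by group
        _ = r₀ * (s * s') := by rw [h6]
    calc r₀ * (s * s') * r₀⁻¹ = (s * s') * r₀ * r₀⁻¹ := by rw [h7]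
      _ = s * s' := by group
  haveI : Fintype R := Fintype.ofFinite R
  have hc : 2 < (Finset.univ.erase (1 : R)).card := by
    rw [Finset.card_erase_of_mem (Finset.mem_univ _), Finset.card_univ, ← Nat.card_eq_fintype_card, hR4]
    norm_num
  obtain ⟨a, ha, b, hb, c, hc', hab, hac, hbc⟩ := Finset.two_lt_card.1 hc
  rw [Finset.mem_erase] at ha hb hc'
  have ha1 : (a : G) ≠ 1 := fun h => ha.1 (Subtype.ext h)
  have hb1 : (b : G) ≠ 1 := fun h => hb.1 (Subtype.ext h)
  have hc1 : (c : G) ≠ 1 := fun h => hc'.1 (Subtype.ext h)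
  have h1 := hprod a a.2 b b.2 ha1 hb1
  have h2 := hprod a a.2 c c.2 ha1 hc1
  apply hbc
  apply Subtype.ext
  exact mul_left_cancel (h1.trans h2.symm)

theorem no_two_A5 (hG : Sig G) (K : Subgroup G) [hK : K.Normal] (φ : K ≃* A5) : ¬ 2 ∣ K.index := by
  haveI : Fact (Nat.Prime 2) := ⟨Nat.prime_two⟩
  haveI : Fact (Nat.Prime 3) := ⟨by norm_num⟩
  intro h2
  obtain ⟨hv11, _, _, hv1ne, _⟩ := a5_basic
  obtain ⟨hrb3, hrb1, hrbi, _⟩ := a5_real
  have hKc : Nat.card K = 60 := by rw [Nat.card_congr φ.toEquiv]; exact card_A5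
  have hw3 : orderOf (φ.symm rb) = 3 := by
    rw [MulEquiv.orderOf_eq]
    exact orderOf_eq_prime hrb3 hrb1
  obtain ⟨w, hwdef⟩ : ∃ w : K, w = φ.symm rb := ⟨_, rfl⟩
  rw [← hwdef] at hw3
  obtain ⟨t, htdef⟩ : ∃ t : K, t = φ.symm v1 := ⟨_, rfl⟩
  have htt : t * t = 1 := by
    rw [htdef, ← map_mul, hv11, map_one]
  have ht1 : t ≠ 1 := by
    rw [htdef]
    intro h
    apply hv1ne
    simpa using congrArg φ h
  have htw : t * w * t⁻¹ = w⁻¹ := by
    rw [htdef, hwdef, ← map_inv, ← map_mul, ← map_mul, ← map_inv, hrbi]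
  have hzp : IsPGroup 3 (zpowers w) := by
    apply IsPGroup.of_card (n := 1)
    rw [Nat.card_zpowers, hw3, pow_one]
  obtain ⟨P, hP⟩ := hzp.exists_le_sylow
  have hPc : Nat.card (P : Subgroup K) = 3 := by
    obtain ⟨a, ha⟩ := IsPGroup.iff_card.1 P.isPGroup'
    have h4 : Nat.card (P : Subgroup K) ∣ 60 := by
      rw [← hKc]; exact Subgroup.card_subgroup_dvd_card _
    have h6 : 3 ∣ Nat.card (P : Subgroup K) := by
      have h7 := Subgroup.card_dvd_of_le hP
      rwa [Nat.card_zpowers, hw3] at h7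
    rw [ha] at h4 h6 ⊢
    have ha2 : a < 2 := by
      by_contra hlt
      have h7 : 3 ^ 2 ∣ 3 ^ a := Nat.pow_dvd_pow 3 (by omega)
      have h8 := h7.trans h4
      omega
    interval_cases a <;> omega
  have hr₀o : orderOf (w : G) = 3 := by rw [Subgroup.orderOf_coe]; exact hw3
  have hYc : Nat.card ((P : Subgroup K).map K.subtype : Subgroup G) = 3 := by
    rw [card_map_of_injective K.subtype_injective, hPc]
  have hwY : (w : G) ∈ (P : Subgroup K).map K.subtype := ⟨w, hP (mem_zpowers w), rfl⟩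
  have hYeq : zpowers (w : G) = (P : Subgroup K).map K.subtype := by
    apply Subgroup.eq_of_le_of_card_ge
    · rw [Subgroup.zpowers_le]; exact hwY
    · rw [Nat.card_zpowers, hr₀o, hYc]
  have hY : ∀ z ∈ ((P : Subgroup K).map K.subtype : Subgroup G), z = 1 ∨ z = (w : G) ∨ z = (w : G)⁻¹ := by
    intro z hz
    rw [← hYeq] at hz
    exact zpowers_three hr₀o hz
  have htw' : (t : G) * w * (t : G)⁻¹ = (w : G)⁻¹ := congrArg Subtype.val htw
  have htti : (t : G)⁻¹ = t := inv_eq_of_mul_eq_one_left (congrArg Subtype.val htt)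
  have hstep : ∀ z ∈ ((P : Subgroup K).map K.subtype : Subgroup G),
      (t : G) * z * (t : G)⁻¹ ∈ ((P : Subgroup K).map K.subtype : Subgroup G) := by
    intro z hz
    rcases hY z hz with h | h | h
    · rw [h]; simp [one_mem]
    · rw [h, htw']; exact inv_mem hwY
    · rw [h]
      have h4 : (t : G) * (w : G)⁻¹ * (t : G)⁻¹ = ((t : G) * w * (t : G)⁻¹)⁻¹ := by group
      rw [h4, htw', inv_inv]
      exact hwY
  have htN : (t : G) ∈ normalizer (((P : Subgroup K).map K.subtype : Subgroup G) : Set G) := by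
    rw [mem_normalizer_iff]
    intro z
    refine ⟨hstep z, fun hz => ?_⟩
    have h4 := hstep _ hz
    have h6 : (t : G) * ((t : G) * z * (t : G)⁻¹) * (t : G)⁻¹ = z := by
      rw [htti]
      have h7 : (t : G) * (t : G) = 1 := congrArg Subtype.val htt
      calc (t : G) * ((t : G) * z * t) * t = ((t : G) * t) * z * ((t : G) * t) := by simp only [mul_assoc]
        _ = z := by rw [h7]; simp
    rwa [h6] at h4
  -- the order of the normalizer
  set N := normalizer (((P : Subgroup K).map K.subtype : Subgroup G) : Set G) with hN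
  have hrel := frattini_rel K P
  rw [← hN] at hrel
  have hcm := Subgroup.card_mul_index (K.subgroupOf N)
  have hidx : (K.subgroupOf N).index = K.index := hrel
  rw [hidx] at hcm
  have h2sub : 2 ∣ Nat.card (K.subgroupOf N) := by
    have h4 : orderOf (⟨⟨t, htN⟩, t.2⟩ : K.subgroupOf N) = 2 := by
      refine orderOf_eq_prime ?_ ?_
      · apply Subtype.ext
        apply Subtype.ext
        simp only [Subgroup.coe_pow, Subgroup.coe_mk, OneMemClass.coe_one]
        rw [pow_two]
        exact congrArg Subtype.val htt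
      · intro hc
        apply ht1
        apply Subtype.ext
        have := congrArg (fun u : K.subgroupOf N => ((u : N) : G)) hc
        simpa using this
    rw [← h4]
    exact orderOf_dvd_natCard _
  have h4d : 2 ^ 2 ∣ Nat.card N := by
    rw [← hcm, pow_two]
    exact Nat.mul_dvd_mul h2sub h2
  obtain ⟨R, hR⟩ := Sylow.exists_subgroup_card_pow_prime 2 h4d
  have hR' : Nat.card (R.map N.subtype : Subgroup G) = 4 := by
    rw [card_map_of_injective N.subtype_injective, hR]; norm_num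
  have hRp : IsPGroup 2 R := IsPGroup.of_card hR
  exact no_four hG hr₀o hY hwY (by
    rintro _ ⟨s, _, rfl⟩
    exact s.2) (hRp.map _) hR'

end Cfsg.Agent.Lib.Spec5
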