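import Mathlib
import Cfsg.Agent.Lib.Spec5.Extn
import Cfsg.Agent.Lib.Spec5.CaseB

/-!
# The index of a normal subgroup isomorphic to the alternating group of degree 6
-/

set_option autoImplicit false

namespace Cfsg.Agent.Lib.Spec5

open Subgroup

universe u v

/-- A subgroup given by a finite list. -/
def sgOf (L : Finset A6) (h1 : (1 : A6) ∈ L) (hm : ∀ u ∈ L, ∀ w ∈ L, u * w ∈ L) (hi : ∀ u ∈ L, u⁻¹ ∈ L) :
    Subgroup A6 where
  carrier := {x | x ∈ L}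
  one_mem' := h1
  mul_mem' := fun {a b} ha hb => hm a ha b hb
  inv_mem' := fun {a} ha => hi a ha

theorem card_sgOf {L : Finset A6} {h1 : (1 : A6) ∈ L} {hm : ∀ u ∈ L, ∀ w ∈ L, u * w ∈ L}
    {hi : ∀ u ∈ L, u⁻¹ ∈ L} : Nat.card (sgOf L h1 hm hi) = L.card :=
  Nat.subtype_card L (fun _ => Iff.rfl)

theorem PairS.map {T : Type u} {T' : Type v} [Group T] [Group T'] (ι : T →* T') (hι : Function.Injective ι)
    {S E E' : Subgroup T} (P : PairS S E E') : PairS (S.map ι) (E.map ι) (E'.map ι) := by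
  refine ⟨⟨?_, ?_⟩, ⟨?_, ?_⟩, Subgroup.map_mono P.leE, Subgroup.map_mono P.leE', ?_, ?_, ?_⟩
  · rintro _ ⟨a, ha, rfl⟩ _ ⟨b, hb, rfl⟩
    rw [← map_mul, ← map_mul, P.hE.comm a ha b hb]
  · rintro _ ⟨a, ha, rfl⟩
    rw [← map_mul, P.hE.sq a ha, map_one]
  · rintro _ ⟨a, ha, rfl⟩ _ ⟨b, hb, rfl⟩
    rw [← map_mul, ← map_mul, P.hE'.comm a ha b hb]
  · rintro _ ⟨a, ha, rfl⟩
    rw [← map_mul, P.hE'.sq a ha, map_one]
  · rintro _ ⟨s, hs, rfl⟩
    obtain ⟨a, ha, b, hb, rfl⟩ := P.decomp s hs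
    exact ⟨ι a, ⟨a, ha, rfl⟩, ι b, ⟨b, hb, rfl⟩, map_mul _ _ _⟩
  · rintro _ ⟨a, ha, rfl⟩ _ ⟨b, hb, rfl⟩ hc
    have h1 : a * b = b * a := hι (by rw [map_mul, map_mul, hc])
    rcases P.nondeg a ha b hb h1 with h | h
    · exact Or.inl ⟨a, h, rfl⟩
    · exact Or.inr ⟨b, h, rfl⟩
  · rintro _ ⟨a, ha, rfl⟩ _ ⟨b, hb, rfl⟩
    have h := P.comm_mem a ha b hb
    have e : ι a * ι b * (ι a)⁻¹ * (ι b)⁻¹ = ι (a * b * a⁻¹ * b⁻¹) := by
      simp only [map_mul, map_inv]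
    rw [e]
    exact ⟨⟨_, h.1, rfl⟩, ⟨_, h.2, rfl⟩⟩

variable {G : Type u} [Group G] [Finite G]

theorem nm_centralizer {V : Subgroup G} {s : G} (hs : s ∈ normalizer (V : Set G)) :
    s ∈ normalizer ((centralizer (V : Set G) : Subgroup G) : Set G) := by
  rw [mem_normalizer_iff]
  intro h
  constructor
  · intro hh
    rw [mem_centralizer_iff] at hh ⊢
    intro v hv
    have h1 := hh (s⁻¹ * v * s) (nm_conj_inv hs hv)
    calc v * (s * h * s⁻¹) = s * ((s⁻¹ * v * s) * h) * s⁻¹ := by group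
      _ = s * (h * (s⁻¹ * v * s)) * s⁻¹ := by rw [h1]
      _ = (s * h * s⁻¹) * v := by group
  · intro hh
    rw [mem_centralizer_iff] at hh ⊢
    intro v hv
    have h1 := hh (s * v * s⁻¹) (nm_conj hs hv)
    have h2 : s * (v * h) * s⁻¹ = s * (h * v) * s⁻¹ := by
      calc s * (v * h) * s⁻¹ = (s * v * s⁻¹) * (s * h * s⁻¹) := by group
        _ = (s * h * s⁻¹) * (s * v * s⁻¹) := h1
        _ = _ := by group
    exact mul_left_cancel (mul_right_cancel h2)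

theorem no_two_A6 (hG : Sig G) (K : Subgroup G) [hK : K.Normal] (φ : K ≃* A6) : ¬ 2 ∣ K.index := by
  haveI : Fact (Nat.Prime 2) := ⟨Nat.prime_two⟩
  haveI : Fact (Nat.Prime 3) := ⟨by norm_num⟩
  intro h2
  obtain ⟨h11, h12, h1D, hm1, hm2, hmD, hi1, hi2, hiD⟩ := a6_closure
  obtain ⟨hc1, hc2, hs1, hs2⟩ := a6_ea
  obtain ⟨hl1, hl2, hdec, hnd, hcm⟩ := a6_pair
  obtain ⟨hcard1, hcard2, hcardD⟩ := a6_cards
  obtain ⟨ha1, ha2, hb1, hb2, he2, he1, hane, hbne, habne, hene, hee, hxxx, hxne, hexe, hxV0, hxV0', heV0, heav, hebv⟩ := a6_elts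
  let ι : A6 →* G := K.subtype.comp φ.symm.toMonoidHom
  have hι : Function.Injective ι := K.subtype_injective.comp φ.symm.injective
  have hιK : ∀ σ, ι σ ∈ K := fun σ => (φ.symm σ).2
  have hιs : ∀ g ∈ K, ∃ σ, ι σ = g := by
    intro g hg
    refine ⟨φ ⟨g, hg⟩, ?_⟩
    show ((φ.symm (φ ⟨g, hg⟩) : K) : G) = g
    simp
  have hKc : Nat.card K = 360 := by rw [Nat.card_congr φ.toEquiv]; exact card_A6
  have P₀ : PairS (sgOf LD h1D hmD hiD) (sgOf L1 h11 hm1 hi1) (sgOf L2 h12 hm2 hi2) := by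
    refine ⟨⟨hc1, hs1⟩, ⟨hc2, hs2⟩, hl1, hl2, hdec, hnd, ?_⟩
    intro a ha b hb
    exact ⟨(hcm a ha b hb).1, (hcm a ha b hb).2⟩
  have P₁ := P₀.map ι hι
  have hV₁c : Nat.card ((sgOf L1 h11 hm1 hi1).map ι : Subgroup G) = 4 := by
    rw [card_map_of_injective hι, card_sgOf, hcard1]
  have hV₂c : Nat.card ((sgOf L2 h12 hm2 hi2).map ι : Subgroup G) = 4 := by
    rw [card_map_of_injective hι, card_sgOf, hcard2]
  have hDc : Nat.card ((sgOf LD h1D hmD hiD).map ι : Subgroup G) = 2 ^ 3 := by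
    rw [card_map_of_injective hι, card_sgOf, hcardD]; norm_num
  generalize hV₁def : (sgOf L1 h11 hm1 hi1).map ι = V₁ at P₁ hV₁c
  generalize hV₂def : (sgOf L2 h12 hm2 hi2).map ι = V₂ at P₁ hV₂c
  generalize hDdef : (sgOf LD h1D hmD hiD).map ι = D at P₁ hDc
  have hmemV₁ : ∀ u ∈ L1, ι u ∈ V₁ := fun u hu => by rw [← hV₁def]; exact ⟨u, hu, rfl⟩
  have hmemV₂ : ∀ u ∈ L2, ι u ∈ V₂ := fun u hu => by rw [← hV₂def]; exact ⟨u, hu, rfl⟩
  have hV₁el : ∀ z ∈ V₁, ∃ u ∈ L1, ι u = z := by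
    rw [← hV₁def]
    rintro _ ⟨u, hu, rfl⟩
    exact ⟨u, hu, rfl⟩
  have hV₂el : ∀ z ∈ V₂, ∃ u ∈ L2, ι u = z := by
    rw [← hV₂def]
    rintro _ ⟨u, hu, rfl⟩
    exact ⟨u, hu, rfl⟩
  have hinfc : Nat.card (V₁ ⊓ V₂ : Subgroup G) = 2 := by
    have h1 := P₁.card_S
    rw [hDc, hV₁c, hV₂c] at h1
    omega
  -- elements
  have ha₁ : ι a6 ∈ V₁ := hmemV₁ _ ha1
  have ha₂ : ι a6 ∈ V₂ := hmemV₂ _ ha2
  have hb₁ : ι b6 ∈ V₁ := hmemV₁ _ hb1
  have hb₂ : ι b6 ∉ V₂ := by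
    intro h
    obtain ⟨u, hu, hue⟩ := hV₂el _ h
    rw [hι hue] at hu
    exact hb2 hu
  have he₂ : ι e6 ∈ V₂ := hmemV₂ _ he2
  have he₁ : ι e6 ∉ V₁ := by
    intro h
    obtain ⟨u, hu, hue⟩ := hV₁el _ h
    rw [hι hue] at hu
    exact he1 hu
  have hιne : ∀ {σ : A6}, σ ≠ 1 → ι σ ≠ 1 := fun {σ} h hc => h (hι (by rw [hc, map_one]))
  have hx6o : orderOf x6 = 3 := by
    refine orderOf_eq_prime ?_ hxne
    rw [← hxxx]; simp only [pow_succ, pow_zero, one_mul]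
  have hxo6 : orderOf (ι x6) = 3 := by rw [orderOf_injective ι hι]; exact hx6o
  have hee' : ι e6 * ι e6 = 1 := by rw [← map_mul, hee, map_one]
  have HR : RealE 3 (ι x6) (ι e6) := by
    refine ⟨Or.inl rfl, hxo6, ⟨hee', hιne hene⟩, ?_⟩
    rw [← map_inv, ← map_mul, ← map_mul, ← map_inv, hexe]
  have hxV : ∀ z ∈ V₁, ι x6 * z * (ι x6)⁻¹ ∈ V₁ := by
    intro z hz
    obtain ⟨u, hu, rfl⟩ := hV₁el z hz
    rw [← map_inv, ← map_mul, ← map_mul]
    exact hmemV₁ _ (hxV0 u hu)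
  have hxV' : ∀ z ∈ V₁, (ι x6)⁻¹ * z * ι x6 ∈ V₁ := by
    intro z hz
    obtain ⟨u, hu, rfl⟩ := hV₁el z hz
    rw [← map_inv, ← map_mul, ← map_mul]
    exact hmemV₁ _ (hxV0' u hu)
  have heV : ∀ z ∈ V₁, ι e6 * z * (ι e6)⁻¹ ∈ V₁ := by
    intro z hz
    obtain ⟨u, hu, rfl⟩ := hV₁el z hz
    rw [← map_inv, ← map_mul, ← map_mul]
    exact hmemV₁ _ (heV0 u hu)
  have hxN : ι x6 ∈ normalizer (V₁ : Set G) := by
    rw [mem_normalizer_iff]
    intro h
    refine ⟨hxV h, fun hh => ?_⟩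
    have h1 := hxV' _ hh
    have h4 : (ι x6)⁻¹ * (ι x6 * h * (ι x6)⁻¹) * ι x6 = h := by group
    rwa [h4] at h1
  have heN : ι e6 ∈ normalizer (V₁ : Set G) := by
    rw [mem_normalizer_iff]
    intro h
    refine ⟨heV h, fun hh => ?_⟩
    have h1 := heV _ hh
    have h4 : ι e6 * (ι e6 * h * (ι e6)⁻¹) * (ι e6)⁻¹ = h := by
      have hi : (ι e6)⁻¹ = ι e6 := inv_eq_of_mul_eq_one_left hee'
      rw [hi]
      calc ι e6 * (ι e6 * h * ι e6) * ι e6 = (ι e6 * ι e6) * h * (ι e6 * ι e6) := by simp only [mul_assoc]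
        _ = h := by rw [hee']; simp
    rwa [h4] at h1
  have hEA₁ := P₁.hE
  have hEA₂ := P₁.hE'
  have haIne : ι a6 ≠ 1 := hιne hane
  have hbIne : ι b6 ≠ 1 := hιne hbne
  have habIne : ι a6 ≠ ι b6 := fun h => habne (hι h)
  have haI : Inv2 (ι a6) := ⟨hEA₁.sq _ ha₁, haIne⟩
  -- the centralizer
  have hCG : ∀ h ∈ centralizer (V₁ : Set G), h ∈ V₁ := by
    have hC2 : IsPGroup 2 (centralizer (V₁ : Set G) : Subgroup G) := by
      refine (hG.pgroup_centralizer haI.orderOf).to_le ?_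
      intro h hh
      rw [mem_centralizer_iff] at hh
      exact mem_cen.2 (hh _ ha₁).symm
    obtain ⟨hc, hs⟩ := lemmaB hG hC2 HR (nm_centralizer hxN) (nm_centralizer heN)
    have hCEA : EA (centralizer (V₁ : Set G) : Subgroup G) := ⟨hc, hs⟩
    intro h hh
    refine fpf_mod hG hC2 hCEA (nm_centralizer hxN) hxo6 hxV hh ?_
    have hconjC : ι x6 * h * (ι x6)⁻¹ ∈ centralizer (V₁ : Set G) := nm_conj (nm_centralizer hxN) hh
    have hyC : h * (ι x6 * h * (ι x6)⁻¹) ∈ centralizer (V₁ : Set G) := mul_mem hh hconjC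
    have hyK : h * (ι x6 * h * (ι x6)⁻¹) ∈ K := by
      have h1 : h * (ι x6 * h * (ι x6)⁻¹) = ι x6 * (h * (ι x6)⁻¹ * h⁻¹) := by
        rw [hCEA.comm _ hh _ hconjC, inv_eq_of_mul_eq_one_left (hCEA.sq h hh)]
        group
      rw [h1]
      exact K.mul_mem (hιK _) (hK.conj_mem _ (K.inv_mem (hιK _)) h)
    obtain ⟨σ, hσ⟩ := hιs _ hyK
    rw [← hσ] at hyC ⊢
    rw [mem_centralizer_iff] at hyC
    refine hmemV₁ σ (a6_cen σ ?_ ?_)
    · apply hι
      rw [map_mul, map_mul]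
      exact (hyC _ ha₁).symm
    · apply hι
      rw [map_mul, map_mul]
      exact (hyC _ hb₁).symm
  have hcenV : ∀ h, h * ι a6 = ι a6 * h → h * ι b6 = ι b6 * h → h ∈ V₁ := by
    intro h h1 h4
    apply hCG
    rw [mem_centralizer_iff]
    intro y hy
    rcases four_cases hEA₁ hV₁c ha₁ hb₁ haIne hbIne habIne hy with r | r | r | r
    · rw [r]; simp
    · rw [r]; exact h1.symm
    · rw [r]; exact h4.symm
    · rw [r]
      calc ι a6 * ι b6 * h = ι a6 * (ι b6 * h) := by rw [mul_assoc]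
        _ = ι a6 * (h * ι b6) := by rw [h4]
        _ = (ι a6 * h) * ι b6 := by rw [mul_assoc]
        _ = (h * ι a6) * ι b6 := by rw [h1]
        _ = _ := by rw [mul_assoc]
  -- the Sylow subgroup
  have hD2 : IsPGroup 2 D := IsPGroup.of_card hDc
  obtain ⟨P, hP⟩ := hD2.exists_le_sylow
  by_cases hPD : D = (P : Subgroup G)
  · have hP8 : Nat.card (P : Subgroup G) = 8 := by rw [← hPD, hDc]; norm_num
    have hnd' := P.not_dvd_index
    have h4 := Subgroup.card_mul_index (P : Subgroup G)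
    have h6 := Subgroup.card_mul_index K
    rw [hP8] at h4
    rw [hKc] at h6
    obtain ⟨n, hn⟩ := h2
    rw [hn] at h6
    apply hnd'
    omega
  · exfalso
    obtain ⟨g, hgP, hgD, hgN, hgg⟩ := hG.norm_grow P.isPGroup' hP hPD
    have hcj : ∀ E₀ : Subgroup G, E₀ ≤ D → EA E₀ → cjS g E₀ ≤ V₁ ∨ cjS g E₀ ≤ V₂ := by
      intro E₀ hE₀ hEA₀
      have hor : ∀ y ∈ cjS g E₀, y ∈ V₁ ∨ y ∈ V₂ := by
        intro y hy
        refine P₁.mem_or ?_ ((EA_cjS hEA₀).sq y hy)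
        have h1 := nm_conj hgN (hE₀ (mem_cjS.1 hy))
        have e1 : g * (g⁻¹ * y * g) * g⁻¹ = y := by group
        rwa [e1] at h1
      by_cases hle : cjS g E₀ ≤ V₁
      · exact Or.inl hle
      · right
        obtain ⟨u, huc, huE⟩ := SetLike.not_le_iff_exists.1 hle
        have huE' := (hor u huc).resolve_left huE
        intro y hy
        rcases hor y hy with h | h
        · rcases hor _ ((cjS g E₀).mul_mem hy huc) with h4 | h4
          · exfalso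
            apply huE
            have h6 := V₁.mul_mem (V₁.inv_mem h) h4
            rwa [inv_mul_cancel_left] at h6
          · have h6 := V₂.mul_mem h4 (V₂.inv_mem huE')
            rwa [mul_inv_cancel_right] at h6
        · exact h
    rcases hcj V₁ P₁.leE hEA₁ with hA | hB
    · -- `g` normalizes `V₁`
      have hgV : ∀ y ∈ V₁, g * y * g⁻¹ ∈ V₁ := fun y hy => hA (conj_mem_cjS hy)
      have hainf : ι a6 ∈ V₁ ⊓ V₂ := ⟨ha₁, ha₂⟩
      have hgD' : ∀ {y}, y ∈ D → g⁻¹ * y * g ∈ D := fun hy => nm_conj_inv hgN hy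
      have hgaS : g * ι a6 * g⁻¹ ∈ V₁ ⊓ V₂ := by
        refine P₁.center_le hb₁ hb₂ he₂ he₁ (nm_conj hgN (P₁.leE ha₁)) ?_
        intro x hx
        have h1 := P₁.central_E0 hainf (hgD' hx)
        calc x * (g * ι a6 * g⁻¹) = g * ((g⁻¹ * x * g) * ι a6) * g⁻¹ := by group
          _ = g * (ι a6 * (g⁻¹ * x * g)) * g⁻¹ := by rw [h1]
          _ = _ := by group
      have hgaI : Inv2 (g * ι a6 * g⁻¹) := haI.conj g
      have hgafix : g * ι a6 * g⁻¹ = ι a6 := by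
        have h1 := eq_of_card_le_two (P := (V₁ ⊓ V₂ : Subgroup G)) (by rw [hinfc])
          (a := ⟨_, hgaS⟩) (b := ⟨_, hainf⟩)
          (fun hc => hgaI.ne (congrArg Subtype.val hc)) (fun hc => haIne (congrArg Subtype.val hc))
        exact congrArg Subtype.val h1
      have hgb := hgV _ hb₁
      rcases four_cases hEA₁ hV₁c ha₁ hb₁ haIne hbIne habIne hgb with r | r | r | r
      · exfalso
        apply hbIne
        have h1 : ι b6 = g⁻¹ * (g * ι b6 * g⁻¹) * g := by group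
        rw [h1, r]; group
      · exfalso
        apply habIne
        have h1 : g * ι a6 * g⁻¹ = g * ι b6 * g⁻¹ := hgafix.trans r.symm
        exact mul_left_cancel (mul_right_cancel h1)
      · apply hgD
        apply P₁.leE
        apply hcenV
        · calc g * ι a6 = (g * ι a6 * g⁻¹) * g := by group
            _ = _ := by rw [hgafix]
        · calc g * ι b6 = (g * ι b6 * g⁻¹) * g := by group
            _ = _ := by rw [r]
      · apply hgD
        have hge : g * ι e6 ∈ V₁ := by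
          have hea : ι e6 * ι a6 * (ι e6)⁻¹ = ι a6 := by
            rw [← map_inv, ← map_mul, ← map_mul, heav]
          have heb : ι e6 * ι b6 * (ι e6)⁻¹ = ι a6 * ι b6 := by
            rw [← map_inv, ← map_mul, ← map_mul, hebv, map_mul]
          apply hcenV
          · have h1 : (g * ι e6) * ι a6 * (g * ι e6)⁻¹ = ι a6 := by
              calc (g * ι e6) * ι a6 * (g * ι e6)⁻¹ = g * (ι e6 * ι a6 * (ι e6)⁻¹) * g⁻¹ := by group
                _ = _ := by rw [hea, hgafix]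
            calc g * ι e6 * ι a6 = ((g * ι e6) * ι a6 * (g * ι e6)⁻¹) * (g * ι e6) := by group
              _ = _ := by rw [h1]
          · have h1 : (g * ι e6) * ι b6 * (g * ι e6)⁻¹ = ι b6 := by
              calc (g * ι e6) * ι b6 * (g * ι e6)⁻¹ = g * (ι e6 * ι b6 * (ι e6)⁻¹) * g⁻¹ := by group
                _ = g * (ι a6 * ι b6) * g⁻¹ := by rw [heb]
                _ = (g * ι a6 * g⁻¹) * (g * ι b6 * g⁻¹) := by group
                _ = ι a6 * (ι a6 * ι b6) := by rw [hgafix, r]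
                _ = ι b6 := by rw [← mul_assoc, hEA₁.sq _ ha₁, one_mul]
            calc g * ι e6 * ι b6 = ((g * ι e6) * ι b6 * (g * ι e6)⁻¹) * (g * ι e6) := by group
              _ = _ := by rw [h1]
        have h1 := D.mul_mem (P₁.leE hge) (D.inv_mem (P₁.leE' he₂))
        rwa [mul_inv_cancel_right] at h1
    · -- `g` swaps the two four-groups
      rcases hcj V₂ P₁.leE' hEA₂ with hC | hC
      · obtain ⟨α₁, hα₁, β₁, hβ₁, hdc⟩ := P₁.decomp _ hgg
        have hg4 : g ^ 4 = 1 := hG.pow_four_of_pgroup P.isPGroup' hgP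
        refine swap_false hEA₁ hEA₂ P₁.nondeg (g := g) (fun y hy => hB (conj_mem_cjS hy))
          (fun y hy => hC (conj_mem_cjS hy)) hα₁ hβ₁ hdc ?_ hb₁ hb₂ ?_
        · rw [← hg4]; simp only [pow_succ, pow_zero, one_mul, mul_assoc]
        · have h1 : (g * ι b6) ^ 4 = 1 :=
            hG.pow_four_of_pgroup P.isPGroup' ((P : Subgroup G).mul_mem hgP (hP (P₁.leE hb₁)))
          rw [← h1]; simp only [pow_succ, pow_zero, one_mul, mul_assoc]
      · have hEqB : cjS g V₁ = V₂ := Subgroup.eq_of_le_of_card_ge hB (by rw [card_cjS, hV₁c, hV₂c])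
        have hEqC : cjS g V₂ = V₂ := Subgroup.eq_of_le_of_card_ge hC (by rw [card_cjS])
        apply hb₂
        have h1 : g * ι b6 * g⁻¹ ∈ cjS g V₁ := conj_mem_cjS hb₁
        rw [hEqB, ← hEqC] at h1
        have h4 := mem_cjS.1 h1
        have e1 : g⁻¹ * (g * ι b6 * g⁻¹) * g = ι b6 := by group
        rwa [e1] at h4

end Cfsg.Agent.Lib.Spec5
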