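import Mathlib
import Cfsg.Agent.Lib.Spec5.Single
import Cfsg.Agent.S0215

/-!
# The trivial intersection case
-/

set_option autoImplicit false

namespace Cfsg.Agent.Lib.Spec5

open Subgroup Finset

universe u

open Classical

theorem n_two_three {n c : ℕ} (h : 2 ^ n = 3 ^ c + 1) (hc : 1 ≤ c) : 3 ^ c = 3 := by
  have h1 : ∀ c : ℕ, 3 ^ c % 8 = 1 ∨ 3 ^ c % 8 = 3 := by
    intro c
    induction c with
    | zero => left; norm_num
    | succ c ih =>
      rw [pow_succ]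
      rcases ih with h | h <;> omega
  have h3 : 3 ≤ 3 ^ c := by
    calc 3 = 3 ^ 1 := by norm_num
      _ ≤ 3 ^ c := Nat.pow_le_pow_right (by norm_num) hc
  by_cases hn : 3 ≤ n
  · exfalso
    obtain ⟨m, rfl⟩ := Nat.exists_eq_add_of_le hn
    rw [pow_add] at h
    have := h1 c
    omega
  · have : n = 0 ∨ n = 1 ∨ n = 2 := by omega
    rcases this with rfl | rfl | rfl <;> omega

theorem n_two_five {n c : ℕ} (h : 2 ^ n = 5 ^ c + 1) (hc : 1 ≤ c) : False := by
  have h1 : ∀ c : ℕ, 5 ^ c % 4 = 1 := by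
    intro c
    induction c with
    | zero => norm_num
    | succ c ih =>
      rw [pow_succ]
      omega
  have h3 : 5 ≤ 5 ^ c := by
    calc 5 = 5 ^ 1 := by norm_num
      _ ≤ 5 ^ c := Nat.pow_le_pow_right (by norm_num) hc
  by_cases hn : 2 ≤ n
  · obtain ⟨m, rfl⟩ := Nat.exists_eq_add_of_le hn
    rw [pow_add] at h
    have := h1 c
    omega
  · have : n = 0 ∨ n = 1 := by omega
    rcases this with rfl | rfl <;> omega

theorem n_five_two {k m : ℕ} (h : 5 ^ k = 2 ^ m + 1) (hm : 2 ≤ m) : 2 ^ m = 4 ∧ 5 ^ k = 5 := by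
  have h1 : ∀ c : ℕ, 5 ^ c % 24 = 1 ∨ 5 ^ c % 24 = 5 := by
    intro c
    induction c with
    | zero => left; norm_num
    | succ c ih =>
      rw [pow_succ]
      rcases ih with h | h <;> omega
  have h2 : ∀ c : ℕ, 2 ^ c % 3 = 1 ∨ 2 ^ c % 3 = 2 := by
    intro c
    induction c with
    | zero => left; norm_num
    | succ c ih =>
      rw [pow_succ]
      rcases ih with h | h <;> omega
  by_cases hn : 3 ≤ m
  · exfalso
    have h3 := h1 k
    have h4 := h2 m
    obtain ⟨r, rfl⟩ := Nat.exists_eq_add_of_le hn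
    rw [pow_add] at h h4
    omega
  · have : m = 2 := by omega
    subst this
    omega

theorem ti_numeric {Y S κ A w : ℕ} (h : 3 * Y = 3 + S + κ) (hκ : κ * w = S * (Y - 1))
    (hw : S = A * w) (hw2 : w + 1 ≤ Y) (hS : 0 < S) (hw0 : 0 < w) (hY : 5 ≤ Y) : Y - 1 = S := by
  obtain ⟨y, rfl⟩ : ∃ y, Y = y + 1 := ⟨Y - 1, by omega⟩
  simp only [Nat.add_sub_cancel] at hκ ⊢
  have h1 : κ = A * y := by
    apply Nat.eq_of_mul_eq_mul_right hw0
    rw [hκ, hw]; ring
  subst h1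
  have h3 : 3 * y = S + A * y := by omega
  rcases A with _ | _ | _ | A
  · simp at hw; omega
  · simp at hw h3; omega
  · simp at h3; omega
  · exfalso
    have : (A + 1 + 1 + 1) * y = 3 * y + A * y := by ring
    nlinarith

variable {T : Type u} [Group T] [Fintype T]

/-- Trivial intersection Sylow 2-subgroups. -/
def TIs (T : Type u) [Group T] : Prop :=
  ∀ S₁ S₂ : Sylow 2 T, S₁ ≠ S₂ → ∀ y, y ∈ (S₁ : Subgroup T) → y ∈ (S₂ : Subgroup T) → y = 1

instance factTwo : Fact (Nat.Prime 2) := ⟨Nat.prime_two⟩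

theorem ti_common (hG : Sig T) {u v : T} (hu : Inv2 u) (hv : Inv2 v)
    (hn : ∀ g : T, g * u * g⁻¹ ≠ v) : ∃ Q : Sylow 2 T, u ∈ (Q : Subgroup T) ∧ v ∈ (Q : Subgroup T) := by
  rcases invol_conj_or hG hu hv with h | ⟨g, hg⟩
  · obtain ⟨w, hw, h1, h2⟩ := common_central hu hv h
    have hc : IsPGroup 2 (cen w) := hG.pgroup_centralizer hw.orderOf
    obtain ⟨Q, hQ⟩ := hc.exists_le_sylow
    exact ⟨Q, hQ (mem_cen.2 h1.symm), hQ (mem_cen.2 h2.symm)⟩
  · exact absurd hg (hn g)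

theorem ti_single (hG : Sig T) (hTI : TIs T) (hNN : ∀ Q : Sylow 2 T, ∃ g : T, g • Q ≠ Q) :
    ∀ u v : T, Inv2 u → Inv2 v → ∃ g, g * u * g⁻¹ = v := by
  intro u v hu hv
  by_contra hcon
  push Not at hcon
  obtain ⟨Q, huQ, hvQ⟩ := ti_common hG hu hv hcon
  obtain ⟨g, hg⟩ := hNN Q
  have hn : ∀ h : T, h * (g * u * g⁻¹) * h⁻¹ ≠ v := by
    intro h hc
    apply hcon (h * g)
    rw [← hc]; group
  obtain ⟨Q', hu', hv'⟩ := ti_common hG (hu.conj g) hv hn
  have hQQ : Q' = Q := by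
    by_contra hne
    exact hv.ne (hTI Q' Q hne v hv' hvQ)
  subst hQQ
  have hm : g * u * g⁻¹ ∈ ((g • Q' : Sylow 2 T) : Subgroup T) := by
    rw [mem_smul_iff']
    have : g⁻¹ * (g * u * g⁻¹) * g = u := by group
    rwa [this]
  exact (hu.conj g).ne (hTI (g • Q') Q' hg _ hm hu')

theorem ti_cen (hG : Sig T) (hTI : TIs T) (hSC : ∀ u v : T, Inv2 u → Inv2 v → ∃ g, g * u * g⁻¹ = v)
    (α : Sylow 2 T) {z : T} (hz : Inv2 z) (hzα : z ∈ (α : Subgroup T)) : cen z = (α : Subgroup T) := by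
  obtain ⟨Q, hQ⟩ := cen_sylow hG hSC hz
  have hzQ : z ∈ (Q : Subgroup T) := by rw [hQ]; exact self_mem_cen z
  have : Q = α := by
    by_contra hne
    exact hz.ne (hTI Q α hne z hzQ hzα)
  rw [← hQ, this]

/-- Involutions in a Sylow 2-subgroup. -/
noncomputable def Zf (α : Sylow 2 T) : Finset T := (Iset T).filter (fun u => u ∈ (α : Subgroup T))

theorem mem_Zf {α : Sylow 2 T} {u : T} : u ∈ Zf α ↔ Inv2 u ∧ u ∈ (α : Subgroup T) := by
  simp [Zf, mem_Iset]

theorem Zf_conj (α : Sylow 2 T) (g : T) : (Zf (g • α)).card = (Zf α).card := by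
  symm
  refine Finset.card_bij (fun u _ => g * u * g⁻¹) ?_ ?_ ?_
  · intro u hu
    rw [mem_Zf] at hu ⊢
    refine ⟨hu.1.conj g, ?_⟩
    rw [mem_smul_iff']
    have : g⁻¹ * (g * u * g⁻¹) * g = u := by group
    rw [this]; exact hu.2
  · intro a _ b _ h
    have h' : g * a * g⁻¹ = g * b * g⁻¹ := h
    have : a = g⁻¹ * (g * a * g⁻¹) * g := by group
    rw [this, h']; group
  · intro y hy
    rw [mem_Zf, mem_smul_iff'] at hy
    refine ⟨g⁻¹ * y * g, ?_, by group⟩
    rw [mem_Zf]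
    refine ⟨?_, hy.2⟩
    have := hy.1.conj g⁻¹
    rwa [inv_inv] at this

theorem Zf_all (α β : Sylow 2 T) : (Zf α).card = (Zf β).card := by
  obtain ⟨g, rfl⟩ := MulAction.exists_smul_eq T α β
  exact (Zf_conj α g).symm

theorem I_count (hG : Sig T) (hTI : TIs T) (α : Sylow 2 T) :
    (Iset T).card = (Zf α).card * Nat.card (Sylow 2 T) := by
  haveI : Fintype (Sylow 2 T) := Fintype.ofFinite _
  have h1 := Finset.sum_card_bipartiteAbove_eq_sum_card_bipartiteBelow
    (s := Iset T) (t := (univ : Finset (Sylow 2 T))) (fun (u : T) (Q : Sylow 2 T) => u ∈ (Q : Subgroup T))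
  have h2 : ∀ u ∈ Iset T, (Finset.bipartiteAbove (fun (u : T) (Q : Sylow 2 T) => u ∈ (Q : Subgroup T))
      (univ : Finset (Sylow 2 T)) u).card = 1 := by
    intro u hu
    have hu' := mem_Iset.1 hu
    have hc : IsPGroup 2 (cen u) := hG.pgroup_centralizer hu'.orderOf
    obtain ⟨Q, hQ⟩ := hc.exists_le_sylow
    rw [Finset.card_eq_one]
    refine ⟨Q, ?_⟩
    ext R
    simp only [Finset.bipartiteAbove, Finset.mem_filter, Finset.mem_univ, true_and, Finset.mem_singleton]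
    constructor
    · intro hR
      by_contra hne
      exact hu'.ne (hTI R Q hne u hR (hQ (self_mem_cen u)))
    · rintro rfl
      exact hQ (self_mem_cen u)
  have h3 : ∀ Q ∈ (univ : Finset (Sylow 2 T)), (Finset.bipartiteBelow
      (fun (u : T) (Q : Sylow 2 T) => u ∈ (Q : Subgroup T)) (Iset T) Q).card = (Zf α).card := by
    intro Q _
    rw [Zf_all α Q]
    rfl
  rw [Finset.sum_congr rfl h2, Finset.sum_congr rfl h3] at h1
  simp only [Finset.sum_const, smul_eq_mul, mul_one, Finset.card_univ] at h1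
  rw [h1, Nat.card_eq_fintype_card, mul_comm]

/-- Involutions moving `α` to `β`. -/
noncomputable def Fib (α β : Sylow 2 T) : Finset T := (Iset T).filter (fun t => t • α = β)

theorem mem_Fib {α β : Sylow 2 T} {u : T} : u ∈ Fib α β ↔ Inv2 u ∧ u • α = β := by
  simp [Fib, mem_Iset]

theorem swap_smul {α β : Sylow 2 T} {u : T} (hu : Inv2 u) (h : u • α = β) : u • β = α := by
  rw [← h, smul_smul, hu.sq, one_smul]

theorem mem_norm_iff {α : Sylow 2 T} {g : T} :
    g ∈ normalizer ((α : Subgroup T) : Set T) ↔ g • α = α :=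
  (Sylow.smul_eq_iff_mem_normalizer).symm

theorem two_of_mem (hG : Sig T) (α : Sylow 2 T) {g : T} (hg : g ∈ (α : Subgroup T)) : g ^ 4 = 1 :=
  hG.pow_four_of_pgroup α.isPGroup' hg

theorem smul_eq_of_mem {α : Sylow 2 T} {g : T} (hg : g ∈ (α : Subgroup T)) : g • α = α :=
  mem_norm_iff.1 (le_normalizer hg)

theorem Fib_le (hG : Sig T) (hTI : TIs T) (hSC : ∀ u v : T, Inv2 u → Inv2 v → ∃ g, g * u * g⁻¹ = v)
    (α β : Sylow 2 T) (hne : α ≠ β) : (Fib α β).card ≤ (Zf α).card := by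
  by_cases hem : (Fib α β).Nonempty
  swap
  · rw [Finset.not_nonempty_iff_eq_empty] at hem
    rw [hem]; simp
  obtain ⟨u₀, hu₀⟩ := hem
  rw [mem_Fib] at hu₀
  have hne' : (α : Subgroup T) ≠ ⊥ := by
    apply Sylow.ne_bot_of_dvd_card
    rw [← hu₀.1.orderOf]
    exact orderOf_dvd_natCard u₀
  obtain ⟨z, hz, hzα, _⟩ := exists_central_invol hG α hne'
  refine Finset.card_le_card_of_injOn (fun u => (u₀ * u) * z * (u₀ * u)⁻¹) ?_ ?_
  · intro u hu
    have hu' := mem_Fib.1 hu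
    rw [Finset.mem_coe, mem_Zf]
    refine ⟨hz.conj _, ?_⟩
    have hN : u₀ * u ∈ normalizer ((α : Subgroup T) : Set T) := by
      rw [mem_norm_iff, mul_smul, hu'.2]
      exact swap_smul hu₀.1 hu₀.2
    exact nm_conj hN hzα
  · intro u₁ h₁ u₂ h₂ h
    have h₁' := mem_Fib.1 h₁
    have h₂' := mem_Fib.1 h₂
    have h' : (u₀ * u₁) * z * (u₀ * u₁)⁻¹ = (u₀ * u₂) * z * (u₀ * u₂)⁻¹ := h
    have hs : (u₁ * u₂) * z = z * (u₁ * u₂) := by
      have e1 : u₁ * u₂ = (u₀ * u₁)⁻¹ * (u₀ * u₂) := by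
        rw [mul_inv_rev, h₁'.1.inv]; group
      rw [e1]
      have h3 : (u₀ * u₁)⁻¹ * ((u₀ * u₂) * z * (u₀ * u₂)⁻¹) * (u₀ * u₁) = z := by
        rw [← h']; group
      calc (u₀ * u₁)⁻¹ * (u₀ * u₂) * z
          = ((u₀ * u₁)⁻¹ * ((u₀ * u₂) * z * (u₀ * u₂)⁻¹) * (u₀ * u₁)) * ((u₀ * u₁)⁻¹ * (u₀ * u₂)) := by group
        _ = _ := by rw [h3]
    have hsα : u₁ * u₂ ∈ (α : Subgroup T) := by
      rw [← ti_cen hG hTI hSC α hz hzα]
      exact mem_cen.2 hs
    have hsN : u₁ * u₂ ∈ normalizer ((β : Subgroup T) : Set T) := by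
      rw [mem_norm_iff, mul_smul, swap_smul h₂'.1 h₂'.2, h₁'.2]
    have hsβ := mem_of_norm_two β hsN (two_of_mem hG α hsα)
    have h1 := hTI α β hne _ hsα hsβ
    have h2 : u₁⁻¹ = u₁ := h₁'.1.inv
    have h3 := eq_inv_of_mul_eq_one_right h1
    rw [h3, h₁'.1.inv]

theorem Fib_eq (hG : Sig T) (hTI : TIs T) (hSC : ∀ u v : T, Inv2 u → Inv2 v → ∃ g, g * u * g⁻¹ = v)
    (α β : Sylow 2 T) (hne : α ≠ β) : (Fib α β).card = (Zf α).card := by
  haveI : Fintype (Sylow 2 T) := Fintype.ofFinite _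
  set Ω' : Finset (Sylow 2 T) := univ.erase α with hΩ
  set X : Finset T := (Iset T).filter (fun u => ¬ u ∈ (α : Subgroup T)) with hX
  have h1 := Finset.card_filter_add_card_filter_not (s := Iset T) (fun u => u ∈ (α : Subgroup T))
  have h2 := I_count hG hTI α
  have hcΩ : Ω'.card + 1 = Nat.card (Sylow 2 T) := by
    rw [hΩ, Finset.card_erase_of_mem (Finset.mem_univ _), Finset.card_univ, Nat.card_eq_fintype_card]
    have : 0 < Fintype.card (Sylow 2 T) := Fintype.card_pos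
    omega
  have hmaps : ∀ u ∈ X, u • α ∈ Ω' := by
    intro u hu
    simp only [hX, Finset.mem_filter, mem_Iset] at hu
    rw [hΩ, Finset.mem_erase]
    refine ⟨?_, Finset.mem_univ _⟩
    intro hc
    apply hu.2
    exact mem_of_norm_two α (mem_norm_iff.2 hc) (by
      have : u ^ 4 = (u * u) * (u * u) := by simp only [pow_succ, pow_zero, one_mul, mul_assoc]
      rw [this, hu.1.sq, one_mul])
  have h3 := Finset.card_eq_sum_card_fiberwise (f := fun u : T => u • α) (s := X) (t := Ω') hmaps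
  have h4 : ∀ b ∈ Ω', (X.filter (fun u => u • α = b)).card = (Fib α b).card := by
    intro b hb
    congr 1
    ext u
    simp only [hX, Finset.mem_filter, mem_Fib, mem_Iset]
    constructor
    · rintro ⟨⟨h5, _⟩, h7⟩; exact ⟨h5, h7⟩
    · rintro ⟨h5, h7⟩
      refine ⟨⟨h5, ?_⟩, h7⟩
      intro hc
      rw [smul_eq_of_mem hc] at h7
      rw [hΩ, Finset.mem_erase] at hb
      exact hb.1 h7.symm
  rw [Finset.sum_congr rfl h4] at h3
  have hZf : (Iset T).filter (fun u => u ∈ (α : Subgroup T)) = Zf α := rfl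
  rw [hZf] at h1
  have hXc : X.card = (Zf α).card * Ω'.card := by
    have h5 : (Iset T).card = (Zf α).card * (Ω'.card + 1) := by rw [hcΩ]; exact h2
    rw [mul_add, mul_one] at h5
    have h1' : (Zf α).card + X.card = (Iset T).card := h1
    omega
  by_contra hlt
  have hβ : β ∈ Ω' := by
    rw [hΩ, Finset.mem_erase]
    exact ⟨fun h => hne h.symm, Finset.mem_univ _⟩
  have hlt' : (Fib α β).card < (Zf α).card := lt_of_le_of_ne (Fib_le hG hTI hSC α β hne) hlt
  have h6 : ∑ b ∈ Ω', (Fib α b).card < ∑ b ∈ Ω', (Zf α).card := by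
    refine Finset.sum_lt_sum ?_ ⟨β, hβ, hlt'⟩
    intro b hb
    rw [hΩ, Finset.mem_erase] at hb
    exact Fib_le hG hTI hSC α b (fun h => hb.1 h.symm)
  rw [Finset.sum_const, smul_eq_mul, ← h3, hXc, mul_comm] at h6
  exact lt_irrefl _ h6

/-- Intersection of two normalizers. -/
def Jg (α β : Sylow 2 T) : Subgroup T :=
  normalizer ((α : Subgroup T) : Set T) ⊓ normalizer ((β : Subgroup T) : Set T)

theorem J_trivial (hTI : TIs T) {α β : Sylow 2 T} (hne : α ≠ β) {j : T} (hj : j ∈ Jg α β)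
    (h4 : j ^ 4 = 1) : j = 1 :=
  hTI α β hne j (mem_of_norm_two α hj.1 h4) (mem_of_norm_two β hj.2 h4)

theorem J_inv (hG : Sig T) (hTI : TIs T) {α β : Sylow 2 T} (hne : α ≠ β) {u₀ : T} (hu : u₀ ∈ Fib α β)
    {j : T} (hj : j ∈ Jg α β) : u₀ * j * u₀⁻¹ = j⁻¹ := by
  have hu' := mem_Fib.1 hu
  refine fpf_inverts' (A := Jg α β) hu'.1.sq ?_ ?_ j hj
  · intro x hx
    have h1 : x • α = α := mem_norm_iff.1 hx.1
    have h2 : x • β = β := mem_norm_iff.1 hx.2
    have hs := swap_smul hu'.1 hu'.2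
    have hi : u₀⁻¹ = u₀ := hu'.1.inv
    constructor
    · show u₀ * x * u₀⁻¹ ∈ normalizer _
      rw [mem_norm_iff, hi, mul_smul, mul_smul, hu'.2, h2, hs]
    · show u₀ * x * u₀⁻¹ ∈ normalizer _
      rw [mem_norm_iff, hi, mul_smul, mul_smul, hs, h1, hu'.2]
  · intro x hx hfix
    have h1 : x ∈ cen u₀ := by
      rw [mem_cen]
      calc x * u₀ = (u₀ * x * u₀⁻¹) * u₀ := by rw [hfix]
        _ = u₀ * x := by group
    have h2 : IsPGroup 2 (cen u₀) := hG.pgroup_centralizer hu'.1.orderOf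
    exact J_trivial hTI hne hx (hG.pow_four_of_pgroup h2 h1)

theorem J_comm (hG : Sig T) (hTI : TIs T) {α β : Sylow 2 T} (hne : α ≠ β) {u₀ : T} (hu : u₀ ∈ Fib α β)
    {a b : T} (ha : a ∈ Jg α β) (hb : b ∈ Jg α β) : a * b = b * a := by
  have h1 := J_inv hG hTI hne hu ((Jg α β).mul_mem ha hb)
  have h2 : u₀ * (a * b) * u₀⁻¹ = a⁻¹ * b⁻¹ := by
    rw [← J_inv hG hTI hne hu ha, ← J_inv hG hTI hne hu hb]; group
  rw [h2] at h1
  have h3 : a⁻¹ * b⁻¹ = (b * a)⁻¹ := by group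
  rw [h3] at h1
  exact (inv_injective h1).symm

theorem J_card (hG : Sig T) (hTI : TIs T) (hSC : ∀ u v : T, Inv2 u → Inv2 v → ∃ g, g * u * g⁻¹ = v)
    {α β : Sylow 2 T} (hne : α ≠ β) {u₀ : T} (hu : u₀ ∈ Fib α β) :
    Nat.card (Jg α β) = (Zf α).card := by
  have hu' := mem_Fib.1 hu
  have hne' : (α : Subgroup T) ≠ ⊥ := by
    apply Sylow.ne_bot_of_dvd_card
    rw [← hu'.1.orderOf]
    exact orderOf_dvd_natCard u₀
  obtain ⟨z, hz, hzα, _⟩ := exists_central_invol hG α hne'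
  rw [Nat.card_eq_fintype_card, Fintype.card_subtype]
  apply le_antisymm
  · refine Finset.card_le_card_of_injOn (fun j => j * z * j⁻¹) ?_ ?_
    · intro j hj
      simp only [Finset.coe_filter, Finset.mem_univ, true_and, Set.mem_setOf_eq] at hj
      rw [Finset.mem_coe, mem_Zf]
      exact ⟨hz.conj _, nm_conj hj.1 hzα⟩
    · intro a ha b hb h
      simp only [Finset.coe_filter, Finset.mem_univ, true_and, Set.mem_setOf_eq] at ha hb
      have h' : a * z * a⁻¹ = b * z * b⁻¹ := h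
      have hs : (a⁻¹ * b) * z = z * (a⁻¹ * b) := by
        have h3 : a⁻¹ * (b * z * b⁻¹) * a = z := by rw [← h']; group
        calc a⁻¹ * b * z = (a⁻¹ * (b * z * b⁻¹) * a) * (a⁻¹ * b) := by group
          _ = _ := by rw [h3]
      have hsα : a⁻¹ * b ∈ (α : Subgroup T) := by
        rw [← ti_cen hG hTI hSC α hz hzα]
        exact mem_cen.2 hs
      have hsJ : a⁻¹ * b ∈ Jg α β := (Jg α β).mul_mem ((Jg α β).inv_mem ha) hb
      have h1 := J_trivial hTI hne hsJ (two_of_mem hG α hsα)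
      exact (inv_mul_eq_one.1 h1)
  · rw [← Fib_eq hG hTI hSC α β hne]
    refine Finset.card_le_card_of_injOn (fun u => u₀ * u) ?_ ?_
    · intro u hu2
      have hu2' := mem_Fib.1 hu2
      simp only [Finset.coe_filter, Finset.mem_univ, true_and, Set.mem_setOf_eq]
      constructor
      · change u₀ * u ∈ normalizer ((α : Subgroup T) : Set T)
        rw [mem_norm_iff, mul_smul, hu2'.2, swap_smul hu'.1 hu'.2]
      · change u₀ * u ∈ normalizer ((β : Subgroup T) : Set T)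
        rw [mem_norm_iff, mul_smul, swap_smul hu2'.1 hu2'.2, hu'.2]
    · intro a _ b _ h
      exact mul_left_cancel h

/-- The number of involutions of a Sylow 2-subgroup plus one is a power of 2. -/
theorem Zf_pow (hG : Sig T) (hTI : TIs T) (hSC : ∀ u v : T, Inv2 u → Inv2 v → ∃ g, g * u * g⁻¹ = v)
    (α : Sylow 2 T) : ∃ n, (Zf α).card + 1 = 2 ^ n := by
  have hcomm : ∀ u ∈ (α : Subgroup T), ∀ v ∈ (α : Subgroup T), u * u = 1 → v * v = 1 → u * v = v * u := by
    intro u hu v hv h1 h2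
    by_cases hv1 : v = 1
    · simp [hv1]
    · have hvI : Inv2 v := ⟨h2, hv1⟩
      have : u ∈ cen v := by
        rw [ti_cen hG hTI hSC α hvI hv]; exact hu
      exact mem_cen.1 this
  let H : Subgroup T := {
    carrier := {u | u ∈ (α : Subgroup T) ∧ u * u = 1}
    one_mem' := ⟨one_mem _, by simp⟩
    mul_mem' := by
      rintro a b ⟨ha, ha2⟩ ⟨hb, hb2⟩
      refine ⟨mul_mem ha hb, ?_⟩
      calc a * b * (a * b) = a * (b * a) * b := by simp only [mul_assoc]
        _ = a * (a * b) * b := by rw [hcomm b hb a ha hb2 ha2]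
        _ = (a * a) * (b * b) := by simp only [mul_assoc]
        _ = 1 := by rw [ha2, hb2, one_mul]
    inv_mem' := by
      rintro a ⟨ha, ha2⟩
      have : a⁻¹ = a := inv_eq_of_mul_eq_one_left ha2
      rw [Set.mem_setOf_eq, this]
      exact ⟨ha, ha2⟩ }
  have hHα : H ≤ (α : Subgroup T) := fun x hx => hx.1
  have hH2 : IsPGroup 2 H := α.isPGroup'.to_le hHα
  obtain ⟨n, hn⟩ := IsPGroup.iff_card.1 hH2
  refine ⟨n, ?_⟩
  rw [← hn, Nat.card_eq_fintype_card, Fintype.card_subtype]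
  have h1 : univ.filter (fun u => u ∈ H) = insert 1 (Zf α) := by
    ext u
    simp only [Finset.mem_filter, Finset.mem_univ, true_and, Finset.mem_insert, mem_Zf]
    constructor
    · rintro ⟨h2, h3⟩
      by_cases hu1 : u = 1
      · exact Or.inl hu1
      · exact Or.inr ⟨⟨h3, hu1⟩, h2⟩
    · rintro (rfl | ⟨h2, h3⟩)
      · exact H.one_mem
      · exact ⟨h3, h2.sq⟩
  rw [h1, Finset.card_insert_of_notMem]
  intro hc
  exact (mem_Zf.1 hc).1.ne rfl

/-- No unique involution. -/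
theorem q_ne_one (hS : IsSimpleGroup T) (h2 : 2 ∣ Nat.card T) (h3 : 3 ∣ Nat.card T) (hG : Sig T)
    (α : Sylow 2 T) (hq : (Zf α).card = 1) : False := by
  obtain ⟨u, hu⟩ := Finset.card_eq_one.1 hq
  have huZ : u ∈ Zf α := by rw [hu]; simp
  have huZ' := mem_Zf.1 huZ
  obtain ⟨N, hN, hodd, hcomm⟩ := Cfsg.Agent.S0215.result α u huZ'.1.orderOf huZ'.2 (by
    intro g hg
    have : g * u * g⁻¹ ∈ Zf α := mem_Zf.2 ⟨huZ'.1.conj g, hg⟩
    rw [hu] at this
    simpa using this)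
  rcases hN.eq_bot_or_eq_top with hb | ht
  · have hc : ∀ g : T, u * g = g * u := by
      intro g
      have := hcomm g
      rw [hb, Subgroup.mem_bot] at this
      calc u * g = (u * g * u⁻¹ * g⁻¹) * (g * u) := by group
        _ = g * u := by rw [this, one_mul]
    have hP : IsPGroup 2 (cen u) := hG.pgroup_centralizer huZ'.1.orderOf
    have htop : cen u = ⊤ := by
      rw [eq_top_iff]
      intro g _
      exact mem_cen.2 (hc g).symm
    rw [htop] at hP
    obtain ⟨k, hk⟩ := IsPGroup.iff_card.1 hP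
    rw [Subgroup.card_top] at hk
    rw [hk] at h3
    have := (Nat.prime_dvd_prime_iff_eq (by norm_num) (by norm_num)).1
      ((by norm_num : Nat.Prime 3).dvd_of_dvd_pow h3)
    omega
  · rw [ht, Subgroup.card_top] at hodd
    exact (Nat.not_even_iff_odd.2 hodd) (even_iff_two_dvd.2 h2)

theorem q_eq_three (hS : IsSimpleGroup T) (h2 : 2 ∣ Nat.card T) (h3 : 3 ∣ Nat.card T) (hG : Sig T)
    (hTI : TIs T) (hSC : ∀ u v : T, Inv2 u → Inv2 v → ∃ g, g * u * g⁻¹ = v)
    (hNN : ∀ Q : Sylow 2 T, ∃ g : T, g • Q ≠ Q) (α : Sylow 2 T) : (Zf α).card = 3 := by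
  have hne' : (α : Subgroup T) ≠ ⊥ := Sylow.ne_bot_of_dvd_card α h2
  obtain ⟨z, hz, hzα, _⟩ := exists_central_invol hG α hne'
  have hq0 : 0 < (Zf α).card := Finset.card_pos.2 ⟨z, mem_Zf.2 ⟨hz, hzα⟩⟩
  have hq1 : (Zf α).card ≠ 1 := fun h => q_ne_one hS h2 h3 hG α h
  obtain ⟨g, hg⟩ := hNN α
  set β := g • α with hβ
  have hne : α ≠ β := fun h => hg h.symm
  have hF : (Fib α β).card = (Zf α).card := Fib_eq hG hTI hSC α β hne
  obtain ⟨u₀, hu₀⟩ : (Fib α β).Nonempty := Finset.card_pos.1 (by omega)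
  have hu' := mem_Fib.1 hu₀
  have hJ := J_card hG hTI hSC hne hu₀
  haveI : Nontrivial (Jg α β) := by
    apply Finite.one_lt_card_iff_nontrivial.1
    omega
  obtain ⟨j, hj⟩ := exists_ne (1 : Jg α β)
  have hj1 : (j : T) ≠ 1 := fun h => hj (Subtype.ext h)
  have h4 : (j : T) ^ 4 ≠ 1 := fun h => hj1 (J_trivial hTI hne j.2 h)
  have hor : orderOf (j : T) = 3 ∨ orderOf (j : T) = 5 := by
    rcases hG.cases (j : T) with h8 | h8 | h8 | h8 | h8
    · exfalso; apply h4; rw [orderOf_dvd_iff_pow_eq_one.symm, h8]; norm_num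
    · exfalso; apply h4; rw [orderOf_dvd_iff_pow_eq_one.symm, h8]; norm_num
    · exact Or.inl h8
    · exfalso; apply h4; rw [orderOf_dvd_iff_pow_eq_one.symm, h8]
    · exact Or.inr h8
  have HR : RealE (orderOf (j : T)) (j : T) u₀ :=
    ⟨by rcases hor with h | h <;> simp [h], rfl, hu'.1, J_inv hG hTI hne hu₀ j.2⟩
  haveI : Fact (orderOf (j : T)).Prime := ⟨HR.prime⟩
  have hJP : IsPGroup (orderOf (j : T)) (Jg α β) :=
    (HR.pgrp hG).to_le (fun a ha => mem_cen.2 (J_comm hG hTI hne hu₀ ha j.2))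
  obtain ⟨c, hc⟩ := IsPGroup.iff_card.1 hJP
  obtain ⟨n, hn⟩ := Zf_pow hG hTI hSC α
  rw [hJ] at hc
  have hc1 : 1 ≤ c := by
    by_contra h0
    have : c = 0 := by omega
    rw [this, pow_zero] at hc
    exact hq1 hc
  rw [hc] at hn
  rcases hor with h | h
  · rw [h] at hn hc
    rw [hc]
    exact n_two_three hn.symm hc1
  · rw [h] at hn
    exact (n_two_five hn.symm hc1).elim

end Cfsg.Agent.Lib.Spec5
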