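import Mathlib
import Cfsg.Agent.Lib.Spec5.TICase

/-!
# The trivial intersection case: order sixty
-/

set_option autoImplicit false

namespace Cfsg.Agent.Lib.Spec5

open Subgroup Finset

universe u

open Classical

variable {T : Type u} [Group T] [Fintype T]

theorem ti_no_normal (hS : IsSimpleGroup T) (h2 : 2 ∣ Nat.card T) (h3 : 3 ∣ Nat.card T)
    (Q : Sylow 2 T) : ∃ g : T, g • Q ≠ Q := by
  by_contra hcon
  push Not at hcon
  have hn : (Q : Subgroup T).Normal := by
    have h1 : normalizer ((Q : Subgroup T) : Set T) = ⊤ := by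
      rw [eq_top_iff]
      intro g _
      exact mem_norm_iff.2 (hcon g)
    exact normalizer_eq_top_iff.1 h1
  rcases hn.eq_bot_or_eq_top with h | h
  · exact Sylow.ne_bot_of_dvd_card Q h2 h
  · have hP : IsPGroup 2 (Q : Subgroup T) := Q.isPGroup'
    rw [h] at hP
    obtain ⟨k, hk⟩ := IsPGroup.iff_card.1 hP
    rw [Subgroup.card_top] at hk
    rw [hk] at h3
    have := (Nat.prime_dvd_prime_iff_eq (by norm_num) (by norm_num)).1
      ((by norm_num : Nat.Prime 3).dvd_of_dvd_pow h3)
    omega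

theorem I0_eq_Zf (hG : Sig T) (hTI : TIs T) (hSC : ∀ u v : T, Inv2 u → Inv2 v → ∃ g, g * u * g⁻¹ = v)
    (α : Sylow 2 T) {t : T} (ht : Inv2 t) (htα : t ∈ (α : Subgroup T)) : I0 t = Zf α := by
  ext u
  rw [mem_I0, mem_Zf]
  constructor
  · rintro ⟨hu, h4⟩
    refine ⟨hu, ?_⟩
    obtain ⟨w, hw, h1, h2⟩ := common_central ht hu h4
    have hc : IsPGroup 2 (cen w) := hG.pgroup_centralizer hw.orderOf
    obtain ⟨Q, hQ⟩ := hc.exists_le_sylow
    have htQ : t ∈ (Q : Subgroup T) := hQ (mem_cen.2 h1.symm)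
    have huQ : u ∈ (Q : Subgroup T) := hQ (mem_cen.2 h2.symm)
    have : Q = α := by
      by_contra hne
      exact ht.ne (hTI Q α hne t htQ htα)
    rwa [this] at huQ
  · rintro ⟨hu, huα⟩
    refine ⟨hu, ?_⟩
    have h1 : u ∈ cen t := by rw [ti_cen hG hTI hSC α ht htα]; exact huα
    have h2 : u * t = t * u := mem_cen.1 h1
    have h3 : (t * u) * (t * u) = 1 := by
      calc (t * u) * (t * u) = t * (u * t) * u := by simp only [mul_assoc]
        _ = t * (t * u) * u := by rw [h2]
        _ = (t * t) * (u * u) := by simp only [mul_assoc]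
        _ = 1 := by rw [ht.sq, hu.sq, one_mul]
    calc (t * u) ^ 4 = ((t * u) * (t * u)) * ((t * u) * (t * u)) := by
          simp only [pow_succ, pow_zero, one_mul, mul_assoc]
      _ = 1 := by rw [h3, one_mul]

theorem card_P3 (hG : Sig T) (hTI : TIs T) (hSC : ∀ u v : T, Inv2 u → Inv2 v → ∃ g, g * u * g⁻¹ = v)
    (hq : ∀ α : Sylow 2 T, (Zf α).card = 3) {α β : Sylow 2 T} (hne : α ≠ β) {j : T}
    (hj : j ∈ Jg α β) (hjo : orderOf j = 3) {u₀ : T} (hu₀ : u₀ ∈ Fib α β) :
    Nat.card (cen j) = 3 := by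
  have hu' := mem_Fib.1 hu₀
  have HR : RealE 3 j u₀ := ⟨Or.inl rfl, hjo, hu'.1, J_inv hG hTI hne hu₀ hj⟩
  have hne' : (α : Subgroup T) ≠ ⊥ := by
    apply Sylow.ne_bot_of_dvd_card
    rw [← hu'.1.orderOf]
    exact orderOf_dvd_natCard u₀
  obtain ⟨z, hz, hzα, _⟩ := exists_central_invol hG α hne'
  have hle : cen j ≤ zpowers j := by
    intro r hr
    by_contra hrz
    by_cases hrN : r ∈ normalizer ((α : Subgroup T) : Set T)
    · -- the subgroup `W`
      set W : Subgroup T := cen j ⊓ normalizer ((α : Subgroup T) : Set T) with hW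
      have hWc : Nat.card W ≤ 3 := by
        rw [Nat.card_eq_fintype_card, Fintype.card_subtype, ← hq α]
        refine Finset.card_le_card_of_injOn (fun x => x * z * x⁻¹) ?_ ?_
        · intro x hx
          simp only [Finset.coe_filter, Finset.mem_univ, true_and, Set.mem_setOf_eq] at hx
          rw [Finset.mem_coe, mem_Zf]
          exact ⟨hz.conj _, nm_conj hx.2 hzα⟩
        · intro a ha b hb h
          simp only [Finset.coe_filter, Finset.mem_univ, true_and, Set.mem_setOf_eq] at ha hb
          have h' : a * z * a⁻¹ = b * z * b⁻¹ := h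
          have hs : (a⁻¹ * b) * z = z * (a⁻¹ * b) := by
            have h3 : a⁻¹ * (b * z * b⁻¹) * a = z := by rw [← h']; group
            calc a⁻¹ * b * z = (a⁻¹ * (b * z * b⁻¹) * a) * (a⁻¹ * b) := by group
              _ = _ := by rw [h3]
          have hsα : a⁻¹ * b ∈ (α : Subgroup T) := by
            rw [← ti_cen hG hTI hSC α hz hzα]
            exact mem_cen.2 hs
          have hsc : a⁻¹ * b ∈ cen j := W.mul_mem (W.inv_mem ha) hb |>.1
          have h3' := HR.pow_mem hG hsc
          have h4' := two_of_mem hG α hsα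
          have h1 : a⁻¹ * b = 1 := by
            have d1 := orderOf_dvd_of_pow_eq_one h3'
            have d2 := orderOf_dvd_of_pow_eq_one h4'
            have d3 : orderOf (a⁻¹ * b) ∣ 1 := by
              have := Nat.dvd_gcd d1 d2
              simpa using this
            exact orderOf_eq_one_iff.1 (Nat.dvd_one.1 d3)
          exact (inv_mul_eq_one.1 h1)
      have hzW : zpowers j ≤ W := by
        intro y hy
        obtain ⟨k, rfl⟩ := Subgroup.mem_zpowers_iff.1 hy
        exact W.zpow_mem ⟨self_mem_cen j, hj.1⟩ k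
      have hzc : Nat.card (zpowers j) = 3 := by rw [Nat.card_zpowers, hjo]
      have hEq : zpowers j = W := Subgroup.eq_of_le_of_card_ge hzW (by omega)
      exact hrz (hEq ▸ (⟨hr, hrN⟩ : r ∈ W))
    · -- moving `α`
      have hβ' : α ≠ r • α := by
        intro hc
        exact hrN (mem_norm_iff.2 hc.symm)
      have hjβ : j ∈ Jg α (r • α) := by
        refine ⟨hj.1, ?_⟩
        change j ∈ normalizer (((r • α : Sylow 2 T) : Subgroup T) : Set T)
        rw [mem_norm_iff, smul_smul]
        have h1 : j * r = r * j := (mem_cen.1 hr).symm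
        rw [h1, mul_smul, mem_norm_iff.1 hj.1]
      have hF := Fib_eq hG hTI hSC α (r • α) hβ'
      rw [hq α] at hF
      obtain ⟨u, hu⟩ : (Fib α (r • α)).Nonempty := Finset.card_pos.1 (by omega)
      have hu2 := mem_Fib.1 hu
      have HR2 : RealE 3 j u := ⟨Or.inl rfl, hjo, hu2.1, J_inv hG hTI hβ' hu hjβ⟩
      obtain ⟨hy1, hy2⟩ := HR2.mul_invol hG hr
      set y := u * r with hy
      have hyN : y ∈ normalizer ((α : Subgroup T) : Set T) := by
        rw [mem_norm_iff, hy, mul_smul]
        exact swap_smul hu2.1 hu2.2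
      have hy4 : y ^ 4 = 1 := by
        have : y ^ 4 = (y * y) * (y * y) := by simp only [pow_succ, pow_zero, one_mul, mul_assoc]
        rw [this, hy1.sq, one_mul]
      have hyα := mem_of_norm_two α hyN hy4
      have h1 : j * y * j⁻¹ ∈ (α : Subgroup T) := nm_conj hj.1 hyα
      have h2 : y * (j * y * j⁻¹) = j⁻¹ * j⁻¹ := by
        have h3 := hy1.inv
        rw [h3] at hy2
        calc y * (j * y * j⁻¹) = (y * j * y) * j⁻¹ := by simp only [mul_assoc]
          _ = j⁻¹ * j⁻¹ := by rw [hy2]
      have h3 : j⁻¹ * j⁻¹ ∈ (α : Subgroup T) := by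
        rw [← h2]; exact mul_mem hyα h1
      have h4 := two_of_mem hG α h3
      have h5 := order_inv_sq (p := 3) (by norm_num) (by norm_num) hjo
      have h6 := orderOf_dvd_of_pow_eq_one h4
      rw [h5] at h6
      omega
  have hge : zpowers j ≤ cen j := by
    intro y hy
    obtain ⟨k, rfl⟩ := Subgroup.mem_zpowers_iff.1 hy
    exact (cen j).zpow_mem (self_mem_cen j) k
  rw [le_antisymm hle hge, Nat.card_zpowers, hjo]

/-- **The trivial intersection case.** -/
theorem ti_main (hS : IsSimpleGroup T) (h2 : 2 ∣ Nat.card T) (h3 : 3 ∣ Nat.card T)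
    (h5 : 5 ∣ Nat.card T) (hG : Sig T) (hTI : TIs T) : Nat.card T = 60 := by
  have hNN := ti_no_normal (T := T) hS h2 h3
  have hSC := ti_single hG hTI hNN
  have hq : ∀ α : Sylow 2 T, (Zf α).card = 3 := q_eq_three hS h2 h3 hG hTI hSC hNN
  obtain ⟨α⟩ : Nonempty (Sylow 2 T) := inferInstance
  obtain ⟨g, hg⟩ := hNN α
  set β := g • α with hβ
  have hne : α ≠ β := fun h => hg h.symm
  have hF := Fib_eq hG hTI hSC α β hne
  rw [hq α] at hF
  obtain ⟨u₀, hu₀⟩ : (Fib α β).Nonempty := Finset.card_pos.1 (by omega)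
  have hu' := mem_Fib.1 hu₀
  have hJ := J_card hG hTI hSC hne hu₀
  rw [hq α] at hJ
  haveI : Nontrivial (Jg α β) := by
    apply Finite.one_lt_card_iff_nontrivial.1
    omega
  obtain ⟨j₀, hj₀⟩ := exists_ne (1 : Jg α β)
  have hj1 : (j₀ : T) ≠ 1 := fun h => hj₀ (Subtype.ext h)
  have hjo : orderOf (j₀ : T) = 3 := by
    have h1 := orderOf_dvd_natCard j₀
    rw [hJ, ← Subgroup.orderOf_coe] at h1
    rcases (Nat.dvd_prime (by norm_num : Nat.Prime 3)).1 h1 with h | h
    · exact absurd (orderOf_eq_one_iff.1 h) hj1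
    · exact h
  set j : T := (j₀ : T) with hjdef
  have hjJ : j ∈ Jg α β := j₀.2
  have HR : RealE 3 j u₀ := ⟨Or.inl rfl, hjo, hu'.1, J_inv hG hTI hne hu₀ hjJ⟩
  have hP3 := card_P3 hG hTI hSC hq hne hjJ hjo hu₀
  have hne' : (α : Subgroup T) ≠ ⊥ := Sylow.ne_bot_of_dvd_card α h2
  obtain ⟨z, hz, hzα, hzc⟩ := exists_central_invol hG α hne'
  have hcz : cen z = (α : Subgroup T) := cen_of_central hG α hz hzc
  set S := Nat.card (α : Subgroup T) with hSdef
  have hSpos : 0 < S := Nat.card_pos
  have hI0 : (I0 z).card = 3 := by rw [I0_eq_Zf hG hTI hSC α hz hzα, hq α]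
  obtain ⟨w₃, c₃, hw₃, hw₃p, hc₃, hw₃le⟩ := w_props hG HR
  rw [hP3] at hw₃le
  have hw₃2 : w₃ = 2 := by
    have h1 : 2 ^ 1 ≤ 2 ^ c₃ := Nat.pow_le_pow_right (by norm_num) hc₃
    omega
  have hκ₃ := kappa_eq hG hSC HR hz hw₃
  rw [hw₃2, hP3, hcz] at hκ₃
  have hκ₃' : (Delta 3 z).card = S := by omega
  have hIc := Iset_card hSC hz
  rw [hcz, ← Nat.card_eq_fintype_card] at hIc
  set I := (Iset T).card with hIdef
  obtain ⟨m, hm⟩ := IsPGroup.iff_card.1 α.isPGroup'
  have hIne : ¬ 2 ∣ I := by
    have h1 := α.not_dvd_index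
    have h4 : S * (α : Subgroup T).index = Nat.card T := Subgroup.card_mul_index _
    have h6 : (α : Subgroup T).index = I := by
      apply Nat.eq_of_mul_eq_mul_left hSpos
      rw [h4, ← hIc]; ring
    rwa [h6] at h1
  have hI0' : I ≠ 0 := by
    intro h0
    rw [h0, zero_mul] at hIc
    have := Nat.card_pos (α := T)
    omega
  obtain ⟨i, a, k, hform⟩ := card_form hI0' (fun q hq' hd => hG.prime_dvd_card hq' (by
    rw [← hIc]; exact Dvd.dvd.mul_right hd _))
  have hi : i = 0 := by
    by_contra hi0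
    apply hIne
    rw [hform]
    exact Dvd.dvd.mul_right (Dvd.dvd.mul_right (dvd_pow_self 2 hi0) _) _
  rw [hi, pow_zero, one_mul] at hform
  obtain ⟨a₃, ha₃, _, hnd₃⟩ := HR.card_pow hG
  have hT3 : Nat.card (cen j) * (cen j).index = Nat.card T := Subgroup.card_mul_index _
  rw [hP3] at hT3
  have ha1 : a = 1 := by
    have h6 : 3 ^ a * (2 ^ m * 5 ^ k) = 3 ^ 1 * (cen j).index := by
      rw [pow_one, hT3, ← hIc, hform, hm]; ring
    refine pow_part_unique (by norm_num) h6 ?_ hnd₃
    intro hd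
    rcases (Nat.Prime.dvd_mul (by norm_num)).1 hd with hd | hd
    · have := (Nat.prime_dvd_prime_iff_eq (by norm_num) (by norm_num)).1
        ((by norm_num : Nat.Prime 3).dvd_of_dvd_pow hd)
      omega
    · have := (Nat.prime_dvd_prime_iff_eq (by norm_num) (by norm_num)).1
        ((by norm_num : Nat.Prime 3).dvd_of_dvd_pow hd)
      omega
  rw [ha1, pow_one] at hform
  have hk1 : 1 ≤ k := by
    by_contra hk0
    have hk : k = 0 := by omega
    rw [hk, pow_zero, mul_one] at hform
    rw [← hIc, hform, hm] at h5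
    rcases (Nat.Prime.dvd_mul (by norm_num)).1 h5 with hd | hd
    · omega
    · have := (Nat.prime_dvd_prime_iff_eq (by norm_num) (by norm_num)).1
        ((by norm_num : Nat.Prime 5).dvd_of_dvd_pow hd)
      omega
  have hpart := partition hG hz
  rw [hI0, hκ₃'] at hpart
  set Y := 5 ^ k with hY
  have hY5 : 5 ≤ Y := by
    calc 5 = 5 ^ 1 := by norm_num
      _ ≤ 5 ^ k := Nat.pow_le_pow_right (by norm_num) hk1
  have hS4 : 4 ≤ S := by
    have h1 : insert 1 (Zf α) ⊆ univ.filter (fun u => u ∈ (α : Subgroup T)) := by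
      intro u hu
      simp only [Finset.mem_insert, mem_Zf] at hu
      simp only [Finset.mem_filter, Finset.mem_univ, true_and]
      rcases hu with rfl | hu
      · exact one_mem _
      · exact hu.2
    have h4 := Finset.card_le_card h1
    rw [Finset.card_insert_of_notMem (fun hc => (mem_Zf.1 hc).1.ne rfl), hq α] at h4
    have h6 : S = (univ.filter (fun u => u ∈ (α : Subgroup T))).card := by
      rw [hSdef, Nat.card_eq_fintype_card, Fintype.card_subtype]
    omega
  by_cases hR : ∃ y u : T, RealE 5 y u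
  · obtain ⟨y, u, HY⟩ := hR
    obtain ⟨a', ha', _, hnd⟩ := HY.card_pow hG
    obtain ⟨w, c, hw, hwp, hc, hwle⟩ := w_props hG HY
    have hT5 : Nat.card (cen y) * (cen y).index = Nat.card T := Subgroup.card_mul_index _
    rw [ha'] at hT5
    have haeq : a' = k := by
      have h6 : 5 ^ a' * (cen y).index = 5 ^ k * (2 ^ m * 3) := by
        rw [hT5, ← hIc, hform, hm]; ring
      refine pow_part_unique (by norm_num) h6 hnd ?_
      intro hd
      rcases (Nat.Prime.dvd_mul (by norm_num)).1 hd with hd | hd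
      · have := (Nat.prime_dvd_prime_iff_eq (by norm_num) (by norm_num)).1
          ((by norm_num : Nat.Prime 5).dvd_of_dvd_pow hd)
        omega
      · omega
    have hcy : Nat.card (cen y) = Y := by rw [ha', haeq]
    rw [hcy] at hwle
    have hκ := kappa_eq hG hSC HY hz hw
    rw [hcy, hcz] at hκ
    have hdvd : w ∣ S := by
      have h1 : w ∣ Nat.card T := by
        refine Dvd.dvd.trans ⟨_, hw⟩ (Subgroup.card_subgroup_dvd_card _)
      have h6 : Nat.card T = S * (3 * Y) := by rw [← hIc, hform]; ring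
      rw [h6] at h1
      have hcop : Nat.Coprime w (3 * Y) := by
        rw [hwp]
        apply Nat.Coprime.pow_left
        rw [hY]
        apply Nat.Coprime.mul_right (by norm_num)
        apply Nat.Coprime.pow_right
        norm_num
      exact hcop.dvd_of_dvd_mul_right h1
    obtain ⟨A, hA⟩ := hdvd
    have hw0 : 0 < w := by rw [hwp]; positivity
    have hnum := ti_numeric (Y := Y) (S := S) (κ := (Delta 5 z).card) (A := A) (w := w)
      (by rw [← hform]; exact hpart) hκ (by rw [hA]; ring) hwle hSpos hw0 hY5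
    have hYS : 5 ^ k = 2 ^ m + 1 := by
      rw [← hm]
      omega
    have hm2 : 2 ≤ m := by
      by_contra hlt
      have : m = 0 ∨ m = 1 := by omega
      rcases this with rfl | rfl <;> simp at hm <;> omega
    obtain ⟨h6, h7⟩ := n_five_two hYS hm2
    rw [← hIc, hform, hm, h6, hY, h7] <;> norm_num
  · exfalso
    have h0 : (Delta 5 z).card = 0 := by
      rw [Finset.card_eq_zero, Finset.eq_empty_iff_forall_notMem]
      intro x hx
      rw [mem_Delta] at hx
      exact hR ⟨x, z, Or.inr rfl, hx.1, hz, hx.2⟩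
    rw [h0] at hpart
    have h6 : 3 * (Y - 1) = S := by omega
    have h7 : 3 ∣ 2 ^ m := by
      rw [← hm]
      change 3 ∣ S
      rw [← h6]; exact Dvd.intro _ rfl
    have := (Nat.prime_dvd_prime_iff_eq (by norm_num) (by norm_num)).1
      ((by norm_num : Nat.Prime 3).dvd_of_dvd_pow h7)
    omega

end Cfsg.Agent.Lib.Spec5
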