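import Mathlib
import Cfsg.Agent.Lib.Spec5.CaseB
import Cfsg.Agent.Lib.Spec5.TIEnd

/-!
# The simple groups whose Sylow 2-subgroups do not intersect trivially
-/

set_option autoImplicit false

namespace Cfsg.Agent.Lib.Spec5

open Subgroup

universe u

variable {T : Type u} [Group T]

theorem isP_subgroupOf {D : Subgroup T} (hD : IsPGroup 2 D) (K : Subgroup T) : IsPGroup 2 (D.subgroupOf K) := by
  intro y
  obtain ⟨k, hk⟩ := hD ⟨((y : K) : T), y.2⟩
  refine ⟨k, Subtype.ext (Subtype.ext ?_)⟩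
  have := congrArg Subtype.val hk
  simpa using this

theorem nonTI_main [Fintype T] (hS : IsSimpleGroup T) (h3 : 3 ∣ Nat.card T) (h5 : 5 ∣ Nat.card T)
    (hG : Sig T) (hTI : ¬ TIs T)
    (hM : ∀ (X : Type u) [Group X] [Finite X], Nat.card X < Nat.card T → Sig X →
       (∀ N : Subgroup X, N.Normal → IsPGroup 2 N → N = ⊥) → 2 ∣ Nat.card X → 3 ∣ Nat.card X →
       5 ∣ Nat.card X →
       Nonempty (X ≃* alternatingGroup (Fin 5)) ∨ Nonempty (X ≃* alternatingGroup (Fin 6))) :
    Nat.card T = 360 := by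
  haveI : Fact (Nat.Prime 2) := ⟨Nat.prime_two⟩
  -- a pair with maximal intersection
  have hTI' := hTI
  unfold TIs at hTI'
  push Not at hTI'
  obtain ⟨S₃, S₄, hne₃, y₀, hy₃, hy₄, hy₀⟩ := hTI'
  haveI : Nonempty {p : Sylow 2 T × Sylow 2 T // p.1 ≠ p.2} := ⟨⟨⟨S₃, S₄⟩, hne₃⟩⟩
  obtain ⟨⟨⟨S₁, S₂⟩, hne⟩, hmax'⟩ := Finite.exists_max
    (fun p : {p : Sylow 2 T × Sylow 2 T // p.1 ≠ p.2} =>
      Nat.card ((p.1.1 : Subgroup T) ⊓ (p.1.2 : Subgroup T) : Subgroup T))
  simp only at hmax' hne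
  have hmax : ∀ S₅ S₆ : Sylow 2 T, S₅ ≠ S₆ → Nat.card ((S₅ : Subgroup T) ⊓ (S₆ : Subgroup T) : Subgroup T)
      ≤ Nat.card ((S₁ : Subgroup T) ⊓ (S₂ : Subgroup T) : Subgroup T) :=
    fun S₅ S₆ h => hmax' ⟨⟨S₅, S₆⟩, h⟩
  obtain ⟨D, hDdef⟩ : ∃ D, D = (S₁ : Subgroup T) ⊓ (S₂ : Subgroup T) := ⟨_, rfl⟩
  rw [← hDdef] at hmax
  have hD₁ : D ≤ S₁ := by rw [hDdef]; exact inf_le_left
  have hD₂ : D ≤ S₂ := by rw [hDdef]; exact inf_le_right
  have hDne : D ≠ ⊥ := by
    intro h
    have h1 := hmax S₃ S₄ hne₃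
    rw [h, Subgroup.card_bot] at h1
    haveI : Nontrivial ((S₃ : Subgroup T) ⊓ (S₄ : Subgroup T) : Subgroup T) :=
      ⟨⟨⟨y₀, hy₃, hy₄⟩, 1, fun hc => hy₀ (congrArg Subtype.val hc)⟩⟩
    have h2 : 1 < Nat.card ((S₃ : Subgroup T) ⊓ (S₄ : Subgroup T) : Subgroup T) := Finite.one_lt_card
    omega
  have hD2 : IsPGroup 2 D := S₁.isPGroup'.to_le hD₁
  have hne₁ : D ≠ S₁ := by
    intro h
    apply hne
    apply Sylow.ext
    have h1 : (S₁ : Subgroup T) ≤ S₂ := by rw [← h]; exact hD₂
    exact (S₁.is_maximal' S₂.isPGroup' h1).symm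
  have hne₂ : D ≠ S₂ := by
    intro h
    apply hne
    apply Sylow.ext
    have h1 : (S₂ : Subgroup T) ≤ S₁ := by rw [← h]; exact hD₁
    exact (S₂.is_maximal' S₁.isPGroup' h1)
  obtain ⟨g, hg₁, hgD, hgN, hgg⟩ := hG.norm_grow S₁.isPGroup' hD₁ hne₁
  obtain ⟨g', hg'₂, hg'D, hg'N, _⟩ := hG.norm_grow S₂.isPGroup' hD₂ hne₂
  -- the key property of the normalizer
  have hO2 : ∀ Q : Subgroup T, IsPGroup 2 Q → Q ≤ normalizer (D : Set T) →
      normalizer (D : Set T) ≤ normalizer (Q : Set T) → Q ≤ D := by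
    intro Q hQ hQK hKQ
    have step : ∀ (S S' : Sylow 2 T) {h : T}, S ≠ S' → D ≤ S → h ∈ (S : Subgroup T) → h ∉ D →
        h ∈ normalizer (D : Set T) → Q ≤ S := by
      intro S S' h hSS' hDS hhS hhD hhN
      have hR : IsPGroup 2 ((S : Subgroup T) ⊓ normalizer (D : Set T) : Subgroup T) :=
        S.isPGroup'.to_le inf_le_left
      have hsup := hR.to_sup_of_normal_right' hQ (inf_le_right.trans hKQ)
      obtain ⟨S'', hS''⟩ := hsup.exists_le_sylow
      have hRS : (S : Subgroup T) ⊓ normalizer (D : Set T) ≤ S'' := le_sup_left.trans hS''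
      have hQS : Q ≤ S'' := le_sup_right.trans hS''
      have hDS'' : D ≤ S'' := by
        intro y hy
        exact hRS ⟨hDS hy, le_normalizer hy⟩
      have hh'' : h ∈ (S'' : Subgroup T) := hRS ⟨hhS, hhN⟩
      have hEq : S'' = S := by
        by_contra hc
        have h1 := hmax S'' S hc
        have h2 : D = (S'' : Subgroup T) ⊓ (S : Subgroup T) :=
          Subgroup.eq_of_le_of_card_ge (le_inf hDS'' hDS) h1
        apply hhD
        rw [h2]
        exact ⟨hh'', hhS⟩
      rw [← hEq]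
      exact hQS
    have h1 := step S₁ S₂ hne hD₁ hg₁ hgD hgN
    have h2 := step S₂ S₁ hne.symm hD₂ hg'₂ hg'D hg'N
    rw [hDdef]
    exact le_inf h1 h2
  -- the local group
  haveI hEn : (D.subgroupOf (normalizer (D : Set T))).Normal := Subgroup.normal_in_normalizer
  have hE₀2 : IsPGroup 2 (D.subgroupOf (normalizer (D : Set T))) := isP_subgroupOf hD2 _
  have hGA : Sig (normalizer (D : Set T)) := hG.subgroup _
  have hO : ∀ Q : Subgroup (normalizer (D : Set T)), Q.Normal → IsPGroup 2 Q →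
      Q ≤ D.subgroupOf (normalizer (D : Set T)) := by
    intro Q hQn hQ2
    have h1 := hO2 (Q.map (normalizer (D : Set T)).subtype) (hQ2.map _)
      (by
        rintro _ ⟨q, _, rfl⟩
        exact q.2)
      (by
        intro k hk
        rw [mem_normalizer_iff]
        intro y
        constructor
        · rintro ⟨q, hq, rfl⟩
          exact ⟨⟨k, hk⟩ * q * ⟨k, hk⟩⁻¹, hQn.conj_mem q hq _, rfl⟩
        · rintro ⟨q, hq, hqy⟩
          have hyK : y = (⟨k, hk⟩⁻¹ * q * ⟨k, hk⟩ : normalizer (D : Set T)) := by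
            have h2 : ((q : normalizer (D : Set T)) : T) = k * y * k⁻¹ := hqy
            show y = k⁻¹ * (q : T) * k
            rw [h2]; group
          refine ⟨⟨k, hk⟩⁻¹ * q * ⟨k, hk⟩, ?_, hyK.symm⟩
          have := hQn.conj_mem q hq (⟨k, hk⟩⁻¹)
          simpa using this)
    intro q hq
    exact h1 ⟨q, hq, rfl⟩
  have hgA : (⟨g, hgN⟩ : normalizer (D : Set T)) ∉ D.subgroupOf (normalizer (D : Set T)) := by
    rw [Subgroup.mem_subgroupOf]; exact hgD
  have hgA2 : (⟨g, hgN⟩ : normalizer (D : Set T)) * ⟨g, hgN⟩ ∈ D.subgroupOf (normalizer (D : Set T)) := by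
    rw [Subgroup.mem_subgroupOf]; exact hgg
  obtain ⟨p, w, a, ha, hR⟩ := real_lift hGA hE₀2 hO hgA hgA2
  have hR' := RealE.coe hR
  obtain ⟨e, hedef⟩ : ∃ e : T, e = ((a * ⟨g, hgN⟩ : normalizer (D : Set T)) : T) := ⟨_, rfl⟩
  rw [← hedef] at hR'
  have heN : e ∈ normalizer (D : Set T) := by rw [hedef]; exact (a * ⟨g, hgN⟩ : normalizer (D : Set T)).2
  have hwN : (w : T) ∈ normalizer (D : Set T) := w.2
  have haD : (a : T) ∈ D := ha
  have heq : e = (a : T) * g := hedef
  have heS₁ : e ∈ (S₁ : Subgroup T) := by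
    rw [heq]; exact (S₁ : Subgroup T).mul_mem (hD₁ haD) hg₁
  have heD : e ∉ D := by
    intro h
    apply hgD
    have h1 := D.mul_mem (D.inv_mem haD) h
    rw [heq, inv_mul_cancel_left] at h1
    exact h1
  obtain ⟨hc, hsq⟩ := lemmaB hG hD2 hR' hwN heN
  have hEA : EA D := ⟨hc, hsq⟩
  have hEA₀ : EA (D.subgroupOf (normalizer (D : Set T))) :=
    ⟨fun a ha b hb => Subtype.ext (hc _ ha _ hb), fun a ha => Subtype.ext (hsq _ ha)⟩
  have hE₁ : D.subgroupOf (normalizer (D : Set T)) ≠ ⊥ := by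
    intro h
    apply hDne
    rw [eq_bot_iff]
    intro y hy
    have h1 : (⟨y, le_normalizer hy⟩ : normalizer (D : Set T)) ∈ D.subgroupOf (normalizer (D : Set T)) := hy
    rw [h, Subgroup.mem_bot] at h1
    exact (Subgroup.mem_bot).2 (congrArg Subtype.val h1)
  have hSX : Sig (normalizer (D : Set T) ⧸ D.subgroupOf (normalizer (D : Set T))) := hGA.quot _
  have hOX := quot_O2 hE₀2 hO
  have h2X : 2 ∣ Nat.card (normalizer (D : Set T) ⧸ D.subgroupOf (normalizer (D : Set T))) := by
    have hgb : orderOf (((⟨g, hgN⟩ : normalizer (D : Set T)) : normalizer (D : Set T) ⧸ D.subgroupOf (normalizer (D : Set T)))) = 2 := by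
      refine Inv2.orderOf ⟨?_, ?_⟩
      · rw [← QuotientGroup.mk_mul]
        exact (QuotientGroup.eq_one_iff _).2 hgA2
      · intro hc
        exact hgA ((QuotientGroup.eq_one_iff _).1 hc)
    rw [← hgb]
    exact orderOf_dvd_natCard _
  have hcardX : Nat.card (normalizer (D : Set T) ⧸ D.subgroupOf (normalizer (D : Set T))) < Nat.card T := by
    have h1 := Subgroup.card_eq_card_quotient_mul_card_subgroup (D.subgroupOf (normalizer (D : Set T)))
    have h2 : Nat.card (normalizer (D : Set T)) ≤ Nat.card T := Subgroup.card_le_card_group _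
    have h4 : 1 < Nat.card (D.subgroupOf (normalizer (D : Set T))) := by
      haveI : Nontrivial (D.subgroupOf (normalizer (D : Set T))) :=
        (Subgroup.nontrivial_iff_ne_bot _).2 hE₁
      exact Finite.one_lt_card
    have h6 : 0 < Nat.card (normalizer (D : Set T) ⧸ D.subgroupOf (normalizer (D : Set T))) := Nat.card_pos
    nlinarith
  have hcaseA : (Nat.card (normalizer (D : Set T) ⧸ D.subgroupOf (normalizer (D : Set T))) = 6 ∨
      Nat.card (normalizer (D : Set T) ⧸ D.subgroupOf (normalizer (D : Set T))) = 10) →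
      Nat.card T = 360 := by
    intro hX
    refine caseA hS h3 h5 hG hEA hDne S₁ hD₁ hR' hwN heN heS₁ heD ?_
    intro s hs hsK
    have hQ2 : IsPGroup 2 (((S₁ : Subgroup T).subgroupOf (normalizer (D : Set T))).map
        (QuotientGroup.mk' (D.subgroupOf (normalizer (D : Set T))))) :=
      (isP_subgroupOf S₁.isPGroup' _).map _
    obtain ⟨n, hn⟩ := IsPGroup.iff_card.1 hQ2
    have hdvd := Subgroup.card_subgroup_dvd_card (((S₁ : Subgroup T).subgroupOf (normalizer (D : Set T))).map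
        (QuotientGroup.mk' (D.subgroupOf (normalizer (D : Set T)))))
    have hle : Nat.card (((S₁ : Subgroup T).subgroupOf (normalizer (D : Set T))).map
        (QuotientGroup.mk' (D.subgroupOf (normalizer (D : Set T))))) ≤ 2 := by
      rw [hn] at hdvd ⊢
      have hn1 : n ≤ 1 := by
        by_contra hlt
        have h4 : 2 ^ 2 ∣ 2 ^ n := Nat.pow_dvd_pow 2 (by omega)
        have h6 := h4.trans hdvd
        rcases hX with hX | hX <;> rw [hX] at h6 <;> omega
      calc 2 ^ n ≤ 2 ^ 1 := Nat.pow_le_pow_right (by norm_num) hn1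
        _ = 2 := by norm_num
    by_cases hs1 : s ∈ D
    · exact Or.inl hs1
    · right
      have hsm : ((⟨s, hsK⟩ : normalizer (D : Set T)) : normalizer (D : Set T) ⧸ D.subgroupOf (normalizer (D : Set T)))
          ∈ ((S₁ : Subgroup T).subgroupOf (normalizer (D : Set T))).map
            (QuotientGroup.mk' (D.subgroupOf (normalizer (D : Set T)))) := ⟨⟨s, hsK⟩, hs, rfl⟩
      have hem : ((⟨e, heN⟩ : normalizer (D : Set T)) : normalizer (D : Set T) ⧸ D.subgroupOf (normalizer (D : Set T)))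
          ∈ ((S₁ : Subgroup T).subgroupOf (normalizer (D : Set T))).map
            (QuotientGroup.mk' (D.subgroupOf (normalizer (D : Set T)))) := ⟨⟨e, heN⟩, heS₁, rfl⟩
      have h1 : (⟨_, hsm⟩ : ((S₁ : Subgroup T).subgroupOf (normalizer (D : Set T))).map
          (QuotientGroup.mk' (D.subgroupOf (normalizer (D : Set T))))) = ⟨_, hem⟩ := by
        apply eq_of_card_le_two hle
        · intro hc
          apply hs1
          have h2 := congrArg Subtype.val hc
          have h4 : (⟨s, hsK⟩ : normalizer (D : Set T)) ∈ D.subgroupOf (normalizer (D : Set T)) :=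
            (QuotientGroup.eq_one_iff _).1 h2
          exact h4
        · intro hc
          apply heD
          have h2 := congrArg Subtype.val hc
          have h4 : (⟨e, heN⟩ : normalizer (D : Set T)) ∈ D.subgroupOf (normalizer (D : Set T)) :=
            (QuotientGroup.eq_one_iff _).1 h2
          exact h4
      have h2 := congrArg Subtype.val h1
      have h4' : (⟨s, hsK⟩ : normalizer (D : Set T))⁻¹ * ⟨e, heN⟩ ∈ D.subgroupOf (normalizer (D : Set T)) :=
        QuotientGroup.eq.1 h2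
      have h4 : s⁻¹ * e ∈ D := h4'
      have h6 := D.inv_mem h4
      rw [mul_inv_rev, inv_inv, hR'.it.inv] at h6
      exact h6
  rcases X_struct hGA hEA₀ hE₀2 hE₁ hO hgA hgA2
      (fun h3X h5X => hM _ hcardX hSX hOX h2X h3X h5X) with hX | hX | hX
  · exact hcaseA (Or.inl hX)
  · exact hcaseA (Or.inr hX)
  · exfalso
    obtain ⟨φ⟩ := hX
    classical
    let ρ : T → A5 := fun t => if h : t ∈ normalizer (D : Set T) then
      φ (QuotientGroup.mk' (D.subgroupOf (normalizer (D : Set T))) ⟨t, h⟩) else 1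
    have hρ : ∀ t (h : t ∈ normalizer (D : Set T)),
        ρ t = φ (QuotientGroup.mk' (D.subgroupOf (normalizer (D : Set T))) ⟨t, h⟩) := fun t h => dif_pos h
    have P : ProjA D ρ := by
      refine ⟨?_, ?_, ?_⟩
      · intro s t hs ht
        rw [hρ _ hs, hρ _ ht, hρ _ (mul_mem hs ht), ← map_mul, ← map_mul]
        rfl
      · intro t ht
        rw [hρ _ ht]
        constructor
        · intro h
          have h1 := (map_eq_one_iff φ φ.injective).1 h
          have h4 : (⟨t, ht⟩ : normalizer (D : Set T)) ∈ D.subgroupOf (normalizer (D : Set T)) :=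
            (QuotientGroup.eq_one_iff _).1 h1
          exact h4
        · intro h
          have h1 : QuotientGroup.mk' (D.subgroupOf (normalizer (D : Set T))) ⟨t, ht⟩ = 1 :=
            (QuotientGroup.eq_one_iff _).2 h
          rw [h1, map_one]
      · intro σ
        obtain ⟨k, hk⟩ := QuotientGroup.mk_surjective (φ.symm σ)
        refine ⟨k.1, k.2, ?_⟩
        rw [hρ _ k.2]
        show φ ((k : normalizer (D : Set T)) : normalizer (D : Set T) ⧸ D.subgroupOf (normalizer (D : Set T))) = σ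
        rw [hk]
        simp
    exact caseB hS h3 h5 hG hEA hDne P S₁ hD₁ heS₁ heD

end Cfsg.Agent.Lib.Spec5
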