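import Mathlib
import Cfsg.Agent.Lib.Spec5.ExtnA6
import Cfsg.Agent.Lib.Spec5.NonTI
import Cfsg.Agent.S0144
import Cfsg.Agent.S0494
import Cfsg.Agent.S0497

/-!
# Groups with elements of order at most 5 and no normal 2-subgroup
-/

set_option autoImplicit false

namespace Cfsg.Agent.Lib.Spec5

open Subgroup

universe u

theorem sylow_card_eq {K : Type*} [Group K] [Finite K] {p e m : ℕ} [hp : Fact p.Prime] (P : Sylow p K)
    (hK : Nat.card K = p ^ e * m) (hm : ¬ p ∣ m) : Nat.card (P : Subgroup K) = p ^ e := by
  obtain ⟨a, ha⟩ := IsPGroup.iff_card.1 P.isPGroup'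
  have h1 := Subgroup.card_mul_index (P : Subgroup K)
  rw [ha, hK] at h1
  have h2 := pow_part_unique hp.out h1 P.not_dvd_index hm
  rw [ha, h2]

theorem theorem_M : ∀ (n : ℕ) (G : Type u) [Group G] [Finite G], Nat.card G = n → Sig G →
    (∀ N : Subgroup G, N.Normal → IsPGroup 2 N → N = ⊥) → 2 ∣ Nat.card G → 3 ∣ Nat.card G →
    5 ∣ Nat.card G →
    Nonempty (G ≃* alternatingGroup (Fin 5)) ∨ Nonempty (G ≃* alternatingGroup (Fin 6)) := by
  intro n
  induction n using Nat.strong_induction_on with
  | _ n ih =>
    intro G _ _ hn hG hO h2 h3 h5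
    haveI : Fact (Nat.Prime 2) := ⟨Nat.prime_two⟩
    haveI : Fact (Nat.Prime 3) := ⟨by norm_num⟩
    haveI : Fact (Nat.Prime 5) := ⟨by norm_num⟩
    have hN3 : ∀ Q : Subgroup G, Q.Normal → IsPGroup 3 Q → Q = ⊥ := fun Q hQ hp =>
      no_normal_odd hG (Or.inl rfl) (Or.inr rfl) (by norm_num) h2 h5 Q hQ hp
    have hN5 : ∀ Q : Subgroup G, Q.Normal → IsPGroup 5 Q → Q = ⊥ := fun Q hQ hp =>
      no_normal_odd hG (Or.inr rfl) (Or.inl rfl) (by norm_num) h2 h3 Q hQ hp
    haveI : Nontrivial G := by
      apply Finite.one_lt_card_iff_nontrivial.1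
      have h0 : 0 < Nat.card G := Nat.card_pos
      have h1 := Nat.le_of_dvd h0 h2
      omega
    haveI hne : Nonempty {N : Subgroup G // N.Normal ∧ N ≠ ⊥} :=
      ⟨⟨⊤, inferInstance, top_ne_bot⟩⟩
    obtain ⟨⟨K, hKn, hK1⟩, hmin⟩ := Finite.exists_min
      (fun N : {N : Subgroup G // N.Normal ∧ N ≠ ⊥} => Nat.card N.1)
    have hmin' : ∀ N : Subgroup G, N.Normal → N ≠ ⊥ → Nat.card K ≤ Nat.card N :=
      fun N h1 h2 => hmin ⟨N, h1, h2⟩
    haveI := hKn
    have hsub : ∀ N : Subgroup G, N.Normal → N ≤ K → N = ⊥ ∨ N = K := by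
      intro N hN hle
      by_cases h : N = ⊥
      · exact Or.inl h
      · exact Or.inr (Subgroup.eq_of_le_of_card_ge hle (hmin' N hN h))
    haveI hKnt : Nontrivial K := (nontrivial_iff_ne_bot K).2 hK1
    have hKG : ∀ {q : ℕ}, q ∣ Nat.card K → q ∣ Nat.card G :=
      fun h => h.trans (Subgroup.card_subgroup_dvd_card K)
    have hcom : ⁅K, K⁆ = K := by
      rcases hsub ⁅K, K⁆ inferInstance (Subgroup.commutator_le_left K K) with h | h
      · exfalso
        have hcomm : ∀ a ∈ K, ∀ b ∈ K, a * b = b * a := by
          rw [Subgroup.commutator_eq_bot_iff_le_centralizer] at h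
          intro a ha b hb
          exact (mem_centralizer_iff.1 (h ha) b hb).symm
        obtain ⟨p, hp, hpd⟩ := Nat.exists_prime_and_dvd (n := Nat.card K) (Finite.one_lt_card.ne')
        haveI : Fact p.Prime := ⟨hp⟩
        obtain ⟨w, hw⟩ := exists_prime_orderOf_dvd_card' (G := K) p hpd
        let Q : Subgroup G :=
          { carrier := {x | x ∈ K ∧ x ^ p = 1}
            one_mem' := ⟨K.one_mem, one_pow _⟩
            mul_mem' := by
              rintro a b ⟨ha, ha2⟩ ⟨hb, hb2⟩
              refine ⟨K.mul_mem ha hb, ?_⟩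
              have hc : Commute a b := hcomm a ha b hb
              rw [hc.mul_pow, ha2, hb2, one_mul]
            inv_mem' := by
              rintro a ⟨ha, ha2⟩
              exact ⟨K.inv_mem ha, by rw [inv_pow, ha2, inv_one]⟩ }
        have hQn : Q.Normal := by
          refine ⟨?_⟩
          rintro a ⟨ha, ha2⟩ g
          refine ⟨hKn.conj_mem a ha g, ?_⟩
          rw [conj_pow, ha2]
          simp
        have hQp : IsPGroup p Q := by
          rintro ⟨x, hx⟩
          refine ⟨1, Subtype.ext ?_⟩
          have h1 : x ^ p = 1 := hx.2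
          simpa using h1
        have hQ1 : Q ≠ ⊥ := by
          intro h1
          have hwQ : (w : G) ∈ Q := ⟨w.2, by
            rw [← hw, ← Subgroup.orderOf_coe]; exact pow_orderOf_eq_one _⟩
          rw [h1, Subgroup.mem_bot] at hwQ
          have h4 : w = 1 := Subtype.ext hwQ
          rw [h4, orderOf_one] at hw
          exact hp.one_lt.ne hw
        rcases hG.prime_dvd_card hp (hKG hpd) with rfl | rfl | rfl
        · exact hQ1 (hO Q hQn hQp)
        · exact hQ1 (hN3 Q hQn hQp)
        · exact hQ1 (hN5 Q hQn hQp)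
      · exact h
    have hcT : commutator K = ⊤ := by
      rw [eq_top_iff]
      rintro ⟨x, hx⟩ -
      have h1 : x ∈ (commutator K).map K.subtype := by
        rw [commutator_def, Subgroup.map_commutator, ← MonoidHom.range_eq_map, Subgroup.range_subtype, hcom]
        exact hx
      obtain ⟨t, ht, rfl⟩ := h1
      exact ht
    have hnsol : ¬ Group.IsSolvable K := by
      intro hsol
      have hall : ∀ m, derivedSeries K m = ⊤ := by
        intro m
        induction m with
        | zero => rfl
        | succ m ihm => rw [derivedSeries_succ, ihm]; exact hcT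
      obtain ⟨m, hm⟩ := hsol.solvable
      rw [hall m] at hm
      exact top_ne_bot hm
    have hprim : ∀ q : ℕ, q.Prime → q ∣ Nat.card K → q = 2 ∨ q = 3 ∨ q = 5 :=
      fun q hq hd => hG.prime_dvd_card hq (hKG hd)
    obtain ⟨i, j, k, hform⟩ := card_form (Nat.card_pos (α := K)).ne' hprim
    have h2K : 2 ∣ Nat.card K := by
      by_contra hnd
      have hi : i = 0 := by
        by_contra hi0
        apply hnd
        rw [hform]
        exact Dvd.dvd.mul_right (Dvd.dvd.mul_right (dvd_pow_self 2 hi0) _) _
      rw [hi, pow_zero, one_mul] at hform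
      exact hnsol (Cfsg.Agent.S0144.result 3 5 j k (by norm_num) (by norm_num) hform)
    have h3K : 3 ∣ Nat.card K := by
      by_contra hnd
      have hi : j = 0 := by
        by_contra hi0
        apply hnd
        rw [hform]
        exact Dvd.dvd.mul_right (Dvd.dvd.mul_left (dvd_pow_self 3 hi0) _) _
      rw [hi, pow_zero, mul_one] at hform
      exact hnsol (Cfsg.Agent.S0144.result 2 5 i k (by norm_num) (by norm_num) hform)
    have h5K : 5 ∣ Nat.card K := by
      by_contra hnd
      have hi : k = 0 := by
        by_contra hi0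
        apply hnd
        rw [hform]
        exact Dvd.dvd.mul_left (dvd_pow_self 5 hi0) _
      rw [hi, pow_zero, mul_one] at hform
      exact hnsol (Cfsg.Agent.S0144.result 2 3 i j (by norm_num) (by norm_num) hform)
    by_cases hKtop : K = ⊤
    · have hSimple : IsSimpleGroup G := by
        refine { eq_bot_or_eq_top_of_normal := ?_ }
        intro N hN
        by_cases h : N = ⊥
        · exact Or.inl h
        · right
          have h1 := hmin' N hN h
          rw [hKtop] at h1
          rw [eq_top_iff]
          exact (Subgroup.eq_of_le_of_card_ge le_top h1).ge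
      haveI := Fintype.ofFinite G
      by_cases hTI : TIs G
      · left
        exact Cfsg.Agent.S0494.result (ti_main hSimple h2 h3 h5 hG hTI)
      · right
        exact Cfsg.Agent.S0497.result (nonTI_main hSimple h3 h5 hG hTI
          (fun X _ _ hlt hSX hOX h2X h3X h5X => ih _ (hn ▸ hlt) X rfl hSX hOX h2X h3X h5X))
    · exfalso
      have hlt : Nat.card K < n := by
        rw [← hn]
        refine lt_of_le_of_ne (Subgroup.card_le_card_group K) ?_
        intro h
        exact hKtop (Subgroup.eq_top_of_card_eq K h)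
      have hIH := ih _ hlt K rfl (hG.subgroup K) (O2_of_normal hO K) h2K h3K h5K
      have hidx0 : K.index ≠ 0 := Subgroup.index_ne_zero_of_finite
      have hdG : K.index ∣ Nat.card G := Subgroup.index_dvd_card K
      obtain ⟨a, b, c, hidx⟩ := card_form hidx0
        (fun q hq hd => hG.prime_dvd_card hq (hd.trans hdG))
      obtain ⟨P₃⟩ : Nonempty (Sylow 3 K) := inferInstance
      obtain ⟨P₅⟩ : Nonempty (Sylow 5 K) := inferInstance
      have hfacts : ¬ 2 ∣ K.index ∧ (Nat.card (P₃ : Subgroup K) = 3 ∨ Nat.card (P₃ : Subgroup K) = 9) ∧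
          Nat.card (P₅ : Subgroup K) = 5 := by
        rcases hIH with ⟨⟨φ⟩⟩ | ⟨⟨φ⟩⟩
        · have hKc : Nat.card K = 60 := by rw [Nat.card_congr φ.toEquiv]; exact card_A5
          refine ⟨no_two_A5 hG K φ, Or.inl ?_, ?_⟩
          · have := sylow_card_eq (e := 1) (m := 20) P₃ (by rw [hKc]; norm_num) (by norm_num)
            simpa using this
          · have := sylow_card_eq (e := 1) (m := 12) P₅ (by rw [hKc]; norm_num) (by norm_num)
            simpa using this
        · have hKc : Nat.card K = 360 := by rw [Nat.card_congr φ.toEquiv]; exact card_A6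
          refine ⟨no_two_A6 hG K φ, Or.inr ?_, ?_⟩
          · have := sylow_card_eq (e := 2) (m := 40) P₃ (by rw [hKc]; norm_num) (by norm_num)
            simpa using this
          · have := sylow_card_eq (e := 1) (m := 72) P₅ (by rw [hKc]; norm_num) (by norm_num)
            simpa using this
      obtain ⟨h2n, hP₃, hP₅⟩ := hfacts
      have h3n : ¬ 3 ∣ K.index := by
        intro hd
        exact frattini_prime hG K (p := 5) (r := 3) (Or.inr rfl) (Or.inl rfl) (by norm_num) P₅ hd
          (by rw [hP₅]; norm_num)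
      have h5n : ¬ 5 ∣ K.index := by
        intro hd
        refine frattini_prime hG K (p := 3) (r := 5) (Or.inl rfl) (Or.inr rfl) (by norm_num) P₃ hd ?_
        rcases hP₃ with h | h <;> rw [h] <;> norm_num
      have ha : a = 0 := by
        by_contra h0
        apply h2n
        rw [hidx]
        exact Dvd.dvd.mul_right (Dvd.dvd.mul_right (dvd_pow_self 2 h0) _) _
      have hb : b = 0 := by
        by_contra h0
        apply h3n
        rw [hidx]
        exact Dvd.dvd.mul_right (Dvd.dvd.mul_left (dvd_pow_self 3 h0) _) _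
      have hc : c = 0 := by
        by_contra h0
        apply h5n
        rw [hidx]
        exact Dvd.dvd.mul_left (dvd_pow_self 5 h0) _
      rw [ha, hb, hc] at hidx
      apply hKtop
      apply Subgroup.index_eq_one.1
      rw [hidx]
      norm_num

end Cfsg.Agent.Lib.Spec5
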