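import Mathlib
import Cfsg.Agent.Lib.Spec5.TheoremM

/-!
# Groups whose element orders are exactly 1, 2, 3, 4, 5
-/

set_option autoImplicit false

namespace Cfsg.Agent.Lib.Spec5

open Subgroup

universe u

theorem no_sq_of_normal_two {G : Type u} [Group G] [Finite G] (hG : Sig G) {N : Subgroup G} [hN : N.Normal]
    (hN2 : IsPGroup 2 N) (hN1 : N ≠ ⊥) {r : ℕ} (hr : r = 3 ∨ r = 5) : ¬ r ^ 2 ∣ Nat.card (G ⧸ N) := by
  haveI : Fact (Nat.Prime 2) := ⟨Nat.prime_two⟩
  let E₁ : Subgroup G :=
    { carrier := {x | x ∈ N ∧ x * x = 1 ∧ ∀ y ∈ N, x * y = y * x}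
      one_mem' := ⟨N.one_mem, by simp, by simp⟩
      mul_mem' := by
        rintro a b ⟨ha, ha2, ha3⟩ ⟨hb, hb2, hb3⟩
        refine ⟨N.mul_mem ha hb, ?_, ?_⟩
        · calc a * b * (a * b) = a * (b * a) * b := by simp only [mul_assoc]
            _ = a * (a * b) * b := by rw [(ha3 b hb).symm]
            _ = (a * a) * (b * b) := by simp only [mul_assoc]
            _ = 1 := by rw [ha2, hb2, one_mul]
        · intro y hy
          calc a * b * y = a * (b * y) := by rw [mul_assoc]
            _ = a * (y * b) := by rw [hb3 y hy]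
            _ = (a * y) * b := by rw [mul_assoc]
            _ = (y * a) * b := by rw [ha3 y hy]
            _ = _ := by rw [mul_assoc]
      inv_mem' := by
        rintro a ⟨ha, ha2, ha3⟩
        have h1 : a⁻¹ = a := inv_eq_of_mul_eq_one_left ha2
        rw [Set.mem_setOf_eq, h1]
        exact ⟨ha, ha2, ha3⟩ }
  have hE₁N : E₁ ≤ N := fun x hx => hx.1
  haveI hE₁n : E₁.Normal := by
    refine ⟨?_⟩
    rintro x ⟨hx, hx2, hx3⟩ g
    refine ⟨hN.conj_mem x hx g, ?_, ?_⟩
    · calc g * x * g⁻¹ * (g * x * g⁻¹) = g * (x * x) * g⁻¹ := by group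
        _ = 1 := by rw [hx2]; group
    · intro y hy
      have h1 : g⁻¹ * y * g ∈ N := by
        have := hN.conj_mem y hy g⁻¹
        rwa [inv_inv] at this
      have h2 := hx3 _ h1
      calc g * x * g⁻¹ * y = g * (x * (g⁻¹ * y * g)) * g⁻¹ := by group
        _ = g * ((g⁻¹ * y * g) * x) * g⁻¹ := by rw [h2]
        _ = _ := by group
  have hEA : EA E₁ := ⟨fun a ha b hb => ha.2.2 b (hE₁N hb), fun a ha => ha.2.1⟩
  have hE2 : IsPGroup 2 E₁ := hN2.to_le hE₁N
  have hE1 : E₁ ≠ ⊥ := by
    haveI : Nontrivial N := (nontrivial_iff_ne_bot N).2 hN1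
    haveI := hN2.center_nontrivial
    obtain ⟨c, hc⟩ := exists_ne (1 : center N)
    have hc1 : ((c : N) : G) ≠ 1 := by
      intro h
      apply hc
      ext
      simpa using h
    have hcN : ((c : N) : G) ∈ N := (c : N).2
    have hcc : ∀ y ∈ N, ((c : N) : G) * y = y * ((c : N) : G) := by
      intro y hy
      have := (Subgroup.mem_center_iff.1 c.2) ⟨y, hy⟩
      exact (congrArg Subtype.val this).symm
    generalize ((c : N) : G) = x at hc1 hcN hcc
    have h4 : x ^ 4 = 1 := hG.pow_four_of_pgroup hN2 hcN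
    have hxx : (x * x) * (x * x) = 1 := by
      rw [← h4]; simp only [pow_succ, pow_zero, one_mul, mul_assoc]
    by_cases h1 : x * x = 1
    · intro hb
      have hm : x ∈ E₁ := ⟨hcN, h1, hcc⟩
      rw [hb, Subgroup.mem_bot] at hm
      exact hc1 hm
    · intro hb
      have hm : x * x ∈ E₁ := by
        refine ⟨N.mul_mem hcN hcN, hxx, ?_⟩
        intro y hy
        calc x * x * y = x * (x * y) := by rw [mul_assoc]
          _ = x * (y * x) := by rw [hcc y hy]
          _ = (x * y) * x := by rw [mul_assoc]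
          _ = (y * x) * x := by rw [hcc y hy]
          _ = _ := by rw [mul_assoc]
      rw [hb, Subgroup.mem_bot] at hm
      exact h1 hm
  have h1 := no_sq hG hEA hE2 hE1 hr
  intro h2
  apply h1
  refine h2.trans ?_
  have h3 : N.index ∣ E₁.index := Subgroup.index_dvd_of_le hE₁N
  simpa [Subgroup.index_eq_card] using h3

theorem final_main {G : Type u} [Group G] [Finite G] (h : Set.range (orderOf : G → ℕ) = {k : ℕ | 1 ≤ k ∧ k ≤ 5}) :
    Nonempty (G ≃* ↥(alternatingGroup (Fin 6))) ∨
      ∃ (N : Subgroup G) (_ : N.Normal), Cfsg.IsElementaryAbelian 2 N ∧ Nonempty (G ⧸ N ≃* ↥(alternatingGroup (Fin 5))) := by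
  haveI : Fact (Nat.Prime 2) := ⟨Nat.prime_two⟩
  haveI : Fact (Nat.Prime 3) := ⟨by norm_num⟩
  haveI : Fact (Nat.Prime 5) := ⟨by norm_num⟩
  have hG : Sig G := fun g => by
    have h1 : orderOf g ∈ {k : ℕ | 1 ≤ k ∧ k ≤ 5} := by
      rw [← h]; exact ⟨g, rfl⟩
    exact h1.2
  have hord : ∀ k : ℕ, 1 ≤ k → k ≤ 5 → ∃ g : G, orderOf g = k := by
    intro k h1 h2
    have h3 : k ∈ Set.range (orderOf : G → ℕ) := by
      rw [h]; exact ⟨h1, h2⟩
    exact h3
  obtain ⟨g₂, hg₂⟩ := hord 2 (by norm_num) (by norm_num)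
  obtain ⟨g₃, hg₃⟩ := hord 3 (by norm_num) (by norm_num)
  obtain ⟨g₅, hg₅⟩ := hord 5 (by norm_num) (by norm_num)
  have h2 : 2 ∣ Nat.card G := by rw [← hg₂]; exact orderOf_dvd_natCard _
  have h3 : 3 ∣ Nat.card G := by rw [← hg₃]; exact orderOf_dvd_natCard _
  have h5 : 5 ∣ Nat.card G := by rw [← hg₅]; exact orderOf_dvd_natCard _
  obtain ⟨N, hN, hN2, hall⟩ := exists_max_normal_two G
  haveI := hN
  have hSX : Sig (G ⧸ N) := hG.quot N
  have hOX := quot_O2 hN2 hall
  have hcard : Nat.card G = Nat.card (G ⧸ N) * Nat.card N := Subgroup.card_eq_card_quotient_mul_card_subgroup N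
  obtain ⟨n₂, hn₂⟩ := IsPGroup.iff_card.1 hN2
  have h3X : 3 ∣ Nat.card (G ⧸ N) := by
    rw [hcard, hn₂] at h3
    rcases (Nat.Prime.dvd_mul (by norm_num)).1 h3 with hd | hd
    · exact hd
    · have := (Nat.prime_dvd_prime_iff_eq (by norm_num) (by norm_num)).1
        ((by norm_num : Nat.Prime 3).dvd_of_dvd_pow hd)
      omega
  have h5X : 5 ∣ Nat.card (G ⧸ N) := by
    rw [hcard, hn₂] at h5
    rcases (Nat.Prime.dvd_mul (by norm_num)).1 h5 with hd | hd
    · exact hd
    · have := (Nat.prime_dvd_prime_iff_eq (by norm_num) (by norm_num)).1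
        ((by norm_num : Nat.Prime 5).dvd_of_dvd_pow hd)
      omega
  by_cases h2X : 2 ∣ Nat.card (G ⧸ N)
  · rcases theorem_M _ (G ⧸ N) rfl hSX hOX h2X h3X h5X with ⟨⟨φ⟩⟩ | ⟨⟨φ⟩⟩
    · right
      refine ⟨N, hN, ?_, ⟨φ⟩⟩
      obtain ⟨hv11, _, _, hv1ne, _⟩ := a5_basic
      obtain ⟨hrb3, hrb1, hrbi, _⟩ := a5_real
      obtain ⟨g, hg⟩ := QuotientGroup.mk_surjective (φ.symm v1)
      obtain ⟨w, hw⟩ := QuotientGroup.mk_surjective (φ.symm rb)
      have hwb : orderOf ((w : G) : G ⧸ N) = 3 := by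
        rw [hw, MulEquiv.orderOf_eq]
        exact orderOf_eq_prime hrb3 hrb1
      have hwo : orderOf w = 3 := lift_order (E := N) hG (Or.inl rfl) hwb
      have hgN : g ∉ N := by
        intro hm
        have h1 : ((g : G) : G ⧸ N) = 1 := (QuotientGroup.eq_one_iff _).2 hm
        rw [hg] at h1
        apply hv1ne
        have h4 := congrArg φ h1
        simpa using h4
      have hg2 : g * g ∈ N := by
        apply (QuotientGroup.eq_one_iff _).1
        rw [QuotientGroup.mk_mul, hg, ← map_mul, hv11, map_one]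
      obtain ⟨a, _, hR⟩ := real_lift_of (E := N) hG hN2 (p := 3) (Or.inl rfl) hwo hgN hg2 (by
        rw [QuotientGroup.mk_mul, QuotientGroup.mk_mul, QuotientGroup.mk_inv, QuotientGroup.mk_inv, hg, hw,
          ← map_inv, ← map_mul, ← map_mul, ← map_inv, hrbi])
      obtain ⟨hc, hs⟩ := lemmaB hG hN2 hR (nm_of_normal (E := N) w) (nm_of_normal (E := N) (a * g))
      refine ⟨⟨⟨fun p q => Subtype.ext (hc _ p.2 _ q.2)⟩⟩, fun p hp => ?_⟩
      rw [pow_two]
      exact hs p hp
    · left
      have hNb : N = ⊥ := by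
        by_contra hne
        have h4 := no_sq_of_normal_two hG hN2 hne (r := 3) (Or.inl rfl)
        apply h4
        rw [Nat.card_congr φ.toEquiv, card_A6]
        norm_num
      subst hNb
      exact ⟨(QuotientGroup.quotientBot.symm).trans φ⟩
  · exfalso
    have hNne : N ≠ ⊥ := by
      intro hb
      apply h2X
      rw [hb, Subgroup.card_bot, mul_one] at hcard
      rw [← hb] at hcard
      rw [← hcard]
      exact h2
    have h9 := no_sq_of_normal_two hG hN2 hNne (r := 3) (Or.inl rfl)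
    have h25 := no_sq_of_normal_two hG hN2 hNne (r := 5) (Or.inr rfl)
    obtain ⟨i, j, k, hform⟩ := card_form (Nat.card_pos (α := G ⧸ N)).ne'
      (fun q hq hd => hSX.prime_dvd_card hq hd)
    have hi : i = 0 := by
      by_contra hi0
      apply h2X
      rw [hform]
      exact Dvd.dvd.mul_right (Dvd.dvd.mul_right (dvd_pow_self 2 hi0) _) _
    rw [hi, pow_zero, one_mul] at hform
    have h35 : ∀ {m : ℕ}, ¬ 3 ∣ 5 ^ m := by
      intro m hd
      have := (Nat.prime_dvd_prime_iff_eq (by norm_num) (by norm_num)).1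
        ((by norm_num : Nat.Prime 3).dvd_of_dvd_pow hd)
      omega
    have h53 : ∀ {m : ℕ}, ¬ 5 ∣ 3 ^ m := by
      intro m hd
      have := (Nat.prime_dvd_prime_iff_eq (by norm_num) (by norm_num)).1
        ((by norm_num : Nat.Prime 5).dvd_of_dvd_pow hd)
      omega
    have hj : j = 1 := by
      have h1 : j ≠ 0 := by
        intro h0
        rw [hform, h0, pow_zero, one_mul] at h3X
        exact h35 h3X
      have h4 : j < 2 := by
        by_contra hlt
        apply h9
        rw [hform]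
        exact Dvd.dvd.mul_right (Nat.pow_dvd_pow 3 (by omega)) _
      omega
    have hk : k = 1 := by
      have h1 : k ≠ 0 := by
        intro h0
        rw [hform, h0, pow_zero, mul_one] at h5X
        exact h53 h5X
      have h4 : k < 2 := by
        by_contra hlt
        apply h25
        rw [hform]
        exact Dvd.dvd.mul_left (Nat.pow_dvd_pow 5 (by omega)) _
      omega
    rw [hj, hk] at hform
    norm_num at hform
    obtain ⟨P⟩ : Nonempty (Sylow 5 (G ⧸ N)) := inferInstance
    have hPc : Nat.card (P : Subgroup (G ⧸ N)) = 5 := by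
      have h1 := sylow_card_eq (e := 1) (m := 3) P (by rw [hform]; norm_num) (by norm_num)
      simpa using h1
    have hPi : (P : Subgroup (G ⧸ N)).index = 3 := by
      have h1 := Subgroup.card_mul_index (P : Subgroup (G ⧸ N))
      rw [hPc, hform] at h1
      omega
    have hn1 : Nat.card (Sylow 5 (G ⧸ N)) = 1 := by
      have h6 := Sylow.card_dvd_index P
      rw [hPi] at h6
      have hmod := card_sylow_modEq_one 5 (G ⧸ N)
      rcases (Nat.dvd_prime (by norm_num : Nat.Prime 3)).1 h6 with h7 | h7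
      · exact h7
      · rw [h7] at hmod
        exact absurd hmod (by decide)
    haveI : Subsingleton (Sylow 5 (G ⧸ N)) := (Nat.card_eq_one_iff_unique.1 hn1).1
    haveI hPn := Sylow.normal_of_subsingleton P
    obtain ⟨x, hx⟩ := exists_prime_orderOf_dvd_card' (G := G ⧸ N) 3 h3X
    have hx3 : x ^ 3 = 1 := by rw [← hx]; exact pow_orderOf_eq_one x
    obtain ⟨y, hy, hy1, hyf⟩ := exists_fix_conj (P : Subgroup (G ⧸ N)) (by norm_num : Nat.Prime 3) hx3
      (nm_of_normal (E := (P : Subgroup (G ⧸ N))) x) (by rw [hPc]; norm_num)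
    have hyo : orderOf y = 5 := by
      obtain ⟨t, ht⟩ := P.isPGroup' ⟨y, hy⟩
      have h4 : y ^ 5 ^ t = 1 := by simpa using congrArg Subtype.val ht
      rcases hSX.order_of_ppow (Or.inr rfl) h4 with h6 | h6
      · exact absurd h6 hy1
      · exact h6
    have hcomm : x * y = y * x := by
      calc x * y = (x * y * x⁻¹) * x := by group
        _ = y * x := by rw [hyf]
    exact hSX.no_comm_prime (by norm_num) (by norm_num) (by norm_num) hx hyo hcomm

end Cfsg.Agent.Lib.Spec5
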